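import Mathlib

/-!
# Frobenius-type identity and alternating forms for `p`-automorphisms

Tools for the theorem that, for `p` odd and `B ≅ E_{p²}` the subgroup generated by the elements of
order `p` of a Sylow `p`-subgroup of `C_G(b₀)`, every `B`-invariant `p'`-subgroup of a `p`-soluble
group lies in `O_{p'}(G)`.
-/

set_option autoImplicit false
set_option linter.unusedSectionVars false
set_option linter.style.multiGoal false

namespace Cfsg.Agent.Lib.Tech.BF

open Subgroup
open scoped commutatorElement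

variable {p : ℕ}

section Orbit

variable {W Y : Type*} [CommGroup W] [DecidableEq Y]

/-- Products over sets stable under a fixed-point-free permutation of prime order are norms. -/
theorem prod_mem_norm (hp : p.Prime) (t : MulAut W) (σ : Equiv.Perm Y) (hσ : σ ^ p = 1)
    (f : Y → W) (hf : ∀ h, f (σ h) = t (f h)) (A : Finset Y) :
    (∀ h ∈ A, σ h ∈ A) → (∀ h ∈ A, σ h ≠ h) →
      ∃ u : W, ∏ h ∈ A, f h = ∏ i ∈ Finset.range p, (t ^ i) u := by
  induction A using Finset.strongInduction with
  | H A ih =>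
  intro hst hfp
  rcases A.eq_empty_or_nonempty with rfl | ⟨h, hh⟩
  · exact ⟨1, by simp⟩
  have hpow : ∀ n : ℕ, (σ ^ n) h ∈ A := by
    intro n
    induction n with
    | zero => simpa using hh
    | succ n ihn => rw [pow_succ', Equiv.Perm.mul_apply]; exact hst _ ihn
  have hfn : ∀ n : ℕ, f ((σ ^ n) h) = (t ^ n) (f h) := by
    intro n
    induction n with
    | zero => simp
    | succ n ihn => rw [pow_succ', Equiv.Perm.mul_apply, hf, ihn, pow_succ', MulAut.mul_apply]
  have hper : Function.IsPeriodicPt σ p h := by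
    show (σ : Y → Y)^[p] h = h
    rw [Equiv.Perm.iterate_eq_pow, hσ]; rfl
  have hmin : Function.minimalPeriod σ h = p := by
    have hd := hper.minimalPeriod_dvd
    rcases (Nat.dvd_prime hp).1 hd with h1 | h1
    · exact absurd (Function.minimalPeriod_eq_one_iff_isFixedPt.1 h1) (hfp h hh)
    · exact h1
  set O := (Finset.range p).image (fun i => (σ ^ i) h) with hO
  have hinj : Set.InjOn (fun i => (σ ^ i) h) (Finset.range p : Set ℕ) := by
    intro i hi j hj hij
    have h2 := Function.iterate_injOn_Iio_minimalPeriod (f := σ) (x := h)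
    rw [hmin] at h2
    apply h2 (by simpa using hi) (by simpa using hj)
    simpa [Equiv.Perm.iterate_eq_pow] using hij
  have hOA : O ⊆ A := by
    intro a ha
    obtain ⟨i, -, rfl⟩ := Finset.mem_image.1 ha
    exact hpow i
  have hmemO : ∀ n : ℕ, (σ ^ n) h ∈ O := by
    intro n
    refine Finset.mem_image.2 ⟨n % p, Finset.mem_range.2 (Nat.mod_lt _ hp.pos), ?_⟩
    show (σ ^ (n % p)) h = _
    rw [← pow_eq_pow_mod n hσ]
  have hss : A \ O ⊂ A := by
    refine Finset.ssubset_iff_subset_ne.2 ⟨Finset.sdiff_subset, fun he => ?_⟩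
    have h1 : h ∈ O := by simpa using hmemO 0
    have h2 : h ∈ A \ O := by rw [he]; exact hh
    exact (Finset.mem_sdiff.1 h2).2 h1
  obtain ⟨u, hu⟩ := ih (A \ O) hss (fun a ha => by
      obtain ⟨ha1, ha2⟩ := Finset.mem_sdiff.1 ha
      refine Finset.mem_sdiff.2 ⟨hst a ha1, fun h3 => ha2 ?_⟩
      obtain ⟨i, -, hi⟩ := Finset.mem_image.1 h3
      have h4 : a = (σ ^ (p - 1 + i)) h := by
        have h5 : (σ ^ (p - 1)) (σ a) = a := by
          rw [← Equiv.Perm.mul_apply, ← pow_succ, Nat.sub_add_cancel hp.pos, hσ]; rfl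
        rw [pow_add, Equiv.Perm.mul_apply]
        have hi' : (σ ^ i) h = σ a := hi
        rw [hi', h5]
      rw [h4]
      exact hmemO _)
    (fun a ha => hfp a (Finset.mem_sdiff.1 ha).1)
  refine ⟨u * f h, ?_⟩
  rw [← Finset.prod_sdiff hOA, hu, hO, Finset.prod_image hinj]
  simp only [map_mul, Finset.prod_mul_distrib, hfn]

end Orbit

section Fixed

/-- A `p`-automorphism of a nontrivial `p`-group has a nontrivial fixed point. -/
theorem exists_fixed {W : Type*} [Group W] [Finite W] [Nontrivial W] [Fact p.Prime] (hW : IsPGroup p W)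
    (t : MulAut W) (ht : t ^ p = 1) : ∃ w : W, w ≠ 1 ∧ t w = w := by
  have hH : IsPGroup p (zpowers t) := by
    intro g
    obtain ⟨g, hg⟩ := g
    obtain ⟨k, rfl⟩ := mem_zpowers_iff.1 hg
    refine ⟨1, ?_⟩
    ext
    simp only [pow_one, SubgroupClass.coe_pow, OneMemClass.coe_one]
    rw [← zpow_natCast, ← zpow_mul, mul_comm, zpow_mul, zpow_natCast, ht, one_zpow]
  have hd : p ∣ Nat.card W := by
    obtain ⟨n, hn⟩ := IsPGroup.iff_card.1 hW
    have : n ≠ 0 := by
      rintro rfl
      have h1 : 1 < Nat.card W := Finite.one_lt_card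
      rw [hn, pow_zero] at h1
      exact lt_irrefl _ h1
    rw [hn]
    exact dvd_pow_self p this
  have h1 : (1 : W) ∈ MulAction.fixedPoints (zpowers t) W := by
    intro g
    exact map_one (g : MulAut W)
  obtain ⟨b, hb, hne⟩ := hH.exists_fixed_point_of_prime_dvd_card_of_fixed_point W hd h1
  exact ⟨b, hne.symm, hb ⟨t, mem_zpowers t⟩⟩

end Fixed

section Form

variable {X : Type*} [Group X] {A : Type*} [CommGroup A]

/-- The ordered norm. -/
def Nx (t : MulAut X) (v : X) : ℕ → X
  | 0 => 1
  | n + 1 => Nx t v n * (t ^ n) v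

theorem one_left (c : X → X → A) (hl : ∀ x y z, c (x * y) z = c x z * c y z) (z : X) : c 1 z = 1 := by
  have h := hl 1 1 z
  rw [mul_one] at h
  exact left_eq_mul.1 h

theorem one_right (c : X → X → A) (hr : ∀ x y z, c x (y * z) = c x y * c x z) (x : X) : c x 1 = 1 := by
  have h := hr x 1 1
  rw [mul_one] at h
  exact left_eq_mul.1 h

theorem c_Nx_left (c : X → X → A) (hl : ∀ x y z, c (x * y) z = c x z * c y z) (t : MulAut X) (v u : X)
    (n : ℕ) : c (Nx t v n) u = ∏ i ∈ Finset.range n, c ((t ^ i) v) u := by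
  induction n with
  | zero => simp [Nx, one_left c hl]
  | succ n ih => rw [Nx, hl, ih, Finset.prod_range_succ]

theorem c_Nx_right (c : X → X → A) (hr : ∀ x y z, c x (y * z) = c x y * c x z) (t : MulAut X) (v u : X)
    (n : ℕ) : c u (Nx t v n) = ∏ i ∈ Finset.range n, c u ((t ^ i) v) := by
  induction n with
  | zero => simp [Nx, one_right c hr]
  | succ n ih => rw [Nx, hr, ih, Finset.prod_range_succ]

theorem c_anti (c : X → X → A) (hl : ∀ x y z, c (x * y) z = c x z * c y z)
    (hr : ∀ x y z, c x (y * z) = c x y * c x z) (halt : ∀ x, c x x = 1) (x y : X) : c y x = (c x y)⁻¹ := by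
  have h := halt (x * y)
  rw [hl, hr, hr, halt, halt, one_mul, mul_one] at h
  exact eq_inv_of_mul_eq_one_right h

theorem c_pow_inv (c : X → X → A) (t : MulAut X) (hinv : ∀ x y, c (t x) (t y) = c x y) (i : ℕ) (x y : X) :
    c ((t ^ i) x) ((t ^ i) y) = c x y := by
  induction i with
  | zero => simp
  | succ n ih => rw [pow_succ', MulAut.mul_apply, MulAut.mul_apply, hinv, ih]

/-- The alternating form vanishes on a vector and its norm, for `p` odd. -/
theorem form_self (hp : p.Prime) (hp2 : p ≠ 2) (c : X → X → A) (hl : ∀ x y z, c (x * y) z = c x z * c y z)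
    (hr : ∀ x y z, c x (y * z) = c x y * c x z) (halt : ∀ x, c x x = 1) (t : MulAut X) (ht : t ^ p = 1)
    (hinv : ∀ x y, c (t x) (t y) = c x y) (hA : ∀ a : A, a ^ p = 1) (v : X) : c (Nx t v p) v = 1 := by
  rw [c_Nx_left c hl]
  obtain ⟨q, hq⟩ : ∃ q, p = q + 1 := ⟨p - 1, by have := hp.pos; omega⟩
  subst hq
  rw [Finset.prod_range_succ']
  simp only [pow_zero, MulAut.one_apply, halt, mul_one]
  set a := ∏ i ∈ Finset.range q, c ((t ^ (i + 1)) v) v with ha
  have hrefl : a = a⁻¹ := by
    have h1 := Finset.prod_range_reflect (fun i => c ((t ^ (i + 1)) v) v) q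
    calc a = ∏ j ∈ Finset.range q, c ((t ^ (q - 1 - j + 1)) v) v := h1.symm
      _ = ∏ j ∈ Finset.range q, (c ((t ^ (j + 1)) v) v)⁻¹ := by
        apply Finset.prod_congr rfl
        intro j hj
        have hj' : j < q := Finset.mem_range.1 hj
        rw [← c_anti c hl hr halt, ← c_pow_inv c t hinv (j + 1) ((t ^ (q - 1 - j + 1)) v) v]
        congr 1
        rw [← MulAut.mul_apply, ← pow_add]
        have : j + 1 + (q - 1 - j + 1) = q + 1 := by omega
        rw [this, ht]
        rfl
      _ = a⁻¹ := Finset.prod_inv_distrib _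
  have h2 : a * a = 1 := by
    nth_rw 1 [hrefl]
    exact inv_mul_cancel a
  obtain ⟨m, hm⟩ := hp.odd_of_ne_two hp2
  have h3 := hA a
  rw [hm, pow_succ, pow_mul, pow_two, h2, one_pow, one_mul] at h3
  exact h3

/-- The form is adjoint for the norm. -/
theorem form_adj (hp : p.Prime) (c : X → X → A) (hl : ∀ x y z, c (x * y) z = c x z * c y z)
    (hr : ∀ x y z, c x (y * z) = c x y * c x z) (t : MulAut X) (ht : t ^ p = 1)
    (hinv : ∀ x y, c (t x) (t y) = c x y) (v u : X) : c (Nx t v p) u = c v (Nx t u p) := by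
  rw [c_Nx_left c hl, c_Nx_right c hr]
  obtain ⟨q, hq⟩ : ∃ q, p = q + 1 := ⟨p - 1, by have := hp.pos; omega⟩
  subst hq
  have h1 := Finset.prod_range_reflect (fun i => c ((t ^ i) v) u) (q + 1)
  rw [← h1]
  have h2 : ∀ j ∈ Finset.range (q + 1), c ((t ^ (q + 1 - 1 - j)) v) u = c v ((t ^ (j + 1)) u) := by
    intro j hj
    have hj' : j < q + 1 := Finset.mem_range.1 hj
    rw [← c_pow_inv c t hinv (j + 1) ((t ^ (q + 1 - 1 - j)) v) u]
    congr 1
    rw [← MulAut.mul_apply, ← pow_add]
    have : j + 1 + (q + 1 - 1 - j) = q + 1 := by omega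
    rw [this, ht]
    rfl
  rw [Finset.prod_congr rfl h2]
  have h3 := Finset.prod_range_succ (fun i => c v ((t ^ i) u)) (q + 1)
  have h4 := Finset.prod_range_succ' (fun i => c v ((t ^ i) u)) (q + 1)
  rw [h3] at h4
  simp only [ht, pow_zero] at h4
  exact (mul_right_cancel h4).symm

end Form

section Cyc

/-- Cyclicity of the cokernel. -/
theorem cyc_mod {E : Type*} [CommGroup E] [Finite E] [Fact p.Prime] (d : E →* E) (hker : Nat.card d.ker = p) {g : E}
    (hg : g ∉ d.range) (f : E) : ∃ k : ℕ, f * (g ^ k)⁻¹ ∈ d.range := by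
  have h1 : Nat.card (E ⧸ d.range) = p := by
    have h2 : Nat.card d.range * (d.range).index = Nat.card E := Subgroup.card_mul_index _
    have h3 : Nat.card d.ker * (d.ker).index = Nat.card E := Subgroup.card_mul_index _
    have h4 : (d.ker).index = Nat.card d.range := Subgroup.index_ker d
    rw [h4] at h3
    have h5 : 0 < Nat.card d.range := Nat.card_pos
    have h6 : (d.range).index = Nat.card d.ker := by
      apply Nat.eq_of_mul_eq_mul_left h5
      rw [h2, ← h3, mul_comm]
    rw [← hker, ← h6]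
    rfl
  have hne : (QuotientGroup.mk g : E ⧸ d.range) ≠ 1 := by
    rwa [Ne, QuotientGroup.eq_one_iff]
  haveI := Fintype.ofFinite (E ⧸ d.range)
  have h7 : (QuotientGroup.mk f : E ⧸ d.range) ∈ zpowers (QuotientGroup.mk g : E ⧸ d.range) :=
    mem_zpowers_of_prime_card h1 hne
  have h8 : (QuotientGroup.mk f : E ⧸ d.range) ∈ Submonoid.powers (QuotientGroup.mk g : E ⧸ d.range) :=
    (mem_powers_iff_mem_zpowers).2 h7
  obtain ⟨k, hk⟩ := h8
  refine ⟨k, ?_⟩
  rw [← QuotientGroup.eq_one_iff, QuotientGroup.mk_mul, QuotientGroup.mk_inv, QuotientGroup.mk_pow, ← hk]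
  exact mul_inv_cancel _

end Cyc

end Cfsg.Agent.Lib.Tech.BF
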