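import Cfsg.Agent.Lib.Tech.BFix1

/-!
# The key contradiction: a Frobenius group acting on a group of class `≤ 2`
-/

set_option autoImplicit false
set_option linter.unusedSectionVars false
set_option linter.style.multiGoal false
set_option linter.style.haveILetI false

namespace Cfsg.Agent.Lib.Tech.BF

open Subgroup
open scoped commutatorElement

variable {p : ℕ}

section Class2

variable {X : Type*} [Group X]

theorem comm_mul_left (hcent : ∀ x y z : X, ⁅x, y⁆ * z = z * ⁅x, y⁆) (x y z : X) :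
    ⁅x * y, z⁆ = ⁅x, z⁆ * ⁅y, z⁆ := by
  have h1 : ⁅x * y, z⁆ = x * ⁅y, z⁆ * x⁻¹ * ⁅x, z⁆ := by
    simp only [commutatorElement_def]; group
  rw [h1, ← hcent y z x, mul_inv_cancel_right, hcent]

theorem comm_mul_right (hcent : ∀ x y z : X, ⁅x, y⁆ * z = z * ⁅x, y⁆) (x y z : X) :
    ⁅x, y * z⁆ = ⁅x, y⁆ * ⁅x, z⁆ := by
  have h1 : ⁅x, y * z⁆ = ⁅x, y⁆ * (y * ⁅x, z⁆ * y⁻¹) := by
    simp only [commutatorElement_def]; group
  rw [h1, ← hcent x z y]
  group

/-- The fixed-point-free cokernel statement. -/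
theorem cyc_central [Finite X] [Fact p.Prime] (F : Subgroup X) (hFc : ∀ a ∈ F, ∀ b, a * b = b * a)
    (t : MulAut X) (htF : ∀ f ∈ F, t f ∈ F) {z : X} (hz : orderOf z = p)
    (hzfix : ∀ e ∈ F, t e = e → e ∈ zpowers z) {e₀ : X} (he₀ : e₀ ∈ F) (he₁ : e₀ ≠ 1) (he₂ : t e₀ = e₀)
    {g : X} (hg : g ∈ F) (hgI : ¬ ∃ e ∈ F, g = t e * e⁻¹) {f : X} (hf : f ∈ F) :
    ∃ k : ℕ, ∃ e ∈ F, f * (g ^ k)⁻¹ = t e * e⁻¹ := by
  letI : CommGroup F := { (inferInstance : Group F) with
    mul_comm := fun a b => Subtype.ext (hFc a a.2 b) }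
  let d : F →* F := MonoidHom.mk' (fun a => ⟨t a * (a : X)⁻¹, F.mul_mem (htF a a.2) (F.inv_mem a.2)⟩) (by
    intro a b
    apply Subtype.ext
    show t ((a : X) * b) * ((a : X) * b)⁻¹ = t a * (a : X)⁻¹ * (t b * (b : X)⁻¹)
    rw [map_mul, mul_inv_rev]
    have h1 : (b : X)⁻¹ * (a : X)⁻¹ = (a : X)⁻¹ * (b : X)⁻¹ := hFc _ (F.inv_mem b.2) _
    have h2 : t (b : X) * (a : X)⁻¹ = (a : X)⁻¹ * t b := (hFc _ (F.inv_mem a.2) _).symm
    calc t (a : X) * t (b : X) * ((b : X)⁻¹ * (a : X)⁻¹) = t (a : X) * (t (b : X) * (a : X)⁻¹) * (b : X)⁻¹ := by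
          rw [h1]; group
      _ = _ := by rw [h2]; group)
  have hd : ∀ a : F, ((d a : F) : X) = t a * (a : X)⁻¹ := fun a => rfl
  have hker : Nat.card d.ker = p := by
    have h1 : (d.ker).map F.subtype ≤ zpowers z := by
      rintro _ ⟨a, ha, rfl⟩
      have h2 : d a = 1 := ha
      have h3 := congrArg (Subtype.val) h2
      rw [hd] at h3
      exact hzfix a a.2 (mul_inv_eq_one.1 h3)
    have h2 : Nat.card ((d.ker).map F.subtype) = Nat.card d.ker :=
      Nat.card_congr (Subgroup.equivMapOfInjective _ _ F.subtype_injective).toEquiv.symm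
    have h3 : Nat.card d.ker ∣ p := by
      rw [← h2, ← hz, ← Nat.card_zpowers]
      exact Subgroup.card_dvd_of_le h1
    rcases (Nat.dvd_prime (Fact.out : p.Prime)).1 h3 with h4 | h4
    · exfalso
      have h5 : (⟨e₀, he₀⟩ : F) ∈ d.ker := by
        show d ⟨e₀, he₀⟩ = 1
        apply Subtype.ext
        rw [hd]
        show t e₀ * e₀⁻¹ = 1
        rw [he₂, mul_inv_cancel]
      have h6 := (Subgroup.card_eq_one.1 h4)
      rw [h6] at h5
      exact he₁ (congrArg Subtype.val ((Subgroup.mem_bot).1 h5))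
    · exact h4
  have hg' : (⟨g, hg⟩ : F) ∉ d.range := by
    rintro ⟨a, ha⟩
    apply hgI
    refine ⟨a, a.2, ?_⟩
    have h1 := congrArg Subtype.val ha
    rw [hd] at h1
    exact h1.symm
  obtain ⟨k, a, ha⟩ := cyc_mod d hker hg' ⟨f, hf⟩
  refine ⟨k, a, a.2, ?_⟩
  have h1 := congrArg Subtype.val ha
  rw [hd] at h1
  exact h1.symm

end Class2

section Key

/-- The group of values of the form. -/
abbrev QA {X : Type*} [Group X] (I₀ : Subgroup X) := ↥(center X) ⧸ (I₀.subgroupOf (center X))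

/-- The group of values of the form is commutative. -/
@[reducible] def QA.commGroup {X : Type*} [Group X] (I₀ : Subgroup X) : CommGroup (QA I₀) :=
  { (inferInstance : Group (QA I₀)) with
    mul_comm := by
      intro a b
      obtain ⟨a, rfl⟩ := QuotientGroup.mk_surjective a
      obtain ⟨b, rfl⟩ := QuotientGroup.mk_surjective b
      rw [← QuotientGroup.mk_mul, ← QuotientGroup.mk_mul, mul_comm' a b] }

variable {X Y : Type*} [Group X] [Finite X] [Group Y] [Finite Y] [Fact p.Prime]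

open Abelianization in
/-- **The key lemma.** -/
theorem key_false (hp2 : p ≠ 2)
    (hexp : ∀ x : X, x ^ p = 1) (hcent : ∀ x y z : X, ⁅x, y⁆ * z = z * ⁅x, y⁆)
    (ρ : Y →* MulAut X) (hYp : (Nat.card Y).Coprime p)
    (t : MulAut X) (ht : t ^ p = 1) (σ : Equiv.Perm Y) (hσ : σ ^ p = 1) (hσ0 : σ 1 = 1)
    (hσ1 : ∀ h, σ h = h → h = 1)
    (hcompat : ∀ h x, t (ρ h x) = ρ (σ h) (t x))
    (hgen : ∀ U : Subgroup X, (∀ h x, ρ h x * x⁻¹ ∈ U) → U = ⊤)
    (hmin : ∀ U : Subgroup X, U ≠ ⊤ → (∀ h, ∀ u ∈ U, ρ h u ∈ U) → (∀ u ∈ U, t u ∈ U) →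
      ∀ h, ∀ u ∈ U, ρ h u = u)
    (z : X) (hz1 : z ≠ 1) (hzY : ∀ h, ρ h z = z) (hzfix : ∀ e, t e = e → e ∈ zpowers z) : False := by
  classical
  haveI := Fintype.ofFinite Y
  have hpp : p.Prime := Fact.out
  have hXp : IsPGroup p X := fun x => ⟨1, by rw [pow_one]; exact hexp x⟩
  haveI hXnt : Nontrivial X := ⟨⟨z, 1, hz1⟩⟩
  set F : Subgroup X := commutator X with hF
  -- `F` is a proper subgroup
  have hFne : F ≠ ⊤ := by
    haveI hnil : Group.IsNilpotent X := hXp.isNilpotent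
    exact (IsSolvable.commutator_lt_top_of_nontrivial X).ne
  have hFchar : ∀ (α : MulAut X), ∀ f ∈ F, α f ∈ F := by
    intro α f hf
    have h1 := (characteristic_iff_le_comap.1 (inferInstance : (commutator X).Characteristic)) α hf
    exact h1
  -- `F` is central
  have hFc : ∀ a ∈ F, ∀ b, a * b = b * a := by
    intro a ha b
    have h1 : F ≤ center X := by
      rw [hF, _root_.commutator_def, commutator_le]
      intro x _ y _
      rw [mem_center_iff]
      intro w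
      exact (hcent x y w).symm
    exact ((mem_center_iff.1 (h1 ha)) b).symm
  -- `Y` is trivial on `F`
  have hFY : ∀ h, ∀ f ∈ F, ρ h f = f :=
    hmin F hFne (fun h u hu => hFchar _ u hu) (fun u hu => hFchar _ u hu)
  -- the norm over `Y`
  let π : X →* Abelianization X := MonoidHom.mk' (fun x => ∏ h : Y, of (ρ h x)) (by
    intro a b
    simp only [map_mul, Finset.prod_mul_distrib])
  have hπ : ∀ x, π x = ∏ h : Y, of (ρ h x) := fun x => rfl
  have hπ1 : ∀ x, π x = 1 := by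
    intro x
    have h1 : π.ker = ⊤ := by
      apply hgen
      intro h y
      rw [MonoidHom.mem_ker, map_mul, map_inv, hπ, hπ, mul_inv_eq_one]
      apply Fintype.prod_equiv (Equiv.mulRight h)
      intro k
      rw [Equiv.coe_mulRight, map_mul, MulAut.mul_apply]
    have h2 : x ∈ π.ker := by rw [h1]; trivial
    exact h2
  have hof : ∀ x, of x = 1 ↔ x ∈ F := by
    intro x
    rw [← MonoidHom.mem_ker, ker_of]
  -- fixed points of `Y` lie in `F`
  have hYfix : ∀ x, (∀ h, ρ h x = x) → x ∈ F := by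
    intro x hx
    rw [← hof]
    have h1 := hπ1 x
    rw [hπ] at h1
    simp only [hx, Finset.prod_const, Finset.card_univ] at h1
    rw [← Nat.card_eq_fintype_card] at h1
    have h2 : (of x) ^ p = 1 := by rw [← map_pow, hexp, map_one]
    have h3 := pow_gcd_eq_one.2 ⟨h1, h2⟩
    rw [hYp.gcd_eq_one, pow_one] at h3
    exact h3
  have hzF : z ∈ F := hYfix z hzY
  have hfixF : ∀ e, t e = e → e ∈ F := by
    intro e he
    obtain ⟨k, rfl⟩ := mem_zpowers_iff.1 (hzfix e he)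
    exact F.zpow_mem hzF k
  have hFbot : Nontrivial F := by
    refine ⟨⟨⟨z, hzF⟩, 1, fun h => hz1 (congrArg Subtype.val h)⟩⟩
  -- the abelianization
  let tb : MulAut (Abelianization X) := t.abelianizationCongr
  have htb : ∀ x, tb (of x) = of (t x) := fun x => rfl
  have hofs : ∀ w : Abelianization X, ∃ x, of x = w := fun w => QuotientGroup.mk_surjective w
  have htbi : ∀ (i : ℕ) (x : X), (tb ^ i) (of x) = of ((t ^ i) x) := by
    intro i x
    induction i with
    | zero => rfl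
    | succ n ih => rw [pow_succ', MulAut.mul_apply, ih, htb, pow_succ', MulAut.mul_apply]
  have htbp : tb ^ p = 1 := by
    ext w
    obtain ⟨x, rfl⟩ := hofs w
    rw [htbi, ht]; rfl
  have hofN : ∀ (v : X) (n : ℕ), of (Nx t v n) = ∏ i ∈ Finset.range n, of ((t ^ i) v) := by
    intro v n
    induction n with
    | zero => simp [Nx]
    | succ n ih => rw [Nx, map_mul, ih, Finset.prod_range_succ]
  -- the Frobenius identity
  have hfrob : ∀ x, of (t x) = of x → ∃ v, of x = of (Nx t v p) := by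
    intro x hx
    let f : Y → Abelianization X := fun h => of (ρ h x)
    have hf : ∀ h, f (σ h) = tb (f h) := by
      intro h
      show of (ρ (σ h) x) = tb (of (ρ h x))
      rw [htb, hcompat]
      have h1 : ∀ (k : Y) (a : X), of (ρ k a) = (ρ k).abelianizationCongr (of a) := fun k a => rfl
      rw [h1, h1, hx]
    obtain ⟨u, hu⟩ := prod_mem_norm hpp tb σ hσ f hf (Finset.univ.erase 1)
      (fun h hh => by
        refine Finset.mem_erase.2 ⟨fun h1 => ?_, Finset.mem_univ _⟩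
        have h2 : h = 1 := σ.injective (by rw [h1, hσ0])
        exact (Finset.mem_erase.1 hh).1 h2)
      (fun h hh h1 => (Finset.mem_erase.1 hh).1 (hσ1 h h1))
    have h1 := hπ1 x
    rw [hπ] at h1
    have h2 := Finset.mul_prod_erase Finset.univ f (Finset.mem_univ (1 : Y))
    have h3 : f 1 = of x := by
      show of (ρ 1 x) = of x
      rw [map_one]; rfl
    have h4 : of x * ∏ i ∈ Finset.range p, (tb ^ i) u = 1 := by
      rw [← hu, ← h3, h2]
      exact h1
    obtain ⟨v, rfl⟩ := hofs u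
    refine ⟨v⁻¹, ?_⟩
    rw [hofN]
    simp only [map_inv, Finset.prod_inv_distrib]
    simp only [htbi] at h4
    exact eq_inv_of_mul_eq_one_left h4
  -- a fixed point outside `F`
  obtain ⟨x₀, hx₀F, hx₀t⟩ : ∃ x₀, x₀ ∉ F ∧ of (t x₀) = of x₀ := by
    haveI : Nontrivial (Abelianization X) := by
      by_contra h
      rw [not_nontrivial_iff_subsingleton] at h
      apply hFne
      rw [eq_top_iff]
      intro x _
      rw [← hof]
      exact Subsingleton.elim _ _
    have hWp : IsPGroup p (Abelianization X) := by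
      intro w
      refine ⟨1, ?_⟩
      obtain ⟨x, rfl⟩ := hofs w
      rw [pow_one, ← map_pow, hexp, map_one]
    obtain ⟨w, hw1, hw2⟩ := exists_fixed hWp tb htbp
    obtain ⟨x, rfl⟩ := hofs w
    refine ⟨x, ?_, hw2⟩
    rw [← hof]
    exact hw1
  obtain ⟨v, hv⟩ := hfrob x₀ hx₀t
  set x₁ := Nx t v p with hx₁
  have hx₁F : x₁ ∉ F := by
    rw [← hof, ← hv, hof]
    exact hx₀F
  have hNfix : ∀ u, of (t (Nx t u p)) = of (Nx t u p) := by
    intro u
    rw [← htb, hofN, map_prod]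
    simp only [htb]
    obtain ⟨q, hq⟩ : ∃ q, p = q + 1 := ⟨p - 1, by have := hpp.pos; omega⟩
    have h1 : ∀ i, of (t ((t ^ i) u)) = of ((t ^ (i + 1)) u) := by
      intro i
      rw [pow_succ', MulAut.mul_apply]
    simp only [h1]
    have h3 := Finset.prod_range_succ (fun i => of ((t ^ i) u)) p
    have h4 := Finset.prod_range_succ' (fun i => of ((t ^ i) u)) p
    rw [h3] at h4
    simp only [ht, pow_zero] at h4
    exact (mul_right_cancel h4).symm
  have hx₁t : of (t x₁) = of x₁ := hNfix v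
  have hfixmem : ∀ x, of (t x) = of x → t x * x⁻¹ ∈ F := by
    intro x hx
    rw [← hof, map_mul, map_inv, hx, mul_inv_cancel]
  -- the subgroup `I = [F, t]`
  let I₀ : Subgroup X :=
    { carrier := {a | ∃ e ∈ F, a = t e * e⁻¹}
      one_mem' := ⟨1, F.one_mem, by simp⟩
      mul_mem' := by
        rintro _ _ ⟨a, ha, rfl⟩ ⟨b, hb, rfl⟩
        refine ⟨a * b, F.mul_mem ha hb, ?_⟩
        rw [map_mul, mul_inv_rev]
        have h1 := hFc _ (F.inv_mem ha) (t b)
        have h2 := hFc _ (F.inv_mem hb) (a⁻¹)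
        calc t a * a⁻¹ * (t b * b⁻¹) = t a * (a⁻¹ * t b) * b⁻¹ := by group
          _ = t a * t b * (b⁻¹ * a⁻¹) := by rw [h1, h2]; group
      inv_mem' := by
        rintro _ ⟨a, ha, rfl⟩
        refine ⟨a⁻¹, F.inv_mem ha, ?_⟩
        rw [map_inv, inv_inv, mul_inv_rev, inv_inv]
        exact hFc a ha _ }
  have hI : ∀ a, a ∈ I₀ ↔ ∃ e ∈ F, a = t e * e⁻¹ := fun a => Iff.rfl
  have hIF : I₀ ≤ F := by
    rintro _ ⟨e, he, rfl⟩
    exact F.mul_mem (hFchar t e he) (F.inv_mem he)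
  -- `t` on `F`: the fixed points are the powers of `z`
  have hzo : orderOf z = p := orderOf_eq_prime (hexp z) hz1
  obtain ⟨e₀, he₀1, he₀t⟩ : ∃ e₀ : F, e₀ ≠ 1 ∧ t (e₀ : X) = e₀ := by
    let tF : MulAut F := (t.subgroupMap F).trans (MulEquiv.subgroupCongr (by
      apply le_antisymm
      · rintro _ ⟨a, ha, rfl⟩
        exact hFchar t a ha
      · intro a ha
        refine ⟨t⁻¹ a, hFchar t⁻¹ a ha, ?_⟩
        show t (t⁻¹ a) = a
        exact MulAut.apply_inv_self X t a))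
    have htF : ∀ (i : ℕ) (a : F), (((tF ^ i) a : F) : X) = (t ^ i) (a : X) := by
      intro i a
      induction i with
      | zero => rfl
      | succ n ih =>
        rw [pow_succ', MulAut.mul_apply, pow_succ', MulAut.mul_apply, ← ih]
        rfl
    have htFp : tF ^ p = 1 := by
      ext a
      rw [htF, ht]
      rfl
    obtain ⟨w, hw1, hw2⟩ := exists_fixed (hXp.to_subgroup F) tF htFp
    refine ⟨w, hw1, ?_⟩
    have h := congrArg Subtype.val hw2
    exact h
  have he₀F : (e₀ : X) ∈ F := e₀.2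
  have he₀1' : (e₀ : X) ≠ 1 := fun h => he₀1 (Subtype.ext h)
  -- `t x₁ x₁⁻¹` generates `F / I`
  set g₁ := t x₁ * x₁⁻¹ with hg₁
  have hg₁F : g₁ ∈ F := hfixmem x₁ hx₁t
  have hg₁I : ¬ ∃ e ∈ F, g₁ = t e * e⁻¹ := by
    rintro ⟨e, he, h1⟩
    have h2 : t (x₁ * e⁻¹) = x₁ * e⁻¹ := by
      rw [map_mul, map_inv]
      have h3 : t x₁ = t e * e⁻¹ * x₁ := by rw [← h1, hg₁]; group
      rw [h3]
      have h4 := hFc _ (F.inv_mem he) x₁
      have h5 : t e * e⁻¹ * x₁ * (t e)⁻¹ = t e * (x₁ * e⁻¹) * (t e)⁻¹ := by rw [mul_assoc (t e), h4]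
      rw [h5]
      have h6 := hFc _ (hFchar t e he) (x₁ * e⁻¹)
      rw [h6]
      group
    have h3 := hfixF _ h2
    apply hx₁F
    have h4 := F.mul_mem h3 he
    simpa using h4
  -- fixed points mod `F` are powers of `x₁`
  have hcyc : ∀ x, of (t x) = of x → ∃ k : ℕ, (x₁ ^ k)⁻¹ * x ∈ F := by
    intro x hx
    obtain ⟨k, e, he, hke⟩ := cyc_central F hFc t (hFchar t) hzo (fun e _ h => hzfix e h) he₀F he₀1' he₀t hg₁F hg₁I
      (hfixmem x hx)
    refine ⟨k, ?_⟩
    have hpowt : ∀ n : ℕ, t (x₁ ^ n) = g₁ ^ n * x₁ ^ n := by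
      intro n
      induction n with
      | zero => simp
      | succ n ih =>
        have h1 : t x₁ = g₁ * x₁ := by rw [hg₁]; group
        rw [pow_succ, map_mul, ih, h1, pow_succ]
        have h2 : x₁ ^ n * g₁ = g₁ * x₁ ^ n := (hFc g₁ hg₁F _).symm
        calc g₁ ^ n * x₁ ^ n * (g₁ * x₁) = g₁ ^ n * (x₁ ^ n * g₁) * x₁ := by group
          _ = g₁ ^ n * g₁ * (x₁ ^ n * x₁) := by rw [h2]; group
    have hgk : g₁ ^ k ∈ F := F.pow_mem hg₁F k
    have hfix : t (x * (x₁ ^ k)⁻¹ * e⁻¹) = x * (x₁ ^ k)⁻¹ * e⁻¹ := by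
      rw [map_mul, map_mul, map_inv, map_inv, hpowt]
      have h1 : t x = (t x * x⁻¹) * x := by group
      rw [h1]
      set d := t x * x⁻¹ with hd
      have hdF : d ∈ F := hfixmem x hx
      have h2 : d = t e * e⁻¹ * g₁ ^ k := by rw [← hke]; group
      have hte : t e ∈ F := hFchar t e he
      have key : d * x * (g₁ ^ k * x₁ ^ k)⁻¹ * (t e)⁻¹ = (d * (g₁ ^ k)⁻¹ * (t e)⁻¹) * (x * (x₁ ^ k)⁻¹) := by
        have h3 := hFc _ (F.inv_mem hte) (x * (x₁ ^ k)⁻¹)
        have h4 := hFc _ (F.inv_mem hgk) (x * (x₁ ^ k)⁻¹)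
        calc d * x * (g₁ ^ k * x₁ ^ k)⁻¹ * (t e)⁻¹ = d * (x * (x₁ ^ k)⁻¹ * (g₁ ^ k)⁻¹) * (t e)⁻¹ := by group
          _ = d * ((g₁ ^ k)⁻¹ * (x * (x₁ ^ k)⁻¹)) * (t e)⁻¹ := by rw [h4]
          _ = d * (g₁ ^ k)⁻¹ * ((x * (x₁ ^ k)⁻¹) * (t e)⁻¹) := by group
          _ = d * (g₁ ^ k)⁻¹ * ((t e)⁻¹ * (x * (x₁ ^ k)⁻¹)) := by rw [h3]
          _ = _ := by group
      rw [key, h2]
      have h5 : t e * e⁻¹ * g₁ ^ k * (g₁ ^ k)⁻¹ * (t e)⁻¹ = (t e) * e⁻¹ * (t e)⁻¹ := by group
      rw [h5]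
      have h6 := hFc _ (hte) e⁻¹
      rw [h6]
      have h7 := hFc _ (F.inv_mem he) (x * (x₁ ^ k)⁻¹)
      rw [mul_inv_cancel_right, h7]
    have h3 := hfixF _ hfix
    have h4 := F.mul_mem h3 he
    have h5 : x * (x₁ ^ k)⁻¹ * e⁻¹ * e = x * (x₁ ^ k)⁻¹ := by group
    rw [h5] at h4
    -- `F` is normal
    have h6 := hFc _ h4 (x₁ ^ k)⁻¹
    have h7 : (x₁ ^ k)⁻¹ * x = (x₁ ^ k)⁻¹ * (x * (x₁ ^ k)⁻¹) * x₁ ^ k := by group
    rw [h7, ← h6]
    simpa using h4
  -- the form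
  have hcen : ∀ x y : X, ⁅x, y⁆ ∈ center X := fun x y => mem_center_iff.2 (fun w => (hcent x y w).symm)
  have hcomF : ∀ x y : X, ⁅x, y⁆ ∈ F :=
    fun x y => Subgroup.commutator_mem_commutator (mem_top x) (mem_top y)
  letI : CommGroup (QA I₀) := QA.commGroup I₀
  let c : X → X → QA I₀ := fun x y => QuotientGroup.mk ⟨⁅x, y⁆, hcen x y⟩
  have hc1 : ∀ x y, c x y = 1 ↔ ⁅x, y⁆ ∈ I₀ := by
    intro x y
    show (QuotientGroup.mk _ : QA I₀) = 1 ↔ _
    rw [QuotientGroup.eq_one_iff, mem_subgroupOf]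
  have hl : ∀ x y z, c (x * y) z = c x z * c y z := by
    intro a b w
    show (QuotientGroup.mk _ : QA I₀) = QuotientGroup.mk _ * QuotientGroup.mk _
    rw [← QuotientGroup.mk_mul]
    congr 1
    exact Subtype.ext (comm_mul_left hcent a b w)
  have hr : ∀ x y z, c x (y * z) = c x y * c x z := by
    intro a b w
    show (QuotientGroup.mk _ : QA I₀) = QuotientGroup.mk _ * QuotientGroup.mk _
    rw [← QuotientGroup.mk_mul]
    congr 1
    exact Subtype.ext (comm_mul_right hcent a b w)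
  have halt : ∀ x, c x x = 1 := by
    intro x
    rw [hc1, commutatorElement_self]
    exact I₀.one_mem
  have hinv : ∀ x y, c (t x) (t y) = c x y := by
    intro x y
    show (QuotientGroup.mk _ : QA I₀) = QuotientGroup.mk _
    rw [QuotientGroup.eq, mem_subgroupOf]
    show ⁅t x, t y⁆⁻¹ * ⁅x, y⁆ ∈ I₀
    have h1 : ⁅t x, t y⁆ = t ⁅x, y⁆ := (map_commutatorElement t x y).symm
    rw [h1]
    refine ⟨⁅x, y⁆⁻¹, F.inv_mem (hcomF x y), ?_⟩
    rw [map_inv, inv_inv]
  have hA : ∀ a : QA I₀, a ^ p = 1 := by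
    intro a
    obtain ⟨w, rfl⟩ := QuotientGroup.mk_surjective a
    rw [← QuotientGroup.mk_pow]
    have h1 : w ^ p = 1 := Subtype.ext (hexp (w : X))
    rw [h1]
    rfl
  have h0 : c x₁ v = 1 := form_self hpp hp2 c hl hr halt t ht hinv hA v
  have h0' : c v x₁ = 1 := by rw [c_anti c hl hr halt x₁ v, h0, inv_one]
  have hcpow : ∀ (a b : X) (k : ℕ), c a b = 1 → c a (b ^ k) = 1 := by
    intro a b k hab
    induction k with
    | zero => rw [pow_zero]; exact one_right c hr a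
    | succ n ih => rw [pow_succ, hr, ih, hab, one_mul]
  have hcF : ∀ a : X, ∀ f ∈ F, ⁅a, f⁆ = 1 := by
    intro a f hf
    rw [commutatorElement_eq_one_iff_mul_comm]
    exact (hFc f hf a).symm
  have hrad : ∀ u, ⁅x₁, u⁆ ∈ I₀ := by
    intro u
    rw [← hc1, form_adj hpp c hl hr t ht hinv v u]
    obtain ⟨k, hk⟩ := hcyc _ (hNfix u)
    have h1 : Nx t u p = x₁ ^ k * ((x₁ ^ k)⁻¹ * Nx t u p) := by group
    rw [h1, hr, hcpow v x₁ k h0', one_mul, hc1, hcF v _ hk]
    exact I₀.one_mem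
  -- the radical
  let R : Subgroup X :=
    { carrier := {x | ∀ u, ⁅x, u⁆ ∈ I₀}
      one_mem' := by
        intro u
        rw [commutatorElement_one_left]
        exact I₀.one_mem
      mul_mem' := by
        intro a b ha hb u
        rw [comm_mul_left hcent]
        exact I₀.mul_mem (ha u) (hb u)
      inv_mem' := by
        intro a ha u
        have h1 : ⁅a⁻¹, u⁆ * ⁅a, u⁆ = 1 := by
          rw [← comm_mul_left hcent, inv_mul_cancel, commutatorElement_one_left]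
        rw [eq_inv_of_mul_eq_one_left h1]
        exact I₀.inv_mem (ha u) }
  have hR : ∀ x, x ∈ R ↔ ∀ u, ⁅x, u⁆ ∈ I₀ := fun x => Iff.rfl
  have hRρ : ∀ h, ∀ u ∈ R, ρ h u ∈ R := by
    intro h x hx u
    have h1 : ρ h ⁅x, (ρ h)⁻¹ u⁆ = ⁅ρ h x, u⁆ := by
      rw [map_commutatorElement, MulAut.apply_inv_self]
    rw [← h1, hFY h _ (hIF (hx _))]
    exact hx _
  have hRt : ∀ u ∈ R, t u ∈ R := by
    intro x hx u
    have h1 : t ⁅x, t⁻¹ u⁆ = ⁅t x, u⁆ := by
      rw [map_commutatorElement, MulAut.apply_inv_self]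
    rw [← h1]
    obtain ⟨e, he, h2⟩ := hx (t⁻¹ u)
    rw [h2, map_mul, map_inv]
    exact ⟨t e, hFchar t e he, rfl⟩
  have hRtop : R = ⊤ := by
    by_contra hne
    have h1 := hmin R hne hRρ hRt
    exact hx₁F (hYfix x₁ (fun h => h1 h x₁ hrad))
  have hFI : F ≤ I₀ := by
    rw [hF, _root_.commutator_def, commutator_le]
    intro x _ y _
    have hx : x ∈ R := by rw [hRtop]; trivial
    exact hx y
  -- contradiction
  let φ : F → F := fun a => ⟨t a * (a : X)⁻¹, F.mul_mem (hFchar t a a.2) (F.inv_mem a.2)⟩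
  have hφs : Function.Surjective φ := by
    intro a
    obtain ⟨e, he, h1⟩ := hFI a.2
    exact ⟨⟨e, he⟩, Subtype.ext h1.symm⟩
  have hφi : Function.Injective φ := Finite.injective_iff_surjective.2 hφs
  apply he₀1
  apply hφi
  apply Subtype.ext
  show t (e₀ : X) * (e₀ : X)⁻¹ = t ((1 : F) : X) * (((1 : F) : X))⁻¹
  rw [he₀t]
  simp

end Key

end Cfsg.Agent.Lib.Tech.BF
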