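import Cfsg.Agent.Lib.Tech.BFix2
import Cfsg.Agent.Lib.Tech.CritAut
import Cfsg.Agent.Lib.Transfer.OmegaMax

/-!
# Reduction to the key lemma: minimal invariant sections
-/

set_option autoImplicit false
set_option linter.unusedSectionVars false
set_option linter.style.multiGoal false
set_option linter.style.haveILetI false

namespace Cfsg.Agent.Lib.Tech.BF

open Subgroup
open scoped commutatorElement

variable {p : ℕ} [Fact p.Prime]

/-- A `p'`-automorphism of a `p`-group, `p` odd, trivial on the elements of order `p` is trivial. -/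
theorem crit_triv (hp2 : p ≠ 2) {X : Type*} [Group X] [Finite X] (hX : IsPGroup p X) (α : MulAut X)
    (hα : (orderOf α).Coprime p) (h : ∀ x : X, x ^ p = 1 → α x = x) (x : X) : α x = x := by
  obtain ⟨D, -, -, hD, -, hα', -⟩ := Cfsg.Agent.Lib.Tech.crit_aut_main hX ⊤ (le_top)
  have h1 : α = 1 := hα' α (mem_top α) hα (fun d hd => by
    rcases hD d hd with h2 | h2
    · exact h d h2
    · exact absurd h2.1 hp2)
  rw [h1]
  rfl

section Key2

variable {X Y : Type*} [Group X] [Finite X] [Group Y] [Finite Y]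

theorem key2 (hp2 : p ≠ 2) (hXp : IsPGroup p X) (ρ : Y →* MulAut X) (hYp : (Nat.card Y).Coprime p)
    (t : MulAut X) (ht : t ^ p = 1) (σ : Equiv.Perm Y) (hσ : σ ^ p = 1) (hσ0 : σ 1 = 1)
    (hσ1 : ∀ h, σ h = h → h = 1)
    (hcompat : ∀ h x, t (ρ h x) = ρ (σ h) (t x))
    (hmin : ∀ U : Subgroup X, U ≠ ⊤ → (∀ h, ∀ u ∈ U, ρ h u ∈ U) → (∀ u ∈ U, t u ∈ U) →
      ∀ h, ∀ u ∈ U, ρ h u = u)
    (hnc : ¬ ∀ h x, ρ h x = x)
    (z : X) (hz1 : z ≠ 1) (hzY : ∀ h, ρ h z = z) (hzfix : ∀ e : X, e ^ p = 1 → t e = e → e ∈ zpowers z) :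
    False := by
  classical
  have hpp : p.Prime := Fact.out
  set K : Subgroup X := closure {a | ∃ h x, a = ρ h x * x⁻¹} with hK
  have hgK : ∀ h x, ρ h x * x⁻¹ ∈ K := fun h x => subset_closure ⟨h, x, rfl⟩
  have hKρ : ∀ k, ∀ u ∈ K, ρ k u ∈ K := by
    intro k u hu
    induction hu using closure_induction with
    | mem a ha =>
      obtain ⟨h, x, rfl⟩ := ha
      have h1 : ρ k (ρ h x * x⁻¹) = (ρ (k * h) x * x⁻¹) * (ρ k x * x⁻¹)⁻¹ := by
        rw [map_mul, map_inv, map_mul, MulAut.mul_apply]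
        group
      rw [h1]
      exact K.mul_mem (hgK _ _) (K.inv_mem (hgK _ _))
    | one => rw [map_one]; exact K.one_mem
    | mul a b _ _ ha hb => rw [map_mul]; exact K.mul_mem ha hb
    | inv a _ ha => rw [map_inv]; exact K.inv_mem ha
  have hKt : ∀ u ∈ K, t u ∈ K := by
    intro u hu
    induction hu using closure_induction with
    | mem a ha =>
      obtain ⟨h, x, rfl⟩ := ha
      rw [map_mul, map_inv, hcompat]
      exact hgK _ _
    | one => rw [map_one]; exact K.one_mem
    | mul a b _ _ ha hb => rw [map_mul]; exact K.mul_mem ha hb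
    | inv a _ ha => rw [map_inv]; exact K.inv_mem ha
  have hKtop : K = ⊤ := by
    by_contra hne
    have h1 := hmin K hne hKρ hKt
    apply hnc
    intro h x
    set d := ρ h x * x⁻¹ with hd
    have hd1 : ρ h d = d := h1 h d (hgK h x)
    have h2 : ρ h x = d * x := by rw [hd]; group
    have h3 : ∀ n : ℕ, ρ (h ^ n) x = d ^ n * x := by
      intro n
      induction n with
      | zero => simp
      | succ n ih =>
        rw [pow_succ', map_mul, MulAut.mul_apply, ih, map_mul, map_pow, hd1, h2, pow_succ]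
        group
    have h4 := h3 (Nat.card Y)
    rw [pow_card_eq_one', map_one, MulAut.one_apply] at h4
    have h5 : d ^ Nat.card Y = 1 := by
      have h6 : x * x⁻¹ = d ^ Nat.card Y * x * x⁻¹ := by rw [← h4]
      simpa using h6.symm
    obtain ⟨k, hk⟩ := hXp d
    have h6 := pow_gcd_eq_one.2 ⟨h5, hk⟩
    rw [Nat.Coprime.gcd_eq_one (Nat.Coprime.pow_right k hYp), pow_one] at h6
    rw [h2, h6, one_mul]
  have hgen : ∀ U : Subgroup X, (∀ h x, ρ h x * x⁻¹ ∈ U) → U = ⊤ := by
    intro U hU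
    rw [eq_top_iff, ← hKtop, hK, closure_le]
    rintro _ ⟨h, x, rfl⟩
    exact hU h x
  -- the commutator subgroup
  haveI hXnt : Nontrivial X := ⟨⟨z, 1, hz1⟩⟩
  have hFne : commutator X ≠ ⊤ := by
    haveI hnil : Group.IsNilpotent X := hXp.isNilpotent
    exact (IsSolvable.commutator_lt_top_of_nontrivial X).ne
  have hFchar : ∀ (α : MulAut X), ∀ f ∈ commutator X, α f ∈ commutator X := by
    intro α f hf
    exact (characteristic_iff_le_comap.1 (inferInstance : (commutator X).Characteristic)) α hf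
  have hFY : ∀ h, ∀ f ∈ commutator X, ρ h f = f :=
    hmin _ hFne (fun h u hu => hFchar _ u hu) (fun u hu => hFchar _ u hu)
  have hcomF : ∀ x y : X, ⁅x, y⁆ ∈ commutator X :=
    fun x y => Subgroup.commutator_mem_commutator (mem_top x) (mem_top y)
  have hFn : ∀ a, ∀ f ∈ commutator X, a * f * a⁻¹ ∈ commutator X := by
    intro a f hf
    exact (inferInstance : (commutator X).Normal).conj_mem f hf a
  have hcent : ∀ x y w : X, ⁅x, y⁆ * w = w * ⁅x, y⁆ := by
    intro x y w
    set f := ⁅x, y⁆ with hf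
    have hfF : f ∈ commutator X := hcomF x y
    have h1 : centralizer ({f} : Set X) = ⊤ := by
      apply hgen
      intro h y'
      rw [mem_centralizer_iff]
      intro g hg
      obtain rfl : g = f := hg
      obtain ⟨a, rfl⟩ : ∃ a, y' = a⁻¹ := ⟨y'⁻¹, (inv_inv y').symm⟩
      have h2 : ρ h (a * f * a⁻¹) = a * f * a⁻¹ := hFY h _ (hFn a f hfF)
      rw [map_mul, map_mul, map_inv, hFY h f hfF] at h2
      rw [map_inv, inv_inv]
      calc f * ((ρ h a)⁻¹ * a) = (ρ h a)⁻¹ * (ρ h a * f * (ρ h a)⁻¹) * a := by group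
        _ = (ρ h a)⁻¹ * (a * f * a⁻¹) * a := by rw [h2]
        _ = (ρ h a)⁻¹ * a * f := by group
    have h2 : w ∈ centralizer ({f} : Set X) := by rw [h1]; trivial
    exact mem_centralizer_iff.1 h2 f rfl
  -- exponent `p`
  have hcpow : ∀ (a b : X) (n : ℕ), ⁅a ^ n, b⁆ = ⁅a, b⁆ ^ n := by
    intro a b n
    induction n with
    | zero => simp
    | succ n ih => rw [pow_succ, comm_mul_left hcent, ih, pow_succ]
  have hmulpow : ∀ a b : X, a ^ p = 1 → b ^ p = 1 → (a * b) ^ p = 1 := by
    intro w x hw hx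
    set d := ⁅w⁻¹, x⁆ with hd
    have h1 : x * w * x⁻¹ = w * d := by
      rw [hd, commutatorElement_def]; group
    have hdc : ∀ y, d * y = y * d := fun y => hcent _ _ y
    have h2 := Cfsg.Agent.Lib.Transfer.mul_pow_class_two h1 (hdc w) (hdc x) p
    have h3 : d ^ p = 1 := by
      rw [hd, ← hcpow, inv_pow, hw, inv_one, commutatorElement_one_left]
    obtain ⟨m, hm⟩ := Cfsg.Agent.Lib.Transfer.dvd_choose_two_of_odd (hpp.odd_of_ne_two hp2)
    rw [h2, hw, hx, hm, pow_mul, h3, one_pow, one_mul, mul_one]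
  let U : Subgroup X :=
    { carrier := {x | x ^ p = 1}
      one_mem' := one_pow p
      mul_mem' := fun {a b} ha hb => hmulpow a b ha hb
      inv_mem' := fun {a} ha => by
        show a⁻¹ ^ p = 1
        rw [inv_pow, show a ^ p = 1 from ha, inv_one] }
  have hUtop : U = ⊤ := by
    by_contra hne
    have h1 := hmin U hne (fun h u hu => by
        show (ρ h u) ^ p = 1
        rw [← map_pow, show u ^ p = 1 from hu, map_one])
      (fun u hu => by
        show (t u) ^ p = 1
        rw [← map_pow, show u ^ p = 1 from hu, map_one])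
    apply hnc
    intro h x
    refine crit_triv hp2 hXp (ρ h) ?_ (fun u hu => h1 h u hu) x
    have h2 : orderOf (ρ h) ∣ Nat.card Y := (orderOf_map_dvd ρ h).trans (orderOf_dvd_natCard h)
    exact Nat.Coprime.coprime_dvd_left h2 hYp
  have hexp : ∀ x : X, x ^ p = 1 := by
    intro x
    have h1 : x ∈ U := by rw [hUtop]; trivial
    exact h1
  exact key_false hp2 hexp hcent ρ hYp t ht σ hσ hσ0 hσ1 hcompat hgen hmin z hz1 hzY
    (fun e he => hzfix e (hexp e) he)

end Key2

end Cfsg.Agent.Lib.Tech.BF
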