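import Mathlib
import Cfsg.Agent.Lib.Tech.CentralFunctor

/-!
# A conjugacy functor and a central functor: local control of strong fusion implies global control.
-/

set_option autoImplicit false
set_option linter.unusedSectionVars false

namespace Cfsg.Agent.Lib.Tech

open Cfsg Subgroup Cfsg.Agent.Lib.Coprime

local notation:max "cj[" g "]" H:max => Subgroup.map (MulEquiv.toMonoidHom (MulAut.conj g)) H

variable {G : Type*} [Group G] [Finite G] {p : ℕ} [Fact p.Prime]

/-- The relations on conjugations closed under composition, restriction; inverses on `S`. -/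
structure FusRelOn (S : Subgroup G) (R : Set G → G → Prop) : Prop where
  one : ∀ A : Set G, R A 1
  mono : ∀ {A A' : Set G} {h : G}, R A h → A' ⊆ A → R A' h
  congr : ∀ {A : Set G} {h k : G}, R A h → (∀ a ∈ A, h * a * h⁻¹ = k * a * k⁻¹) → R A k
  trans : ∀ {A : Set G} {h k : G}, R A h → R (lc h A) k → R A (k * h)
  inv : ∀ {A : Set G} {h : G}, A ⊆ S → R A h → R (lc h A) h⁻¹

theorem alperin_goldschmidt_on (S : Sylow p G) {R : Set G → G → Prop} (hR : FusRelOn (S : Subgroup G) R)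
    (hloc : ∀ U : Subgroup G, U ≤ (S : Subgroup G) → Ext p (S : Subgroup G) U → (S : Subgroup G) ⊓ centralizer (U : Set G) ≤ U →
      (S : Subgroup G) ⊓ pppN p U = U →
      (∀ E : Subgroup G, E ≤ (S : Subgroup G) → Nat.card U < Nat.card E → ∀ c : G, cj[c] E ≤ (S : Subgroup G) → R (E : Set G) c) →
      ∀ k ∈ normalizer (U : Set G), R (U : Set G) k) :
    ∀ (n : ℕ) (B : Subgroup G), B ≤ (S : Subgroup G) → Nat.card (S : Subgroup G) - Nat.card B = n →
      ∀ g : G, cj[g] B ≤ (S : Subgroup G) → R (B : Set G) g := by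
  intro n
  induction n using Nat.strong_induction_on with
  | _ n ih =>
  intro B hBP hn g hg
  have hSp := S.isPGroup'
  set S' : Subgroup G := (S : Subgroup G) with hS'
  have hle : ∀ E : Subgroup G, E ≤ S' → Nat.card E ≤ Nat.card S' := fun E hE =>
    Nat.le_of_dvd Nat.card_pos (Subgroup.card_dvd_of_le hE)
  have IH : ∀ E : Subgroup G, E ≤ S' → Nat.card B < Nat.card E → ∀ c : G, cj[c] E ≤ S' → R (E : Set G) c := by
    intro E hE hlt c hc
    have h1 := hle E hE
    exact ih _ (by omega) E hE rfl c hc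
  -- the local step
  have hUk : ∀ U : Subgroup G, U ≤ S' → Ext p S' U → Nat.card U = Nat.card B → ∀ k ∈ normalizer (U : Set G), R (U : Set G) k := by
    intro U hUS hUe hUc k hk
    have hUp : IsPGroup p U := hSp.to_le hUS
    by_cases h1 : S' ⊓ centralizer (U : Set G) ≤ U
    · by_cases h2 : S' ⊓ pppN p U = U
      · refine hloc U hUS hUe h1 h2 ?_ k hk
        rw [hUc]
        exact IH
      · -- `V > U`
        obtain ⟨m, hmU, hmV, o, ho, rfl⟩ := exists_frattini_pppN hSp hUe hk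
        set V := S' ⊓ pppN p U with hV
        have hUV : U ≤ V := le_inf hUS (le_pppN hUp)
        have hUVlt : U < V := lt_of_le_of_ne hUV (fun e => h2 e.symm)
        have hVm : cj[m] V = V := (conj_map_eq_iff_mem_normalizer _ _).2 hmV
        have hRV : R (V : Set G) m := by
          refine IH V inf_le_left ?_ m (by rw [hVm]; exact inf_le_left)
          rw [← hUc]
          exact card_lt_of_lt' hUVlt
        refine hR.congr (hR.mono hRV hUV) ?_
        intro a ha
        have h3 := ppN_commute hUp ho ha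
        have h4 : o * a * o⁻¹ = a := by rw [h3]; group
        calc m * a * m⁻¹ = m * (o * a * o⁻¹) * m⁻¹ := by rw [h4]
          _ = _ := by group
    · -- `Y = U C_S(U) > U`
      obtain ⟨c, hc, hcT, hcU⟩ := exists_centralizer_adjust hSp hUe hk
      set T₀ := S' ⊓ centralizer (U : Set G) with hT₀
      set Y := U ⊔ T₀ with hY
      have hUY : U < Y := by
        refine lt_of_le_of_ne le_sup_left ?_
        intro e
        apply h1
        rw [e]
        exact le_sup_right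
      have hYS : Y ≤ S' := sup_le hUS inf_le_left
      have hcY : cj[c * k] Y = Y := by
        rw [hY, Subgroup.map_sup, (conj_map_eq_iff_mem_normalizer U _).2 hcU, (conj_map_eq_iff_mem_normalizer T₀ _).2 hcT]
      have hRY : R (Y : Set G) (c * k) := by
        refine IH Y hYS ?_ _ (by rw [hcY]; exact hYS)
        rw [← hUc]
        exact card_lt_of_lt' hUY
      refine hR.congr (hR.mono hRY hUY.le) ?_
      intro a ha
      have h5 : k * a * k⁻¹ ∈ U := (Subgroup.mem_normalizer_iff.1 hk a).1 ha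
      have h6 := Subgroup.mem_centralizer_iff.1 hc _ h5
      calc c * k * a * (c * k)⁻¹ = c * (k * a * k⁻¹) * c⁻¹ := by group
        _ = (k * a * k⁻¹) * c * c⁻¹ := by rw [h6]
        _ = _ := by group
  by_cases hBe : B = S'
  · -- `B = S`
    subst hBe
    have hgN : g ∈ normalizer (S' : Set G) := by
      apply mem_normalizer_of_conj_le
      intro x hx
      exact hg ⟨x, hx, rfl⟩
    have hext : Ext p S' S' := by
      rw [Ext, inf_eq_left.2 Subgroup.le_normalizer]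
      intro hd
      exact S.not_dvd_index (hd.trans (Subgroup.relIndex_dvd_index_of_le Subgroup.le_normalizer))
    exact hUk S' le_rfl hext rfl g hgN
  have hBlt : B < S' := lt_of_le_of_ne hBP hBe
  have hgrow : ∀ B₀ : Subgroup G, B₀ ≤ S' → Nat.card B₀ = Nat.card B → Nat.card B < Nat.card ↥(S' ⊓ normalizer (B₀ : Set G)) := by
    intro B₀ hB₀ hc
    have hlt₀ : B₀ < S' := by
      refine lt_of_le_of_ne hB₀ ?_
      rintro rfl
      have h1 := card_lt_of_lt' hBlt
      omega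
    obtain ⟨t, htS, htB, htN⟩ := Cfsg.Agent.Lib.Components.exists_mem_normalizer_of_lt hSp hlt₀
    have h2 : B₀ < S' ⊓ normalizer (B₀ : Set G) := by
      refine lt_of_le_of_ne (le_inf hB₀ Subgroup.le_normalizer) ?_
      intro e
      apply htB
      rw [e]
      exact ⟨htS, htN⟩
    rw [← hc]
    exact card_lt_of_lt' h2
  obtain ⟨z, hzS, hzE, hzN⟩ := exists_extremal_adjust S B hBP
  set U : Subgroup G := cj[z] B with hU
  have hUc : Nat.card U = Nat.card B := card_conj_map' B z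
  set B' : Subgroup G := cj[g] B with hB'
  have hB'c : Nat.card B' = Nat.card B := card_conj_map' B g
  have hRU : cj[z * g⁻¹] B' = U := by
    rw [hB', conj_map_conj_map]
    simp [hU]
  obtain ⟨b, hb, hbN⟩ := exists_adjust_conj hSp hzE hRU
  have hz : R (B : Set G) z := by
    have h1 := IH _ inf_le_left (hgrow B hBP rfl) z (hzN.trans inf_le_left)
    exact hR.mono h1 (fun x hx => (⟨hBP hx, Subgroup.le_normalizer hx⟩ : x ∈ S' ⊓ normalizer (B : Set G)))
  have hb' : R (B' : Set G) b := by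
    have h1 := IH _ inf_le_left (hgrow B' hg hB'c) b (hbN.trans inf_le_left)
    exact hR.mono h1 (fun x hx => (⟨hg hx, Subgroup.le_normalizer hx⟩ : x ∈ S' ⊓ normalizer (B' : Set G)))
  set k := b * g * z⁻¹ with hk
  have hkN : k ∈ normalizer (U : Set G) := by
    rw [← conj_map_eq_iff_mem_normalizer, hk, hU, conj_map_conj_map,
      show b * g * z⁻¹ * z = b * g by group, ← conj_map_conj_map]
    exact hb
  have hlcz : lc z (B : Set G) = (U : Set G) := lc_coe z B
  have hlcb : lc b (B' : Set G) = (U : Set G) := by rw [lc_coe, hb]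
  have h1 : R (B : Set G) (k * z) := hR.trans hz (by rw [hlcz]; exact hUk U hzS hzE hUc k hkN)
  have hlck : lc (k * z) (B : Set G) = (U : Set G) := by
    rw [← lc_lc, hlcz, lc_coe, (conj_map_eq_iff_mem_normalizer _ k).2 hkN]
  have h2 : R (U : Set G) b⁻¹ := by
    have := hR.inv (SetLike.coe_subset_coe.2 hg) hb'
    rwa [hlcb] at this
  have h3 : R (B : Set G) (b⁻¹ * (k * z)) := hR.trans h1 (by rw [hlck]; exact h2)
  have h4 : b⁻¹ * (k * z) = g := by rw [hk]; group
  rwa [h4] at h3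


/-- Chains of conjugations through two subgroups, staying in `T`. -/
inductive GC (E₁ E₂ T : Subgroup G) (A : Set G) : G → Prop
  | nil : GC E₁ E₂ T A 1
  | step {c d : G} (hc : GC E₁ E₂ T A c) (hd : d ∈ E₁ ∨ d ∈ E₂) (hA : lc (d * c) A ⊆ T) : GC E₁ E₂ T A (d * c)

section chain

variable {E₁ E₂ E₁' E₂' T : Subgroup G} {A A' : Set G} {c c' d : G}

theorem GC.image_subset (hA : A ⊆ T) (h : GC E₁ E₂ T A c) : lc c A ⊆ T := by
  cases h with
  | nil => simpa using hA
  | step _ _ hA' => exact hA'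

theorem GC.mono_set (hAA' : A' ⊆ A) (h : GC E₁ E₂ T A c) : GC E₁ E₂ T A' c := by
  induction h with
  | nil => exact GC.nil
  | step _ hd hA ih => exact GC.step ih hd ((lc_mono _ hAA').trans hA)

theorem GC.trans (h1 : GC E₁ E₂ T A c) (h2 : GC E₁ E₂ T (lc c A) c') : GC E₁ E₂ T A (c' * c) := by
  induction h2 with
  | nil => simpa using h1
  | @step c' d _ hd hA ih =>
    rw [mul_assoc]
    refine GC.step ih hd ?_
    rw [← mul_assoc, ← lc_lc]
    exact hA

theorem GC.inv (hA : A ⊆ T) (h : GC E₁ E₂ T A c) : GC E₁ E₂ T (lc c A) c⁻¹ := by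
  induction h with
  | nil => simpa using GC.nil
  | @step c d hc hd hA' ih =>
    rw [mul_inv_rev, ← lc_lc]
    have h1 : GC E₁ E₂ T (lc d (lc c A)) d⁻¹ := by
      have h2 : d⁻¹ * 1 = d⁻¹ := mul_one _
      rw [← h2]
      refine GC.step GC.nil (hd.imp (Subgroup.inv_mem _) (Subgroup.inv_mem _)) ?_
      rw [mul_one, lc_lc, inv_mul_cancel, lc_one]
      exact hc.image_subset hA
    refine GC.trans h1 ?_
    rw [lc_lc, inv_mul_cancel, lc_one]
    exact ih

theorem GC.conj {y : G} (hE₁ : E₁' = cj[y] E₁) (hE₂ : E₂' = cj[y] E₂) (h : GC E₁ E₂ T (lc y⁻¹ A) c) :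
    GC E₁' E₂' (cj[y] T) A (y * c * y⁻¹) := by
  induction h with
  | nil => simpa using GC.nil
  | @step c d _ hd hA' ih =>
    have e : y * (d * c) * y⁻¹ = (y * d * y⁻¹) * (y * c * y⁻¹) := by group
    rw [e]
    refine GC.step ih ?_ ?_
    · rw [hE₁, hE₂]
      exact hd.imp (conj_mem_conj_map _ _ _) (conj_mem_conj_map _ _ _)
    · rw [← e]
      rintro _ ⟨a, ha, rfl⟩
      have h1 : (d * c) * (y⁻¹ * a * y⁻¹⁻¹) * (d * c)⁻¹ ∈ T := hA' ⟨_, ⟨a, ha, rfl⟩, rfl⟩
      rw [SetLike.mem_coe, mem_conj_map]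
      simp only [mul_inv_rev, inv_inv] at h1 ⊢
      convert h1 using 1
      group

theorem GC.of_list (l : List G) (hl : ∀ b ∈ l, b ∈ E₁ ∨ b ∈ E₂)
    (hk : ∀ k, k ≤ l.length → lc (l.take k).prod⁻¹ A ⊆ T) : GC E₁ E₂ T A (l.prod)⁻¹ := by
  induction l using List.reverseRecOn with
  | nil => simpa using GC.nil
  | append_singleton l b ih =>
    have h1 : GC E₁ E₂ T A (l.prod)⁻¹ := by
      refine ih (fun b' hb' => hl b' (by simp [hb'])) (fun k hk' => ?_)
      have h2 := hk k (by simp; omega)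
      rwa [List.take_append_of_le_length hk'] at h2
    have e : ((l ++ [b]).prod)⁻¹ = b⁻¹ * (l.prod)⁻¹ := by simp
    rw [e]
    refine GC.step h1 ((hl b (by simp)).imp (Subgroup.inv_mem _) (Subgroup.inv_mem _)) ?_
    rw [← e]
    have h2 := hk (l ++ [b]).length le_rfl
    rwa [List.take_length] at h2

theorem GC.exists_list (h : GC E₁ E₂ T A c) :
    ∃ l : List G, (∀ b ∈ l, b ∈ E₁ ∨ b ∈ E₂) ∧ c⁻¹ = l.prod ∧ (A ⊆ T → ∀ k, k ≤ l.length → lc (l.take k).prod⁻¹ A ⊆ T) := by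
  induction h with
  | nil =>
    refine ⟨[], by simp, by simp, fun hA k hk => ?_⟩
    simpa using hA
  | @step c d _ hd hA ih =>
    obtain ⟨l, h1, h2, h3⟩ := ih
    refine ⟨l ++ [d⁻¹], ?_, by simp [h2], fun hA₀ k hk => ?_⟩
    · intro b hb
      rcases List.mem_append.1 hb with hb | hb
      · exact h1 b hb
      · rw [List.mem_singleton] at hb
        rw [hb]
        exact hd.imp (Subgroup.inv_mem _) (Subgroup.inv_mem _)
    · by_cases hk' : k ≤ l.length
      · rw [List.take_append_of_le_length hk']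
        exact h3 hA₀ k hk'
      · have hk2 : k = (l ++ [d⁻¹]).length := by
          simp at hk ⊢
          omega
        rw [hk2, List.take_length]
        have e : ((l ++ [d⁻¹]).prod)⁻¹ = d * c := by
          simp [← h2]
        rw [e]
        exact hA

theorem GC.exists_data (h : GC E₁ E₂ T A c) :
    ∃ (n : ℕ) (b : Fin n → G), (∀ i, b i ∈ E₁ ∨ b i ∈ E₂) ∧ c⁻¹ = (List.ofFn b).prod ∧
      (A ⊆ T → ∀ k, k ≤ n → lc ((List.ofFn b).take k).prod⁻¹ A ⊆ T) := by
  obtain ⟨l, h1, h2, h3⟩ := h.exists_list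
  refine ⟨l.length, l.get, fun i => h1 _ (List.get_mem _ _), ?_, ?_⟩
  · rw [List.ofFn_get]
    exact h2
  · rw [List.ofFn_get]
    exact h3

/-- The fusion relation of the chains. -/
def GF (E₁ E₂ T : Subgroup G) (A : Set G) (h : G) : Prop :=
  ∃ c, GC E₁ E₂ T A c ∧ ∀ a ∈ A, c * a * c⁻¹ = h * a * h⁻¹

theorem gf_fusRelOn (E₁ E₂ T : Subgroup G) : FusRelOn T (GF E₁ E₂ T) where
  one := fun A => ⟨1, GC.nil, fun _ _ => rfl⟩
  mono := fun ⟨c, h2, h3⟩ hs => ⟨c, h2.mono_set hs, fun a ha => h3 a (hs ha)⟩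
  congr := fun ⟨c, h2, h3⟩ hac => ⟨c, h2, fun a ha => (h3 a ha).trans (hac a ha)⟩
  trans := by
    rintro A h k ⟨c, h3, h4⟩ ⟨c', h5, h6⟩
    refine ⟨c' * c, h3.trans (by rw [lc_congr h4]; exact h5), fun a ha => ?_⟩
    have h7 := h6 (h * a * h⁻¹) ⟨a, ha, rfl⟩
    calc c' * c * a * (c' * c)⁻¹ = c' * (c * a * c⁻¹) * c'⁻¹ := by group
      _ = c' * (h * a * h⁻¹) * c'⁻¹ := by rw [h4 a ha]
      _ = k * (h * a * h⁻¹) * k⁻¹ := h7
      _ = k * h * a * (k * h)⁻¹ := by group
  inv := by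
    rintro A h hA ⟨c, h3, h4⟩
    refine ⟨c⁻¹, by rw [← lc_congr h4]; exact h3.inv hA, ?_⟩
    rintro _ ⟨a, ha, rfl⟩
    have h5 := h4 a ha
    calc c⁻¹ * (h * a * h⁻¹) * c⁻¹⁻¹ = c⁻¹ * (c * a * c⁻¹) * c⁻¹⁻¹ := by rw [h5]
      _ = a := by group
      _ = h⁻¹ * (h * a * h⁻¹) * h⁻¹⁻¹ := by group

theorem GF.single (hd : d ∈ E₁ ∨ d ∈ E₂) (hA : lc d A ⊆ T) : GF E₁ E₂ T A d :=
  ⟨d * 1, GC.step GC.nil hd (by simpa using hA), fun a _ => by simp⟩

end chain

/-- Local control of strong fusion, in a group `N(H)`. -/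
def LocCtl (W V : Subgroup G → Subgroup G) (H Q : Subgroup G) : Prop :=
  ∀ (A : Set G) (g : G), g ∈ normalizer (H : Set G) → A ⊆ Q → lc g A ⊆ Q →
    ∃ c, GC (normalizer (H : Set G) ⊓ normalizer ((W Q : Subgroup G) : Set G))
      (normalizer (H : Set G) ⊓ centralizer ((V Q : Subgroup G) : Set G)) Q A c ∧ ∀ a ∈ A, c * a * c⁻¹ = g * a * g⁻¹

theorem LocCtl.conj {W V : Subgroup G → Subgroup G} (hW : IsConjugacyFunctor p W) (hV : IsConjugacyFunctor p V)
    {H Q : Subgroup G} {y : G} (hQ : IsPGroup p Q) (hy : y ∈ normalizer (H : Set G)) (hc : LocCtl W V H Q) :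
    LocCtl W V H (cj[y] Q) := by
  intro A h hh hA hA'
  have hNy : cj[y] (normalizer (H : Set G)) = normalizer (H : Set G) :=
    (conj_map_eq_iff_mem_normalizer _ _).2 (Subgroup.le_normalizer hy)
  have h1 : lc y⁻¹ A ⊆ Q := by
    rintro _ ⟨a, ha, rfl⟩
    have := (mem_conj_map Q y a).1 (hA ha)
    simpa using this
  have hh₀ : y⁻¹ * h * y ∈ normalizer (H : Set G) := Subgroup.mul_mem _ (Subgroup.mul_mem _ (Subgroup.inv_mem _ hy) hh) hy
  have h2 : lc (y⁻¹ * h * y) (lc y⁻¹ A) ⊆ Q := by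
    rw [lc_lc, show y⁻¹ * h * y * y⁻¹ = y⁻¹ * h by group]
    rintro _ ⟨a, ha, rfl⟩
    have := (mem_conj_map Q y _).1 (hA' ⟨a, ha, rfl⟩)
    have e : y⁻¹ * h * a * (y⁻¹ * h)⁻¹ = y⁻¹ * (h * a * h⁻¹) * y := by group
    show y⁻¹ * h * a * (y⁻¹ * h)⁻¹ ∈ Q
    rw [e]
    exact this
  obtain ⟨c, hc1, hc2⟩ := hc _ _ hh₀ h1 h2
  refine ⟨y * c * y⁻¹, GC.conj ?_ ?_ hc1, fun a ha => ?_⟩
  · rw [functor_conj hW hQ, normalizer_conj_map, conj_map_inf, hNy]
  · rw [functor_conj hV hQ, centralizer_cj, conj_map_inf, hNy]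
  · have h3 := hc2 (y⁻¹ * a * y⁻¹⁻¹) ⟨a, ha, rfl⟩
    simp only [inv_inv] at h3
    calc y * c * y⁻¹ * a * (y * c * y⁻¹)⁻¹ = y * (c * (y⁻¹ * a * y) * c⁻¹) * y⁻¹ := by group
      _ = y * (y⁻¹ * h * y * (y⁻¹ * a * y) * (y⁻¹ * h * y)⁻¹) * y⁻¹ := by rw [h3]
      _ = h * a * h⁻¹ := by group

/-- **Local-to-global control of strong fusion with a central functor**. -/
theorem central_fusion (P : Sylow p G) (hne : (P : Subgroup G) ≠ ⊥) {W V : Subgroup G → Subgroup G}
    (hW : IsConjugacyFunctor p W) (hV : IsConjugacyFunctor p V)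
    (hWZ : ∀ H : Subgroup G, IsPGroup p H → H ⊓ centralizer (H : Set G) ≤ W H)
    (hVmono : ∀ H K : Subgroup G, IsPGroup p H → IsPGroup p K → H ≠ ⊥ → K ≠ ⊥ →
      H ⊓ centralizer (H : Set G) ≤ K ⊓ centralizer (K : Set G) → V H ≤ V K)
    (hloc : ∀ H : Subgroup G, (P : Subgroup G) ⊓ centralizer ((P : Subgroup G) : Set G) ≤ H → H ≤ (P : Subgroup G) →
      ∃ Q : Subgroup G, Q ≤ normalizer (H : Set G) ∧ IsPGroup p Q ∧ ¬ p ∣ Q.relIndex (normalizer (H : Set G)) ∧ LocCtl W V H Q) :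
    ∀ (A : Set G) (g : G), A ⊆ (P : Subgroup G) → lc g A ⊆ (P : Subgroup G) →
      GF (normalizer ((W P : Subgroup G) : Set G)) (centralizer ((V P : Subgroup G) : Set G)) (P : Subgroup G) A g := by
  have hSp := P.isPGroup'
  set S' : Subgroup G := (P : Subgroup G) with hS'
  set R : Set G → G → Prop := GF (normalizer ((W S' : Subgroup G) : Set G)) (centralizer ((V S' : Subgroup G) : Set G)) S' with hRdef
  have hR : FusRelOn S' R := gf_fusRelOn _ _ _
  have hLT : ∀ (H Q : Subgroup G) (y : G), IsPGroup p Q → y ∈ normalizer (H : Set G) → LocCtl W V H Q → LocCtl W V H (cj[y] Q) :=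
    fun H Q y hQ hy h => h.conj hW hV hQ hy
  have hVb : ∀ Q : Subgroup G, Q ≤ S' → S' ⊓ centralizer (S' : Set G) ≤ Q →
      centralizer ((V Q : Subgroup G) : Set G) ≤ centralizer ((V S' : Subgroup G) : Set G) := by
    intro Q hQS hZ
    exact Subgroup.centralizer_le (functor_central_le hVmono hSp hne hQS hZ)
  have hag := alperin_goldschmidt_on P hR ?_
  · intro A g hA hg
    have hB : Subgroup.closure A ≤ S' := (Subgroup.closure_le _).2 hA
    have hB' : cj[g] (Subgroup.closure A) ≤ S' := by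
      rw [MonoidHom.map_closure]
      refine (Subgroup.closure_le _).2 ?_
      rintro _ ⟨a, ha, rfl⟩
      exact hg ⟨a, ha, rfl⟩
    exact hR.mono (hag _ _ hB rfl g hB') Subgroup.subset_closure
  intro U hUS hUe hC _hpp IH k hk
  have hZU : S' ⊓ centralizer (S' : Set G) ≤ U := by
    intro z hz
    exact hC ⟨hz.1, Subgroup.centralizer_le hUS hz.2⟩
  have key : ∀ n : ℕ, ∀ Q : Subgroup G, Q ≤ S' → S' ⊓ centralizer (S' : Set G) ≤ Q →
      (Q = S' ∨ Nat.card U < Nat.card Q) → Nat.card S' - Nat.card Q = n →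
      ∀ (A : Set G), A ⊆ Q → ∀ b ∈ normalizer ((W Q : Subgroup G) : Set G), lc b A ⊆ Q → R A b := by
    intro n
    induction n using Nat.strong_induction_on with
    | _ n ih =>
    intro Q hQS hZQ hQc hn A hA b hb hbA
    by_cases hQe : Q = S'
    · subst hQe
      exact GF.single (Or.inl hb) hbA
    have hQlt : Q < S' := lt_of_le_of_ne hQS hQe
    have hUQ : Nat.card U < Nat.card Q := hQc.resolve_left hQe
    have hQp : IsPGroup p Q := hSp.to_le hQS
    have hH'Q : W Q ≤ Q := functor_le hW hQp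
    have hZH' : S' ⊓ centralizer (S' : Set G) ≤ W Q := fun z hz =>
      hWZ Q hQp ⟨hZQ hz, Subgroup.centralizer_le hQS hz.2⟩
    obtain ⟨Q', g₀, hQ'N, hQ'p, hQ'i, hQ'L, hQ₂Q', hg₀, hZ''⟩ := exists_stage P hLT hloc hZH' (hH'Q.trans hQS)
    have hQQ₂ : Q < S' ⊓ normalizer ((W Q : Subgroup G) : Set G) := lt_normalizer_functor hW hSp hQlt
    set Q₂ := S' ⊓ normalizer ((W Q : Subgroup G) : Set G) with hQ₂
    have hc2 : Nat.card Q₂ ≤ Nat.card Q' := Nat.le_of_dvd Nat.card_pos (Subgroup.card_dvd_of_le hQ₂Q')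
    have hc3 : Nat.card Q < Nat.card Q₂ := card_lt_of_lt' hQQ₂
    have hc4 : Nat.card (cj[g₀] Q') = Nat.card Q' := card_conj_map Q' g₀
    have hc5 : Nat.card (cj[g₀] Q') ≤ Nat.card S' := Nat.le_of_dvd Nat.card_pos (Subgroup.card_dvd_of_le hg₀)
    have hT'' := ih _ (by rw [← hn]; omega) (cj[g₀] Q') hg₀ hZ'' (Or.inr (by omega)) rfl
    have hAQ' : A ⊆ Q' := fun x hx => hQ₂Q' (hQQ₂.le (hA hx))
    have hbA' : lc b A ⊆ Q' := fun x hx => hQ₂Q' (hQQ₂.le (hbA hx))
    obtain ⟨c, hcG, hcA⟩ := hQ'L A b hb hAQ' hbA'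
    -- transport of the chain
    have hchain : ∀ c₁ : G, GC (normalizer ((W Q : Subgroup G) : Set G) ⊓ normalizer ((W Q' : Subgroup G) : Set G))
        (normalizer ((W Q : Subgroup G) : Set G) ⊓ centralizer ((V Q' : Subgroup G) : Set G)) Q' A c₁ →
        R (lc g₀ A) (g₀ * c₁ * g₀⁻¹) := by
      intro c₁ hc₁
      induction hc₁ with
      | nil =>
        have e : g₀ * 1 * g₀⁻¹ = 1 := by group
        rw [e]
        exact hR.one _
      | @step c₁ d hc₁ hd hA₁ ih₁ =>
        have e : g₀ * (d * c₁) * g₀⁻¹ = (g₀ * d * g₀⁻¹) * (g₀ * c₁ * g₀⁻¹) := by group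
        rw [e]
        refine hR.trans ih₁ ?_
        have e1 : lc (g₀ * c₁ * g₀⁻¹) (lc g₀ A) = lc g₀ (lc c₁ A) := by
          rw [lc_lc, lc_lc]
          congr 1
          group
        have e2 : lc (g₀ * d * g₀⁻¹) (lc g₀ (lc c₁ A)) = lc g₀ (lc (d * c₁) A) := by
          rw [lc_lc, ← lc_lc c₁ d, lc_lc _ g₀]
          congr 1
          group
        rw [e1]
        have h1 : lc g₀ (lc c₁ A) ⊆ ((cj[g₀] Q' : Subgroup G) : Set G) := by
          rw [← lc_coe]
          exact lc_mono _ (hc₁.image_subset hAQ')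
        have h2 : lc (g₀ * d * g₀⁻¹) (lc g₀ (lc c₁ A)) ⊆ ((cj[g₀] Q' : Subgroup G) : Set G) := by
          rw [e2, ← lc_coe]
          exact lc_mono _ hA₁
        rcases hd with hd | hd
        · refine hT'' _ h1 _ ?_ h2
          rw [functor_conj hW hQ'p, normalizer_conj_map]
          exact conj_mem_conj_map _ _ _ hd.2
        · refine GF.single (Or.inr (hVb _ hg₀ hZ'' ?_)) (h2.trans (SetLike.coe_subset_coe.2 hg₀))
          rw [functor_conj hV hQ'p, centralizer_cj]
          exact conj_mem_conj_map _ _ _ hd.2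
    have hRg : R (Q₂ : Set G) g₀ := IH Q₂ inf_le_left (by omega) g₀ ((conj_map_mono hQ₂Q' g₀).trans hg₀)
    have h1 : R A g₀ := hR.mono hRg (fun x hx => hQQ₂.le (hA hx))
    have h2 := hR.trans h1 (hchain c hcG)
    have h3 : R (lc (g₀ * c * g₀⁻¹ * g₀) A) g₀⁻¹ := by
      have h4 := hR.inv (SetLike.coe_subset_coe.2 inf_le_left) hRg
      refine hR.mono h4 ?_
      rw [show g₀ * c * g₀⁻¹ * g₀ = g₀ * c by group, ← lc_lc]
      apply lc_mono
      rw [lc_congr hcA]
      exact fun x hx => hQQ₂.le (hbA hx)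
    have h5 := hR.trans h2 h3
    have e : g₀⁻¹ * (g₀ * c * g₀⁻¹ * g₀) = c := by group
    rw [e] at h5
    exact hR.congr h5 hcA
  -- the local step
  obtain ⟨Q', g₀, hQ'N, hQ'p, hQ'i, hQ'L, hQ₂Q', hg₀, hZ''⟩ := exists_stage P hLT hloc hZU hUS
  have hQ₁ : S' ⊓ normalizer (U : Set G) = Q' := eq_of_le_of_relIndex hQ'p hQ₂Q' hQ'N hUe
  rw [← hQ₁] at hQ'L
  set Q₁ := S' ⊓ normalizer (U : Set G) with hQ₁def
  have hUQ₁ : U ≤ Q₁ := le_inf hUS Subgroup.le_normalizer
  have hQ₁S : Q₁ ≤ S' := inf_le_left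
  have hZQ₁ : S' ⊓ centralizer (S' : Set G) ≤ Q₁ := hZU.trans hUQ₁
  have hQ₁c : Q₁ = S' ∨ Nat.card U < Nat.card Q₁ := by
    by_cases hUe' : U = S'
    · left
      rw [hQ₁def, hUe']
      exact inf_eq_left.2 Subgroup.le_normalizer
    · right
      have hUlt : U < S' := lt_of_le_of_ne hUS hUe'
      obtain ⟨t, htS, htB, htN⟩ := Cfsg.Agent.Lib.Components.exists_mem_normalizer_of_lt hSp hUlt
      have : U < Q₁ := by
        refine lt_of_le_of_ne hUQ₁ ?_
        intro e'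
        apply htB
        rw [e']
        exact ⟨htS, htN⟩
      exact card_lt_of_lt' this
  have hU₁ : (U : Set G) ⊆ Q₁ := SetLike.coe_subset_coe.2 hUQ₁
  have hkU : lc k (U : Set G) ⊆ Q₁ := by
    rintro _ ⟨a, ha, rfl⟩
    exact hUQ₁ ((Subgroup.mem_normalizer_iff.1 hk a).1 ha)
  obtain ⟨c, hcG, hcA⟩ := hQ'L (U : Set G) k hk hU₁ hkU
  have hchain : ∀ c₁ : G, GC (normalizer (U : Set G) ⊓ normalizer ((W Q₁ : Subgroup G) : Set G))
      (normalizer (U : Set G) ⊓ centralizer ((V Q₁ : Subgroup G) : Set G)) Q₁ (U : Set G) c₁ → R (U : Set G) c₁ := by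
    intro c₁ hc₁
    induction hc₁ with
    | nil => exact hR.one _
    | @step c₁ d hc₁ hd hA₁ ih₁ =>
      refine hR.trans ih₁ ?_
      have h1 := hc₁.image_subset hU₁
      have h2 : lc d (lc c₁ (U : Set G)) ⊆ Q₁ := by
        rw [lc_lc]
        exact hA₁
      rcases hd with hd | hd
      · exact key _ Q₁ hQ₁S hZQ₁ hQ₁c rfl _ h1 _ hd.2 h2
      · exact GF.single (Or.inr (hVb _ hQ₁S hZQ₁ hd.2)) (h2.trans (SetLike.coe_subset_coe.2 hQ₁S))
  exact hR.congr (hchain c hcG) hcA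

end Cfsg.Agent.Lib.Tech
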