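import Cfsg.Agent.Lib.Tech.OneClass2
import Cfsg.Agent.Lib.PGroups.CyclicSylow

/-!
# Cyclic Sylow subgroups and pairs of elements of order `p`: group theory and numerics
-/

set_option autoImplicit false
set_option linter.unusedSectionVars false
set_option linter.style.haveILetI false
set_option linter.unusedVariables false

namespace Cfsg.Agent.Lib.Tech.CP

open Cfsg Cfsg.Agent.Lib.Char Cfsg.Agent.Lib.Blocks

universe u

section numeric

theorem numeric {ι : Type*} [DecidableEq ι] (B : Finset ι) (o : ι) (ho : o ∈ B) (n : ι → ℤ) (d : ι → ℕ)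
    (hd : ∀ i ∈ B, 0 < d i) (p T κ : ℝ) (hno : (n o : ℝ) = p - 1) (hdo : d o = 1)
    (h2 : ∑ i ∈ B, ((n i : ℝ)) ^ 2 = T)
    (h3 : (p - 2) * T ≤ ∑ i ∈ B, ((n i : ℝ)) ^ 3 / d i)
    (hθ : ∀ i ∈ B, i ≠ o → (n i : ℝ) ≤ (p - 2 - κ) * d i)
    (hT : (p - 1) ^ 2 < κ * (T - (p - 1) ^ 2)) : False := by
  set R := B.erase o with hR
  have hs1 : ∑ i ∈ B, ((n i : ℝ)) ^ 2 = (p - 1) ^ 2 + ∑ i ∈ R, ((n i : ℝ)) ^ 2 := by
    rw [← Finset.add_sum_erase B _ ho, hno]
  have hs2 : ∑ i ∈ B, ((n i : ℝ)) ^ 3 / d i = (p - 1) ^ 3 + ∑ i ∈ R, ((n i : ℝ)) ^ 3 / d i := by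
    rw [← Finset.add_sum_erase B _ ho, hno, hdo]
    simp [hR]
  have hs3 : ∑ i ∈ R, ((n i : ℝ)) ^ 3 / d i ≤ (p - 2 - κ) * ∑ i ∈ R, ((n i : ℝ)) ^ 2 := by
    rw [Finset.mul_sum]
    apply Finset.sum_le_sum
    intro i hi
    have hiB := Finset.mem_of_mem_erase hi
    have hi1 := Finset.ne_of_mem_erase hi
    have hdi : (0 : ℝ) < d i := by exact_mod_cast hd i hiB
    rw [div_le_iff₀ hdi]
    have h5 := hθ i hiB hi1
    have h6 : (0 : ℝ) ≤ ((n i : ℝ)) ^ 2 := sq_nonneg _
    have h7 := mul_le_mul_of_nonneg_left h5 h6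
    calc ((n i : ℝ)) ^ 3 = ((n i : ℝ)) ^ 2 * (n i : ℝ) := by ring
      _ ≤ ((n i : ℝ)) ^ 2 * ((p - 2 - κ) * d i) := h7
      _ = _ := by ring
  rw [hs1] at h2
  rw [hs2] at h3
  have h4 : ∑ i ∈ R, ((n i : ℝ)) ^ 2 = T - (p - 1) ^ 2 := by linarith
  rw [h4] at hs3
  have h5 : (p - 2) * T ≤ (p - 1) ^ 3 + (p - 2 - κ) * (T - (p - 1) ^ 2) := h3.trans (by linarith)
  have h6 : (p - 1) ^ 3 + (p - 2 - κ) * (T - (p - 1) ^ 2) = (p - 2) * T + (p - 1) ^ 2 - κ * (T - (p - 1) ^ 2) := by ring
  rw [h6] at h5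
  linarith

end numeric

section group

variable {G : Type*} [Group G] {p : ℕ} [hp : Fact p.Prime]

/-- In a cyclic group, the solutions of `y ^ p = 1` are powers of a given element of order `p`. -/
theorem exists_pow_of_cyclic {A : Type*} [Group A] [Finite A] [IsCyclic A] {x y : A} (hx : orderOf x = p) (hy : y ^ p = 1) :
    ∃ k < p, y = x ^ k := by
  classical
  letI := Fintype.ofFinite A
  have h1 := IsCyclic.card_pow_eq_one_le (α := A) hp.out.pos
  let I : Finset A := (Finset.range p).image (fun k => x ^ k)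
  have hI : I.card = p := by
    rw [Finset.card_image_of_injOn, Finset.card_range]
    intro a ha b hb hab
    have ha' : a < orderOf x := by rw [hx]; exact Finset.mem_range.mp ha
    have hb' : b < orderOf x := by rw [hx]; exact Finset.mem_range.mp hb
    exact pow_injOn_Iio_orderOf ha' hb' hab
  have hsub : I ⊆ Finset.univ.filter (fun a : A => a ^ p = 1) := by
    intro a ha
    obtain ⟨k, -, rfl⟩ := Finset.mem_image.mp ha
    refine Finset.mem_filter.mpr ⟨Finset.mem_univ _, ?_⟩
    rw [← pow_mul, mul_comm, pow_mul, ← hx, pow_orderOf_eq_one, one_pow]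
  have heq := Finset.eq_of_subset_of_card_le hsub (by rw [hI]; exact h1)
  have hmem : y ∈ I := by
    rw [heq]
    exact Finset.mem_filter.mpr ⟨Finset.mem_univ _, hy⟩
  obtain ⟨k, hk, e⟩ := Finset.mem_image.mp hmem
  exact ⟨k, Finset.mem_range.mp hk, e.symm⟩

/-- A cyclic Sylow subgroup: the Frobenius property. -/
theorem frob_of_cyclic [Finite G] (P : Sylow p G) (hP : IsCyclic (P : Subgroup G)) {y : G} (hy : y ∈ (P : Subgroup G)) (hy1 : y ≠ 1) :
    Subgroup.centralizer ({y} : Set G) ⊓ Subgroup.normalizer ((P : Subgroup G) : Set G) =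
      Subgroup.centralizer ((P : Subgroup G) : Set G) := by
  classical
  letI : Fintype G := Fintype.ofFinite G
  have hcomm : ∀ a ∈ (P : Subgroup G), ∀ b ∈ (P : Subgroup G), a * b = b * a := by
    letI := IsCyclic.commGroup (α := (P : Subgroup G))
    intro a ha b hb
    exact congrArg Subtype.val (mul_comm (⟨a, ha⟩ : (P : Subgroup G)) ⟨b, hb⟩)
  apply le_antisymm
  · rintro n ⟨hn1, hn2⟩
    set C := Subgroup.centralizer ({y} : Set G) with hC
    have hSC : (P : Subgroup G) ≤ C := fun a ha => mem_centralizer_singleton_of_commute (hcomm a ha y hy)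
    let S1 : Sylow p C := P.subtype hSC
    have hScoe : (S1 : Subgroup C) = (P : Subgroup G).subgroupOf C := Sylow.coe_subtype _ _
    have hScyc : IsCyclic (S1 : Subgroup C) := by
      rw [hScoe]
      exact isCyclic_of_surjective (Subgroup.subgroupOfEquivOfLe hSC).symm (MulEquiv.surjective _)
    have hzS : (⟨y, hSC hy⟩ : C) ∈ (S1 : Subgroup C) := by
      rw [hScoe, Subgroup.mem_subgroupOf]
      exact hy
    have hzc : ∀ w : C, (⟨y, hSC hy⟩ : C) * w = w * ⟨y, hSC hy⟩ := by
      intro w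
      apply Subtype.ext
      have := Subgroup.mem_centralizer_iff.mp w.2 y (by simp)
      exact this
    have hz1 : (⟨y, hSC hy⟩ : C) ≠ 1 := fun h => hy1 (congrArg Subtype.val h)
    have hN := Cfsg.Agent.Lib.PGroups.normalizer_le_centralizer_of_cyclic S1 hScyc hzS hz1 hzc
    have hn' : (⟨n, hn1⟩ : C) ∈ Subgroup.normalizer ((S1 : Subgroup C) : Set C) := by
      rw [Subgroup.mem_normalizer_iff]
      intro s
      rw [hScoe, Subgroup.mem_subgroupOf, Subgroup.mem_subgroupOf]
      exact Subgroup.mem_normalizer_iff.mp hn2 s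
    have h1 := hN hn'
    rw [Subgroup.mem_centralizer_iff]
    intro t ht
    have htC : (⟨t, hSC ht⟩ : C) ∈ (S1 : Subgroup C) := by
      rw [hScoe, Subgroup.mem_subgroupOf]
      exact ht
    have h2 := Subgroup.mem_centralizer_iff.mp h1 _ htC
    exact congrArg Subtype.val h2
  · intro c hc
    refine ⟨mem_centralizer_singleton_of_commute ?_, Cfsg.Agent.Lib.Blocks.centralizer_le_normalizer_coe _ hc⟩
    have := Subgroup.mem_centralizer_iff.mp hc y hy
    exact this.symm

/-- In the subgroup generated by two elements of order `p`, with abelian Sylow subgroups, a `p`-element has order dividing `p`. -/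
theorem pow_eq_one_of_pElement [Finite G] (P : Sylow p G)
    (hcomm : ∀ a ∈ (P : Subgroup G), ∀ b ∈ (P : Subgroup G), a * b = b * a) {u x : G} (hu : orderOf u = p)
    (hx : orderOf x = p) (hc : IsPSolvable p ↥(Subgroup.closure ({u, x} : Set G))) {v : G}
    (hv : v ∈ Subgroup.closure ({u, x} : Set G)) (hvp : ∃ k, orderOf v = p ^ k) : v ^ p = 1 := by
  classical
  set H := Subgroup.closure ({u, x} : Set G) with hH
  let u' : H := ⟨u, Subgroup.subset_closure (by simp)⟩
  let x' : H := ⟨x, Subgroup.subset_closure (by simp)⟩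
  have hab : ∀ S : Sylow p H, ∀ a ∈ (S : Subgroup H), ∀ b ∈ (S : Subgroup H), a * b = b * a := by
    intro S a ha b hb
    have hSp : IsPGroup p ((S : Subgroup H).map H.subtype) := S.isPGroup'.map _
    obtain ⟨R, hR⟩ := hSp.exists_le_sylow
    obtain ⟨g, hg⟩ := MulAction.exists_smul_eq G R P
    have hmem : ∀ z ∈ (S : Subgroup H), g * (z : G) * g⁻¹ ∈ (P : Subgroup G) := by
      intro z hz
      rw [← hg, Sylow.coe_subgroup_smul, Subgroup.mem_smul_pointwise_iff_exists]
      exact ⟨z, hR ⟨z, hz, rfl⟩, rfl⟩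
    have h3 := hcomm _ (hmem a ha) _ (hmem b hb)
    apply Subtype.ext
    have h4 : g * ((a : G) * (b : G)) * g⁻¹ = g * ((b : G) * (a : G)) * g⁻¹ := by
      calc g * ((a : G) * (b : G)) * g⁻¹ = (g * (a : G) * g⁻¹) * (g * (b : G) * g⁻¹) := by group
        _ = (g * (b : G) * g⁻¹) * (g * (a : G) * g⁻¹) := h3
        _ = _ := by group
    have h5 := mul_left_cancel (mul_right_cancel h4)
    exact h5
  have hgen : Subgroup.closure {h : H | ∃ k : ℕ, orderOf h = p ^ k} = ⊤ := by
    rw [eq_top_iff, ← Subgroup.closure_closure_coe_preimage (k := ({u, x} : Set G))]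
    apply Subgroup.closure_mono
    rintro ⟨w, hw⟩ hw'
    have hw'' : w = u ∨ w = x := hw'
    refine ⟨1, ?_⟩
    rw [pow_one, Subgroup.orderOf_mk]
    rcases hw'' with rfl | rfl
    · exact hu
    · exact hx
  have hpg := Cfsg.Agent.Lib.Tech.OC.isPGroup_quot hc hab hgen
  set K := pPrimeCore p H with hK
  haveI hKn : K.Normal := Cfsg.Agent.Lib.Basic.pPrimeCore_normal p
  let π := QuotientGroup.mk' K
  have hπs : Function.Surjective π := QuotientGroup.mk'_surjective K
  obtain ⟨S⟩ : Nonempty (Sylow p H) := inferInstance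
  let T₀ : Sylow p (H ⧸ K) := S.mapSurjective hπs
  have hT₀ : (T₀ : Subgroup (H ⧸ K)) = (S : Subgroup H).map π := rfl
  have htop : (⊤ : Subgroup (H ⧸ K)) = (T₀ : Subgroup (H ⧸ K)) := by
    apply T₀.is_maximal' _ le_top
    exact hpg.of_surjective (MonoidHom.id _ |>.codRestrict ⊤ (fun _ => trivial)) (fun y => ⟨y.1, Subtype.ext rfl⟩)
  have hcq : ∀ a b : H ⧸ K, a * b = b * a := by
    intro a b
    have ha : a ∈ (T₀ : Subgroup (H ⧸ K)) := by rw [← htop]; trivial
    have hb : b ∈ (T₀ : Subgroup (H ⧸ K)) := by rw [← htop]; trivial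
    rw [hT₀] at ha hb
    obtain ⟨s, hs, rfl⟩ := ha
    obtain ⟨t, ht, rfl⟩ := hb
    rw [← map_mul, ← map_mul, hab S s hs t ht]
  have hall : ∀ h : H, (π h) ^ p = 1 := by
    have h2 : ∀ h ∈ (⊤ : Subgroup H), (π h) ^ p = 1 := by
      rw [← Subgroup.closure_closure_coe_preimage (k := ({u, x} : Set G))]
      intro h hh
      induction hh using Subgroup.closure_induction with
      | mem w hw =>
        obtain ⟨w, hw1⟩ := w
        have hw'' : w = u ∨ w = x := hw
        have hw3 : (⟨w, hw1⟩ : H) ^ p = 1 := by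
          apply Subtype.ext
          show w ^ p = 1
          rcases hw'' with rfl | rfl
          · rw [← hu]; exact pow_orderOf_eq_one _
          · rw [← hx]; exact pow_orderOf_eq_one _
        rw [← map_pow, hw3, map_one]
      | one => simp
      | mul a b _ _ ha hb =>
        rw [map_mul, (show Commute (π a) (π b) from hcq _ _).mul_pow, ha, hb, one_mul]
      | inv a _ ha =>
        rw [map_inv, inv_pow, ha, inv_one]
    exact fun h => h2 h trivial
  let v' : H := ⟨v, hv⟩
  have h3 : v' ^ p ∈ K := by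
    rw [← QuotientGroup.eq_one_iff]
    have := hall v'
    rw [← map_pow] at this
    exact this
  have h4 : orderOf (v' ^ p) ∣ Nat.card K := by
    rw [← Subgroup.orderOf_mk (v' ^ p) h3]
    exact orderOf_dvd_natCard _
  obtain ⟨k, hk⟩ := hvp
  have h5 : orderOf (v' ^ p) ∣ p ^ k := by
    have h6 : orderOf v' = p ^ k := by
      rw [← Subgroup.orderOf_coe]
      exact hk
    rw [← h6]
    exact orderOf_dvd_of_pow_eq_one (by rw [← pow_mul, mul_comm, pow_mul, pow_orderOf_eq_one, one_pow])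
  have h6 : (Nat.card K).Coprime p := Cfsg.Agent.Lib.Basic.pPrimeCore_coprime p
  have h7 : orderOf (v' ^ p) = 1 := Nat.Coprime.eq_one_of_dvd ((h6.pow_right k).coprime_dvd_left h4) h5
  have h8 : v' ^ p = 1 := orderOf_eq_one_iff.mp h7
  exact congrArg Subtype.val h8

end group

end Cfsg.Agent.Lib.Tech.CP
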