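import Cfsg.Agent.Lib.Tech.CycPair1

/-!
# Cyclic Sylow subgroups and pairs of elements of order `p`: the character values
-/

set_option autoImplicit false
set_option linter.unusedSectionVars false
set_option linter.style.haveILetI false
set_option linter.unusedVariables false

namespace Cfsg.Agent.Lib.Tech.CP

open Cfsg Cfsg.Agent.Lib.Char Cfsg.Agent.Lib.Blocks
open scoped ComplexConjugate

universe u

section arith

theorem arith_X1 (p v β : ℤ) (hp : 5 ≤ p) (hv2 : v ^ 2 ≤ p - 1) (hβ : 0 < v → 1 ≤ β) (hd : 0 < p * β + v) :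
    (p - 1) * v ≤ (p - 3) * (p * β + v) := by
  by_cases hv : v ≤ 0
  · have h1 : (p - 1) * v ≤ 0 := mul_nonpos_of_nonneg_of_nonpos (by linarith) hv
    have h2 : 0 ≤ (p - 3) * (p * β + v) := mul_nonneg (by linarith) hd.le
    linarith
  · push Not at hv
    have hb := hβ hv
    have h1 : 2 * v ≤ v ^ 2 + 1 := by nlinarith [sq_nonneg (v - 1)]
    have h2 : p ≤ (p - 3) * p := by nlinarith
    have h3 : (p - 3) * (p * 1 + v) ≤ (p - 3) * (p * β + v) := by
      apply mul_le_mul_of_nonneg_left _ (by linarith)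
      nlinarith
    nlinarith

theorem arith_X2 (p q v β : ℤ) (hp : 3 ≤ p) (hq : p ^ 2 ≤ q) (hv2 : v ^ 2 ≤ p - 1) (hβ : 0 < v → 1 ≤ β)
    (hd : 0 < q * β + v) : 2 * ((p - 1) * v) ≤ (2 * p - 5) * (q * β + v) := by
  by_cases hv : v ≤ 0
  · have h1 : (p - 1) * v ≤ 0 := mul_nonpos_of_nonneg_of_nonpos (by linarith) hv
    have h2 : 0 ≤ (2 * p - 5) * (q * β + v) := mul_nonneg (by linarith) hd.le
    linarith
  · push Not at hv
    have hb := hβ hv
    have h1 : 2 * v ≤ p := by nlinarith [sq_nonneg (v - 1)]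
    have h2 : 2 * ((p - 1) * v) ≤ (p - 1) * p := by nlinarith
    have h3 : q ≤ q * β + v := by
      have hq0 : 0 < q := by nlinarith
      nlinarith
    have h4 : (q * β + v) ≤ (2 * p - 5) * (q * β + v) := by nlinarith
    nlinarith

theorem arith_norm_zero (p q m r a E : ℤ) (hp : 3 ≤ p) (hq : p ^ 2 ≤ q) (hm1 : 1 ≤ m) (hmp : m ≤ p - 1) (hr : r * m = q - 1)
    (hn : (a - E) ^ 2 + (r - 1) * a ^ 2 ≤ m) : a = 0 := by
  by_contra ha
  have ha2 : 1 ≤ a ^ 2 := by
    have : 0 < a ^ 2 := by positivity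
    omega
  have hr1 : p + 1 ≤ r := by
    by_contra hlt
    push Not at hlt
    have h1 : r ≤ p := by omega
    have h2 : r * m ≤ p * (p - 1) := by
      by_cases hr0 : 0 ≤ r
      · exact mul_le_mul h1 hmp (by omega) (by omega)
      · push Not at hr0
        nlinarith
    nlinarith
  have h3 : p * 1 ≤ (r - 1) * a ^ 2 := mul_le_mul (by omega) ha2 (by norm_num) (by omega)
  nlinarith [sq_nonneg (a - E)]

theorem arith_Y1 (p m r a E β : ℤ) (hp : 5 ≤ p) (hE : E = 1 ∨ E = -1) (hm1 : 1 ≤ m) (hr2 : 2 ≤ r) (hr : r * m = p - 1)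
    (hβ : 0 ≤ β) (hβa : 0 ≤ β + a) (hβE : 0 ≤ β + E)
    (hn : (a - E) ^ 2 + (r - 1) * a ^ 2 ≤ m) (hd : 0 < p * β + a + E * m) :
    (p - 1) * a - E * m ≤ (p - 3) * (p * β + a + E * m) := by
  have hdn : 0 ≤ (p - 3) * (p * β + a + E * m) := mul_nonneg (by linarith) hd.le
  have h2m : 2 * m ≤ p - 1 := by nlinarith
  rcases hE with rfl | rfl
  · by_cases ha : a ≤ 0
    · nlinarith
    · push Not at ha
      have ha2 : a ^ 2 ≤ m := by
        have h1 : a ^ 2 ≤ (r - 1) * a ^ 2 := by nlinarith [sq_nonneg a]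
        nlinarith [sq_nonneg (a - 1)]
      have ham : a ≤ m := by nlinarith
      have h3 : (p - 3) * (a + m) ≤ (p - 3) * (p * β + a + 1 * m) := by
        apply mul_le_mul_of_nonneg_left _ (by linarith)
        nlinarith
      nlinarith
  · have hβ1 : 1 ≤ β := by linarith
    by_cases ha : a < 0
    · have h1 : (p - 1) * a + m ≤ 0 := by nlinarith
      nlinarith
    · push Not at ha
      have ha1 : (a + 1) ^ 2 ≤ m := by
        have h1 : 0 ≤ (r - 1) * a ^ 2 := by nlinarith [sq_nonneg a]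
        nlinarith
      have ham : a + 1 ≤ m := by nlinarith
      have h3 : (p - 3) * (p + a - m) ≤ (p - 3) * (p * β + a + (-1) * m) := by
        apply mul_le_mul_of_nonneg_left _ (by linarith)
        nlinarith
      have h4 : 2 * a + (p - 2) * m ≤ (p - 3) * p := by
        have h5 : 2 * (p * m) ≤ p * (p - 1) := by nlinarith
        nlinarith
      nlinarith

theorem arith_Y2a (p q m E β : ℤ) (hp : 3 ≤ p) (hq : p ^ 2 ≤ q) (hE : E = 1 ∨ E = -1) (hm1 : 1 ≤ m) (hmp : m ≤ p - 1)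
    (hβE : 0 ≤ β + E) (hd : 0 < q * β + E * m) :
    2 * (- (E * m)) ≤ (2 * p - 5) * (q * β + E * m) := by
  have hdn : 0 ≤ (2 * p - 5) * (q * β + E * m) := mul_nonneg (by linarith) hd.le
  rcases hE with rfl | rfl
  · nlinarith
  · have hβ1 : 1 ≤ β := by linarith
    have hq0 : 0 < q := by nlinarith
    have h1 : q ≤ q * β := by nlinarith
    have h2 : q - m ≤ (2 * p - 5) * (q * β + (-1) * m) - ((2 * p - 6) * (q * β + (-1) * m)) := by nlinarith
    have h3 : 0 ≤ (2 * p - 6) * (q * β + (-1) * m) := mul_nonneg (by linarith) hd.le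
    have h4 : (2 * p - 5) * (q - m) ≤ (2 * p - 5) * (q * β + (-1) * m) :=
      mul_le_mul_of_nonneg_left (by linarith) (by linarith)
    have h5 : (2 * p - 3) * m ≤ (2 * p - 5) * q := by
      have h6 : (2 * p - 3) * m ≤ (2 * p - 3) * (p - 1) := mul_le_mul_of_nonneg_left hmp (by linarith)
      have h7 : (2 * p - 5) * p ^ 2 ≤ (2 * p - 5) * q := mul_le_mul_of_nonneg_left hq (by linarith)
      have h8 : (2 * p - 3) * (p - 1) ≤ (2 * p - 5) * p ^ 2 := by
        have h9 : 0 ≤ (p - 3) * p ^ 2 := mul_nonneg (by linarith) (sq_nonneg p)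
        nlinarith
      linarith
    nlinarith

theorem arith_Y2b (p q m E β : ℤ) (hp : 3 ≤ p) (hq : p ^ 2 ≤ q) (hE : E = 1 ∨ E = -1) (hm1 : 1 ≤ m) (hmp : m ≤ p - 1)
    (hβ1 : E = 1 → 1 ≤ β) (hd : 0 < q * β + E * m) :
    2 * (E * (m * (p - 1))) ≤ (2 * p - 5) * (q * β + E * m) := by
  have hdn : 0 ≤ (2 * p - 5) * (q * β + E * m) := mul_nonneg (by linarith) hd.le
  rcases hE with rfl | rfl
  · have hb := hβ1 rfl
    have hq0 : 0 < q := by nlinarith
    have h1 : q ≤ q * β := by nlinarith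
    have h4 : (2 * p - 5) * (q + m) ≤ (2 * p - 5) * (q * β + 1 * m) :=
      mul_le_mul_of_nonneg_left (by linarith) (by linarith)
    have h5 : 3 * m ≤ (2 * p - 5) * q := by
      have h7 : q ≤ (2 * p - 5) * q := by nlinarith
      nlinarith
    nlinarith
  · have h1 : 0 ≤ m * (p - 1) := mul_nonneg (by linarith) (by linarith)
    nlinarith

end arith

section simple

variable {G : Type u} [Group G] [Fintype G]

/-- A non-principal irreducible character of a simple group is faithful. -/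
theorem apply_ne_of_simple [IsSimpleGroup G] (χ : IrrCharacter G) (hne : χ ≠ Cfsg.Agent.Lib.Blocks.oneIrr G) {x : G} (hx1 : x ≠ 1) :
    (χ : G → ℂ) x ≠ (χ : G → ℂ) 1 := by
  classical
  intro h5
  have hone : (χ : G → ℂ) 1 ≠ 0 := by
    intro h
    rw [apply_one_eq_charDegree (IsIrrCharacter.isCharacter χ.2)] at h
    have h9 := charDegree_pos χ.2
    have h10 : charDegree (χ : G → ℂ) = 0 := by exact_mod_cast h
    omega
  have hker : x ∈ charKer (χ : G → ℂ) := by
    rw [mem_charKer (irr_isCharacter χ)]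
    exact h5
  have hnormal := charKer_normal (irr_isCharacter χ)
  rcases hnormal.eq_bot_or_eq_top with hbot | htop
  · rw [hbot] at hker
    exact hx1 hker
  · have hall : ∀ g : G, (χ : G → ℂ) g = (χ : G → ℂ) 1 := by
      intro g
      have : g ∈ charKer (χ : G → ℂ) := by rw [htop]; trivial
      exact (mem_charKer (irr_isCharacter χ)).mp this
    have hne'' : (χ : G → ℂ) ≠ ((Cfsg.Agent.Lib.Blocks.oneIrr G : IrrCharacter G) : G → ℂ) := fun h => hne (Subtype.ext h)
    have h7 := classInner_irr_of_ne χ.2 (Cfsg.Agent.Lib.Blocks.oneIrr G).2 hne''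
    rw [classInner] at h7
    have h8 : ∀ g : G, (χ : G → ℂ) g * conj (((Cfsg.Agent.Lib.Blocks.oneIrr G : IrrCharacter G) : G → ℂ) g) = (χ : G → ℂ) 1 := by
      intro g
      have : ((Cfsg.Agent.Lib.Blocks.oneIrr G : IrrCharacter G) : G → ℂ) g = 1 := rfl
      rw [this, map_one, mul_one, hall g]
    simp only [h8, Finset.sum_const, Finset.card_univ, nsmul_eq_mul] at h7
    have hG' : (Fintype.card G : ℂ) ≠ 0 := by exact_mod_cast Fintype.card_pos.ne'
    rw [Nat.card_eq_fintype_card] at h7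
    have h9 : (χ : G → ℂ) 1 = 0 := by
      field_simp at h7
      exact h7
    exact hone h9

end simple

section data

variable {G : Type u} [Group G] [Fintype G] {p : ℕ} [hp : Fact p.Prime] {M : Ideal AlgInt}
  {Q : Subgroup G} [Fintype Q] [Fintype (Subgroup.normalizer (Q : Set G))] [Fintype (Q →* ℂˣ)] {r : ℕ}

open scoped Classical in
/-- The sum of a linear character over the non-identity powers of an element of order `p`. -/
noncomputable def Sval (p : ℕ) (x : Q) (ψ : Q →* ℂˣ) : ℤ := if ψ x = 1 then (p : ℤ) - 1 else -1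

theorem sum_linVal (x : Q) (hx : orderOf x = p) (ψ : Q →* ℂˣ) :
    ∑ i ∈ Finset.range (p - 1), linVal ψ (x ^ (i + 1)) = (Sval p x ψ : ℂ) := by
  classical
  have hpow : ∀ i : ℕ, linVal ψ (x ^ i) = (linVal ψ x) ^ i := by
    intro i
    simp [linVal]
  simp only [hpow]
  have hp1 : 1 ≤ p := hp.out.one_le
  by_cases h : ψ x = 1
  · have h1 : linVal ψ x = 1 := by simp [linVal, h]
    simp only [h1, one_pow, Finset.sum_const, Finset.card_range, nsmul_eq_mul, mul_one]
    rw [Sval, if_pos h]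
    push_cast
    rw [Nat.cast_sub hp1]
    simp
  · have hω1 : linVal ψ x ≠ 1 := fun e => h (Units.ext e)
    have hωp : (linVal ψ x) ^ p = 1 := by
      rw [← hpow, ← hx, pow_orderOf_eq_one]
      simp [linVal]
    have hg := geom_sum_eq hω1 p
    rw [hωp, sub_self, zero_div] at hg
    have h5 : ∑ i ∈ Finset.range (p - 1 + 1), (linVal ψ x) ^ i = 0 := by
      rw [Nat.sub_add_cancel hp1]
      exact hg
    rw [Finset.sum_range_succ'] at h5
    rw [Sval, if_neg h]
    simp only [pow_zero] at h5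
    push_cast
    linear_combination h5

variable (D : BrauerData p M Q r)

open scoped Classical in
/-- The characters of `Q` attached to a character of the block. -/
noncomputable def Oset (χ : IrrCharacter G) : Finset (Q →* ℂˣ) :=
  Finset.univ.filter (fun ψ : Q →* ℂˣ => ψ ≠ 1 ∧ D.μ (D.idx ψ) = χ)

/-- The sum of a character of the block over the non-identity elements of the subgroup of order `p`. -/
noncomputable def nI (x : Q) (χ : IrrCharacter G) : ℤ :=
  ((p : ℤ) - 1) * D.valD χ + D.E * ∑ ψ ∈ Oset D χ, Sval p x ψ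

theorem nI_spec {χ : IrrCharacter G} (hχ : χ ∈ principalBlock M G) (x : Q) (hx : orderOf x = p) :
    (nI D x χ : ℂ) = ∑ i ∈ Finset.range (p - 1), (χ : G → ℂ) ((x ^ (i + 1) : Q) : G) := by
  classical
  have hp1 : 1 ≤ p := hp.out.one_le
  have h1 : ∀ i ∈ Finset.range (p - 1), (χ : G → ℂ) ((x ^ (i + 1) : Q) : G) =
      (D.valD χ : ℂ) + (D.E : ℂ) * ∑ ψ ∈ Oset D χ, linVal ψ (x ^ (i + 1)) := by
    intro i hi
    have hne : x ^ (i + 1) ≠ 1 := pow_ne_one_of_lt_orderOf (by omega) (by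
      rw [hx]
      have := Finset.mem_range.mp hi
      omega)
    exact D.apply_eq_sum hχ _ hne
  rw [Finset.sum_congr rfl h1, Finset.sum_add_distrib, Finset.sum_const, ← Finset.mul_sum, Finset.sum_comm]
  simp only [sum_linVal x hx]
  rw [nI, Finset.card_range, nsmul_eq_mul]
  push_cast
  rw [Nat.cast_sub hp1]
  push_cast
  ring

theorem linVal_one (ψ : Q →* ℂˣ) : linVal ψ 1 = 1 := by simp [linVal]

theorem deg_eq {χ : IrrCharacter G} (hχ : χ ∈ principalBlock M G) :
    (charDegree (χ : G → ℂ) : ℤ) = (Nat.card Q : ℤ) * D.beta χ + D.valD χ + D.E * ((Oset D χ).card : ℤ) := by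
  classical
  have hcomm' : ∀ a b : Q, a * b = b * a := fun a b => Subtype.ext (D.setup.comm a a.2 b b.2)
  have h1 := apply_eq_sum_coefL D.setup.comm χ (1 : Q)
  simp only [linVal_one, mul_one, OneMemClass.coe_one] at h1
  rw [apply_one_eq_charDegree (IsIrrCharacter.isCharacter χ.2)] at h1
  simp only [← coefN_spec] at h1
  have h2 : (charDegree (χ : G → ℂ) : ℤ) = ∑ ψ : Q →* ℂˣ, (coefN χ ψ : ℤ) := by
    have h3 : ((charDegree (χ : G → ℂ) : ℤ) : ℂ) = ((∑ ψ : Q →* ℂˣ, (coefN χ ψ : ℤ) : ℤ) : ℂ) := by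
      push_cast
      exact h1
    exact_mod_cast h3
  rw [h2, ← Finset.add_sum_erase Finset.univ _ (Finset.mem_univ (1 : Q →* ℂˣ))]
  have h4 : ∀ ψ ∈ (Finset.univ : Finset (Q →* ℂˣ)).erase 1, (coefN χ ψ : ℤ) =
      D.beta χ + D.E * (if D.μ (D.idx ψ) = χ then 1 else 0) := fun ψ hψ =>
    D.coef_eq hχ (Finset.ne_of_mem_erase hψ)
  rw [Finset.sum_congr rfl h4, Finset.sum_add_distrib, ← Finset.mul_sum, Finset.sum_const, Finset.sum_boole]
  have h5 : ((Finset.univ : Finset (Q →* ℂˣ)).erase 1).card = Nat.card Q - 1 := by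
    rw [Finset.card_erase_of_mem (Finset.mem_univ _), Finset.card_univ, ← Nat.card_eq_fintype_card, card_dual hcomm']
  have h6 : (((Finset.univ : Finset (Q →* ℂˣ)).erase 1).filter (fun ψ => D.μ (D.idx ψ) = χ)) = Oset D χ := by
    ext ψ
    simp [Oset]
  rw [h5, h6, BrauerData.valD]
  have h7 : 1 ≤ Nat.card Q := Nat.card_pos
  simp only [nsmul_eq_mul]
  rw [Nat.cast_sub h7]
  push_cast
  ring

theorem exists_mu_ne (χ : IrrCharacter G) : ∃ i, D.μ i ≠ χ := by
  by_cases h : D.μ D.i₀ = χ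
  · obtain ⟨i, hi⟩ := D.other
    exact ⟨i, fun e => hi (D.μ_inj (e.trans h.symm))⟩
  · exact ⟨_, h⟩

theorem beta_nonneg {χ : IrrCharacter G} (hχ : χ ∈ principalBlock M G) : 0 ≤ D.beta χ := by
  classical
  obtain ⟨i, hi⟩ := exists_mu_ne D χ
  have h1 := D.coef_eq hχ (D.rep_ne i)
  rw [D.idx_rep, if_neg hi, mul_zero, add_zero] at h1
  rw [← h1]
  positivity

theorem beta_add_val_nonneg (χ : IrrCharacter G) : 0 ≤ D.beta χ + D.valD χ := by
  rw [BrauerData.valD]
  have : 0 ≤ (coefN χ (1 : Q →* ℂˣ) : ℤ) := by positivity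
  linarith

theorem beta_add_E_nonneg (j : Fin r) : 0 ≤ D.beta (D.μ j) + D.E := by
  classical
  have h1 := D.coef_eq (D.μ_mem j) (D.rep_ne j)
  rw [D.idx_rep, if_pos rfl, mul_one] at h1
  rw [← h1]
  positivity

theorem mem_Oset_mu {j : Fin r} {ψ : Q →* ℂˣ} : ψ ∈ Oset D (D.μ j) ↔ ψ ≠ 1 ∧ D.idx ψ = j := by
  classical
  simp only [Oset, Finset.mem_filter, Finset.mem_univ, true_and]
  constructor
  · rintro ⟨h1, h2⟩
    exact ⟨h1, D.μ_inj h2⟩
  · rintro ⟨h1, h2⟩
    exact ⟨h1, by rw [h2]⟩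

theorem mem_Oset_mu_iff {j : Fin r} {ψ : Q →* ℂˣ} : ψ ∈ Oset D (D.μ j) ↔ ∃ n, twist Q n (D.rep j) = ψ := by
  rw [mem_Oset_mu, ← D.idx_iff (D.rep j) ψ (D.rep_ne j), D.idx_rep]

theorem card_Oset_mu {m : ℕ} (hm : Nat.card (Subgroup.normalizer (Q : Set G)) = m * Nat.card (Subgroup.centralizer (Q : Set G))) (j : Fin r) :
    (Oset D (D.μ j)).card = m := by
  classical
  have h1 := orbVal_eq D.setup.comm D.setup.frob (D.rep_ne j) (1 : Q)
  have hC : (Nat.card (Subgroup.centralizer (Q : Set G)) : ℂ) ≠ 0 := card_centralizer_ne_zero_coe Q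
  have h2 : orbVal (D.rep j) (1 : Q) = (m : ℂ) := by
    rw [orbVal]
    simp only [map_one, linVal_one, Finset.sum_const, Finset.card_univ, nsmul_eq_mul, mul_one]
    rw [← Nat.card_eq_fintype_card, hm]
    push_cast
    field_simp
  have h3 : Finset.univ.filter (fun ψ' : Q →* ℂˣ => ∃ n, twist Q n (D.rep j) = ψ') = Oset D (D.μ j) := by
    ext ψ
    rw [mem_Oset_mu_iff]
    simp
  rw [h3, h2] at h1
  simp only [linVal_one, Finset.sum_const, nsmul_eq_mul, mul_one] at h1
  exact_mod_cast h1.symm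

theorem twist_fix [IsCyclic Q] (x : Q) (hx : orderOf x = p) (ψ : Q →* ℂˣ) (n : Subgroup.normalizer (Q : Set G)) (h : ψ x = 1) :
    twist Q n ψ x = 1 := by
  rw [twist_apply]
  have h1 : (conjQ Q n⁻¹ x) ^ p = 1 := by
    rw [← map_pow, ← hx, pow_orderOf_eq_one, map_one]
  obtain ⟨k, -, e⟩ := exists_pow_of_cyclic hx h1
  rw [e, map_pow, h, one_pow]

theorem Sval_orbit [IsCyclic Q] (x : Q) (hx : orderOf x = p) {j : Fin r} {ψ : Q →* ℂˣ} (hψ : ψ ∈ Oset D (D.μ j)) :
    Sval p x ψ = Sval p x (D.rep j) := by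
  classical
  obtain ⟨n, rfl⟩ := (mem_Oset_mu_iff D).mp hψ
  have h1 : (twist Q n (D.rep j)) x = 1 ↔ (D.rep j) x = 1 := by
    constructor
    · intro h
      have h2 := twist_fix x hx _ n⁻¹ h
      rwa [twist_inv_twist] at h2
    · exact twist_fix x hx _ n
  simp only [Sval, h1]

theorem nI_mu [IsCyclic Q] (x : Q) (hx : orderOf x = p) {m : ℕ}
    (hm : Nat.card (Subgroup.normalizer (Q : Set G)) = m * Nat.card (Subgroup.centralizer (Q : Set G))) (j : Fin r) :
    nI D x (D.μ j) = ((p : ℤ) - 1) * D.dval + D.E * ((m : ℤ) * Sval p x (D.rep j)) := by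
  classical
  rw [nI, D.valD_μ_eq j, Finset.sum_congr rfl (fun ψ hψ => Sval_orbit D x hx hψ), Finset.sum_const, card_Oset_mu D hm j]
  simp

include D in
theorem oneIrr_mem_principal : Cfsg.Agent.Lib.Blocks.oneIrr G ∈ principalBlock M G := by
  have := isPrime_of_modular D.setup.modular
  exact self_mem_blockOf (Cfsg.Agent.Lib.Blocks.oneIrr G)

theorem oneIrr_mem_Xf : Cfsg.Agent.Lib.Blocks.oneIrr G ∈ D.Xf :=
  D.mem_Xf.mpr ⟨oneIrr_mem_principal D, D.one_notMem_range⟩

theorem val_one : D.valD (Cfsg.Agent.Lib.Blocks.oneIrr G) = 1 := by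
  obtain ⟨y, hy⟩ := D.exists_ne_one
  have h1 := D.apply_eq_of_notMem_range (oneIrr_mem_principal D) D.one_notMem_range y hy
  have h2 : ((Cfsg.Agent.Lib.Blocks.oneIrr G : IrrCharacter G) : G → ℂ) (y : G) = 1 := rfl
  rw [h2] at h1
  exact_mod_cast h1.symm

theorem norm_Y {m : ℕ} (hm : Nat.card (Subgroup.normalizer (Q : Set G)) = m * Nat.card (Subgroup.centralizer (Q : Set G))) :
    (D.dval - D.E) ^ 2 + ((r : ℤ) - 1) * D.dval ^ 2 ≤ m := by
  have h1 := D.norm_identity hm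
  have h2 : (1 : ℤ) ≤ ∑ χ ∈ D.Xf, D.valD χ ^ 2 := by
    have h3 := Finset.single_le_sum (f := fun χ => D.valD χ ^ 2) (fun χ _ => sq_nonneg (D.valD χ)) (oneIrr_mem_Xf D)
    simp only [val_one, one_pow] at h3
    exact h3
  linarith

theorem norm_X {m : ℕ} (hm : Nat.card (Subgroup.normalizer (Q : Set G)) = m * Nat.card (Subgroup.centralizer (Q : Set G)))
    {χ : IrrCharacter G} (hχ : χ ∈ D.Xf) : D.valD χ ^ 2 ≤ (m : ℤ) + 1 := by
  have h1 := D.norm_identity hm
  have h2 : D.valD χ ^ 2 ≤ ∑ χ ∈ D.Xf, D.valD χ ^ 2 :=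
    Finset.single_le_sum (f := fun χ => D.valD χ ^ 2) (fun χ _ => sq_nonneg (D.valD χ)) hχ
  have hr : (0 : ℤ) ≤ (r : ℤ) - 1 := by
    have := D.i₀.2
    omega
  have h3 : 0 ≤ ((r : ℤ) - 1) * D.dval ^ 2 := mul_nonneg hr (sq_nonneg _)
  have h4 := sq_nonneg (D.dval - D.E)
  linarith

theorem norm_X' {m : ℕ} (hm : Nat.card (Subgroup.normalizer (Q : Set G)) = m * Nat.card (Subgroup.centralizer (Q : Set G)))
    {χ : IrrCharacter G} (hχ : χ ∈ D.Xf) (hne : χ ≠ Cfsg.Agent.Lib.Blocks.oneIrr G) : D.valD χ ^ 2 ≤ (m : ℤ) := by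
  classical
  have h1 := D.norm_identity hm
  have hr : (0 : ℤ) ≤ (r : ℤ) - 1 := by
    have := D.i₀.2
    omega
  have h3 : 0 ≤ ((r : ℤ) - 1) * D.dval ^ 2 := mul_nonneg hr (sq_nonneg _)
  have h4 := sq_nonneg (D.dval - D.E)
  have h5 := Finset.add_sum_erase D.Xf (fun χ => D.valD χ ^ 2) (oneIrr_mem_Xf D)
  have h6 : D.valD χ ^ 2 ≤ ∑ χ ∈ D.Xf.erase (Cfsg.Agent.Lib.Blocks.oneIrr G), D.valD χ ^ 2 :=
    Finset.single_le_sum (s := D.Xf.erase (Cfsg.Agent.Lib.Blocks.oneIrr G)) (f := fun χ => D.valD χ ^ 2)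
    (fun χ _ => sq_nonneg (D.valD χ)) (Finset.mem_erase.mpr ⟨hne, hχ⟩)
  simp only [val_one] at h5
  linarith

/-- The bound on the sums over the subgroup of order `p`. -/
theorem nI_bound [IsSimpleGroup G] [IsCyclic Q] (x : Q) (hx : orderOf x = p) {m : ℕ}
    (hm : Nat.card (Subgroup.normalizer (Q : Set G)) = m * Nat.card (Subgroup.centralizer (Q : Set G)))
    (hrm : r * m = Nat.card Q - 1) (hm1 : 1 ≤ m) (hmp : m ≤ p - 1) {χ : IrrCharacter G} (hχ : χ ∈ principalBlock M G)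
    (hne : χ ≠ Cfsg.Agent.Lib.Blocks.oneIrr G) :
    (Nat.card Q = p → 5 ≤ p → nI D x χ ≤ ((p : ℤ) - 3) * (charDegree (χ : G → ℂ) : ℤ)) ∧
    ((p : ℤ) ^ 2 ≤ Nat.card Q → 3 ≤ p → 2 * nI D x χ ≤ (2 * (p : ℤ) - 5) * (charDegree (χ : G → ℂ) : ℤ)) := by
  classical
  have hpp : 1 ≤ p := hp.out.one_le
  have hx1 : (x : G) ≠ 1 := by
    intro e
    have h1 : x = 1 := Subtype.ext e
    rw [h1, orderOf_one] at hx
    exact hp.out.one_lt.ne hx
  have hx1' : x ≠ 1 := fun e => hx1 (by rw [e]; rfl)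
  have hmpZ : (m : ℤ) ≤ (p : ℤ) - 1 := by
    have : ((m : ℕ) : ℤ) ≤ ((p - 1 : ℕ) : ℤ) := by exact_mod_cast hmp
    rwa [Nat.cast_sub hpp, Nat.cast_one] at this
  have hdeg := deg_eq D hχ
  have hdpos : (0 : ℤ) < (charDegree (χ : G → ℂ) : ℤ) := by
    have := charDegree_pos χ.2
    exact_mod_cast this
  have hval1 : (χ : G → ℂ) 1 = (charDegree (χ : G → ℂ) : ℂ) := apply_one_eq_charDegree (IsIrrCharacter.isCharacter χ.2)
  have hker := apply_ne_of_simple χ hne hx1
  have hβ0 := beta_nonneg D hχ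
  have hβv := beta_add_val_nonneg D χ
  by_cases hY : χ ∈ Set.range D.μ
  · obtain ⟨j, rfl⟩ := hY
    have hn := nI_mu D x hx hm j
    have hcard := card_Oset_mu D hm j
    rw [hcard] at hdeg
    rw [D.valD_μ_eq j] at hdeg hβv
    have hnorm := norm_Y D hm
    have hβE := beta_add_E_nonneg D j
    have hr2 : (2 : ℤ) ≤ r := by
      obtain ⟨i, hi⟩ := D.other
      have h1 := i.2
      have h2 := D.i₀.2
      have h3 : (i : ℕ) ≠ D.i₀ := fun e => hi (Fin.ext e)
      omega
    have hq1 : 1 ≤ Nat.card Q := Nat.card_pos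
    have hrZ : (r : ℤ) * (m : ℤ) = (Nat.card Q : ℤ) - 1 := by
      have h1 : ((r * m : ℕ) : ℤ) = ((Nat.card Q - 1 : ℕ) : ℤ) := by rw [hrm]
      rw [Nat.cast_sub hq1] at h1
      exact_mod_cast h1
    rw [hn, hdeg]
    constructor
    · intro hq h5
      have hs : Sval p x (D.rep j) = -1 := by
        rw [Sval, if_neg]
        intro h
        apply D.rep_ne j
        ext y
        have hy : y ^ p = 1 := by
          rw [← hq, Nat.card_eq_fintype_card]
          exact pow_card_eq_one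
        obtain ⟨k, -, e⟩ := exists_pow_of_cyclic hx hy
        rw [e, map_pow, h, one_pow]
        rfl
      have hqZ : (Nat.card Q : ℤ) = p := by exact_mod_cast hq
      rw [hs, hqZ]
      rw [hqZ] at hrZ
      have h7 := arith_Y1 (p : ℤ) m r D.dval D.E (D.beta (D.μ j)) (by exact_mod_cast h5) D.E_sign (by exact_mod_cast hm1) hr2 hrZ hβ0 hβv hβE hnorm (by
        rw [hdeg, hqZ] at hdpos
        exact hdpos)
      linarith
    · intro hq h3
      have hp3 : (3 : ℤ) ≤ p := by exact_mod_cast h3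
      have ha : D.dval = 0 := arith_norm_zero (p : ℤ) (Nat.card Q : ℤ) m r D.dval D.E hp3 hq (by exact_mod_cast hm1) hmpZ hrZ hnorm
      rw [ha] at hβv hdeg ⊢
      have hdpos' : 0 < (Nat.card Q : ℤ) * D.beta (D.μ j) + D.E * (m : ℤ) := by
        rw [hdeg] at hdpos
        linarith
      by_cases hs : (D.rep j) x = 1
      · have hs' : Sval p x (D.rep j) = (p : ℤ) - 1 := by rw [Sval, if_pos hs]
        rw [hs']
        have h7 := arith_Y2b (p : ℤ) (Nat.card Q : ℤ) m D.E (D.beta (D.μ j)) hp3 hq D.E_sign (by exact_mod_cast hm1) hmpZ (by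
          intro hE
          by_contra hlt
          have hb : D.beta (D.μ j) = 0 := by omega
          apply hker
          rw [hval1, D.apply_eq_sum (D.μ_mem j) x hx1']
          have h8 : ∀ ψ ∈ Finset.univ.filter (fun ψ : Q →* ℂˣ => ψ ≠ 1 ∧ D.μ (D.idx ψ) = D.μ j), linVal ψ x = 1 := by
            intro ψ hψ
            obtain ⟨n, rfl⟩ := (mem_Oset_mu_iff D).mp hψ
            have := twist_fix x hx _ n hs
            simp [linVal, this]
          rw [Finset.sum_congr rfl h8, D.valD_μ_eq j, ha, hE]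
          have h9 : (Finset.univ.filter (fun ψ : Q →* ℂˣ => ψ ≠ 1 ∧ D.μ (D.idx ψ) = D.μ j)).card = m := hcard
          simp only [Finset.sum_const, nsmul_eq_mul, mul_one, h9]
          have h10 : ((charDegree ((D.μ j : IrrCharacter G) : G → ℂ) : ℤ) : ℂ) = (m : ℂ) := by
            rw [hdeg, hb, hE]
            push_cast
            ring
          simp only [Int.cast_zero, Int.cast_one, zero_add, one_mul]
          exact_mod_cast h10.symm) hdpos'
        linarith
      · have hs' : Sval p x (D.rep j) = -1 := by rw [Sval, if_neg hs]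
        rw [hs']
        have h7 := arith_Y2a (p : ℤ) (Nat.card Q : ℤ) m D.E (D.beta (D.μ j)) hp3 hq D.E_sign (by exact_mod_cast hm1) hmpZ hβE hdpos'
        linarith
  · have hXf : χ ∈ D.Xf := D.mem_Xf.mpr ⟨hχ, hY⟩
    have hO : Oset D χ = ∅ := by
      apply Finset.filter_eq_empty_iff.mpr
      rintro ψ _ ⟨_, h2⟩
      exact hY ⟨_, h2⟩
    rw [hO] at hdeg
    have hn : nI D x χ = ((p : ℤ) - 1) * D.valD χ := by
      rw [nI, hO]
      simp
    simp only [Finset.card_empty, Nat.cast_zero, mul_zero, add_zero] at hdeg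
    have hv2 : D.valD χ ^ 2 ≤ (p : ℤ) - 1 := (norm_X' D hm hXf hne).trans hmpZ
    have hβ : 0 < D.valD χ → 1 ≤ D.beta χ := by
      intro hv
      by_contra hlt
      have hb : D.beta χ = 0 := by omega
      apply hker
      rw [hval1, D.apply_eq_of_notMem_range hχ hY x hx1']
      have h10 : ((charDegree (χ : G → ℂ) : ℤ) : ℂ) = (D.valD χ : ℂ) := by
        rw [hdeg, hb]
        simp
      exact_mod_cast h10.symm
    rw [hn, hdeg]
    constructor
    · intro hq h5
      have hqZ : (Nat.card Q : ℤ) = p := by exact_mod_cast hq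
      rw [hqZ]
      exact arith_X1 (p : ℤ) (D.valD χ) (D.beta χ) (by exact_mod_cast h5) hv2 hβ (by
        rw [hdeg, hqZ] at hdpos
        exact hdpos)
    · intro hq h3
      have h7 := arith_X2 (p : ℤ) (Nat.card Q : ℤ) (D.valD χ) (D.beta χ) (by exact_mod_cast h3) hq hv2 hβ (by
        rw [hdeg] at hdpos
        exact hdpos)
      exact h7

end data

end Cfsg.Agent.Lib.Tech.CP
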