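import Cfsg.Agent.Lib.Tech.CycPair2

/-!
# Cyclic Sylow subgroups and pairs of elements of order `p`: the sums over the block
-/

set_option autoImplicit false
set_option linter.unusedSectionVars false
set_option linter.style.haveILetI false
set_option linter.unusedVariables false

namespace Cfsg.Agent.Lib.Tech.CP

open Cfsg Cfsg.Agent.Lib.Char Cfsg.Agent.Lib.Blocks
open scoped ComplexConjugate

universe u

section sums

variable {G : Type u} [Group G] [Fintype G] {p : ℕ} [hp : Fact p.Prime] {M : Ideal AlgInt} {Q : Subgroup G}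

/-- The sum of a character over the non-identity powers of `x`. -/
noncomputable def nC (p : ℕ) (x : G) (χ : IrrCharacter G) : ℂ :=
  ∑ i ∈ Finset.range (p - 1), (χ : G → ℂ) (x ^ (i + 1))

/-- The class function attached to the sums. -/
noncomputable def Bf (M : Ideal AlgInt) (p : ℕ) (x g : G) : ℂ :=
  ∑ χ : IrrCharacter G, indic (principalBlock M G) χ * (nC p x χ * (χ : G → ℂ) g)

theorem X_mem (x : G) (hx : x ∈ Q) (i : ℕ) : x ^ (i + 1) ∈ Q := Q.pow_mem hx _

theorem X_ne (x : G) (hxo : orderOf x = p) {i : ℕ} (hi : i ∈ Finset.range (p - 1)) : x ^ (i + 1) ≠ 1 := by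
  apply pow_ne_one_of_lt_orderOf (by omega)
  rw [hxo]
  have := Finset.mem_range.mp hi
  omega

theorem Bf_regular (h : FrobSetup p M Q) {x g : G} (hx : x ∈ Q) (hxo : orderOf x = p) (hg : ¬ p ∣ orderOf g) :
    Bf M p x g = 0 := by
  classical
  unfold Bf nC
  simp only [Finset.sum_mul, Finset.mul_sum]
  rw [Finset.sum_comm]
  apply Finset.sum_eq_zero
  intro i hi
  exact h.column_regular (X_mem x hx i) (X_ne x hxo hi) hg

theorem Bf_section (h : FrobSetup p M Q) {x y : G} (hx : x ∈ Q) (hxo : orderOf x = p) (hy : y ∈ Q)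
    (hreal : ∀ χ ∈ principalBlock M G, conj (nC p x χ) = nC p x χ) :
    open scoped Classical in
    Bf M p x y = (((Finset.range (p - 1)).filter (fun i => IsConj y (x ^ (i + 1)))).card : ℂ) * (Nat.card Q : ℂ) := by
  classical
  have h1 : Bf M p x y = ∑ χ : IrrCharacter G, indic (principalBlock M G) χ * (conj (nC p x χ) * (χ : G → ℂ) y) := by
    unfold Bf
    refine Finset.sum_congr rfl fun χ _ => ?_
    by_cases hχ : χ ∈ principalBlock M G
    · rw [hreal χ hχ]
    · rw [indic_apply_of_notMem hχ, zero_mul, zero_mul]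
  rw [h1]
  unfold nC
  simp only [map_sum, Finset.sum_mul, Finset.mul_sum]
  rw [Finset.sum_comm]
  have h2 : ∀ i ∈ Finset.range (p - 1), ∑ χ : IrrCharacter G, indic (principalBlock M G) χ *
      (conj ((χ : G → ℂ) (x ^ (i + 1))) * (χ : G → ℂ) y) = if IsConj y (x ^ (i + 1)) then (Nat.card Q : ℂ) else 0 := by
    intro i hi
    have h3 := h.column (X_mem x hx i) hy (X_ne x hxo hi)
    rw [← h3]
    refine Finset.sum_congr rfl fun χ _ => ?_
    ring
  rw [Finset.sum_congr rfl h2, ← Finset.sum_filter, Finset.sum_const, nsmul_eq_mul]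

/-- Reduction to the Sylow subgroup. -/
theorem exists_section (P : Sylow p G) (h : FrobSetup p M (P : Subgroup G)) {α : ℕ} (hα : IsPExp p G α) {g : G}
    (hg : p ∣ orderOf g) :
    ∃ c : G, c * g ^ α * c⁻¹ ∈ (P : Subgroup G) ∧ c * g ^ α * c⁻¹ ≠ 1 ∧
      ∀ χ ∈ principalBlock M G, (χ : G → ℂ) g = (χ : G → ℂ) (c * g ^ α * c⁻¹) := by
  obtain ⟨v, hv, hc', ⟨k, hk⟩, hreg⟩ := hα.isPPart g
  set u := g ^ α with hu
  have hu1 : u ≠ 1 := fun e => (hα.pow_eq_one_iff.mp e) hg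
  obtain ⟨S, hS⟩ := IsPGroup.exists_le_sylow (isPGroup_zpowers (p := p) ⟨k, hk⟩)
  have huS : u ∈ (S : Subgroup G) := hS (Subgroup.mem_zpowers u)
  obtain ⟨c, hc⟩ := MulAction.exists_smul_eq G S P
  have huP : c * u * c⁻¹ ∈ (P : Subgroup G) := by
    rw [← hc, Sylow.coe_subgroup_smul, Subgroup.mem_smul_pointwise_iff_exists]
    exact ⟨u, huS, rfl⟩
  have hy1 : c * u * c⁻¹ ≠ 1 := by
    intro e
    apply hu1
    have h2 : u = c⁻¹ * (c * u * c⁻¹) * c := by group
    rw [h2, e]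
    group
  refine ⟨c, huP, hy1, fun χ hχ => ?_⟩
  have hpart' : IsPPart p (c * g * c⁻¹) (c * u * c⁻¹) := by
    refine ⟨c * v * c⁻¹, ?_, ?_, ⟨k, ?_⟩, ?_⟩
    · show c * u * c⁻¹ * (c * v * c⁻¹) = c * g * c⁻¹
      rw [← hv]
      group
    · show c * u * c⁻¹ * (c * v * c⁻¹) = c * v * c⁻¹ * (c * u * c⁻¹)
      have h3 : u * v = v * u := hc'
      calc c * u * c⁻¹ * (c * v * c⁻¹) = c * (u * v) * c⁻¹ := by group
        _ = c * (v * u) * c⁻¹ := by rw [h3]
        _ = _ := by group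
    · show orderOf (c * u * c⁻¹) = p ^ k
      rw [← hk]
      exact (MulEquiv.orderOf_eq (MulAut.conj c) u)
    · have h4 : orderOf (c * v * c⁻¹) = orderOf v := MulEquiv.orderOf_eq (MulAut.conj c) v
      rw [h4]
      exact hreg
  have h5 := h.apply_eq_of_isPPart hpart' huP hy1 hχ
  rw [irr_isClassFunction] at h5
  exact h5

theorem Bf_congr {x g y : G} (hg : ∀ χ ∈ principalBlock M G, (χ : G → ℂ) g = (χ : G → ℂ) y) : Bf M p x g = Bf M p x y := by
  classical
  unfold Bf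
  refine Finset.sum_congr rfl fun χ _ => ?_
  by_cases hχ : χ ∈ principalBlock M G
  · rw [hg χ hχ]
  · rw [indic_apply_of_notMem hχ, zero_mul, zero_mul]

theorem sum_conj_mul' (χ : IrrCharacter G) (u t : G) :
    ∑ b : G, (χ : G → ℂ) (b * u * b⁻¹ * t) = (Fintype.card G : ℂ) * ((χ : G → ℂ) u * (χ : G → ℂ) t) / (χ : G → ℂ) 1 := by
  have hone : (χ : G → ℂ) 1 ≠ 0 := by
    intro h
    rw [apply_one_eq_charDegree (IsIrrCharacter.isCharacter χ.2)] at h
    have h9 := charDegree_pos χ.2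
    have h10 : charDegree (χ : G → ℂ) = 0 := by exact_mod_cast h
    omega
  have h1 := IsIrrCharacter.sum_conj_mul χ.2 u t
  rw [Nat.card_eq_fintype_card] at h1
  rw [eq_div_iff hone]
  linear_combination h1

/-- The triple sum. -/
theorem Bf_triple (x : G) :
    ∑ b : G, ∑ i ∈ Finset.range (p - 1), ∑ j ∈ Finset.range (p - 1), Bf M p x (b * x ^ (i + 1) * b⁻¹ * x ^ (j + 1)) =
      (Fintype.card G : ℂ) * ∑ χ : IrrCharacter G, indic (principalBlock M G) χ *
        (nC p x χ * (nC p x χ * nC p x χ) / (χ : G → ℂ) 1) := by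
  classical
  have h1 : ∀ i ∈ Finset.range (p - 1), ∀ j ∈ Finset.range (p - 1),
      ∑ b : G, Bf M p x (b * x ^ (i + 1) * b⁻¹ * x ^ (j + 1)) =
      ∑ χ : IrrCharacter G, indic (principalBlock M G) χ * (nC p x χ *
        ((Fintype.card G : ℂ) * ((χ : G → ℂ) (x ^ (i + 1)) * (χ : G → ℂ) (x ^ (j + 1))) / (χ : G → ℂ) 1)) := by
    intro i _ j _
    unfold Bf
    rw [Finset.sum_comm]
    refine Finset.sum_congr rfl fun χ _ => ?_
    rw [← sum_conj_mul', Finset.mul_sum, Finset.mul_sum]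
  have h2 : ∑ b : G, ∑ i ∈ Finset.range (p - 1), ∑ j ∈ Finset.range (p - 1), Bf M p x (b * x ^ (i + 1) * b⁻¹ * x ^ (j + 1)) =
      ∑ i ∈ Finset.range (p - 1), ∑ j ∈ Finset.range (p - 1), ∑ b : G, Bf M p x (b * x ^ (i + 1) * b⁻¹ * x ^ (j + 1)) := by
    rw [Finset.sum_comm]
    refine Finset.sum_congr rfl fun i _ => ?_
    rw [Finset.sum_comm]
  rw [h2, Finset.sum_congr rfl (fun i hi => Finset.sum_congr rfl (fun j hj => h1 i hi j hj))]
  have h3 : ∑ i ∈ Finset.range (p - 1), ∑ j ∈ Finset.range (p - 1), ∑ χ : IrrCharacter G, indic (principalBlock M G) χ * (nC p x χ *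
        ((Fintype.card G : ℂ) * ((χ : G → ℂ) (x ^ (i + 1)) * (χ : G → ℂ) (x ^ (j + 1))) / (χ : G → ℂ) 1)) =
      ∑ χ : IrrCharacter G, ∑ i ∈ Finset.range (p - 1), ∑ j ∈ Finset.range (p - 1), indic (principalBlock M G) χ * (nC p x χ *
        ((Fintype.card G : ℂ) * ((χ : G → ℂ) (x ^ (i + 1)) * (χ : G → ℂ) (x ^ (j + 1))) / (χ : G → ℂ) 1)) := by
    exact (Finset.sum_congr rfl (fun i _ => Finset.sum_comm)).trans Finset.sum_comm
  rw [h3, Finset.mul_sum]
  refine Finset.sum_congr rfl fun χ _ => ?_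
  have h4 : nC p x χ * nC p x χ = ∑ i ∈ Finset.range (p - 1), ∑ j ∈ Finset.range (p - 1),
      (χ : G → ℂ) (x ^ (i + 1)) * (χ : G → ℂ) (x ^ (j + 1)) := by
    unfold nC
    rw [Finset.sum_mul_sum]
  rw [h4]
  simp only [Finset.sum_div, Finset.mul_sum]
  refine Finset.sum_congr rfl fun i _ => Finset.sum_congr rfl fun j _ => ?_
  ring

end sums

end Cfsg.Agent.Lib.Tech.CP
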