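import Cfsg.Agent.Lib.Tech.CycPair3

/-!
# Cyclic Sylow subgroups and pairs of elements of order `p`: the simple case with Brauer's data
-/

set_option autoImplicit false
set_option linter.unusedSectionVars false
set_option linter.style.haveILetI false
set_option linter.unusedVariables false

namespace Cfsg.Agent.Lib.Tech.CP

open Cfsg Cfsg.Agent.Lib.Char Cfsg.Agent.Lib.Blocks
open scoped ComplexConjugate

universe u

section final

variable {G : Type u} [Group G] [Fintype G] {p : ℕ} [hp : Fact p.Prime] {M : Ideal AlgInt}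
  {Q : Subgroup G} [Fintype Q] [Fintype (Subgroup.normalizer (Q : Set G))]

open scoped Classical in
/-- The number of conjugates in `Q`. -/
theorem card_conj_eq (h : FrobSetup p M Q) {m : ℕ}
    (hm : Nat.card (Subgroup.normalizer (Q : Set G)) = m * Nat.card (Subgroup.centralizer (Q : Set G))) {y : Q} (hy : y ≠ 1) :
    (Finset.univ.filter (fun v : Q => IsConj (v : G) (y : G))).card = m := by
  have h1 := h.sum_conj_fiber (fun _ => 1) y hy
  simp only [Finset.sum_const, Finset.card_univ, nsmul_eq_mul, mul_one, Finset.sum_boole] at h1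
  rw [← Nat.card_eq_fintype_card, hm] at h1
  have hC : (Nat.card (Subgroup.centralizer (Q : Set G)) : ℂ) ≠ 0 := card_centralizer_ne_zero_coe Q
  push_cast at h1
  rw [mul_comm] at h1
  have h2 := mul_left_cancel₀ hC h1
  exact_mod_cast h2.symm

open scoped Classical in
theorem count_eq [IsCyclic Q] (h : FrobSetup p M Q) {m : ℕ}
    (hm : Nat.card (Subgroup.normalizer (Q : Set G)) = m * Nat.card (Subgroup.centralizer (Q : Set G)))
    {x : G} (hxQ : x ∈ Q) (hxo : orderOf x = p) {y : G} (hyQ : y ∈ Q) (hy1 : y ≠ 1) (hyp : y ^ p = 1) :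
    ((Finset.range (p - 1)).filter (fun i => IsConj y (x ^ (i + 1)))).card = m := by
  let x' : Q := ⟨x, hxQ⟩
  let y' : Q := ⟨y, hyQ⟩
  have hx'o : orderOf x' = p := by
    rw [← Subgroup.orderOf_coe]
    exact hxo
  have hy' : y' ≠ 1 := fun e => hy1 (congrArg Subtype.val e)
  have h1 := card_conj_eq h hm hy'
  have himg : Finset.univ.filter (fun v : Q => IsConj (v : G) (y' : G)) =
      ((Finset.range (p - 1)).filter (fun i => IsConj y (x ^ (i + 1)))).image (fun i => x' ^ (i + 1)) := by
    ext v
    simp only [Finset.mem_filter, Finset.mem_univ, true_and, Finset.mem_image, Finset.mem_range]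
    constructor
    · intro hv
      obtain ⟨c, hc⟩ := isConj_iff.mp hv
      have hvp : v ^ p = 1 := by
        apply Subtype.ext
        show (v : G) ^ p = 1
        have h3 : c * (v : G) ^ p * c⁻¹ = y ^ p := by
          have h4 : y = c * (v : G) * c⁻¹ := hc.symm
          rw [h4, conj_pow]
        rw [hyp] at h3
        have h4 : (v : G) ^ p = c⁻¹ * (c * (v : G) ^ p * c⁻¹) * c := by group
        rw [h4, h3]
        group
      have hv1 : v ≠ 1 := by
        intro e
        apply hy1
        have h4 : y = c * (v : G) * c⁻¹ := hc.symm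
        rw [h4, e]
        simp
      obtain ⟨k, hk, e⟩ := exists_pow_of_cyclic hx'o hvp
      have hk0 : k ≠ 0 := by
        rintro rfl
        exact hv1 (by simpa using e)
      refine ⟨k - 1, ⟨by omega, ?_⟩, ?_⟩
      · have h5 : x ^ (k - 1 + 1) = (v : G) := by
          rw [Nat.sub_add_cancel (by omega), e]
          rfl
        rw [h5]
        exact hv.symm
      · rw [Nat.sub_add_cancel (by omega), e]
    · rintro ⟨i, ⟨hi, hconj⟩, rfl⟩
      exact hconj.symm
  rw [himg, Finset.card_image_of_injOn] at h1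
  · exact h1
  · intro a ha b hb hab
    have ha' := Finset.mem_range.mp (Finset.mem_filter.mp ha).1
    have hb' := Finset.mem_range.mp (Finset.mem_filter.mp hb).1
    have hp1 := hp.out.one_lt
    have ha3 : a + 1 ∈ Set.Iio (orderOf x') := by
      rw [Set.mem_Iio, hx'o]
      omega
    have hb3 : b + 1 ∈ Set.Iio (orderOf x') := by
      rw [Set.mem_Iio, hx'o]
      omega
    have h5 : a + 1 = b + 1 := pow_injOn_Iio_orderOf ha3 hb3 hab
    omega

theorem exists_block (M : Ideal AlgInt) (G : Type u) [Group G] [Fintype G] :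
    ∃ B : Finset (IrrCharacter G), (∀ χ, χ ∈ B ↔ χ ∈ principalBlock M G) ∧
      ∀ f : IrrCharacter G → ℂ, ∑ χ : IrrCharacter G, indic (principalBlock M G) χ * f χ = ∑ χ ∈ B, f χ := by
  classical
  refine ⟨Finset.univ.filter (fun χ => χ ∈ principalBlock M G), by simp, ?_⟩
  intro f
  rw [Finset.sum_filter]
  refine Finset.sum_congr rfl fun χ _ => ?_
  by_cases hχ : χ ∈ principalBlock M G
  · rw [if_pos hχ, indic_apply_of_mem hχ, one_mul]
  · rw [if_neg hχ, indic_apply_of_notMem hχ, zero_mul]

end final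

section final2

variable {G : Type u} [Group G] [Fintype G] {p : ℕ} [hp : Fact p.Prime] {M : Ideal AlgInt}

open scoped Classical in
/-- The values of the class function on products. -/
theorem Bf_pair (P : Sylow p G) [Fintype (P : Subgroup G)] [Fintype (Subgroup.normalizer ((P : Subgroup G) : Set G))] (hcyc : IsCyclic (P : Subgroup G))
    (h : FrobSetup p M (P : Subgroup G)) {m : ℕ}
    (hm : Nat.card (Subgroup.normalizer ((P : Subgroup G) : Set G)) = m * Nat.card (Subgroup.centralizer ((P : Subgroup G) : Set G)))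
    {x : G} (hxQ : x ∈ (P : Subgroup G)) (hxo : orderOf x = p)
    (hreal : ∀ χ ∈ principalBlock M G, conj (nC p x χ) = nC p x χ)
    (hc : ∀ x y : G, orderOf x = p → orderOf y = p → IsPSolvable p ↥(Subgroup.closure ({x, y} : Set G)))
    (hcomm : ∀ a ∈ (P : Subgroup G), ∀ b ∈ (P : Subgroup G), a * b = b * a)
    (b : G) {i j : ℕ} (hi : i ∈ Finset.range (p - 1)) :
    Bf M p x (b * x ^ (i + 1) * b⁻¹ * x ^ (j + 1)) =
      if p ∣ orderOf (b * x ^ (i + 1) * b⁻¹ * x ^ (j + 1)) then (m : ℂ) * (Nat.card (P : Subgroup G) : ℂ) else 0 := by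
  set g := b * x ^ (i + 1) * b⁻¹ * x ^ (j + 1) with hg
  by_cases hsing : p ∣ orderOf g
  · rw [if_pos hsing]
    obtain ⟨α, hα⟩ := exists_isPExp (G := G) (p := p)
    have hu : orderOf (b * x ^ (i + 1) * b⁻¹) = p := by
      have h1 : orderOf (b * x ^ (i + 1) * b⁻¹) = orderOf (x ^ (i + 1)) := MulEquiv.orderOf_eq (MulAut.conj b) _
      rw [h1]
      apply orderOf_eq_prime
      · rw [← pow_mul, mul_comm, pow_mul, ← hxo, pow_orderOf_eq_one, one_pow]
      · exact X_ne x hxo hi
    have hcl := hc _ _ hu hxo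
    have hgmem : g ∈ Subgroup.closure ({b * x ^ (i + 1) * b⁻¹, x} : Set G) := by
      apply Subgroup.mul_mem
      · exact Subgroup.subset_closure (by simp)
      · exact Subgroup.pow_mem _ (Subgroup.subset_closure (by simp)) _
    obtain ⟨v, hv, hc', ⟨k, hk⟩, hreg⟩ := hα.isPPart g
    have hp1 := pow_eq_one_of_pElement P hcomm hu hxo hcl (Subgroup.pow_mem _ hgmem α) ⟨k, hk⟩
    obtain ⟨c, hcP, hc1, hcv⟩ := exists_section P h hα hsing
    rw [Bf_congr hcv]
    have hyp : (c * g ^ α * c⁻¹) ^ p = 1 := by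
      rw [conj_pow, hp1]
      group
    rw [Bf_section h hxQ hxo hcP hreal, count_eq h hm hxQ hxo hcP hc1 hyp]
  · rw [if_neg hsing]
    exact Bf_regular h hxQ hxo hsing

open scoped Classical in
/-- The counting bound. -/
theorem card_singular_ge (P : Sylow p G)
    (hcomm : ∀ a ∈ (P : Subgroup G), ∀ b ∈ (P : Subgroup G), a * b = b * a) {u x : G} (hu : orderOf u = p)
    (hxo : orderOf x = p) (hc : IsPSolvable p ↥(Subgroup.closure ({u, x} : Set G))) :
    p - 2 ≤ ((Finset.range (p - 1)).filter (fun j => p ∣ orderOf (u * x ^ (j + 1)))).card := by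
  have h1 := Finset.card_filter_add_card_filter_not (s := Finset.range (p - 1)) (fun j => p ∣ orderOf (u * x ^ (j + 1)))
  rw [Finset.card_range] at h1
  have h2 : ((Finset.range (p - 1)).filter (fun j => ¬ p ∣ orderOf (u * x ^ (j + 1)))).card ≤ 1 := by
    rw [Finset.card_le_one]
    intro a ha b hb
    obtain ⟨ha1, ha2⟩ := Finset.mem_filter.mp ha
    obtain ⟨hb1, hb2⟩ := Finset.mem_filter.mp hb
    have ha1' := Finset.mem_range.mp ha1
    have hb1' := Finset.mem_range.mp hb1
    by_contra hne
    rcases lt_or_gt_of_ne hne with hlt | hlt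
    · exact Cfsg.Agent.Lib.Tech.OC.not_both_regular P hcomm hu hxo hc (i := a + 1) (j := b + 1) (by omega) (by omega) ha2 hb2
    · exact Cfsg.Agent.Lib.Tech.OC.not_both_regular P hcomm hu hxo hc (i := b + 1) (j := a + 1) (by omega) (by omega) hb2 ha2
  omega

end final2

end Cfsg.Agent.Lib.Tech.CP
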