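import Cfsg.Agent.Lib.Tech.CycPair4

/-!
# Cyclic Sylow subgroups and pairs of elements of order `p`: the simple case
-/

set_option autoImplicit false
set_option linter.unusedSectionVars false
set_option linter.style.haveILetI false
set_option linter.unusedVariables false

namespace Cfsg.Agent.Lib.Tech.CP

open Cfsg Cfsg.Agent.Lib.Char Cfsg.Agent.Lib.Blocks
open scoped ComplexConjugate

universe u

section brauer

variable {G : Type u} [Group G] [Fintype G] {p : ℕ} [hp : Fact p.Prime] {M : Ideal AlgInt}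

set_option maxHeartbeats 1000000 in
theorem brauer_case [IsSimpleGroup G] (P : Sylow p G) [Fintype (P : Subgroup G)]
    [Fintype (Subgroup.normalizer ((P : Subgroup G) : Set G))] [Fintype ((P : Subgroup G) →* ℂˣ)]
    (hcyc : IsCyclic (P : Subgroup G)) {r m : ℕ} (D : BrauerData p M (P : Subgroup G) r)
    (hm : Nat.card (Subgroup.normalizer ((P : Subgroup G) : Set G)) = m * Nat.card (Subgroup.centralizer ((P : Subgroup G) : Set G)))
    (hrm : r * m = Nat.card (P : Subgroup G) - 1) (hm2 : 2 ≤ m) {x : G} (hxQ : x ∈ (P : Subgroup G)) (hxo : orderOf x = p)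
    (hc : ∀ x y : G, orderOf x = p → orderOf y = p → IsPSolvable p ↥(Subgroup.closure ({x, y} : Set G))) : False := by
  classical
  haveI := hcyc
  have h := D.setup
  have hcomm := h.comm
  let x' : (P : Subgroup G) := ⟨x, hxQ⟩
  have hx'o : orderOf x' = p := by
    rw [← Subgroup.orderOf_coe]
    exact hxo
  have hx1 : x ≠ 1 := by
    rintro rfl
    rw [orderOf_one] at hxo
    exact hp.out.one_lt.ne hxo
  have hxp : x ^ p = 1 := by
    rw [← hxo]
    exact pow_orderOf_eq_one x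
  have hn : ∀ χ ∈ principalBlock M G, nC p x χ = ((nI D x' χ : ℤ) : ℂ) := by
    intro χ hχ
    rw [nI_spec D hχ x' hx'o]
    rfl
  have hreal : ∀ χ ∈ principalBlock M G, conj (nC p x χ) = nC p x χ := by
    intro χ hχ
    rw [hn χ hχ]
    simp
  have hmp : m ≤ p - 1 := by
    have h1 := count_eq h hm hxQ hxo hxQ hx1 hxp
    rw [← h1]
    refine (Finset.card_filter_le _ _).trans ?_
    rw [Finset.card_range]
  have hpp := hp.out.one_lt
  have hp3 : 3 ≤ p := by omega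
  obtain ⟨B, hB, hindic⟩ := exists_block M G
  set q := Nat.card (P : Subgroup G) with hq
  have hXmem : ∀ i, x ^ (i + 1) ∈ (P : Subgroup G) := fun i => X_mem x hxQ i
  have hXpow : ∀ i : ℕ, (x ^ (i + 1)) ^ p = 1 := by
    intro i
    rw [← pow_mul, mul_comm, pow_mul, hxp, one_pow]
  -- the sum of squares
  have hT0C : ∑ χ ∈ B, (((nI D x' χ : ℤ) : ℂ) * ((nI D x' χ : ℤ) : ℂ)) = ((p : ℂ) - 1) * ((m : ℂ) * (q : ℂ)) := by
    have h1 : ∑ χ : IrrCharacter G, indic (principalBlock M G) χ * (nC p x χ * nC p x χ) =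
        ∑ i ∈ Finset.range (p - 1), Bf M p x (x ^ (i + 1)) := by
      unfold Bf
      rw [Finset.sum_comm]
      refine Finset.sum_congr rfl fun χ _ => ?_
      rw [← Finset.mul_sum, ← Finset.mul_sum]
      congr 2
    have h2 : ∀ i ∈ Finset.range (p - 1), Bf M p x (x ^ (i + 1)) = (m : ℂ) * (q : ℂ) := by
      intro i hi
      rw [Bf_section h hxQ hxo (hXmem i) hreal, count_eq h hm hxQ hxo (hXmem i) (X_ne x hxo hi) (hXpow i)]
    rw [Finset.sum_congr rfl h2, Finset.sum_const, Finset.card_range, nsmul_eq_mul, hindic] at h1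
    rw [Nat.cast_sub hpp.le, Nat.cast_one] at h1
    rw [← h1]
    refine Finset.sum_congr rfl fun χ hχ => ?_
    rw [hn χ ((hB χ).mp hχ)]
  have hT0 : ∑ χ ∈ B, (((nI D x' χ : ℤ) : ℝ)) ^ 2 = ((p : ℝ) - 1) * ((m : ℝ) * (q : ℝ)) := by
    have h1 : ((∑ χ ∈ B, (((nI D x' χ : ℤ) : ℝ)) ^ 2 : ℝ) : ℂ) = ((((p : ℝ) - 1) * ((m : ℝ) * (q : ℝ)) : ℝ) : ℂ) := by
      push_cast
      rw [← hT0C]
      refine Finset.sum_congr rfl fun χ _ => ?_
      ring
    exact_mod_cast h1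
  -- the triple sum
  let c : G → ℕ → ℕ := fun b i => ((Finset.range (p - 1)).filter (fun j => p ∣ orderOf (b * x ^ (i + 1) * b⁻¹ * x ^ (j + 1)))).card
  have hcsum : ∀ b : G, ∀ i ∈ Finset.range (p - 1), ∑ j ∈ Finset.range (p - 1), Bf M p x (b * x ^ (i + 1) * b⁻¹ * x ^ (j + 1)) =
      (c b i : ℂ) * ((m : ℂ) * (q : ℂ)) := by
    intro b i hi
    have h1 : ∀ j ∈ Finset.range (p - 1), Bf M p x (b * x ^ (i + 1) * b⁻¹ * x ^ (j + 1)) = _ :=
      fun j _ => Bf_pair P hcyc h hm hxQ hxo hreal hc hcomm b hi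
    rw [Finset.sum_congr rfl h1, ← Finset.sum_filter, Finset.sum_const, nsmul_eq_mul]
  have hS3C : (Fintype.card G : ℂ) * ∑ χ ∈ B, (((nI D x' χ : ℤ) : ℂ) ^ 3 / ((charDegree (χ : G → ℂ) : ℕ) : ℂ)) =
      ((∑ b : G, ∑ i ∈ Finset.range (p - 1), c b i : ℕ) : ℂ) * ((m : ℂ) * (q : ℂ)) := by
    have h1 := Bf_triple (M := M) (p := p) x
    rw [hindic] at h1
    have h2 : ∑ χ ∈ B, (nC p x χ * (nC p x χ * nC p x χ) / (χ : G → ℂ) 1) =
        ∑ χ ∈ B, (((nI D x' χ : ℤ) : ℂ) ^ 3 / ((charDegree (χ : G → ℂ) : ℕ) : ℂ)) := by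
      refine Finset.sum_congr rfl fun χ hχ => ?_
      rw [hn χ ((hB χ).mp hχ), apply_one_eq_charDegree (IsIrrCharacter.isCharacter χ.2)]
      ring
    rw [← h2, ← h1]
    push_cast
    rw [Finset.sum_mul]
    refine Finset.sum_congr rfl fun b _ => ?_
    rw [Finset.sum_mul]
    refine Finset.sum_congr rfl fun i hi => ?_
    exact hcsum b i hi
  have hS3 : (Fintype.card G : ℝ) * ∑ χ ∈ B, (((nI D x' χ : ℤ) : ℝ) ^ 3 / ((charDegree (χ : G → ℂ) : ℕ) : ℝ)) =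
      ((∑ b : G, ∑ i ∈ Finset.range (p - 1), c b i : ℕ) : ℝ) * ((m : ℝ) * (q : ℝ)) := by
    have h1 : (((Fintype.card G : ℝ) * ∑ χ ∈ B, (((nI D x' χ : ℤ) : ℝ) ^ 3 / ((charDegree (χ : G → ℂ) : ℕ) : ℝ)) : ℝ) : ℂ) =
        ((((∑ b : G, ∑ i ∈ Finset.range (p - 1), c b i : ℕ) : ℝ) * ((m : ℝ) * (q : ℝ)) : ℝ) : ℂ) := by
      push_cast
      push_cast at hS3C
      exact hS3C
    exact_mod_cast h1
  have hCge : Fintype.card G * ((p - 1) * (p - 2)) ≤ ∑ b : G, ∑ i ∈ Finset.range (p - 1), c b i := by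
    have h1 : ∀ b ∈ (Finset.univ : Finset G), (p - 1) * (p - 2) ≤ ∑ i ∈ Finset.range (p - 1), c b i := by
      intro b _
      have h2 : ∀ i ∈ Finset.range (p - 1), p - 2 ≤ c b i := by
        intro i hi
        have hu : orderOf (b * x ^ (i + 1) * b⁻¹) = p := by
          have h3 : orderOf (b * x ^ (i + 1) * b⁻¹) = orderOf (x ^ (i + 1)) := MulEquiv.orderOf_eq (MulAut.conj b) _
          rw [h3]
          exact orderOf_eq_prime (hXpow i) (X_ne x hxo hi)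
        exact card_singular_ge P hcomm hu hxo (hc _ _ hu hxo)
      have h3 := Finset.card_nsmul_le_sum _ _ _ h2
      rwa [Finset.card_range, smul_eq_mul] at h3
    have h3 := Finset.card_nsmul_le_sum _ _ _ h1
    rwa [Finset.card_univ, smul_eq_mul] at h3
  have hGpos : (0 : ℝ) < Fintype.card G := by exact_mod_cast Fintype.card_pos
  have hmq : (0 : ℝ) ≤ (m : ℝ) * (q : ℝ) := by positivity
  have hpR : (3 : ℝ) ≤ p := by exact_mod_cast hp3
  have h3final : ((p : ℝ) - 2) * (((p : ℝ) - 1) * ((m : ℝ) * (q : ℝ))) ≤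
      ∑ χ ∈ B, (((nI D x' χ : ℤ) : ℝ) ^ 3 / ((charDegree (χ : G → ℂ) : ℕ) : ℝ)) := by
    apply le_of_mul_le_mul_left _ hGpos
    rw [hS3]
    have h1 : ((Fintype.card G * ((p - 1) * (p - 2)) : ℕ) : ℝ) ≤ ((∑ b : G, ∑ i ∈ Finset.range (p - 1), c b i : ℕ) : ℝ) := by
      exact_mod_cast hCge
    have h2 : ((Fintype.card G * ((p - 1) * (p - 2)) : ℕ) : ℝ) = (Fintype.card G : ℝ) * (((p : ℝ) - 1) * ((p : ℝ) - 2)) := by
      push_cast
      rw [Nat.cast_sub (by omega), Nat.cast_sub (by omega)]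
      push_cast
      ring
    rw [h2] at h1
    have h4 := mul_le_mul_of_nonneg_right h1 hmq
    calc (Fintype.card G : ℝ) * (((p : ℝ) - 2) * (((p : ℝ) - 1) * ((m : ℝ) * (q : ℝ))))
        = (Fintype.card G : ℝ) * (((p : ℝ) - 1) * ((p : ℝ) - 2)) * ((m : ℝ) * (q : ℝ)) := by ring
      _ ≤ _ := h4
  -- the principal character
  have ho : Cfsg.Agent.Lib.Blocks.oneIrr G ∈ B := (hB _).mpr (oneIrr_mem_principal D)
  have hno : (((nI D x' (Cfsg.Agent.Lib.Blocks.oneIrr G) : ℤ) : ℝ)) = (p : ℝ) - 1 := by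
    have h1 := hn _ (oneIrr_mem_principal D)
    have h2 : nC p x (Cfsg.Agent.Lib.Blocks.oneIrr G) = ((p : ℂ) - 1) := by
      unfold nC
      have h3 : ∀ i ∈ Finset.range (p - 1), ((Cfsg.Agent.Lib.Blocks.oneIrr G : IrrCharacter G) : G → ℂ) (x ^ (i + 1)) = 1 := fun _ _ => rfl
      rw [Finset.sum_congr rfl h3, Finset.sum_const, Finset.card_range, nsmul_eq_mul, Nat.cast_sub hpp.le]
      simp
    rw [h2] at h1
    have h4 : ((((nI D x' (Cfsg.Agent.Lib.Blocks.oneIrr G) : ℤ) : ℝ) : ℝ) : ℂ) = (((p : ℝ) - 1 : ℝ) : ℂ) := by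
      push_cast
      exact h1.symm
    exact_mod_cast h4
  have hdo : charDegree ((Cfsg.Agent.Lib.Blocks.oneIrr G : IrrCharacter G) : G → ℂ) = 1 := charDegree_eq (n := 1) (by
    show (1 : ℂ) = ((1 : ℕ) : ℂ)
    norm_num)
  have hd : ∀ χ ∈ B, 0 < charDegree (χ : G → ℂ) := fun χ _ => charDegree_pos χ.2
  obtain ⟨k, hk⟩ := IsPGroup.iff_card.mp P.isPGroup'
  have hk0 : k ≠ 0 := by
    rintro rfl
    have h1 : Nat.card (P : Subgroup G) = 1 := by simpa using hk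
    have h2 := Subgroup.card_eq_one.mp h1
    apply hx1
    have h3 : x ∈ (⊥ : Subgroup G) := h2 ▸ hxQ
    exact h3
  have hqk : q = p ^ k := hk
  have hmR : (2 : ℝ) ≤ m := by exact_mod_cast hm2
  by_cases hk1 : k = 1
  · -- `q = p`
    have hqp : q = p := by rw [hqk, hk1, pow_one]
    have hr2 : 2 ≤ r := by
      obtain ⟨i, hi⟩ := D.other
      have h1 := i.2
      have h2 := D.i₀.2
      have h3 : (i : ℕ) ≠ D.i₀ := fun e => hi (Fin.ext e)
      omega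
    have hrm' : r * m = p - 1 := by rw [hrm, hqp]
    have h4le : 4 ≤ p - 1 := by
      calc 4 = 2 * 2 := rfl
        _ ≤ r * m := Nat.mul_le_mul hr2 hm2
        _ = p - 1 := hrm'
    have hp5 : 5 ≤ p := by omega
    refine numeric B _ ho (nI D x') (fun χ => charDegree (χ : G → ℂ)) hd (p : ℝ) (((p : ℝ) - 1) * ((m : ℝ) * (q : ℝ))) 1 hno hdo hT0 h3final ?_ ?_
    · intro χ hχ hne
      have h1 := (nI_bound D x' hx'o hm hrm (by omega) hmp ((hB χ).mp hχ) hne).1 hqp hp5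
      have h2 : (((nI D x' χ : ℤ) : ℝ)) ≤ ((((p : ℤ) - 3) * (charDegree (χ : G → ℂ) : ℤ) : ℤ) : ℝ) := by exact_mod_cast h1
      push_cast at h2
      calc _ ≤ _ := h2
        _ = _ := by ring
    · rw [hqp]
      have h5 : (5 : ℝ) ≤ p := by exact_mod_cast hp5
      nlinarith [mul_nonneg (sub_nonneg.mpr hmR) (sub_nonneg.mpr h5)]
  · -- `p ^ 2 ≤ q`
    have hk2 : 2 ≤ k := by omega
    have hqge : p ^ 2 ≤ q := by
      rw [hqk]
      exact Nat.pow_le_pow_right hp.out.pos hk2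
    have hqgeZ : ((p : ℤ)) ^ 2 ≤ (Nat.card (P : Subgroup G) : ℤ) := by exact_mod_cast hqge
    have hqgeR : (p : ℝ) ^ 2 ≤ (q : ℝ) := by exact_mod_cast hqge
    refine numeric B _ ho (nI D x') (fun χ => charDegree (χ : G → ℂ)) hd (p : ℝ) (((p : ℝ) - 1) * ((m : ℝ) * (q : ℝ))) (1 / 2) hno hdo hT0 h3final ?_ ?_
    · intro χ hχ hne
      have h1 := (nI_bound D x' hx'o hm hrm (by omega) hmp ((hB χ).mp hχ) hne).2 hqgeZ hp3
      have h2 : ((2 * nI D x' χ : ℤ) : ℝ) ≤ (((2 * (p : ℤ) - 5) * (charDegree (χ : G → ℂ) : ℤ) : ℤ) : ℝ) := by exact_mod_cast h1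
      push_cast at h2
      have h3 : ((p : ℝ) - 2 - 1 / 2) * ((charDegree (χ : G → ℂ) : ℕ) : ℝ) = (2 * (p : ℝ) - 5) * ((charDegree (χ : G → ℂ) : ℕ) : ℝ) / 2 := by ring
      rw [h3]
      linarith
    · have h5 : (p : ℝ) - 1 > 0 := by linarith
      have h6 : (m : ℝ) * (q : ℝ) ≥ 2 * (p : ℝ) ^ 2 := by
        have : (0 : ℝ) ≤ (q : ℝ) := by positivity
        nlinarith [sq_nonneg (p : ℝ)]
      have h7 : (p : ℝ) - 1 < 1 / 2 * ((m : ℝ) * (q : ℝ) - ((p : ℝ) - 1)) := by nlinarith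
      have h8 : ((p : ℝ) - 1) ^ 2 = ((p : ℝ) - 1) * ((p : ℝ) - 1) := by ring
      have h9 : 1 / 2 * (((p : ℝ) - 1) * ((m : ℝ) * (q : ℝ)) - ((p : ℝ) - 1) ^ 2) = ((p : ℝ) - 1) * (1 / 2 * ((m : ℝ) * (q : ℝ) - ((p : ℝ) - 1))) := by ring
      rw [h9, h8]
      exact mul_lt_mul_of_pos_left h7 h5

end brauer

end Cfsg.Agent.Lib.Tech.CP
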