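import Cfsg.Agent.Lib.Tech.CycPair5

/-!
# Cyclic Sylow subgroups and pairs of elements of order `p`: the theorem
-/

set_option autoImplicit false
set_option linter.unusedSectionVars false
set_option linter.style.haveILetI false
set_option linter.unusedVariables false

namespace Cfsg.Agent.Lib.Tech.CP

open Cfsg Cfsg.Agent.Lib.Char Cfsg.Agent.Lib.Blocks
open scoped ComplexConjugate

universe u

theorem finite_dual' {A : Type*} [Group A] [Finite A] (hcomm : ∀ a b : A, a * b = b * a) : Finite (A →* ℂˣ) := by
  letI : CommGroup A := { (inferInstance : Group A) with mul_comm := hcomm }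
  exact Finite.of_equiv A (CommGroup.monoidHom_mulEquiv_of_hasEnoughRootsOfUnity A ℂ).some.toEquiv.symm

/-- The simple case. -/
theorem simple_main {G : Type u} [Group G] [Finite G] [IsSimpleGroup G] (hG : ¬ IsMulCommutative G) {p : ℕ} [hp : Fact p.Prime]
    (P : Sylow p G) (hcyc : IsCyclic (P : Subgroup G)) (hP1 : (P : Subgroup G) ≠ ⊥)
    (hc : ∀ x y : G, orderOf x = p → orderOf y = p → IsPSolvable p ↥(Subgroup.closure ({x, y} : Set G))) : False := by
  classical
  letI : Fintype G := Fintype.ofFinite G
  letI : Fintype (P : Subgroup G) := Fintype.ofFinite _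
  letI : Fintype (Subgroup.normalizer ((P : Subgroup G) : Set G)) := Fintype.ofFinite _
  haveI hcyc' := hcyc
  have hcomm : ∀ a ∈ (P : Subgroup G), ∀ b ∈ (P : Subgroup G), a * b = b * a := by
    letI := IsCyclic.commGroup (α := (P : Subgroup G))
    intro a ha b hb
    exact congrArg Subtype.val (mul_comm (⟨a, ha⟩ : (P : Subgroup G)) ⟨b, hb⟩)
  have hcomm' : ∀ a b : (P : Subgroup G), a * b = b * a := fun a b => Subtype.ext (hcomm a a.2 b b.2)
  haveI : Finite ((P : Subgroup G) →* ℂˣ) := finite_dual' hcomm'
  letI : Fintype ((P : Subgroup G) →* ℂˣ) := Fintype.ofFinite _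
  -- an element of order `p`
  have hcard1 : Nat.card (P : Subgroup G) ≠ 1 := fun h => hP1 (Subgroup.card_eq_one.mp h)
  obtain ⟨k, hk⟩ := IsPGroup.iff_card.mp P.isPGroup'
  have hdvd : p ∣ Nat.card (P : Subgroup G) := by
    rw [hk]
    apply dvd_pow_self
    rintro rfl
    exact hcard1 (by rw [hk]; simp)
  obtain ⟨x', hx'o⟩ := exists_prime_orderOf_dvd_card' (G := (P : Subgroup G)) p hdvd
  have hxQ : (x' : G) ∈ (P : Subgroup G) := x'.2
  have hxo : orderOf (x' : G) = p := by
    rw [Subgroup.orderOf_coe]
    exact hx'o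
  have hx'1 : x' ≠ 1 := by
    rintro rfl
    rw [orderOf_one] at hx'o
    exact hp.out.one_lt.ne hx'o
  have hfrob : ∀ y : G, y ∈ (P : Subgroup G) → y ≠ 1 →
      Subgroup.centralizer ({y} : Set G) ⊓ Subgroup.normalizer ((P : Subgroup G) : Set G) = Subgroup.centralizer ((P : Subgroup G) : Set G) :=
    fun y hy hy1 => frob_of_cyclic P hcyc hy hy1
  obtain ⟨M, hM⟩ := exists_isPModular hp.out
  have hFS : FrobSetup p M (P : Subgroup G) := ⟨hM, ⟨P, rfl⟩, hcomm, hfrob⟩
  -- Burnside
  have hNC : ¬ Subgroup.normalizer ((P : Subgroup G) : Set G) ≤ Subgroup.centralizer ((P : Subgroup G) : Set G) := by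
    intro hle
    have hcompl := MonoidHom.ker_transferSylow_isComplement' P hle
    have hcardK := hcompl.card_mul
    rcases (MonoidHom.normal_ker (MonoidHom.transferSylow P hle)).eq_bot_or_eq_top with hbot | htop
    · rw [hbot, Subgroup.card_bot, one_mul] at hcardK
      have htopP : (P : Subgroup G) = ⊤ := Subgroup.eq_top_of_card_eq _ hcardK
      apply hG
      refine ⟨⟨fun a b => ?_⟩⟩
      exact hcomm a (by rw [htopP]; trivial) b (by rw [htopP]; trivial)
    · rw [htop, Subgroup.card_top] at hcardK
      have hpos : 0 < Nat.card G := Nat.card_pos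
      have h1 : Nat.card (P : Subgroup G) = 1 := by
        have h2 : Nat.card G * Nat.card (P : Subgroup G) = Nat.card G * 1 := by rw [hcardK, mul_one]
        exact Nat.eq_of_mul_eq_mul_left hpos h2
      exact hcard1 h1
  -- the index
  have hCN : (Subgroup.centralizer ((P : Subgroup G) : Set G)).relIndex (Subgroup.normalizer ((P : Subgroup G) : Set G)) =
      (Subgroup.centralizer ((P : Subgroup G) : Set G)).relIndex (Subgroup.normalizer ((P : Subgroup G) : Set G)) := rfl
  set m := (Subgroup.centralizer ((P : Subgroup G) : Set G)).relIndex (Subgroup.normalizer ((P : Subgroup G) : Set G)) with hmdef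
  have hm : Nat.card (Subgroup.normalizer ((P : Subgroup G) : Set G)) = m * Nat.card (Subgroup.centralizer ((P : Subgroup G) : Set G)) := by
    have h1 := Subgroup.relIndex_mul_relIndex ⊥ (Subgroup.centralizer ((P : Subgroup G) : Set G)) (Subgroup.normalizer ((P : Subgroup G) : Set G)) bot_le (centralizer_le_normalizer_coe _)
    rw [Subgroup.relIndex_bot_left, Subgroup.relIndex_bot_left, ← hmdef] at h1
    rw [← h1, mul_comm]
  have hm0 : m ≠ 0 := by
    intro h0
    rw [h0, zero_mul] at hm
    exact Nat.card_pos.ne' hm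
  have hm1 : m ≠ 1 := by
    intro h1
    apply hNC
    exact Subgroup.relIndex_eq_one.mp h1
  have hm2 : 2 ≤ m := by omega
  have hxp : (x' : G) ^ p = 1 := by
    have := pow_orderOf_eq_one (x' : G)
    rwa [hxo] at this
  have hx1 : (x' : G) ≠ 1 := fun e => hx'1 (Subtype.ext e)
  have hmp : m ≤ p - 1 := by
    have h1 := count_eq hFS hm hxQ hxo hxQ hx1 hxp
    rw [← h1]
    refine (Finset.card_filter_le _ _).trans ?_
    rw [Finset.card_range]
  have hpp := hp.out.one_lt
  have hp2 : p ≠ 2 := by omega
  by_cases hlt : m + 1 < Nat.card (P : Subgroup G)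
  · obtain ⟨r, hr, hrm, hm', ⟨D⟩⟩ := exists_brauerData_of_sylow hM P ⟨⟨fun a b => hcomm' a b⟩⟩ hcard1 m (by omega) hlt rfl hfrob
    exact brauer_case P hcyc D hm' hrm hm2 hxQ hxo hc
  · -- one class
    have hall : ∀ y : (P : Subgroup G), y ≠ 1 → IsConj (y : G) (x' : G) := by
      have h1 := card_conj_eq hFS hm hx'1
      have hsub : Finset.univ.filter (fun v : (P : Subgroup G) => IsConj (v : G) (x' : G)) ⊆ Finset.univ.erase 1 := by
        intro v hv
        refine Finset.mem_erase.mpr ⟨?_, Finset.mem_univ _⟩
        rintro rfl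
        have h2 := (Finset.mem_filter.mp hv).2
        have h3 : IsConj (1 : G) (x' : G) := h2
        exact hx1 (isConj_one_right.mp h3)
      have hcard : (Finset.univ.erase (1 : (P : Subgroup G))).card ≤ (Finset.univ.filter (fun v : (P : Subgroup G) => IsConj (v : G) (x' : G))).card := by
        rw [h1, Finset.card_erase_of_mem (Finset.mem_univ _), Finset.card_univ, ← Nat.card_eq_fintype_card]
        omega
      have heq := Finset.eq_of_subset_of_card_le hsub hcard
      intro y hy
      have hmem : y ∈ Finset.univ.filter (fun v : (P : Subgroup G) => IsConj (v : G) (x' : G)) := by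
        rw [heq]
        exact Finset.mem_erase.mpr ⟨hy, Finset.mem_univ _⟩
      exact (Finset.mem_filter.mp hmem).2
    have hPe : IsElementaryAbelian p (P : Subgroup G) := by
      refine ⟨⟨⟨fun a b => hcomm' a b⟩⟩, fun a ha => ?_⟩
      by_cases ha1 : a = 1
      · rw [ha1, one_pow]
      · have h2 := hall ⟨a, ha⟩ (fun e => ha1 (congrArg Subtype.val e))
        obtain ⟨c, hc'⟩ := isConj_iff.mp h2
        have h3 : c * a ^ p * c⁻¹ = (x' : G) ^ p := by
          rw [← hc', conj_pow]
        rw [hxp] at h3
        have h4 : a ^ p = c⁻¹ * (c * a ^ p * c⁻¹) * c := by group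
        rw [h4, h3]
        group
    have hconj : ∀ a ∈ (P : Subgroup G), ∀ b ∈ (P : Subgroup G), a ≠ 1 → b ≠ 1 → ∃ g : G, g * a * g⁻¹ = b := by
      intro a ha b hb ha1 hb1
      have h2 := hall ⟨a, ha⟩ (fun e => ha1 (congrArg Subtype.val e))
      have h3 := hall ⟨b, hb⟩ (fun e => hb1 (congrArg Subtype.val e))
      exact isConj_iff.mp (h2.trans h3.symm)
    exact Cfsg.Agent.Lib.Tech.OC.main_aux hG P hP1 hPe hconj hfrob hc hp2

/-- Lifting an element of order `p` through a normal `p'`-subgroup. -/
theorem exists_lift_order {G : Type*} [Group G] [Finite G] {p : ℕ} [hp : Fact p.Prime] (K : Subgroup G) [hKn : K.Normal]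
    (hK : (Nat.card K).Coprime p) (a : G ⧸ K) (ha : orderOf a = p) :
    ∃ b : G, orderOf b = p ∧ QuotientGroup.mk' K b = a := by
  classical
  let π := QuotientGroup.mk' K
  obtain ⟨b₀, rfl⟩ := QuotientGroup.mk'_surjective K a
  obtain ⟨b, c, e, hcomm, ⟨k, hk⟩, hc, hb', hc'⟩ := Cfsg.Agent.Lib.PGroups.exists_pPart p b₀
  -- the regular part is trivial in the quotient
  have hc1 : π c = 1 := by
    have h1 : orderOf (π c) ∣ orderOf c := orderOf_map_dvd π c
    obtain ⟨j, hj⟩ := Subgroup.mem_zpowers_iff.mp hc'
    have h2 : (π c) ^ p = 1 := by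
      rw [← hj, map_zpow, ← zpow_natCast, ← zpow_mul, mul_comm, zpow_mul, zpow_natCast]
      have h3 : (π b₀) ^ p = 1 := by
        rw [← ha]
        exact pow_orderOf_eq_one _
      rw [h3, one_zpow]
    have h3 : orderOf (π c) ∣ p := orderOf_dvd_of_pow_eq_one h2
    rcases (Nat.dvd_prime hp.out).mp h3 with h4 | h4
    · exact orderOf_eq_one_iff.mp h4
    · rw [h4] at h1
      exact absurd h1 hc
  have hπb : π b = π b₀ := by
    rw [e, map_mul, hc1, mul_one]
  refine ⟨b, ?_, hπb⟩
  have hbp : b ^ p = 1 := by
    have h1 : π (b ^ p) = 1 := by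
      rw [map_pow, hπb, ← ha]
      exact pow_orderOf_eq_one _
    have h2 : b ^ p ∈ K := by
      rw [← QuotientGroup.ker_mk' K]
      exact h1
    have h4 : orderOf (b ^ p) ∣ Nat.card K := by
      rw [← Subgroup.orderOf_mk (b ^ p) h2]
      exact orderOf_dvd_natCard _
    have h5 : orderOf (b ^ p) ∣ p ^ k := by
      rw [← hk]
      exact orderOf_dvd_of_pow_eq_one (by rw [← pow_mul, mul_comm, pow_mul, pow_orderOf_eq_one, one_pow])
    have h7 : orderOf (b ^ p) = 1 := Nat.Coprime.eq_one_of_dvd ((hK.pow_right k).coprime_dvd_left h4) h5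
    exact orderOf_eq_one_iff.mp h7
  apply orderOf_eq_prime hbp
  rintro rfl
  rw [map_one] at hπb
  rw [← hπb, orderOf_one] at ha
  exact hp.out.one_lt.ne ha

/-- **The reduction.** -/
theorem isPSolvable_of_pairs {p : ℕ} [hp : Fact p.Prime] : ∀ (n : ℕ) (G : Type u) [Group G] [Finite G], Nat.card G = n →
    ∀ P : Sylow p G, IsCyclic (P : Subgroup G) →
    (∀ x y : G, orderOf x = p → orderOf y = p → IsPSolvable p ↥(Subgroup.closure ({x, y} : Set G))) → IsPSolvable p G := by
  intro n
  induction n using Nat.strong_induction_on with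
  | _ n ih =>
    intro G _ _ hn P hcyc hc
    classical
    by_cases htriv : Subsingleton G
    · exact ⟨0, fun _ => ⊥, rfl, Subsingleton.elim _ _, monotone_const, fun _ => inferInstance, fun i => i.elim0⟩
    rw [not_subsingleton_iff_nontrivial] at htriv
    have hcard1 : 1 < Nat.card G := Finite.one_lt_card
    -- the `p'`-core
    by_cases hO' : pPrimeCore p G = ⊥
    swap
    · set K := pPrimeCore p G with hK
      haveI hKn : K.Normal := Cfsg.Agent.Lib.Basic.pPrimeCore_normal p
      have hKc : (Nat.card K).Coprime p := Cfsg.Agent.Lib.Basic.pPrimeCore_coprime p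
      refine Cfsg.Agent.Lib.PGroups.isPSolvable_of_quotient K (Or.inr hKc) ?_
      have hlt : Nat.card (G ⧸ K) < n := by
        have h1 := Subgroup.card_eq_card_quotient_mul_card_subgroup K
        have h2 : 1 < Nat.card K := by
          have : Nontrivial K := (Subgroup.nontrivial_iff_ne_bot K).mpr hO'
          exact Finite.one_lt_card
        have h3 : 0 < Nat.card (G ⧸ K) := Nat.card_pos
        rw [← hn, h1]
        nlinarith
      refine ih _ hlt (G ⧸ K) rfl (P.mapSurjective (QuotientGroup.mk'_surjective K)) ?_ ?_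
      · have hmap : ((P.mapSurjective (QuotientGroup.mk'_surjective K) : Sylow p (G ⧸ K)) : Subgroup (G ⧸ K)) = (P : Subgroup G).map (QuotientGroup.mk' K) := rfl
        rw [hmap]
        exact isCyclic_of_surjective ((QuotientGroup.mk' K).subgroupMap (P : Subgroup G)) ((QuotientGroup.mk' K).subgroupMap_surjective _)
      · intro a b ha hb
        obtain ⟨a', ha', rfl⟩ := exists_lift_order K hKc a ha
        obtain ⟨b', hb', rfl⟩ := exists_lift_order K hKc b hb
        have e : (Subgroup.closure ({a', b'} : Set G)).map (QuotientGroup.mk' K) =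
            Subgroup.closure ({QuotientGroup.mk' K a', QuotientGroup.mk' K b'} : Set (G ⧸ K)) := by
          rw [MonoidHom.map_closure, Set.image_pair]
        rw [← e]
        exact Cfsg.Agent.Lib.Coprime.isPSolvable_map ((QuotientGroup.mk' K).subgroupMap _)
          ((QuotientGroup.mk' K).subgroupMap_surjective _) (hc a' b' ha' hb')
    -- the `p`-core
    by_cases hO : pCore p G = ⊥
    swap
    · haveI : (pCore p G).Normal := Cfsg.Agent.Lib.Basic.pCore_normal p
      exact Cfsg.Agent.Lib.PGroups.isPSolvable_of_normal_pSubgroup P hcyc (pCore p G) (Cfsg.Agent.Lib.Basic.pCore_isPGroup p) hO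
    exfalso
    -- `P` is not trivial
    have hP1 : (P : Subgroup G) ≠ ⊥ := by
      intro hbot
      apply hO'.not_gt
      have h1 : (Nat.card (⊤ : Subgroup G)).Coprime p := by
        rw [Subgroup.card_top]
        have h2 := P.not_dvd_index
        rw [hbot, Subgroup.index_bot] at h2
        exact ((Nat.Prime.coprime_iff_not_dvd hp.out).mpr h2).symm
      have h3 := Cfsg.Agent.Lib.Basic.le_pPrimeCore (inferInstance : (⊤ : Subgroup G).Normal) h1
      rw [bot_lt_iff_ne_bot]
      intro h4
      rw [h4] at h3
      have h5 : (⊤ : Subgroup G) = ⊥ := le_antisymm h3 bot_le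
      exact top_ne_bot h5
    by_cases hN : ∃ N : Subgroup G, N.Normal ∧ N ≠ ⊥ ∧ N ≠ ⊤
    · obtain ⟨N, hNn, hN1, hN2⟩ := hN
      haveI := hNn
      have hNlt : Nat.card N < n := by
        rw [← hn]
        have h1 : Nat.card N ≤ Nat.card G := Subgroup.card_le_card_group N
        by_contra hlt
        exact hN2 (Subgroup.eq_top_of_card_eq N (by omega))
      obtain ⟨S⟩ : Nonempty (Sylow p N) := inferInstance
      have hScyc : IsCyclic (S : Subgroup N) := by
        have hSp : IsPGroup p ((S : Subgroup N).map N.subtype) := S.isPGroup'.map _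
        obtain ⟨R, hR⟩ := hSp.exists_le_sylow
        have hRc : IsCyclic (R : Subgroup G) := isCyclic_of_surjective (Sylow.equiv P R).toMonoidHom (Sylow.equiv P R).surjective
        let f : (S : Subgroup N) →* (R : Subgroup G) :=
          (N.subtype.comp (S : Subgroup N).subtype).codRestrict (R : Subgroup G) (fun s => hR ⟨s, s.2, rfl⟩)
        have hf : Function.Injective f := by
          intro a b hab
          have h1 : ((f a : (R : Subgroup G)) : G) = ((f b : (R : Subgroup G)) : G) := congrArg Subtype.val hab
          exact Subtype.ext (Subtype.ext h1)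
        exact isCyclic_of_injective f hf
      have hNps : IsPSolvable p N := by
        refine ih _ hNlt N rfl S hScyc (fun a b ha hb => ?_)
        have hab := hc (a : G) (b : G) (by rw [Subgroup.orderOf_coe]; exact ha) (by rw [Subgroup.orderOf_coe]; exact hb)
        have e : (Subgroup.closure ({a, b} : Set N)).map N.subtype = Subgroup.closure ({(a : G), (b : G)} : Set G) := by
          rw [MonoidHom.map_closure, Set.image_pair]
          rfl
        rw [← e] at hab
        let eq := (Subgroup.closure ({a, b} : Set N)).equivMapOfInjective N.subtype N.subtype_injective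
        exact Cfsg.Agent.Lib.Coprime.isPSolvable_map eq.symm.toMonoidHom eq.symm.surjective hab
      haveI : Nontrivial N := (Subgroup.nontrivial_iff_ne_bot N).mpr hN1
      obtain ⟨L, hLn, hL1, hL⟩ := Cfsg.Agent.Lib.Coprime.IsPSolvable_exists_normal hNps
      rcases hL with hLp | hLc
      · have h1 : L ≤ pCore p N := Cfsg.Agent.Lib.Basic.le_pCore hLn hLp
        haveI hchar : (pCore p N).Characteristic := Cfsg.Agent.Lib.Basic.pCore_characteristic p
        have hmapn : ((pCore p N).map N.subtype).Normal := inferInstance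
        have hmapp : IsPGroup p ((pCore p N).map N.subtype) := (Cfsg.Agent.Lib.Basic.pCore_isPGroup p).map _
        have h2 := Cfsg.Agent.Lib.Basic.le_pCore hmapn hmapp
        rw [hO] at h2
        have h3 : (pCore p N).map N.subtype = ⊥ := le_antisymm h2 bot_le
        have h4 : pCore p N = ⊥ := (Subgroup.map_eq_bot_iff_of_injective _ N.subtype_injective).mp h3
        rw [h4] at h1
        exact hL1 (le_antisymm h1 bot_le)
      · have h1 : L ≤ pPrimeCore p N := Cfsg.Agent.Lib.Basic.le_pPrimeCore hLn hLc
        haveI hchar : (pPrimeCore p N).Characteristic := Cfsg.Agent.Lib.Basic.pPrimeCore_characteristic p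
        have hmapn : ((pPrimeCore p N).map N.subtype).Normal := inferInstance
        have hmapc : (Nat.card ((pPrimeCore p N).map N.subtype)).Coprime p := by
          have h5 : Nat.card ((pPrimeCore p N).map N.subtype) = Nat.card (pPrimeCore p N) :=
            (Nat.card_congr ((pPrimeCore p N).equivMapOfInjective _ N.subtype_injective).toEquiv).symm
          rw [h5]
          exact Cfsg.Agent.Lib.Basic.pPrimeCore_coprime p
        have h2 := Cfsg.Agent.Lib.Basic.le_pPrimeCore hmapn hmapc
        rw [hO'] at h2
        have h3 : (pPrimeCore p N).map N.subtype = ⊥ := le_antisymm h2 bot_le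
        have h4 : pPrimeCore p N = ⊥ := (Subgroup.map_eq_bot_iff_of_injective _ N.subtype_injective).mp h3
        rw [h4] at h1
        exact hL1 (le_antisymm h1 bot_le)
    · -- simple
      push Not at hN
      haveI hsimple : IsSimpleGroup G := ⟨fun H hH => by
        by_cases h1 : H = ⊥
        · exact Or.inl h1
        · exact Or.inr (hN H hH h1)⟩
      by_cases hG : IsMulCommutative G
      · apply hP1
        have hPn : (P : Subgroup G).Normal := by
          constructor
          intro a ha g
          have : g * a * g⁻¹ = a := by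
            rw [hG.is_comm.comm g a]
            group
          rw [this]
          exact ha
        have h1 := Cfsg.Agent.Lib.Basic.le_pCore hPn P.isPGroup'
        rw [hO] at h1
        exact le_antisymm h1 bot_le
      · exact simple_main hG P hcyc hP1 hc

end Cfsg.Agent.Lib.Tech.CP
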