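import Mathlib
import Cfsg.Agent.Lib.PGroups.Parts

/-!
# Sections of modules in characteristic two: stability groups, centralizers, elements of odd order.

The group `Y` acts on the finite additive group `V`; a section is a pair `W₀ ≤ W₁` of additive
subgroups invariant under some subgroup `L`.
-/

set_option autoImplicit false
set_option linter.unusedSectionVars false
set_option linter.style.haveILetI false

namespace Cfsg.Agent.Lib.Tech.FFA

open Subgroup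

variable {Y V : Type*} [Group Y] [AddCommGroup V] [DistribMulAction Y V]

/-- `N` preserves `W`. -/
def InvS (N : Subgroup Y) (W : AddSubgroup V) : Prop := ∀ n ∈ N, ∀ x ∈ W, n • x ∈ W

theorem InvS.mono {N N' : Subgroup Y} {W : AddSubgroup V} (h : InvS N W) (hN' : N' ≤ N) :
    InvS N' W :=
  fun n hn x hx => h n (hN' hn) x hx

/-- The fixed points of `D` on the section `W₁ / W₀`, as a subgroup of `W₁`. -/
def cenS (W₀ W₁ : AddSubgroup V) (D : Set Y) : AddSubgroup V where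
  carrier := {x | x ∈ W₁ ∧ ∀ d ∈ D, d • x - x ∈ W₀}
  zero_mem' := ⟨W₁.zero_mem, fun d _ => by simp⟩
  add_mem' := by
    rintro x y ⟨hx, hx'⟩ ⟨hy, hy'⟩
    refine ⟨W₁.add_mem hx hy, fun d hd => ?_⟩
    have := W₀.add_mem (hx' d hd) (hy' d hd)
    rw [smul_add]
    convert this using 1
    abel
  neg_mem' := by
    rintro x ⟨hx, hx'⟩
    refine ⟨W₁.neg_mem hx, fun d hd => ?_⟩
    have := W₀.neg_mem (hx' d hd)
    rw [smul_neg]
    convert this using 1
    abel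

theorem mem_cenS {W₀ W₁ : AddSubgroup V} {D : Set Y} {x : V} :
    x ∈ cenS W₀ W₁ D ↔ x ∈ W₁ ∧ ∀ d ∈ D, d • x - x ∈ W₀ := Iff.rfl

theorem cenS_le {W₀ W₁ : AddSubgroup V} {D : Set Y} : cenS W₀ W₁ D ≤ W₁ := fun _ h => h.1

theorem cenS_anti {W₀ W₁ : AddSubgroup V} {D D' : Set Y} (h : D ⊆ D') :
    cenS W₀ W₁ D' ≤ cenS W₀ W₁ D :=
  fun _ hx => ⟨hx.1, fun d hd => hx.2 d (h hd)⟩

/-- The stability group of the section `W₁ / W₀`. -/
def ST (W₀ W₁ : AddSubgroup V) : Subgroup Y where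
  carrier := {g | (∀ x ∈ W₀, g • x ∈ W₀) ∧ (∀ x ∈ W₀, g⁻¹ • x ∈ W₀) ∧
    (∀ x ∈ W₁, g • x - x ∈ W₀) ∧ (∀ x ∈ W₁, g⁻¹ • x - x ∈ W₀)}
  one_mem' := by
    refine ⟨?_, ?_, ?_, ?_⟩ <;> simp +contextual
  mul_mem' := by
    rintro g h ⟨h1, h2, h3, h4⟩ ⟨k1, k2, k3, k4⟩
    refine ⟨?_, ?_, ?_, ?_⟩
    · intro x hx
      rw [mul_smul]
      exact h1 _ (k1 _ hx)
    · intro x hx
      rw [mul_inv_rev, mul_smul]
      exact k2 _ (h2 _ hx)
    · intro x hx
      have e := W₀.add_mem (h1 _ (k3 x hx)) (h3 x hx)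
      rw [mul_smul]
      convert e using 1
      rw [smul_sub]
      abel
    · intro x hx
      have e := W₀.add_mem (k2 _ (h4 x hx)) (k4 x hx)
      rw [mul_inv_rev, mul_smul]
      convert e using 1
      rw [smul_sub]
      abel
  inv_mem' := by
    rintro g ⟨h1, h2, h3, h4⟩
    refine ⟨h2, ?_, h4, ?_⟩
    · simpa using h1
    · simpa using h3

theorem mem_ST {W₀ W₁ : AddSubgroup V} {g : Y} :
    g ∈ ST W₀ W₁ ↔ (∀ x ∈ W₀, g • x ∈ W₀) ∧ (∀ x ∈ W₀, g⁻¹ • x ∈ W₀) ∧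
    (∀ x ∈ W₁, g • x - x ∈ W₀) ∧ (∀ x ∈ W₁, g⁻¹ • x - x ∈ W₀) := Iff.rfl

theorem ST_apply {W₀ W₁ : AddSubgroup V} {g : Y} (h : g ∈ ST W₀ W₁) {x : V} (hx : x ∈ W₁) :
    g • x - x ∈ W₀ := h.2.2.1 x hx

theorem mem_ST_of {L : Subgroup Y} {W₀ W₁ : AddSubgroup V} (h₀ : InvS L W₀) {g : Y} (hg : g ∈ L)
    (h : ∀ x ∈ W₁, g • x - x ∈ W₀) : g ∈ ST W₀ W₁ := by
  refine ⟨h₀ g hg, h₀ g⁻¹ (L.inv_mem hg), h, fun x hx => ?_⟩
  have := W₀.neg_mem (h₀ g⁻¹ (L.inv_mem hg) _ (h x hx))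
  convert this using 1
  rw [smul_sub, inv_smul_smul]
  abel

theorem conj_mem_ST {L : Subgroup Y} {W₀ W₁ : AddSubgroup V} (h₀ : InvS L W₀) (h₁ : InvS L W₁)
    {g s : Y} (hg : g ∈ L) (hs : s ∈ ST W₀ W₁) : g * s * g⁻¹ ∈ ST W₀ W₁ := by
  have hg' := L.inv_mem hg
  refine ⟨fun x hx => ?_, fun x hx => ?_, fun x hx => ?_, fun x hx => ?_⟩
  · simp only [mul_smul]
    exact h₀ _ hg _ (hs.1 _ (h₀ _ hg' _ hx))
  · have e : (g * s * g⁻¹)⁻¹ = g * s⁻¹ * g⁻¹ := by group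
    rw [e]
    simp only [mul_smul]
    exact h₀ _ hg _ (hs.2.1 _ (h₀ _ hg' _ hx))
  · have e := h₀ _ hg _ (ST_apply hs (h₁ _ hg' _ hx))
    simp only [mul_smul]
    convert e using 1
    rw [smul_sub, smul_inv_smul]
  · have e : (g * s * g⁻¹)⁻¹ = g * s⁻¹ * g⁻¹ := by group
    rw [e]
    have e2 := h₀ _ hg _ (ST_apply ((ST W₀ W₁).inv_mem hs) (h₁ _ hg' _ hx))
    simp only [mul_smul]
    convert e2 using 1
    rw [smul_sub, smul_inv_smul]

/-- `N` acts on the section as a `2`-group. -/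
def Act2 (N : Subgroup Y) (W₀ U : AddSubgroup V) : Prop := ∀ n ∈ N, ∃ k : ℕ, n ^ 2 ^ k ∈ ST W₀ U

/-- Every element of a subgroup acting on the section is the product of a `2`-element and an
element of odd order, in its cyclic group. -/
theorem act2_of_odd [Finite Y] {N : Subgroup Y} {W₀ U : AddSubgroup V}
    (h : ∀ c ∈ N, Odd (orderOf c) → c ∈ ST W₀ U) : Act2 N W₀ U := by
  intro n hn
  haveI : Fact (Nat.Prime 2) := ⟨Nat.prime_two⟩
  obtain ⟨t, o, hy, hcomm, ⟨k, ht⟩, hoodd, -, hoz⟩ := Cfsg.Agent.Lib.PGroups.exists_pPart 2 n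
  have ho : o ∈ N := by
    obtain ⟨j, rfl⟩ := mem_zpowers_iff.mp hoz
    exact zpow_mem hn j
  have hoO : Odd (orderOf o) := Nat.not_even_iff_odd.mp fun h => hoodd (even_iff_two_dvd.mp h)
  refine ⟨k, ?_⟩
  have e : n ^ 2 ^ k = o ^ 2 ^ k := by
    rw [hy, hcomm.mul_pow, ← ht, pow_orderOf_eq_one, one_mul]
  rw [e]
  exact pow_mem (h o ho hoO) _

section Char2

variable (hV2 : ∀ x : V, x + x = 0)
include hV2

theorem odd_smul (x : V) {n : ℕ} (hn : Odd n) : n • x = x := by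
  obtain ⟨m, rfl⟩ := hn
  induction m with
  | zero => simp
  | succ m ih =>
    have e : 2 * (m + 1) + 1 = (2 * m + 1) + 2 := by ring
    rw [e, add_smul, ih, two_smul, hV2, add_zero]

/-- An element of odd order fixing `c x - x` modulo `W₀` fixes `x`. -/
theorem odd_fix [Finite Y] {W₀ : AddSubgroup V} {c : Y} (hc : Odd (orderOf c))
    (h0 : ∀ x ∈ W₀, c • x ∈ W₀) {x : V} (h : c • (c • x - x) - (c • x - x) ∈ W₀) :
    c • x - x ∈ W₀ := by
  obtain ⟨y, hy⟩ : ∃ y, y = c • x - x := ⟨_, rfl⟩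
  rw [← hy] at h ⊢
  have e0 : c • x = y + x := by rw [hy]; abel
  have hn : ∀ n : ℕ, c ^ n • x - x - n • y ∈ W₀ := by
    intro n
    induction n with
    | zero => simp
    | succ n ih =>
      have e1 := h0 _ ih
      have e2 := W₀.nsmul_mem h n
      have e3 := W₀.add_mem e1 e2
      convert e3 using 1
      rw [pow_succ', mul_smul, smul_sub, smul_sub, smul_comm c n y, succ_nsmul, nsmul_sub, e0]
      abel
  have h1 := hn (orderOf c)
  rw [pow_orderOf_eq_one, one_smul, sub_self, zero_sub] at h1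
  have h2 := W₀.neg_mem h1
  rw [neg_neg, odd_smul hV2 y hc] at h2
  exact h2

end Char2

/-- Powers of congruent elements are congruent. -/
theorem pow_congr {N : Subgroup Y} {W₀ U : AddSubgroup V} (h₀ : InvS N W₀) (hU : InvS N U)
    {n b : Y} (hn : n ∈ N) (hb : b ∈ N) (h : ∀ x ∈ U, n • x - b • x ∈ W₀) (k : ℕ) :
    ∀ x ∈ U, n ^ k • x - b ^ k • x ∈ W₀ := by
  induction k with
  | zero => intro x _; simp
  | succ k ih =>
    intro x hx
    have e1 := ih _ (hU n hn x hx)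
    have e2 := h₀ _ (pow_mem hb k) _ (h x hx)
    have e3 := W₀.add_mem e1 e2
    rw [smul_sub] at e3
    rw [pow_succ, pow_succ, mul_smul, mul_smul]
    convert e3 using 1
    abel

/-- An element of odd order congruent to a `2`-element acts trivially on the section. -/
theorem odd_trivial [Finite Y] {N : Subgroup Y} {W₀ U : AddSubgroup V} (h₀ : InvS N W₀)
    (hU : InvS N U) {c b : Y} (hc : c ∈ N) (hb : b ∈ N) (hodd : Odd (orderOf c)) {m : ℕ}
    (hbm : b ^ 2 ^ m = 1) (h : ∀ x ∈ U, c • x - b • x ∈ W₀) : ∀ x ∈ U, c • x - x ∈ W₀ := by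
  have h1 := pow_congr h₀ hU hc hb h (2 ^ m)
  rw [hbm] at h1
  simp only [one_smul] at h1
  have hcop : Nat.Coprime (2 ^ m) (orderOf c) :=
    Nat.Coprime.pow_left m (Nat.coprime_two_left.mpr hodd)
  obtain ⟨j, hj⟩ := exists_pow_eq_self_of_coprime hcop
  have h2 := pow_congr (n := c ^ 2 ^ m) (b := 1) h₀ hU (pow_mem hc _) N.one_mem
    (fun x hx => by simpa using h1 x hx) j
  rw [hj] at h2
  simpa using h2

/-- The image of `A ⊔ B` on a section on which `A` acts trivially is the image of `B`. -/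
theorem exists_rep_sup {A B : Subgroup Y} {W₀ U : AddSubgroup V} (h₀ : InvS (A ⊔ B) W₀)
    (hU : InvS (A ⊔ B) U) (hA : A ≤ ST W₀ U) :
    ∀ n ∈ A ⊔ B, ∃ b ∈ B, ∀ x ∈ U, n • x - b • x ∈ W₀ := by
  intro n hn
  rw [sup_eq_closure] at hn
  have hcl : Subgroup.closure ((A : Set Y) ∪ B) = A ⊔ B := (sup_eq_closure A B).symm
  induction hn using Subgroup.closure_induction with
  | mem n hn =>
    rcases hn with hn | hn
    · exact ⟨1, B.one_mem, fun x hx => by simpa using ST_apply (hA hn) hx⟩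
    · exact ⟨n, hn, fun x _ => by simp⟩
  | one => exact ⟨1, B.one_mem, fun x _ => by simp⟩
  | mul n₁ n₂ h₁ h₂ ih₁ ih₂ =>
    obtain ⟨b₁, hb₁, e₁⟩ := ih₁
    obtain ⟨b₂, hb₂, e₂⟩ := ih₂
    rw [hcl] at h₁ h₂
    refine ⟨b₁ * b₂, B.mul_mem hb₁ hb₂, fun x hx => ?_⟩
    have hbU : b₂ • x ∈ U := hU _ (le_sup_right (a := A) hb₂) x hx
    have e := W₀.add_mem (h₀ _ h₁ _ (e₂ x hx)) (e₁ _ hbU)
    rw [smul_sub] at e
    rw [mul_smul, mul_smul]
    convert e using 1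
    abel
  | inv n h ih =>
    obtain ⟨b, hb, e⟩ := ih
    rw [hcl] at h
    refine ⟨b⁻¹, B.inv_mem hb, fun x hx => ?_⟩
    have hbU : b⁻¹ • x ∈ U := hU _ (le_sup_right (a := A) (B.inv_mem hb)) x hx
    have e1 := h₀ _ ((A ⊔ B).inv_mem h) _ (e _ hbU)
    rw [smul_sub, inv_smul_smul, smul_inv_smul] at e1
    have e2 := W₀.neg_mem e1
    convert e2 using 1
    abel

/-- A generic lemma about Sylow subgroups of a subgroup acting on a section as a `2`-group. -/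
theorem exists_sylow_rep [Finite Y] (N K : Subgroup Y) (hKN : ∀ n ∈ N, ∀ k ∈ K, n * k * n⁻¹ ∈ K)
    (h2 : ∀ n ∈ N, ∃ k : ℕ, n ^ 2 ^ k ∈ K) :
    ∃ T : Subgroup Y, IsPGroup 2 T ∧ T ≤ N ∧ ∀ n ∈ N, ∃ t ∈ T, t⁻¹ * n ∈ K := by
  classical
  haveI : Fact (Nat.Prime 2) := ⟨Nat.prime_two⟩
  let K' : Subgroup N := K.subgroupOf N
  haveI hK' : K'.Normal := ⟨fun k hk g => by
    rw [mem_subgroupOf] at hk ⊢
    exact hKN g.1 g.2 k.1 hk⟩
  let f : N →* N ⧸ K' := QuotientGroup.mk' K'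
  have hf : Function.Surjective f := QuotientGroup.mk'_surjective K'
  obtain ⟨P⟩ : Nonempty (Sylow 2 N) := inferInstance
  have hq : IsPGroup 2 (N ⧸ K') := by
    intro q
    obtain ⟨n, rfl⟩ := hf q
    obtain ⟨k, hk⟩ := h2 n.1 n.2
    refine ⟨k, ?_⟩
    rw [← map_pow]
    refine (QuotientGroup.eq_one_iff _).mpr ?_
    rw [mem_subgroupOf]
    simpa using hk
  have hP' : ((P.mapSurjective hf : Sylow 2 (N ⧸ K')) : Subgroup (N ⧸ K')) = ⊤ :=
    ((P.mapSurjective hf).is_maximal' (Q := ⊤) (hq.to_subgroup ⊤) le_top).symm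
  rw [Sylow.coe_mapSurjective] at hP'
  refine ⟨P.map N.subtype, P.isPGroup'.map _, map_subtype_le _, fun n hn => ?_⟩
  have hm : f ⟨n, hn⟩ ∈ (P : Subgroup N).map f := by rw [hP']; trivial
  obtain ⟨p, hp, hpe⟩ := hm
  refine ⟨p.1, mem_map_of_mem _ hp, ?_⟩
  have h3 : p⁻¹ * (⟨n, hn⟩ : N) ∈ K' := by
    rw [← QuotientGroup.eq_one_iff]
    have : f (p⁻¹ * ⟨n, hn⟩) = 1 := by
      rw [map_mul, map_inv, ← hpe, inv_mul_cancel]
    exact this
  rw [mem_subgroupOf] at h3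
  simpa using h3

/-- The hypothesis: `2`-subgroups of `Y` act quadratically and commute on `V`. -/
def QuadH (Y V : Type*) [Group Y] [AddCommGroup V] [DistribMulAction Y V] : Prop :=
  ∀ T : Subgroup Y, IsPGroup 2 T → ∀ s ∈ T, ∀ s' ∈ T, ∀ x : V, s • (s' • x - x) = s' • x - x

theorem QuadH.comm (hQ : QuadH Y V) {T : Subgroup Y} (hT : IsPGroup 2 T) {s s' : Y}
    (hs : s ∈ T) (hs' : s' ∈ T) (x : V) : s • s' • x = s' • s • x := by
  have h1 := hQ T hT s hs s' hs' x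
  have h2 := hQ T hT s' hs' s hs x
  rw [smul_sub] at h1 h2
  have h3 : s • s' • x = s' • x - x + s • x := by
    rw [← h1]; abel
  have h4 : s' • s • x = s • x - x + s' • x := by
    rw [← h2]; abel
  rw [h3, h4]
  abel

/-- A subgroup acting on a section as a `2`-group acts commutatively. -/
theorem comm_of_act2 [Finite Y] (hQ : QuadH Y V) {N : Subgroup Y} {W₀ U : AddSubgroup V}
    (h₀ : InvS N W₀) (hU : InvS N U) (h : Act2 N W₀ U) :
    ∀ n ∈ N, ∀ m ∈ N, ∀ x ∈ U, n • m • x - m • n • x ∈ W₀ := by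
  obtain ⟨T, hT, hTN, hrep⟩ := exists_sylow_rep N (ST W₀ U)
    (fun n hn k hk => conj_mem_ST h₀ hU hn hk) h
  have hrep' : ∀ n ∈ N, ∃ t ∈ T, ∀ x ∈ U, n • x - t • x ∈ W₀ := by
    intro n hn
    obtain ⟨t, ht, hs⟩ := hrep n hn
    refine ⟨t, ht, fun x hx => ?_⟩
    have e1 := h₀ _ (hTN ht) _ (ST_apply hs hx)
    rw [smul_sub, mul_smul, smul_inv_smul] at e1
    exact e1
  intro n hn m hm x hx
  obtain ⟨t, ht, et⟩ := hrep' n hn
  obtain ⟨s, hs, es⟩ := hrep' m hm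
  have hsx : s • x ∈ U := hU _ (hTN hs) _ hx
  have htx : t • x ∈ U := hU _ (hTN ht) _ hx
  have hmx : m • x ∈ U := hU _ hm _ hx
  have hnx : n • x ∈ U := hU _ hn _ hx
  have e1 := et _ hmx
  have e2 := h₀ _ (hTN ht) _ (es x hx)
  have e3 := es _ hnx
  have e4 := h₀ _ (hTN hs) _ (et x hx)
  rw [smul_sub] at e2 e4
  have e5 := W₀.sub_mem (W₀.add_mem e1 e2) (W₀.add_mem e3 e4)
  rw [hQ.comm hT ht hs x] at e5
  convert e5 using 1
  abel

/-- Product formula for additive subgroups. -/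
theorem card_sup_mul_card_inf [Finite V] (A B : AddSubgroup V) :
    Nat.card ↥(A ⊔ B) * Nat.card ↥(A ⊓ B) = Nat.card A * Nat.card B := by
  have h1 : B.relIndex (A ⊔ B) = B.relIndex A := AddSubgroup.relIndex_sup_right A B
  have h2 : Nat.card ↥(A ⊔ B) = B.relIndex (A ⊔ B) * Nat.card B := by
    have := AddSubgroup.card_mul_index (B.addSubgroupOf (A ⊔ B))
    rw [← this, AddSubgroup.relIndex, mul_comm]
    congr 1
    exact (Nat.card_congr (AddSubgroup.addSubgroupOfEquivOfLe (le_sup_right : B ≤ A ⊔ B)).toEquiv)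
  have h3 : Nat.card A = B.relIndex A * Nat.card ↥(A ⊓ B) := by
    have := AddSubgroup.card_mul_index (B.addSubgroupOf A)
    rw [← this, AddSubgroup.relIndex, mul_comm]
    congr 1
    have e : B.addSubgroupOf A = (A ⊓ B).addSubgroupOf A := by
      ext x
      simp [AddSubgroup.mem_addSubgroupOf]
    rw [e]
    exact (Nat.card_congr (AddSubgroup.addSubgroupOfEquivOfLe (inf_le_left : A ⊓ B ≤ A)).toEquiv)
  rw [h2, h1]
  calc B.relIndex A * Nat.card B * Nat.card ↥(A ⊓ B)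
      = (B.relIndex A * Nat.card ↥(A ⊓ B)) * Nat.card B := by ring
    _ = _ := by rw [← h3]

end Cfsg.Agent.Lib.Tech.FFA
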