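import Cfsg.Agent.Lib.Tech.FFA1

/-!
# Irreducible sections and the subgroups maximizing `|D : C_D(W)| |C_W(D)|`: generation.
-/

set_option autoImplicit false
set_option linter.unusedSectionVars false
set_option linter.style.haveILetI false

namespace Cfsg.Agent.Lib.Tech.FFA

open Subgroup

variable {Y V : Type*} [Group Y] [AddCommGroup V] [DistribMulAction Y V]

/-- An irreducible section with nontrivial action. -/
structure Sect (L : Subgroup Y) (W₀ W₁ : AddSubgroup V) : Prop where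
  le : W₀ ≤ W₁
  inv₀ : InvS L W₀
  inv₁ : InvS L W₁
  ne : W₀ ≠ W₁
  irr : ∀ U, InvS L U → W₀ ≤ U → U ≤ W₁ → U = W₀ ∨ U = W₁
  ntr : ∃ g ∈ L, ∃ x ∈ W₁, g • x - x ∉ W₀

/-- The measure of an offender. -/
noncomputable def MM (W₀ W₁ : AddSubgroup V) (D : Subgroup Y) : ℕ :=
  (ST W₀ W₁).relIndex D * Nat.card (cenS W₀ W₁ (D : Set Y))

/-- A `2`-subgroup acting nontrivially with largest measure. -/
structure Best (L : Subgroup Y) (W₀ W₁ : AddSubgroup V) (D : Subgroup Y) : Prop where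
  le : D ≤ L
  p : IsPGroup 2 D
  ntr : ¬ D ≤ ST W₀ W₁
  max : ∀ D', D' ≤ L → IsPGroup 2 D' → MM W₀ W₁ D' ≤ MM W₀ W₁ D

/-- The statement of the irreducible case, for subgroups of order less than `n`. -/
def IrrStmt (Y V : Type*) [Group Y] [AddCommGroup V] [DistribMulAction Y V] (n : ℕ) : Prop :=
  ∀ (L : Subgroup Y) (W₀ W₁ : AddSubgroup V), Nat.card L < n → Sect L W₀ W₁ →
    ∀ D ≤ L, IsPGroup 2 D → ¬ D ≤ ST W₀ W₁ → MM W₀ W₁ D < Nat.card W₁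

theorem exists_min_inv [Finite V] {N : Subgroup Y} {W₀ W₁ : AddSubgroup V} (h₁ : InvS N W₁)
    (hle : W₀ ≤ W₁) (hne : W₀ ≠ W₁) :
    ∃ U, InvS N U ∧ W₀ ≤ U ∧ U ≤ W₁ ∧ U ≠ W₀ ∧
      ∀ U', InvS N U' → W₀ ≤ U' → U' ≤ U → U' = W₀ ∨ U' = U := by
  classical
  haveI : Finite (AddSubgroup V) := inferInstance
  let S : Set (AddSubgroup V) := {U | InvS N U ∧ W₀ ≤ U ∧ U ≤ W₁ ∧ U ≠ W₀}
  have hS : S.Nonempty := ⟨W₁, h₁, hle, le_rfl, hne.symm⟩
  obtain ⟨m, hm, hmin⟩ := (wellFounded_lt (α := AddSubgroup V)).has_min S hS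
  refine ⟨m, hm.1, hm.2.1, hm.2.2.1, hm.2.2.2, fun U' hU' h0 hle' => ?_⟩
  by_cases h : U' = W₀
  · exact Or.inl h
  · right
    by_contra hne'
    exact hmin U' ⟨hU', h0, hle'.trans hm.2.2.1, h⟩ (lt_of_le_of_ne hle' hne')

theorem InvS.sup {N : Subgroup Y} {A B : AddSubgroup V} (hA : InvS N A) (hB : InvS N B) :
    InvS N (A ⊔ B) := by
  intro n hn x hx
  obtain ⟨a, ha, b, hb, rfl⟩ := AddSubgroup.mem_sup.mp hx
  rw [smul_add]
  exact AddSubgroup.add_mem_sup (hA n hn a ha) (hB n hn b hb)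

theorem card_lt_of_ne {X L : Subgroup Y} [Finite Y] (hle : X ≤ L) (hne : X ≠ L) :
    Nat.card X < Nat.card L := by
  have h1 := Subgroup.card_le_of_le hle
  refine lt_of_le_of_ne h1 fun e => hne ?_
  exact Subgroup.eq_of_le_of_card_ge hle e.ge

/-- **Generation.** A subgroup generated by a best subgroup `D` and a `2`-subgroup `E`, if proper,
acts on the section as a `2`-group. -/
theorem claim_one [Finite Y] [Finite V] (hV2 : ∀ x : V, x + x = 0) (hQ : QuadH Y V)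
    {L : Subgroup Y} {W₀ W₁ : AddSubgroup V} (hs : Sect L W₀ W₁) {D E X : Subgroup Y}
    (hXdef : X = D ⊔ E) (hD : Best L W₀ W₁ D) (hE : E ≤ L) (hEp : IsPGroup 2 E) (hX : X ≠ L)
    (hIH : IrrStmt Y V (Nat.card L)) : Act2 X W₀ W₁ := by
  classical
  haveI : Fact (Nat.Prime 2) := ⟨Nat.prime_two⟩
  have hDX : D ≤ X := hXdef ▸ le_sup_left
  have hEX : E ≤ X := hXdef ▸ le_sup_right
  have hXL : X ≤ L := hXdef ▸ sup_le hD.le hE
  have hcard : Nat.card X < Nat.card L := card_lt_of_ne hXL hX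
  have h₀X : InvS X W₀ := hs.inv₀.mono hXL
  have h₁X : InvS X W₁ := hs.inv₁.mono hXL
  by_contra hnot
  obtain ⟨H₁, hH₁⟩ : ∃ H₁, H₁ = cenS W₀ W₁ {c : Y | c ∈ X ∧ Odd (orderOf c)} := ⟨_, rfl⟩
  have hH₁mem : ∀ x, x ∈ H₁ ↔ x ∈ W₁ ∧ ∀ c ∈ X, Odd (orderOf c) → c • x - x ∈ W₀ := by
    intro x
    rw [hH₁, mem_cenS]
    constructor
    · rintro ⟨h1, h2⟩
      exact ⟨h1, fun c hc hodd => h2 c ⟨hc, hodd⟩⟩
    · rintro ⟨h1, h2⟩
      exact ⟨h1, fun c hc => h2 c hc.1 hc.2⟩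
  have hH₁le : H₁ ≤ W₁ := fun x hx => ((hH₁mem x).mp hx).1
  have hW₀H₁ : W₀ ≤ H₁ := fun x hx => (hH₁mem x).mpr ⟨hs.le hx, fun c hc _ =>
    W₀.sub_mem (h₀X c hc x hx) hx⟩
  have hH₁inv : InvS X H₁ := by
    intro g hg x hx
    obtain ⟨h1, h2⟩ := (hH₁mem x).mp hx
    refine (hH₁mem _).mpr ⟨h₁X g hg x h1, fun c hc hodd => ?_⟩
    have hconj : g⁻¹ * c * g ∈ X := X.mul_mem (X.mul_mem (X.inv_mem hg) hc) hg
    have hoddc : Odd (orderOf (g⁻¹ * c * g)) := by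
      have : orderOf (g⁻¹ * c * g) = orderOf c := by
        have e : g⁻¹ * c * g = (MulAut.conj g⁻¹) c := by
          simp
        rw [e]
        exact MulEquiv.orderOf_eq _ _
      rwa [this]
    have e := h₀X g hg _ (h2 _ hconj hoddc)
    rw [smul_sub] at e
    convert e using 2
    simp only [mul_smul, smul_inv_smul]
  have hH₁ne : H₁ ≠ W₁ := by
    intro e
    apply hnot
    apply act2_of_odd
    intro c hc hodd
    apply mem_ST_of h₀X hc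
    intro x hx
    rw [← e] at hx
    exact ((hH₁mem x).mp hx).2 c hc hodd
  obtain ⟨U, hUinv, hH₁U, hUW₁, hUne, hUmin⟩ := exists_min_inv h₁X hH₁le hH₁ne
  -- an odd element moves every element outside `H₁`
  have hstar : ∀ x ∈ U, x ∉ H₁ → ∃ c ∈ X, Odd (orderOf c) ∧ c • x - x ∉ H₁ := by
    intro x hxU hxH
    have h1 : ¬ (x ∈ W₁ ∧ ∀ c ∈ X, Odd (orderOf c) → c • x - x ∈ W₀) :=
      fun h => hxH ((hH₁mem x).mpr h)
    push Not at h1
    obtain ⟨c, hc, hodd, hcx⟩ := h1 (hUW₁ hxU)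
    refine ⟨c, hc, hodd, fun hy => hcx ?_⟩
    have h2 := ((hH₁mem _).mp hy).2 c hc hodd
    exact odd_fix hV2 hodd (h₀X c hc) h2
  obtain ⟨x₀, hx₀U, hx₀H⟩ : ∃ x ∈ U, x ∉ H₁ := by
    by_contra hc
    push Not at hc
    exact hUne (le_antisymm hc hH₁U)
  have hsecU : Sect X H₁ U := by
    refine ⟨hH₁U, hH₁inv, hUinv, hUne.symm, hUmin, ?_⟩
    obtain ⟨c, hc, -, hcx⟩ := hstar x₀ hx₀U hx₀H
    exact ⟨c, hc, x₀, hx₀U, hcx⟩
  -- `D` acts nontrivially on the new section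
  have hDU : ¬ D ≤ ST H₁ U := by
    intro hle
    obtain ⟨c, hc, hodd, hcx⟩ := hstar x₀ hx₀U hx₀H
    have hc' : c ∈ D ⊔ E := hXdef ▸ hc
    obtain ⟨b, hb, hbe⟩ := exists_rep_sup (hXdef ▸ hH₁inv) (hXdef ▸ hUinv) hle c hc'
    obtain ⟨m, hm⟩ := hEp ⟨b, hb⟩
    have hbm : b ^ 2 ^ m = 1 := congrArg Subtype.val hm
    exact hcx (odd_trivial hH₁inv hUinv hc (hEX hb) hodd hbm hbe x₀ hx₀U)
  have hIHU : MM H₁ U D < Nat.card U := hIH X H₁ U hcard hsecU D hDX hD.p hDU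
  -- the group `K' ⊔ E`
  obtain ⟨K', hK'⟩ : ∃ K', K' = X ⊓ ST H₁ U := ⟨_, rfl⟩
  obtain ⟨N, hN⟩ : ∃ N, N = K' ⊔ E := ⟨_, rfl⟩
  have hK'X : K' ≤ X := hK' ▸ inf_le_left
  have hK'S : K' ≤ ST H₁ U := hK' ▸ inf_le_right
  have hNX : N ≤ X := hN ▸ sup_le hK'X hEX
  have hEN : E ≤ N := hN ▸ le_sup_right
  have hK'N : K' ≤ N := hN ▸ le_sup_left
  have h₀N : InvS N W₀ := h₀X.mono hNX
  have hUN : InvS N U := hUinv.mono hNX
  have hH₁N : InvS N H₁ := hH₁inv.mono hNX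
  have hact : Act2 N W₀ U := by
    apply act2_of_odd
    intro c hc hodd
    apply mem_ST_of h₀N hc
    have hc' : c ∈ K' ⊔ E := hN ▸ hc
    obtain ⟨b, hb, hbe⟩ := exists_rep_sup (hN ▸ hH₁N) (hN ▸ hUN) hK'S c hc'
    obtain ⟨m, hm⟩ := hEp ⟨b, hb⟩
    have hbm : b ^ 2 ^ m = 1 := congrArg Subtype.val hm
    have h1 := odd_trivial hH₁N hUN hc (hEN hb) hodd hbm hbe
    intro x hx
    have h2 := ((hH₁mem _).mp (h1 x hx)).2 c (hNX hc) hodd
    exact odd_fix hV2 hodd (h₀N c hc) h2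
  have hcomm := comm_of_act2 hQ h₀N hUN hact
  -- the kernel of `D`
  obtain ⟨D₁, hD₁⟩ : ∃ D₁, D₁ = D ⊓ ST H₁ U := ⟨_, rfl⟩
  have hD₁D : D₁ ≤ D := hD₁ ▸ inf_le_left
  have hD₁S : D₁ ≤ ST H₁ U := hD₁ ▸ inf_le_right
  have hD₁N : D₁ ≤ N := fun d hd => hK'N (hK' ▸ ⟨hDX (hD₁D hd), hD₁S hd⟩)
  have hcommX : ∀ d₁ ∈ D₁, ∀ g ∈ X, ∀ x ∈ U, d₁ • g • x - g • d₁ • x ∈ W₀ := by
    intro d₁ hd₁ g hg
    have hg' : g ∈ Subgroup.closure ((D : Set Y) ∪ E) := by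
      rw [← sup_eq_closure, ← hXdef]
      exact hg
    have hcl : Subgroup.closure ((D : Set Y) ∪ E) = X := by
      rw [← sup_eq_closure, ← hXdef]
    have hd₁X : d₁ ∈ X := hDX (hD₁D hd₁)
    clear hg
    induction hg' using Subgroup.closure_induction with
    | mem g hg =>
      intro x hx
      rcases hg with hg | hg
      · rw [hQ.comm hD.p (hD₁D hd₁) hg x, sub_self]
        exact W₀.zero_mem
      · exact hcomm d₁ (hD₁N hd₁) g (hEN hg) x hx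
    | one => intro x _; simp
    | mul g₁ g₂ h₁ h₂ ih₁ ih₂ =>
      intro x hx
      have hg₁ : g₁ ∈ X := hcl ▸ h₁
      have hg₂ : g₂ ∈ X := hcl ▸ h₂
      have e := W₀.add_mem (ih₁ _ (hUinv g₂ hg₂ x hx)) (h₀X g₁ hg₁ _ (ih₂ x hx))
      rw [smul_sub] at e
      rw [mul_smul, mul_smul]
      convert e using 1
      abel
    | inv g h ih =>
      intro x hx
      have hg₁ : g ∈ X := hcl ▸ h
      have hy : g⁻¹ • x ∈ U := hUinv _ (X.inv_mem hg₁) x hx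
      have e := h₀X _ (X.inv_mem hg₁) _ (ih _ hy)
      rw [smul_sub, smul_inv_smul, inv_smul_smul] at e
      have e2 := W₀.neg_mem e
      convert e2 using 1
      abel
  -- the fixed points of `D₁`
  obtain ⟨T, hT⟩ : ∃ T, T = cenS W₀ U (D₁ : Set Y) := ⟨_, rfl⟩
  have hTU : T ≤ U := hT ▸ cenS_le
  have hTinv : InvS X T := by
    intro g hg t ht
    rw [hT, mem_cenS] at ht ⊢
    refine ⟨hUinv g hg t ht.1, fun d hd => ?_⟩
    have e := W₀.add_mem (hcommX d hd g hg t ht.1) (h₀X g hg _ (ht.2 d hd))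
    rw [smul_sub] at e
    convert e using 1
    abel
  have hTsup : T ⊔ H₁ = U := by
    rcases hUmin (T ⊔ H₁) (hTinv.sup hH₁inv) le_sup_right (sup_le hTU hH₁U) with h | h
    · exfalso
      obtain ⟨c, hc, hodd, hcx⟩ := hstar x₀ hx₀U hx₀H
      apply hcx
      have hyT : c • x₀ - x₀ ∈ T := by
        rw [hT, mem_cenS]
        refine ⟨U.sub_mem (hUinv c hc _ hx₀U) hx₀U, fun d hd => ?_⟩
        have h1 : d • x₀ - x₀ ∈ H₁ := ST_apply (hD₁S hd) hx₀U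
        have h2 := ((hH₁mem _).mp h1).2 c hc hodd
        have e := W₀.add_mem (hcommX d hd c hc x₀ hx₀U) h2
        rw [smul_sub] at e ⊢
        convert e using 1
        abel
      have : c • x₀ - x₀ ∈ T ⊔ H₁ := AddSubgroup.mem_sup_left hyT
      rwa [h] at this
    · exact h
  obtain ⟨C', hC'⟩ : ∃ C', C' = cenS H₁ U (D : Set Y) := ⟨_, rfl⟩
  have hC'U : C' ≤ U := hC' ▸ cenS_le
  have hH₁C' : H₁ ≤ C' := by
    rw [hC']
    intro x hx
    exact mem_cenS.mpr ⟨hH₁U hx, fun d hd => H₁.sub_mem (hH₁inv d (hDX hd) x hx) hx⟩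
  have hTC' : T ⊔ C' = U := le_antisymm (sup_le hTU hC'U) (hTsup ▸ sup_le_sup_left hH₁C' T)
  obtain ⟨CD, hCD⟩ : ∃ CD, CD = cenS W₀ W₁ (D : Set Y) := ⟨_, rfl⟩
  obtain ⟨CD₁, hCD₁⟩ : ∃ CD₁, CD₁ = cenS W₀ W₁ (D₁ : Set Y) := ⟨_, rfl⟩
  have hTCD₁ : T ≤ CD₁ := by
    intro t ht
    rw [hT, mem_cenS] at ht
    rw [hCD₁, mem_cenS]
    exact ⟨hUW₁ ht.1, ht.2⟩
  have hCDCD₁ : CD ≤ CD₁ := by
    rw [hCD, hCD₁]
    exact cenS_anti hD₁D
  have hTCD : T ⊓ CD ≤ T ⊓ C' := by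
    rintro x ⟨hx1, hx2⟩
    refine ⟨hx1, ?_⟩
    have hx2' : x ∈ CD := hx2
    rw [hCD, mem_cenS] at hx2'
    have hg : x ∈ cenS H₁ U (D : Set Y) := ⟨hTU hx1, fun d hd => hW₀H₁ (hx2'.2 d hd)⟩
    rw [← hC'] at hg
    exact hg
  have p1 := card_sup_mul_card_inf T C'
  rw [hTC'] at p1
  have p2 := card_sup_mul_card_inf T CD
  have c1 : Nat.card ↥(T ⊔ CD) ≤ Nat.card CD₁ := AddSubgroup.card_le_of_le (sup_le hTCD₁ hCDCD₁)
  have c2 : Nat.card ↥(T ⊓ CD) ≤ Nat.card ↥(T ⊓ C') := AddSubgroup.card_le_of_le hTCD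
  have main : Nat.card U * Nat.card CD ≤ Nat.card CD₁ * Nat.card C' := by
    have hTpos : 0 < Nat.card T := Nat.card_pos
    apply Nat.le_of_mul_le_mul_left _ hTpos
    calc Nat.card T * (Nat.card U * Nat.card CD) = Nat.card U * (Nat.card T * Nat.card CD) := by ring
      _ = Nat.card U * (Nat.card ↥(T ⊔ CD) * Nat.card ↥(T ⊓ CD)) := by rw [p2]
      _ ≤ Nat.card U * (Nat.card CD₁ * Nat.card ↥(T ⊓ C')) := by gcongr
      _ = Nat.card CD₁ * (Nat.card U * Nat.card ↥(T ⊓ C')) := by ring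
      _ = Nat.card CD₁ * (Nat.card T * Nat.card C') := by rw [p1]
      _ = Nat.card T * (Nat.card CD₁ * Nat.card C') := by ring
  -- bestness
  have hDST : D ⊓ ST W₀ W₁ ≤ ST H₁ U := by
    rintro d ⟨hd, hdS⟩
    apply mem_ST_of hH₁inv (hDX hd)
    intro x hx
    exact hW₀H₁ (ST_apply hdS (hUW₁ hx))
  have hrel : (ST W₀ W₁).relIndex D = (ST W₀ W₁).relIndex D₁ * (ST H₁ U).relIndex D := by
    have h1 := Subgroup.relIndex_inf_mul_relIndex (ST W₀ W₁) (ST H₁ U) D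
    have h2 : (ST W₀ W₁ ⊓ ST H₁ U).relIndex D = (ST W₀ W₁).relIndex D := by
      rw [← Subgroup.inf_relIndex_right (ST W₀ W₁ ⊓ ST H₁ U) D,
        ← Subgroup.inf_relIndex_right (ST W₀ W₁) D]
      congr 1
      apply le_antisymm
      · rintro x ⟨⟨h3, -⟩, h4⟩
        exact ⟨h3, h4⟩
      · rintro x ⟨h3, h4⟩
        exact ⟨⟨h3, hDST ⟨h4, h3⟩⟩, h4⟩
    have h3 : ST H₁ U ⊓ D = D₁ := by
      rw [hD₁, inf_comm]
    rw [h2, h3] at h1
    exact h1.symm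
  have hmax := hD.max D₁ (hD₁D.trans hD.le) (hD.p.to_le hD₁D)
  have hapos : 0 < (ST W₀ W₁).relIndex D₁ := Nat.pos_of_ne_zero Subgroup.index_ne_zero_of_finite
  have hmax2 : Nat.card CD₁ ≤ (ST H₁ U).relIndex D * Nat.card CD := by
    apply Nat.le_of_mul_le_mul_left _ hapos
    have : MM W₀ W₁ D₁ ≤ MM W₀ W₁ D := hmax
    rw [MM, MM, hrel, ← hCD, ← hCD₁] at this
    calc (ST W₀ W₁).relIndex D₁ * Nat.card CD₁ ≤ _ := this
      _ = _ := by ring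
  have hfinal : Nat.card U ≤ (ST H₁ U).relIndex D * Nat.card C' := by
    have hCDpos : 0 < Nat.card CD := Nat.card_pos
    apply Nat.le_of_mul_le_mul_right _ hCDpos
    calc Nat.card U * Nat.card CD ≤ Nat.card CD₁ * Nat.card C' := main
      _ ≤ ((ST H₁ U).relIndex D * Nat.card CD) * Nat.card C' := by gcongr
      _ = _ := by ring
  have hIHU' : (ST H₁ U).relIndex D * Nat.card C' < Nat.card U := by
    rw [hC']
    exact hIHU
  omega

end Cfsg.Agent.Lib.Tech.FFA
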