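import Cfsg.Agent.Lib.Tech.FFA2

/-!
# Best subgroups on irreducible sections: conjugates, common fixed points, counting.
-/

set_option autoImplicit false
set_option linter.unusedSectionVars false
set_option linter.style.haveILetI false

namespace Cfsg.Agent.Lib.Tech.FFA

open Subgroup

variable {Y V : Type*} [Group Y] [AddCommGroup V] [DistribMulAction Y V]

/-- The conjugate of a subgroup. -/
def conjS (y : Y) (D : Subgroup Y) : Subgroup Y := D.map (MulAut.conj y).toMonoidHom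

theorem mem_conjS {y x : Y} {D : Subgroup Y} : x ∈ conjS y D ↔ y⁻¹ * x * y ∈ D := by
  constructor
  · rintro ⟨d, hd, rfl⟩
    have : y⁻¹ * (MulAut.conj y).toMonoidHom d * y = d := by
      simp [MulAut.conj_apply]
      group
    rwa [this]
  · intro h
    refine ⟨_, h, ?_⟩
    simp [MulAut.conj_apply]
    group

theorem conj_mem_conjS {y d : Y} {D : Subgroup Y} (hd : d ∈ D) : y * d * y⁻¹ ∈ conjS y D := by
  rw [mem_conjS]
  have : y⁻¹ * (y * d * y⁻¹) * y = d := by group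
  rwa [this]

theorem conjS_le {L D : Subgroup Y} {y : Y} (hy : y ∈ L) (hD : D ≤ L) : conjS y D ≤ L := by
  intro x hx
  rw [mem_conjS] at hx
  have := L.mul_mem (L.mul_mem hy (hD hx)) (L.inv_mem hy)
  have e : y * (y⁻¹ * x * y) * y⁻¹ = x := by group
  rwa [e] at this

theorem smul_mem_cenS_conj {L : Subgroup Y} {W₀ W₁ : AddSubgroup V} {D : Subgroup Y}
    (h₀ : InvS L W₀) (h₁ : InvS L W₁) {y : Y} (hy : y ∈ L) {x : V}
    (hx : x ∈ cenS W₀ W₁ (D : Set Y)) : y • x ∈ cenS W₀ W₁ (conjS y D : Set Y) := by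
  refine ⟨h₁ y hy x hx.1, fun d hd => ?_⟩
  have hd' : y⁻¹ * d * y ∈ D := mem_conjS.mp hd
  have e := h₀ y hy _ (hx.2 _ hd')
  rw [smul_sub] at e
  convert e using 2
  simp only [mul_smul, smul_inv_smul]

theorem inv_smul_mem_cenS_conj {L : Subgroup Y} {W₀ W₁ : AddSubgroup V} {D : Subgroup Y}
    (h₀ : InvS L W₀) (h₁ : InvS L W₁) {y : Y} (hy : y ∈ L) {x : V}
    (hx : x ∈ cenS W₀ W₁ (conjS y D : Set Y)) : y⁻¹ • x ∈ cenS W₀ W₁ (D : Set Y) := by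
  refine ⟨h₁ _ (L.inv_mem hy) x hx.1, fun d hd => ?_⟩
  have e := h₀ _ (L.inv_mem hy) _ (hx.2 _ (conj_mem_conjS hd))
  rw [smul_sub] at e
  convert e using 2
  simp only [mul_smul, inv_smul_smul]

theorem card_cenS_conj {L : Subgroup Y} {W₀ W₁ : AddSubgroup V} {D : Subgroup Y}
    (h₀ : InvS L W₀) (h₁ : InvS L W₁) {y : Y} (hy : y ∈ L) :
    Nat.card (cenS W₀ W₁ (conjS y D : Set Y)) = Nat.card (cenS W₀ W₁ (D : Set Y)) := by
  refine Nat.card_congr ⟨fun x => ⟨y⁻¹ • x.1, inv_smul_mem_cenS_conj h₀ h₁ hy x.2⟩,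
    fun x => ⟨y • x.1, smul_mem_cenS_conj h₀ h₁ hy x.2⟩, fun x => ?_, fun x => ?_⟩
  · apply Subtype.ext
    simp
  · apply Subtype.ext
    simp

theorem relIndex_inf_of_le (H : Subgroup Y) {D L : Subgroup Y} (hD : D ≤ L) :
    (H ⊓ L).relIndex D = H.relIndex D := by
  unfold Subgroup.relIndex
  congr 1
  ext x
  simp only [mem_subgroupOf, mem_inf]
  exact ⟨fun h => h.1, fun h => ⟨h, hD x.2⟩⟩

theorem relIndex_conj {L : Subgroup Y} {W₀ W₁ : AddSubgroup V} {D : Subgroup Y}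
    (h₀ : InvS L W₀) (h₁ : InvS L W₁) {y : Y} (hy : y ∈ L) (hD : D ≤ L) :
    (ST W₀ W₁).relIndex (conjS y D) = (ST W₀ W₁).relIndex D := by
  have hS : (ST W₀ W₁ ⊓ L).map (MulAut.conj y).toMonoidHom = ST W₀ W₁ ⊓ L := by
    apply le_antisymm
    · rintro _ ⟨s, ⟨hs, hsL⟩, rfl⟩
      refine ⟨conj_mem_ST h₀ h₁ hy hs, ?_⟩
      exact L.mul_mem (L.mul_mem hy hsL) (L.inv_mem hy)
    · rintro s ⟨hs, hsL⟩
      refine ⟨y⁻¹ * s * y⁻¹⁻¹, ⟨conj_mem_ST h₀ h₁ (L.inv_mem hy) hs, ?_⟩, ?_⟩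
      · exact L.mul_mem (L.mul_mem (L.inv_mem hy) hsL) (L.inv_mem (L.inv_mem hy))
      · simp [MulAut.conj_apply]
        group
  rw [← relIndex_inf_of_le _ (conjS_le hy hD), ← relIndex_inf_of_le _ hD]
  conv_lhs => rw [← hS]
  exact Subgroup.relIndex_map_map_of_injective _ _ (MulAut.conj y).injective

theorem MM_conj {L : Subgroup Y} {W₀ W₁ : AddSubgroup V} {D : Subgroup Y}
    (h₀ : InvS L W₀) (h₁ : InvS L W₁) {y : Y} (hy : y ∈ L) (hD : D ≤ L) :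
    MM W₀ W₁ (conjS y D) = MM W₀ W₁ D := by
  rw [MM, MM, relIndex_conj h₀ h₁ hy hD, card_cenS_conj h₀ h₁ hy]

theorem Best.conj {L : Subgroup Y} {W₀ W₁ : AddSubgroup V} {D : Subgroup Y}
    (h₀ : InvS L W₀) (h₁ : InvS L W₁) (hB : Best L W₀ W₁ D) {y : Y} (hy : y ∈ L) :
    Best L W₀ W₁ (conjS y D) := by
  refine ⟨conjS_le hy hB.le, ?_, ?_, ?_⟩
  · exact hB.p.map _
  · intro h
    apply hB.ntr
    intro d hd
    have h1 := h (conj_mem_conjS (y := y) hd)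
    have h2 := conj_mem_ST h₀ h₁ (L.inv_mem hy) h1
    have e : y⁻¹ * (y * d * y⁻¹) * y⁻¹⁻¹ = d := by group
    rwa [e] at h2
  · intro D' hD' hp
    rw [MM_conj h₀ h₁ hy hB.le]
    exact hB.max D' hD' hp

theorem MM_bot (W₀ W₁ : AddSubgroup V) : MM W₀ W₁ (⊥ : Subgroup Y) = Nat.card W₁ := by
  rw [MM, Subgroup.relIndex_bot_right, one_mul]
  congr 2
  ext x
  constructor
  · exact fun h => h.1
  · intro hx
    refine ⟨hx, fun d hd => ?_⟩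
    have : d = 1 := hd
    subst this
    simp

theorem Best.card_le {L : Subgroup Y} {W₀ W₁ : AddSubgroup V} {D : Subgroup Y}
    (hB : Best L W₀ W₁ D) : Nat.card W₁ ≤ MM W₀ W₁ D := by
  rw [← MM_bot (Y := Y) W₀ W₁]
  exact hB.max ⊥ bot_le IsPGroup.of_bot

/-- Common fixed points of pairwise commuting quadratic elements. -/
theorem common_fixed {W₀ W₁ : AddSubgroup V} (Δ : Finset Y) (hpres : ∀ δ ∈ Δ, ∀ x ∈ W₀, δ • x ∈ W₀)
    (hpres1 : ∀ δ ∈ Δ, ∀ x ∈ W₁, δ • x ∈ W₁)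
    (hquad : ∀ δ ∈ Δ, ∀ x : V, δ • (δ • x - x) = δ • x - x)
    (hcomm : ∀ δ ∈ Δ, ∀ δ' ∈ Δ, ∀ x ∈ W₁, δ • δ' • x - δ' • δ • x ∈ W₀)
    {x₀ : V} (hx₀ : x₀ ∈ W₁) (hx₀' : x₀ ∉ W₀) :
    ∃ x ∈ W₁, x ∉ W₀ ∧ ∀ δ ∈ Δ, δ • x - x ∈ W₀ := by
  classical
  induction Δ using Finset.induction_on with
  | empty => exact ⟨x₀, hx₀, hx₀', by simp⟩
  | insert a Δ' ha ih =>
    obtain ⟨x, hx, hx', hxf⟩ := ih (fun δ hδ => hpres δ (Finset.mem_insert_of_mem hδ))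
      (fun δ hδ => hpres1 δ (Finset.mem_insert_of_mem hδ))
      (fun δ hδ => hquad δ (Finset.mem_insert_of_mem hδ))
      (fun δ hδ δ' hδ' => hcomm δ (Finset.mem_insert_of_mem hδ) δ' (Finset.mem_insert_of_mem hδ'))
    by_cases hax : a • x - x ∈ W₀
    · refine ⟨x, hx, hx', fun δ hδ => ?_⟩
      rcases Finset.mem_insert.mp hδ with rfl | hδ
      · exact hax
      · exact hxf δ hδ
    · have haI : a ∈ insert a Δ' := Finset.mem_insert_self a Δ'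
      refine ⟨a • x - x, W₁.sub_mem (hpres1 a haI x hx) hx, hax, fun δ hδ => ?_⟩
      rcases Finset.mem_insert.mp hδ with rfl | hδ'
      · rw [hquad δ hδ, sub_self]
        exact W₀.zero_mem
      · have e1 := hcomm δ hδ a haI x hx
        have e2 := hpres a haI _ (hxf δ hδ')
        have e3 := hxf δ hδ'
        have e := W₀.sub_mem (W₀.add_mem e1 e2) e3
        rw [smul_sub] at e ⊢
        convert e using 1
        abel

/-- A kind of Baer-Suzuki theorem for quadratic elements. -/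
theorem bs_lemma [Finite Y] (hQ : QuadH Y V) {L : Subgroup Y} {W₀ W₁ : AddSubgroup V}
    (hs : Sect L W₀ W₁) {a : Y} (haL : a ∈ L) {T : Subgroup Y} (hT : IsPGroup 2 T) (haT : a ∈ T)
    (hc : ∀ y ∈ L, ∀ x ∈ W₁, a • (y * a * y⁻¹) • x - (y * a * y⁻¹) • a • x ∈ W₀) :
    a ∈ ST W₀ W₁ := by
  classical
  let Ω : Set Y := {δ | ∃ y ∈ L, δ = y * a * y⁻¹}
  have hΩL : ∀ δ ∈ Ω, δ ∈ L := by
    rintro _ ⟨y, hy, rfl⟩
    exact L.mul_mem (L.mul_mem hy haL) (L.inv_mem hy)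
  let Δ : Finset Y := (Set.toFinite Ω).toFinset
  have hΔ : ∀ δ, δ ∈ Δ ↔ δ ∈ Ω := fun δ => Set.Finite.mem_toFinset _
  have hquad : ∀ δ ∈ Δ, ∀ x : V, δ • (δ • x - x) = δ • x - x := by
    intro δ hδ x
    obtain ⟨y, hy, rfl⟩ := (hΔ δ).mp hδ
    have hm : y * a * y⁻¹ ∈ conjS y T := conj_mem_conjS haT
    exact hQ (conjS y T) (hT.map _) _ hm _ hm x
  have hcomm : ∀ δ ∈ Δ, ∀ δ' ∈ Δ, ∀ x ∈ W₁, δ • δ' • x - δ' • δ • x ∈ W₀ := by
    intro δ hδ δ' hδ' x hx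
    obtain ⟨y, hy, rfl⟩ := (hΔ δ).mp hδ
    obtain ⟨z, hz, rfl⟩ := (hΔ δ').mp hδ'
    have hy' := L.inv_mem hy
    have h1 := hc (y⁻¹ * z) (L.mul_mem hy' hz) _ (hs.inv₁ _ hy' x hx)
    have h2 := hs.inv₀ y hy _ h1
    convert h2 using 1
    simp only [smul_sub, ← mul_smul]
    congr 2 <;> group
  obtain ⟨x₀, hx₀, hx₀'⟩ : ∃ x ∈ W₁, x ∉ W₀ := by
    by_contra hcon
    push Not at hcon
    exact hs.ne (le_antisymm hs.le hcon)
  obtain ⟨x, hx, hx', hxf⟩ := common_fixed Δ (fun δ hδ => hs.inv₀ δ (hΩL δ ((hΔ δ).mp hδ)))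
    (fun δ hδ => hs.inv₁ δ (hΩL δ ((hΔ δ).mp hδ))) hquad hcomm hx₀ hx₀'
  have hF : InvS L (cenS W₀ W₁ Ω) := by
    intro g hg z hz
    refine ⟨hs.inv₁ g hg z hz.1, fun δ hδ => ?_⟩
    obtain ⟨y, hy, rfl⟩ := hδ
    have hm : g⁻¹ * (y * a * y⁻¹) * g ∈ Ω :=
      ⟨g⁻¹ * y, L.mul_mem (L.inv_mem hg) hy, by group⟩
    have e := hs.inv₀ g hg _ (hz.2 _ hm)
    rw [smul_sub] at e
    convert e using 2
    simp only [mul_smul, smul_inv_smul]
  have hW₀F : W₀ ≤ cenS W₀ W₁ Ω := fun z hz =>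
    ⟨hs.le hz, fun δ hδ => W₀.sub_mem (hs.inv₀ δ (hΩL δ hδ) z hz) hz⟩
  rcases hs.irr _ hF hW₀F cenS_le with h | h
  · exfalso
    apply hx'
    rw [← h]
    exact ⟨hx, fun δ hδ => hxf δ ((hΔ δ).mpr hδ)⟩
  · apply mem_ST_of hs.inv₀ haL
    intro z hz
    rw [← h] at hz
    have := hz.2 a ⟨1, L.one_mem, by group⟩
    exact this

/-- The subgroup of `L` fixing `x` modulo `W₀`. -/
def fixSub (L : Subgroup Y) (W₀ : AddSubgroup V) (h₀ : InvS L W₀) (x : V) : Subgroup Y where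
  carrier := {g | g ∈ L ∧ g • x - x ∈ W₀}
  one_mem' := ⟨L.one_mem, by simp⟩
  mul_mem' := by
    rintro g h ⟨hg, hg'⟩ ⟨hk, hk'⟩
    refine ⟨L.mul_mem hg hk, ?_⟩
    have e := W₀.add_mem (h₀ g hg _ hk') hg'
    rw [smul_sub] at e
    rw [mul_smul]
    convert e using 1
    abel
  inv_mem' := by
    rintro g ⟨hg, hg'⟩
    refine ⟨L.inv_mem hg, ?_⟩
    have e := W₀.neg_mem (h₀ _ (L.inv_mem hg) _ hg')
    rw [smul_sub, inv_smul_smul] at e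
    convert e using 1
    abel

/-- Fixed points of `A` and of `B` are fixed points of `A ⊔ B`. -/
theorem fixed_sup {L A B : Subgroup Y} {W₀ : AddSubgroup V} (h₀ : InvS L W₀) (hA : A ≤ L)
    (hB : B ≤ L) {x : V} (hxA : ∀ a ∈ A, a • x - x ∈ W₀) (hxB : ∀ b ∈ B, b • x - x ∈ W₀) :
    ∀ g ∈ A ⊔ B, g • x - x ∈ W₀ := by
  have h : A ⊔ B ≤ fixSub L W₀ h₀ x :=
    sup_le (fun a ha => ⟨hA ha, hxA a ha⟩) (fun b hb => ⟨hB hb, hxB b hb⟩)
  exact fun g hg => (h hg).2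

/-- The stabilizer of an additive subgroup. -/
def stabS (U : AddSubgroup V) : Subgroup Y where
  carrier := {g | (∀ x ∈ U, g • x ∈ U) ∧ (∀ x ∈ U, g⁻¹ • x ∈ U)}
  one_mem' := by simp +contextual
  mul_mem' := by
    rintro g h ⟨hg, hg'⟩ ⟨hk, hk'⟩
    refine ⟨fun x hx => ?_, fun x hx => ?_⟩
    · rw [mul_smul]
      exact hg _ (hk _ hx)
    · rw [mul_inv_rev, mul_smul]
      exact hk' _ (hg' _ hx)
  inv_mem' := by
    rintro g ⟨hg, hg'⟩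
    exact ⟨hg', by simpa using hg⟩

theorem inv_sup {A B : Subgroup Y} {U : AddSubgroup V} (hA : InvS A U) (hB : InvS B U) :
    InvS (A ⊔ B) U := by
  have h : A ⊔ B ≤ stabS U :=
    sup_le (fun a ha => ⟨hA a ha, hA _ (A.inv_mem ha)⟩) (fun b hb => ⟨hB b hb, hB _ (B.inv_mem hb)⟩)
  exact fun g hg => (h hg).1

end Cfsg.Agent.Lib.Tech.FFA
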