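import Cfsg.Agent.Lib.Tech.FFA3

/-!
# Best subgroups on irreducible sections: the contradiction.
-/

set_option autoImplicit false
set_option linter.unusedSectionVars false
set_option linter.style.haveILetI false

namespace Cfsg.Agent.Lib.Tech.FFA

open Subgroup

variable {Y V : Type*} [Group Y] [AddCommGroup V] [DistribMulAction Y V]

/-- The hypothesis excluding `S₃` acting on a natural section. -/
def NoS3 (Y V : Type*) [Group Y] [AddCommGroup V] [DistribMulAction Y V] : Prop :=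
  ∀ (W₀ : AddSubgroup V) (a b : Y) (u v : V), (∀ x ∈ W₀, a • x ∈ W₀) → (∀ x ∈ W₀, a⁻¹ • x ∈ W₀) →
    (∀ x ∈ W₀, b • x ∈ W₀) → (∀ x ∈ W₀, b⁻¹ • x ∈ W₀) → u ∉ W₀ → v ∉ W₀ → u + v ∉ W₀ →
    a • u - u - v ∈ W₀ → a • v - v ∈ W₀ → b • v - v - u ∈ W₀ → b • u - u ∈ W₀ → False

section

variable [Finite Y] [Finite V] (hV2 : ∀ x : V, x + x = 0) (hQ : QuadH Y V)
  {L : Subgroup Y} {W₀ W₁ : AddSubgroup V} (hs : Sect L W₀ W₁)

include hs

theorem cen_L {x : V} (hx : x ∈ W₁) (h : ∀ g ∈ L, g • x - x ∈ W₀) : x ∈ W₀ := by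
  have hinv : InvS L (cenS W₀ W₁ (L : Set Y)) := by
    intro g hg z hz
    refine ⟨hs.inv₁ g hg z hz.1, fun k hk => ?_⟩
    have e := W₀.sub_mem (hz.2 (k * g) (L.mul_mem hk hg)) (hz.2 g hg)
    rw [mul_smul] at e
    convert e using 1
    abel
  have hW₀ : W₀ ≤ cenS W₀ W₁ (L : Set Y) := fun z hz =>
    ⟨hs.le hz, fun δ hδ => W₀.sub_mem (hs.inv₀ δ hδ z hz) hz⟩
  rcases hs.irr _ hinv hW₀ cenS_le with h1 | h1
  · rw [← h1]
    exact ⟨hx, h⟩
  · exfalso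
    obtain ⟨g, hg, z, hz, hgz⟩ := hs.ntr
    rw [← h1] at hz
    exact hgz (hz.2 g hg)

theorem W₀_le_cenS {D : Subgroup Y} (hD : D ≤ L) : W₀ ≤ cenS W₀ W₁ (D : Set Y) := fun z hz =>
  ⟨hs.le hz, fun δ hδ => W₀.sub_mem (hs.inv₀ δ (hD hδ) z hz) hz⟩

include hQ

theorem quad_mem {A : Subgroup Y} (hAp : IsPGroup 2 A) (hAL : A ≤ L) {a : Y} (ha : a ∈ A) {x : V}
    (hx : x ∈ W₁) : a • x - x ∈ cenS W₀ W₁ (A : Set Y) := by
  refine ⟨W₁.sub_mem (hs.inv₁ a (hAL ha) x hx) hx, fun d hd => ?_⟩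
  rw [hQ A hAp d hd a ha x, sub_self]
  exact W₀.zero_mem

theorem inv_sup_cen {A : Subgroup Y} (B : Subgroup Y) (hAp : IsPGroup 2 A) (hAL : A ≤ L) :
    InvS A (cenS W₀ W₁ (A : Set Y) ⊔ cenS W₀ W₁ (B : Set Y)) := by
  intro a ha x hx
  obtain ⟨r, hr, p, hp, rfl⟩ := AddSubgroup.mem_sup.mp hx
  have h1 : a • r ∈ cenS W₀ W₁ (A : Set Y) := by
    have e := (cenS W₀ W₁ (A : Set Y)).add_mem hr (W₀_le_cenS hs hAL (hr.2 a ha))
    convert e using 1
    abel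
  have h2 := quad_mem hQ hs hAp hAL ha (cenS_le hp)
  have e := AddSubgroup.add_mem_sup ((cenS W₀ W₁ (A : Set Y)).add_mem h1 h2) hp
  rw [smul_add]
  convert e using 1
  abel

variable (hIH : IrrStmt Y V (Nat.card L))
include hV2 hIH

theorem comm_of_best {D E : Subgroup Y} (hD : Best L W₀ W₁ D) (hE : E ≤ L) (hEp : IsPGroup 2 E)
    (hne : D ⊔ E ≠ L) : ∀ n ∈ D ⊔ E, ∀ m ∈ D ⊔ E, ∀ x ∈ W₁, n • m • x - m • n • x ∈ W₀ :=
  comm_of_act2 hQ (hs.inv₀.mono (sup_le hD.le hE)) (hs.inv₁.mono (sup_le hD.le hE))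
    (claim_one hV2 hQ hs rfl hD hE hEp hne hIH)

theorem best_gen {A : Subgroup Y} (hA : Best L W₀ W₁ A) : ∃ y ∈ L, A ⊔ conjS y A = L := by
  by_contra hcon
  push Not at hcon
  obtain ⟨a, ha, haS⟩ := SetLike.not_le_iff_exists.mp hA.ntr
  apply haS
  apply bs_lemma hQ hs (hA.le ha) hA.p ha
  intro y hy x hx
  have hB := hA.conj hs.inv₀ hs.inv₁ hy
  exact comm_of_best hV2 hQ hs hIH hA hB.le hB.p (hcon y hy) a (mem_sup_left ha) _
    (mem_sup_right (conj_mem_conjS ha)) x hx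

omit hV2 hIH in
theorem best_pair {A : Subgroup Y} (hA : Best L W₀ W₁ A) {y : Y} (hy : y ∈ L)
    (hgen : A ⊔ conjS y A = L) :
    cenS W₀ W₁ (A : Set Y) ⊓ cenS W₀ W₁ (conjS y A : Set Y) = W₀ ∧
      cenS W₀ W₁ (A : Set Y) ⊔ cenS W₀ W₁ (conjS y A : Set Y) = W₁ := by
  have hB := hA.conj hs.inv₀ hs.inv₁ hy
  have hinf : cenS W₀ W₁ (A : Set Y) ⊓ cenS W₀ W₁ (conjS y A : Set Y) = W₀ := by
    apply le_antisymm
    · rintro x ⟨hx1, hx2⟩
      apply cen_L hs hx1.1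
      rw [← hgen]
      exact fixed_sup hs.inv₀ hA.le hB.le hx1.2 hx2.2
    · exact le_inf (W₀_le_cenS hs hA.le) (W₀_le_cenS hs hB.le)
  refine ⟨hinf, ?_⟩
  have hinv : InvS L (cenS W₀ W₁ (A : Set Y) ⊔ cenS W₀ W₁ (conjS y A : Set Y)) := by
    rw [← hgen]
    apply inv_sup
    · exact inv_sup_cen hQ hs _ hA.p hA.le
    · rw [sup_comm]
      exact inv_sup_cen hQ hs _ hB.p hB.le
  rcases hs.irr _ hinv ((W₀_le_cenS hs hA.le).trans le_sup_left) (sup_le cenS_le cenS_le) with h | h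
  · exfalso
    obtain ⟨a, ha, haS⟩ := SetLike.not_le_iff_exists.mp hA.ntr
    apply haS
    apply mem_ST_of hs.inv₀ (hA.le ha)
    intro x hx
    have h1 := quad_mem hQ hs hA.p hA.le ha hx
    rw [← h]
    exact AddSubgroup.mem_sup_left h1
  · exact h

theorem best_num {A : Subgroup Y} (hA : Best L W₀ W₁ A) :
    Nat.card W₁ * Nat.card W₀ =
      Nat.card (cenS W₀ W₁ (A : Set Y)) * Nat.card (cenS W₀ W₁ (A : Set Y)) := by
  obtain ⟨y, hy, hgen⟩ := best_gen hV2 hQ hs hIH hA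
  obtain ⟨h1, h2⟩ := best_pair hQ hs hA hy hgen
  have h3 := card_sup_mul_card_inf (cenS W₀ W₁ (A : Set Y)) (cenS W₀ W₁ (conjS y A : Set Y))
  rw [h1, h2, card_cenS_conj hs.inv₀ hs.inv₁ hy] at h3
  exact h3

theorem best_e {A : Subgroup Y} (hA : Best L W₀ W₁ A) :
    Nat.card (cenS W₀ W₁ (A : Set Y)) ≤ (ST W₀ W₁).relIndex A * Nat.card W₀ := by
  have h1 := best_num hV2 hQ hs hIH hA
  have h2 : Nat.card W₁ ≤ (ST W₀ W₁).relIndex A * Nat.card (cenS W₀ W₁ (A : Set Y)) := hA.card_le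
  have hpos : 0 < Nat.card (cenS W₀ W₁ (A : Set Y)) := Nat.card_pos
  apply Nat.le_of_mul_le_mul_right _ hpos
  rw [← h1]
  calc Nat.card W₁ * Nat.card W₀
      ≤ ((ST W₀ W₁).relIndex A * Nat.card (cenS W₀ W₁ (A : Set Y))) * Nat.card W₀ := by gcongr
    _ = _ := by ring

/-- Nontrivial elements of a best subgroup have the same fixed points. -/
theorem best_cen {A : Subgroup Y} (hA : Best L W₀ W₁ A) {a : Y} (ha : a ∈ A)
    (haS : a ∉ ST W₀ W₁) {x₀ : V} (hx₀ : x₀ ∈ W₁) (hfix : a • x₀ - x₀ ∈ W₀) :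
    x₀ ∈ cenS W₀ W₁ (A : Set Y) := by
  by_contra hx₀R
  apply haS
  have haL := hA.le ha
  apply bs_lemma hQ hs haL hA.p ha
  intro y hy x hx
  have hB := hA.conj hs.inv₀ hs.inv₁ hy
  have hza : zpowers a ≤ A := by
    rw [zpowers_le]
    exact ha
  have hzL : zpowers a ≤ L := hza.trans hA.le
  have hzp : IsPGroup 2 (zpowers a) := hA.p.to_le hza
  -- the fixed points of `a`
  obtain ⟨Ca, hCa⟩ : ∃ Ca, Ca = cenS W₀ W₁ (zpowers a : Set Y) := ⟨_, rfl⟩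
  have hRCa : cenS W₀ W₁ (A : Set Y) ≤ Ca := by
    rw [hCa]
    exact cenS_anti hza
  have hx₀Ca : x₀ ∈ Ca := by
    rw [hCa]
    refine ⟨hx₀, fun d hd => ?_⟩
    have h1 : zpowers a ≤ fixSub L W₀ hs.inv₀ x₀ := by
      rw [zpowers_le]
      exact ⟨haL, hfix⟩
    exact (h1 hd).2
  have hcard : Nat.card (cenS W₀ W₁ (A : Set Y)) < Nat.card Ca := by
    have h1 := AddSubgroup.card_le_of_le hRCa
    refine lt_of_le_of_ne h1 fun e => hx₀R ?_
    have h2 : cenS W₀ W₁ (A : Set Y) = Ca := AddSubgroup.eq_of_le_of_card_ge hRCa e.ge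
    rw [h2]
    exact hx₀Ca
  have hCaW : Ca ≤ W₁ := hCa ▸ cenS_le
  obtain ⟨P, hP⟩ : ∃ P, P = cenS W₀ W₁ (conjS y A : Set Y) := ⟨_, rfl⟩
  have hPW : P ≤ W₁ := hP ▸ cenS_le
  have hPcard : Nat.card P = Nat.card (cenS W₀ W₁ (A : Set Y)) := by
    rw [hP]
    exact card_cenS_conj hs.inv₀ hs.inv₁ hy
  have hW₀Ca : W₀ ≤ Ca := (W₀_le_cenS hs hA.le).trans hRCa
  have hW₀P : W₀ ≤ P := hP ▸ W₀_le_cenS hs hB.le
  -- a common fixed point
  have hinter : ∃ u, u ∈ Ca ∧ u ∈ P ∧ u ∉ W₀ := by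
    by_contra hcon
    push Not at hcon
    have h0 : Ca ⊓ P = W₀ := by
      apply le_antisymm
      · rintro u ⟨h1, h2⟩
        exact hcon u h1 h2
      · exact le_inf hW₀Ca hW₀P
    have h1 := card_sup_mul_card_inf Ca P
    rw [h0, hPcard] at h1
    have h2 : Nat.card ↥(Ca ⊔ P) ≤ Nat.card W₁ := AddSubgroup.card_le_of_le (sup_le hCaW hPW)
    have h3 := best_num hV2 hQ hs hIH hA
    have hpos : 0 < Nat.card (cenS W₀ W₁ (A : Set Y)) := Nat.card_pos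
    have h4 : Nat.card Ca * Nat.card (cenS W₀ W₁ (A : Set Y)) ≤
        Nat.card (cenS W₀ W₁ (A : Set Y)) * Nat.card (cenS W₀ W₁ (A : Set Y)) := by
      rw [← h1, ← h3]
      gcongr
    have h5 := Nat.le_of_mul_le_mul_right h4 hpos
    omega
  obtain ⟨u, huCa, huP, huW⟩ := hinter
  have hne : conjS y A ⊔ zpowers a ≠ L := by
    intro e
    apply huW
    apply cen_L hs (hPW huP)
    rw [← e]
    apply fixed_sup hs.inv₀ hB.le hzL
    · intro b hb
      rw [hP] at huP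
      exact huP.2 b hb
    · intro b hb
      rw [hCa] at huCa
      exact huCa.2 b hb
  have h1 := comm_of_best hV2 hQ hs hIH hB hzL hzp hne a (mem_sup_right (mem_zpowers a)) _
    (mem_sup_left (conj_mem_conjS ha)) x hx
  exact h1

/-- A best subgroup acts regularly on the fixed points of a conjugate. -/
theorem best_surj {A : Subgroup Y} (hA : Best L W₀ W₁ A) {u v : V} (hu : u ∈ W₁)
    (huR : u ∉ cenS W₀ W₁ (A : Set Y)) (hv : v ∈ cenS W₀ W₁ (A : Set Y)) :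
    ∃ a ∈ A, a • u - u - v ∈ W₀ := by
  classical
  obtain ⟨R, hR⟩ : ∃ R, R = cenS W₀ W₁ (A : Set Y) := ⟨_, rfl⟩
  rw [← hR] at huR hv
  have hW₀R : W₀ ≤ R := hR ▸ W₀_le_cenS hs hA.le
  have hmemR : ∀ a ∈ A, a • u - u ∈ R := fun a ha => hR ▸ quad_mem hQ hs hA.p hA.le ha hu
  let W' : AddSubgroup R := W₀.addSubgroupOf R
  let ψ : A →* Multiplicative (R ⧸ W') := MonoidHom.mk'
    (fun a => Multiplicative.ofAdd (QuotientAddGroup.mk ⟨a.1 • u - u, hmemR a.1 a.2⟩)) (by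
      intro a b
      rw [← ofAdd_add, ← QuotientAddGroup.mk_add]
      congr 2
      apply Subtype.ext
      have e := hQ A hA.p a.1 a.2 b.1 b.2 u
      show (a.1 * b.1) • u - u = (a.1 • u - u) + (b.1 • u - u)
      rw [mul_smul]
      have e2 : a.1 • b.1 • u = (b.1 • u - u) + a.1 • u := by
        rw [← e, smul_sub]
        abel
      rw [e2]
      abel)
  have hψ : ∀ a : A, ψ a = Multiplicative.ofAdd (QuotientAddGroup.mk ⟨a.1 • u - u, hmemR a.1 a.2⟩) :=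
    fun _ => rfl
  have hker : ψ.ker = (ST W₀ W₁).subgroupOf A := by
    ext a
    rw [MonoidHom.mem_ker, hψ, mem_subgroupOf]
    have h1 : (Multiplicative.ofAdd ((QuotientAddGroup.mk ⟨a.1 • u - u, hmemR a.1 a.2⟩ : R ⧸ W')) = 1) ↔
        a.1 • u - u ∈ W₀ := by
      rw [ofAdd_eq_one, QuotientAddGroup.eq_zero_iff]
      exact AddSubgroup.mem_addSubgroupOf
    rw [h1]
    constructor
    · intro h
      by_contra hna
      apply huR
      rw [hR]
      exact best_cen hV2 hQ hs hIH hA a.2 hna hu h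
    · intro h
      exact ST_apply h hu
  have hrange : Nat.card ψ.range = (ST W₀ W₁).relIndex A := by
    rw [← Subgroup.index_ker, hker, Subgroup.relIndex]
  have htarget : Nat.card (Multiplicative (R ⧸ W')) * Nat.card W₀ = Nat.card R := by
    have h1 := AddSubgroup.card_eq_card_quotient_mul_card_addSubgroup W'
    have h2 : Nat.card W' = Nat.card W₀ :=
      Nat.card_congr (AddSubgroup.addSubgroupOfEquivOfLe hW₀R).toEquiv
    have h3 : Nat.card (Multiplicative (R ⧸ W')) = Nat.card (R ⧸ W') :=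
      Nat.card_congr Multiplicative.toAdd
    rw [h3, ← h2, ← h1]
  have hle : Nat.card (Multiplicative (R ⧸ W')) ≤ Nat.card ψ.range := by
    have h1 := best_e hV2 hQ hs hIH hA
    rw [← hR, ← htarget, ← hrange] at h1
    exact Nat.le_of_mul_le_mul_right h1 Nat.card_pos
  have htop : ψ.range = ⊤ := Subgroup.eq_top_of_le_card _ hle
  have hmem : Multiplicative.ofAdd ((QuotientAddGroup.mk ⟨v, hv⟩ : R ⧸ W')) ∈ ψ.range := by
    rw [htop]
    trivial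
  obtain ⟨a, ha⟩ := hmem
  refine ⟨a.1, a.2, ?_⟩
  rw [hψ] at ha
  have h1 : (QuotientAddGroup.mk ⟨a.1 • u - u, hmemR a.1 a.2⟩ : R ⧸ W') = QuotientAddGroup.mk ⟨v, hv⟩ :=
    Multiplicative.ofAdd.injective ha
  rw [QuotientAddGroup.eq] at h1
  have h2 : -(a.1 • u - u) + v ∈ W₀ := AddSubgroup.mem_addSubgroupOf.mp h1
  have h3 := W₀.neg_mem h2
  convert h3 using 1
  abel

/-- **No best subgroup exists.** -/
theorem best_false (hS3 : NoS3 Y V) {A : Subgroup Y} (hA : Best L W₀ W₁ A) : False := by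
  obtain ⟨y, hy, hgen⟩ := best_gen hV2 hQ hs hIH hA
  obtain ⟨h1, h2⟩ := best_pair hQ hs hA hy hgen
  have hB := hA.conj hs.inv₀ hs.inv₁ hy
  -- fixed points of `A`, `B` are larger than `W₀`
  have hne : ∀ {D : Subgroup Y}, Best L W₀ W₁ D → ∃ v ∈ cenS W₀ W₁ (D : Set Y), v ∉ W₀ := by
    intro D hD
    obtain ⟨a, ha, haS⟩ := SetLike.not_le_iff_exists.mp hD.ntr
    by_contra hcon
    push Not at hcon
    apply haS
    apply mem_ST_of hs.inv₀ (hD.le ha)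
    intro x hx
    exact hcon _ (quad_mem hQ hs hD.p hD.le ha hx)
  obtain ⟨v, hvR, hvW⟩ := hne hA
  obtain ⟨u, huP, huW⟩ := hne hB
  have huR : u ∉ cenS W₀ W₁ (A : Set Y) := by
    intro h
    apply huW
    rw [← h1]
    exact ⟨h, huP⟩
  have hvP : v ∉ cenS W₀ W₁ (conjS y A : Set Y) := by
    intro h
    apply hvW
    rw [← h1]
    exact ⟨hvR, h⟩
  obtain ⟨a, ha, hau⟩ := best_surj hV2 hQ hs hIH hA huP.1 huR hvR
  obtain ⟨b, hb, hbv⟩ := best_surj hV2 hQ hs hIH hB hvR.1 hvP huP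
  have haL := hA.le ha
  have hbL := hB.le hb
  refine hS3 W₀ a b u v (hs.inv₀ a haL) (hs.inv₀ _ (L.inv_mem haL)) (hs.inv₀ b hbL)
    (hs.inv₀ _ (L.inv_mem hbL)) huW hvW ?_ hau (hvR.2 a ha) hbv (huP.2 b hb)
  intro huv
  apply huR
  have e := (cenS W₀ W₁ (A : Set Y)).sub_mem (W₀_le_cenS hs hA.le huv) hvR
  convert e using 1
  abel

end

/-- **The irreducible case.** -/
theorem irr_main [Finite Y] [Finite V] (hV2 : ∀ x : V, x + x = 0) (hQ : QuadH Y V)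
    (hS3 : NoS3 Y V) (n : ℕ) : IrrStmt Y V n := by
  classical
  induction n with
  | zero =>
    intro L W₀ W₁ h
    exact absurd h (Nat.not_lt_zero _)
  | succ n ih =>
    intro L W₀ W₁ hcard hs D₀ hD₀L hD₀p hD₀n
    by_contra hcon
    push Not at hcon
    have hIH : IrrStmt Y V (Nat.card L) := fun L' U₀ U₁ hL' =>
      ih L' U₀ U₁ (lt_of_lt_of_le hL' (Nat.lt_succ_iff.mp hcard))
    let S : Set (Subgroup Y) := {D' | D' ≤ L ∧ IsPGroup 2 D'}
    obtain ⟨A₀, hA₀, hmax⟩ := Set.exists_max_image S (MM W₀ W₁) (Set.toFinite S) ⟨D₀, hD₀L, hD₀p⟩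
    by_cases hA₀n : A₀ ≤ ST W₀ W₁
    · have h1 : MM W₀ W₁ A₀ = Nat.card W₁ := by
        have h2 : (ST W₀ W₁).relIndex A₀ = 1 := Subgroup.relIndex_eq_one.mpr hA₀n
        rw [MM, h2, one_mul]
        congr 2
        ext x
        constructor
        · exact fun h => h.1
        · exact fun hx => ⟨hx, fun d hd => ST_apply (hA₀n hd) hx⟩
      have hB : Best L W₀ W₁ D₀ := ⟨hD₀L, hD₀p, hD₀n, fun D' h1' h2' => by
        have h3 := hmax D' ⟨h1', h2'⟩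
        omega⟩
      exact best_false hV2 hQ hs hIH hS3 hB
    · have hB : Best L W₀ W₁ A₀ := ⟨hA₀.1, hA₀.2, hA₀n, fun D' h1' h2' => hmax D' ⟨h1', h2'⟩⟩
      exact best_false hV2 hQ hs hIH hS3 hB

end Cfsg.Agent.Lib.Tech.FFA
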