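import Cfsg.Agent.Lib.Tech.FFA4

/-!
# From irreducible sections to the whole module.
-/

set_option autoImplicit false
set_option linter.unusedSectionVars false
set_option linter.style.haveILetI false

namespace Cfsg.Agent.Lib.Tech.FFA

open Subgroup

variable {Y V : Type*} [Group Y] [AddCommGroup V] [DistribMulAction Y V]

theorem chain_step_num {e e₁ e₂ c c₁ c₂ a w : ℕ} (he : e ≤ e₁ * e₂) (hc : c * a ≤ c₁ * c₂)
    (ha : 0 < a) (hw : 0 < w) (h₁ : e₁ * c₁ ≤ a) (h₂ : e₂ * c₂ ≤ w) :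
    e * c ≤ w ∧ (w ≤ e * c → e₁ * c₁ = a ∧ e₂ * c₂ = w) := by
  have key : e * c * a ≤ (e₁ * c₁) * (e₂ * c₂) := by
    calc e * c * a = e * (c * a) := by ring
      _ ≤ (e₁ * e₂) * (c₁ * c₂) := Nat.mul_le_mul he hc
      _ = _ := by ring
  have h3 : (e₁ * c₁) * (e₂ * c₂) ≤ a * w := Nat.mul_le_mul h₁ h₂
  constructor
  · have : e * c * a ≤ w * a := by
      calc e * c * a ≤ a * w := key.trans h3
        _ = w * a := by ring
    exact Nat.le_of_mul_le_mul_right this ha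
  · intro hle
    have h4 : a * w ≤ (e₁ * c₁) * (e₂ * c₂) := by
      calc a * w = w * a := by ring
        _ ≤ e * c * a := Nat.mul_le_mul_right a hle
        _ ≤ _ := key
    constructor
    · by_contra hne
      have h5 : e₁ * c₁ < a := lt_of_le_of_ne h₁ hne
      have h6 : (e₁ * c₁) * (e₂ * c₂) < a * w := by
        calc (e₁ * c₁) * (e₂ * c₂) ≤ (e₁ * c₁) * w := Nat.mul_le_mul_left _ h₂
          _ < a * w := Nat.mul_lt_mul_of_pos_right h5 hw
      omega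
    · by_contra hne
      have h5 : e₂ * c₂ < w := lt_of_le_of_ne h₂ hne
      have h6 : (e₁ * c₁) * (e₂ * c₂) < a * w := by
        calc (e₁ * c₁) * (e₂ * c₂) ≤ a * (e₂ * c₂) := Nat.mul_le_mul_right _ h₁
          _ < a * w := Nat.mul_lt_mul_of_pos_left h5 ha
      omega

/-- The induction over a composition series. -/
theorem ffa_chain [Finite Y] [Finite V] (hV2 : ∀ x : V, x + x = 0) (hQ : QuadH Y V)
    (hS3 : NoS3 Y V) (W₁ : AddSubgroup V) (h₁ : InvS (⊤ : Subgroup Y) W₁) (W₀ : AddSubgroup V) :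
    InvS (⊤ : Subgroup Y) W₀ → W₀ ≤ W₁ → ∃ N : Subgroup Y, N.Normal ∧ Act2 N W₀ W₁ ∧
      ∀ A : Subgroup Y, IsPGroup 2 A →
        N.relIndex A * Nat.card (cenS W₀ W₁ (A : Set Y)) ≤ Nat.card W₁ ∧
        (Nat.card W₁ ≤ N.relIndex A * Nat.card (cenS W₀ W₁ (A : Set Y)) → A ≤ N) := by
  classical
  induction W₀ using (wellFounded_gt (α := AddSubgroup V)).induction with
  | _ W₀ ih =>
  intro h₀ hle
  by_cases heq : W₀ = W₁
  · subst heq
    refine ⟨⊤, inferInstance, fun n _ => ⟨0, ?_⟩, fun A _ => ?_⟩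
    · apply mem_ST_of h₀ (mem_top _)
      intro x hx
      simpa using W₀.sub_mem (h₀ n (mem_top _) x hx) hx
    · rw [Subgroup.relIndex_top_left, one_mul]
      exact ⟨AddSubgroup.card_le_of_le cenS_le, fun _ => le_top⟩
  obtain ⟨W', hinv', h0', h1', hne', hmin⟩ := exists_min_inv h₁ hle heq
  obtain ⟨N₂, hN₂, hact₂, hnum₂⟩ := ih W' (lt_of_le_of_ne h0' hne'.symm) hinv' h1'
  refine ⟨ST W₀ W' ⊓ N₂, ?_, ?_, ?_⟩
  · haveI : (ST W₀ W').Normal := ⟨fun s hs g => conj_mem_ST h₀ hinv' (mem_top g) hs⟩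
    infer_instance
  · rintro n ⟨hn₁, hn₂⟩
    obtain ⟨k, hk⟩ := hact₂ n hn₂
    refine ⟨k + 1, ?_⟩
    have hz : n ^ 2 ^ k ∈ ST W₀ W' := pow_mem hn₁ _
    apply mem_ST_of h₀ (mem_top _)
    intro x hx
    have e1 := ST_apply hk hx
    have e2 := ST_apply hz e1
    have e3 : n ^ 2 ^ (k + 1) = n ^ 2 ^ k * n ^ 2 ^ k := by
      rw [pow_succ, pow_mul, pow_two]
    rw [e3, mul_smul]
    convert e2 using 1
    rw [smul_sub]
    have e4 := hV2 (n ^ 2 ^ k • x)
    have e5 := hV2 x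
    have e6 : n ^ 2 ^ k • n ^ 2 ^ k • x - x = (n ^ 2 ^ k • n ^ 2 ^ k • x - n ^ 2 ^ k • x - (n ^ 2 ^ k • x - x)) +
        (n ^ 2 ^ k • x + n ^ 2 ^ k • x) - (x + x) := by abel
    rw [e6, e4, e5, add_zero, sub_zero]
  · intro A hAp
    obtain ⟨hn₂₁, hn₂₂⟩ := hnum₂ A hAp
    -- the lowest section
    have hirr : (ST W₀ W').relIndex A * Nat.card (cenS W₀ W' (A : Set Y)) ≤ Nat.card W' ∧
        (Nat.card W' ≤ (ST W₀ W').relIndex A * Nat.card (cenS W₀ W' (A : Set Y)) →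
          A ≤ ST W₀ W') := by
      by_cases hAS : A ≤ ST W₀ W'
      · refine ⟨?_, fun _ => hAS⟩
        rw [Subgroup.relIndex_eq_one.mpr hAS, one_mul]
        exact AddSubgroup.card_le_of_le cenS_le
      · have hsec : Sect (⊤ : Subgroup Y) W₀ W' := by
          refine ⟨h0', h₀, hinv', hne'.symm, hmin, ?_⟩
          obtain ⟨a, ha, haS⟩ := SetLike.not_le_iff_exists.mp hAS
          by_contra hcon
          push Not at hcon
          exact haS (mem_ST_of h₀ (mem_top a) fun x hx => hcon a (mem_top a) x hx)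
        have h1 : MM W₀ W' A < Nat.card W' :=
          irr_main hV2 hQ hS3 _ ⊤ W₀ W' (Nat.lt_succ_self _) hsec A le_top hAp hAS
        rw [MM] at h1
        exact ⟨h1.le, fun h2 => absurd h2 (not_le.mpr h1)⟩
    have hc : Nat.card (cenS W₀ W₁ (A : Set Y)) * Nat.card W' ≤
        Nat.card (cenS W₀ W' (A : Set Y)) * Nat.card (cenS W' W₁ (A : Set Y)) := by
      have h1 := card_sup_mul_card_inf (cenS W₀ W₁ (A : Set Y)) W'
      have h2 : cenS W₀ W₁ (A : Set Y) ⊓ W' = cenS W₀ W' (A : Set Y) := by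
        ext x
        constructor
        · rintro ⟨hx1, hx2⟩
          exact ⟨hx2, hx1.2⟩
        · intro hx
          exact ⟨⟨h1' hx.1, hx.2⟩, hx.1⟩
      have h3 : cenS W₀ W₁ (A : Set Y) ⊔ W' ≤ cenS W' W₁ (A : Set Y) := by
        apply sup_le
        · intro x hx
          exact ⟨hx.1, fun d hd => h0' (hx.2 d hd)⟩
        · intro x hx
          exact ⟨h1' hx, fun d hd => W'.sub_mem (hinv' d (mem_top d) x hx) hx⟩
      rw [← h1, h2, mul_comm]
      exact Nat.mul_le_mul_left _ (AddSubgroup.card_le_of_le h3)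
    have he : (ST W₀ W' ⊓ N₂).relIndex A ≤ (ST W₀ W').relIndex A * N₂.relIndex A :=
      Subgroup.relIndex_inf_le
    obtain ⟨h1, h2⟩ := chain_step_num he hc Nat.card_pos Nat.card_pos hirr.1 hn₂₁
    refine ⟨h1, fun h3 => ?_⟩
    obtain ⟨h4, h5⟩ := h2 h3
    exact le_inf (hirr.2 h4.ge) (hn₂₂ h5.ge)

/-- **The module theorem.** -/
theorem ffa_main [Finite Y] [Finite V] (hV2 : ∀ x : V, x + x = 0) (hQ : QuadH Y V)
    (hS3 : NoS3 Y V)
    (hO : ∀ N : Subgroup Y, N.Normal → (∀ n ∈ N, ∃ k : ℕ, ∀ x : V, n ^ 2 ^ k • x = x) →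
      ∀ n ∈ N, ∀ x : V, n • x = x)
    (A : Subgroup Y) (hAp : IsPGroup 2 A)
    (hoff : Nat.card V ≤ (ST (⊥ : AddSubgroup V) ⊤ : Subgroup Y).relIndex A *
      Nat.card (cenS (⊥ : AddSubgroup V) ⊤ (A : Set Y))) :
    ∀ a ∈ A, ∀ x : V, a • x = x := by
  have hbot : InvS (⊤ : Subgroup Y) (⊥ : AddSubgroup V) := by
    intro n _ x hx
    rw [AddSubgroup.mem_bot] at hx ⊢
    rw [hx, smul_zero]
  have htop : InvS (⊤ : Subgroup Y) (⊤ : AddSubgroup V) := fun _ _ _ _ => AddSubgroup.mem_top _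
  obtain ⟨N, hN, hact, hnum⟩ := ffa_chain hV2 hQ hS3 ⊤ htop ⊥ hbot bot_le
  have hmem : ∀ g ∈ (ST (⊥ : AddSubgroup V) ⊤ : Subgroup Y), ∀ x : V, g • x = x := by
    intro g hg x
    have := ST_apply hg (AddSubgroup.mem_top x)
    rw [AddSubgroup.mem_bot, sub_eq_zero] at this
    exact this
  have hNtriv := hO N hN (fun n hn => by
    obtain ⟨k, hk⟩ := hact n hn
    exact ⟨k, hmem _ hk⟩)
  have hNS : N ≤ (ST (⊥ : AddSubgroup V) ⊤ : Subgroup Y) := by
    intro n hn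
    apply mem_ST_of hbot (mem_top n)
    intro x _
    rw [hNtriv n hn x, sub_self]
    exact AddSubgroup.zero_mem _
  have h1 : (ST (⊥ : AddSubgroup V) ⊤ : Subgroup Y).relIndex A ≤ N.relIndex A :=
    Subgroup.relIndex_le_of_le_left hNS Subgroup.index_ne_zero_of_finite
  have h2 : Nat.card (⊤ : AddSubgroup V) = Nat.card V := AddSubgroup.card_top
  have h3 := (hnum A hAp).2 (by
    rw [h2]
    exact hoff.trans (Nat.mul_le_mul_right _ h1))
  exact fun a ha x => hNtriv a (h3 ha) x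

end Cfsg.Agent.Lib.Tech.FFA
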