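import Mathlib
import Cfsg.Agent.Lib.Tech.ThompsonExt
import Cfsg.Agent.Lib.Basic.Nilpotent
import Cfsg.Prelude.Def_Transfer

/-!
# A Sylow `2`-subgroup inside `GL₃` containing `E₈` is abelian, if there is no subgroup of index `2`.
-/

set_option autoImplicit false
set_option linter.unusedSectionVars false
set_option linter.style.haveILetI false

namespace Cfsg.Agent.Lib.Tech

open Subgroup Module
open scoped commutatorElement

section Lin

variable {F : Type*} [Field F] {V : Type*} [AddCommGroup V] [Module F V]

/-- Fixed vectors. -/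
def fixS (A : Module.End F V) : Submodule F V := LinearMap.ker (A - 1)

/-- Negated vectors. -/
def negS (A : Module.End F V) : Submodule F V := LinearMap.ker (A + 1)

theorem mem_fixS {A : Module.End F V} {x : V} : x ∈ fixS A ↔ A x = x := by
  simp [fixS, sub_eq_zero]

theorem mem_negS {A : Module.End F V} {x : V} : x ∈ negS A ↔ A x = -x := by
  simp [negS, add_eq_zero_iff_eq_neg]

theorem involution_isCompl (h2 : (2 : F) ≠ 0) {A : Module.End F V} (hA : A * A = 1) : IsCompl (fixS A) (negS A) := by
  have hA' : ∀ x, A (A x) = x := fun x => by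
    have := congrArg (fun B : Module.End F V => B x) hA
    simpa using this
  constructor
  · rw [Submodule.disjoint_def]
    intro x h1 h4
    rw [mem_fixS] at h1
    rw [mem_negS] at h4
    have h5 : (2 : F) • x = 0 := by
      have h6 : x = -x := h1.symm.trans h4
      rw [two_smul]
      nth_rw 1 [h6]
      simp
    exact (smul_eq_zero.1 h5).resolve_left h2
  · rw [codisjoint_iff, eq_top_iff]
    intro x _
    have e : x = ((2 : F)⁻¹ • (x + A x)) + ((2 : F)⁻¹ • (x - A x)) := by
      rw [← smul_add]
      have : x + A x + (x - A x) = (2 : F) • x := by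
        rw [two_smul]
        abel
      rw [this, smul_smul, inv_mul_cancel₀ h2, one_smul]
    rw [e]
    refine Submodule.add_mem_sup ?_ ?_
    · rw [mem_fixS, map_smul, map_add, hA', add_comm]
    · rw [mem_negS, map_smul, map_sub, hA', ← smul_neg, neg_sub]

theorem eq_of_agree {L K : Submodule F V} (h : IsCompl L K) {g₁ g₂ : Module.End F V} (hL : ∀ x ∈ L, g₁ x = g₂ x)
    (hK : ∀ x ∈ K, g₁ x = g₂ x) : g₁ = g₂ := by
  ext x
  have hx : x ∈ L ⊔ K := by
    rw [h.sup_eq_top]
    trivial
  obtain ⟨a, ha, b, hb, rfl⟩ := Submodule.mem_sup.1 hx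
  rw [map_add, map_add, hL a ha, hK b hb]

theorem det_of_isCompl [FiniteDimensional F V] {L K : Submodule F V} (h : IsCompl L K) (g : Module.End F V)
    (hL : ∀ x ∈ L, g x ∈ L) (hK : ∀ x ∈ K, g x ∈ K) :
    LinearMap.det g = LinearMap.det (g.restrict hL) * LinearMap.det (g.restrict hK) := by
  classical
  rw [← LinearMap.det_prodMap]
  let e := Submodule.prodEquivOfIsCompl L K h
  rw [← LinearMap.det_conj _ e]
  congr 1
  ext x
  simp [e]
  rw [← map_add, Submodule.projection_add_projection_eq_self]

theorem det_involution [FiniteDimensional F V] (h2 : (2 : F) ≠ 0) {A : Module.End F V} (hA : A * A = 1) :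
    LinearMap.det A = (-1) ^ finrank F (negS A) := by
  have hL : ∀ x ∈ fixS A, A x ∈ fixS A := fun x hx => by
    rw [mem_fixS.1 hx]
    exact hx
  have hK : ∀ x ∈ negS A, A x ∈ negS A := fun x hx => by
    rw [mem_negS.1 hx]
    exact Submodule.neg_mem _ hx
  rw [det_of_isCompl (involution_isCompl h2 hA) A hL hK]
  have e1 : A.restrict hL = 1 := by
    ext x
    simp [mem_fixS.1 x.2]
  have e2 : A.restrict hK = (-1 : F) • (1 : Module.End F (negS A)) := by
    ext x
    simp [mem_negS.1 x.2]
  rw [e1, e2, LinearMap.det_smul, map_one, map_one, one_mul, mul_one]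

/-- Restriction of a homomorphism to an invariant subspace. -/
def resEndHom {E : Type*} [Group E] (ρ : E →* Module.End F V) (W : Submodule F V) (h : ∀ a, ∀ x ∈ W, ρ a x ∈ W) :
    E →* Module.End F W where
  toFun a := (ρ a).restrict (h a)
  map_one' := by
    ext x
    simp
  map_mul' a b := by
    ext x
    simp

@[simp] theorem resEndHom_apply {E : Type*} [Group E] (ρ : E →* Module.End F V) (W : Submodule F V) (h : ∀ a, ∀ x ∈ W, ρ a x ∈ W)
    (a : E) (x : W) : ((resEndHom ρ W h a x : W) : V) = ρ a x := rfl

/-- **An elementary abelian `2`-group acting faithfully on a space of dimension `n` has order at most `2ⁿ`, with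
equality only if it contains `-1`.** -/
theorem elab_rank_bound {F : Type*} [Field F] (h2 : (2 : F) ≠ 0) (n : ℕ) :
    ∀ (V : Type*) [AddCommGroup V] [Module F V] [FiniteDimensional F V], finrank F V = n →
    ∀ (E : Type*) [Group E] [Finite E], (∀ a b : E, a * b = b * a) → (∀ a : E, a ^ 2 = 1) →
    ∀ ρ : E →* Module.End F V, Function.Injective ρ →
      Nat.card E ≤ 2 ^ n ∧ (Nat.card E = 2 ^ n → ∃ e, ρ e = -1) := by
  induction n using Nat.strong_induction_on with
  | _ n IH =>
    intro V _ _ _ hV E _ _ hc he ρ hρ
    classical
    by_cases hall : ∀ a, ρ a = 1 ∨ ρ a = -1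
    · -- scalars
      have hle2 : Nat.card E ≤ 2 := by
        let g : E → Bool := fun a => decide (ρ a = 1)
        have hg : Function.Injective g := by
          intro a b hab
          apply hρ
          by_cases ha : ρ a = 1
          · have hb : ρ b = 1 := by
              have : g b = true := by rw [← hab]; simpa [g] using ha
              simpa [g] using this
            rw [ha, hb]
          · have hb : ¬ ρ b = 1 := by
              have : g b = false := by rw [← hab]; simpa [g] using ha
              simpa [g] using this
            rw [(hall a).resolve_left ha, (hall b).resolve_left hb]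
        have := Nat.card_le_card_of_injective g hg
        simpa using this
      rcases Nat.eq_zero_or_pos n with rfl | hn
      · have hsub : Subsingleton V := by
          rw [← finrank_zero_iff (R := F)]
          exact hV
        have hE1 : Nat.card E = 1 := by
          rw [Nat.card_eq_one_iff_unique]
          refine ⟨⟨fun a b => hρ ?_⟩, ⟨1⟩⟩
          ext x
          exact Subsingleton.elim _ _
        refine ⟨by simp [hE1], fun _ => ⟨1, ?_⟩⟩
        ext x
        exact Subsingleton.elim _ _
      · refine ⟨hle2.trans ?_, ?_⟩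
        · calc 2 = 2 ^ 1 := rfl
            _ ≤ 2 ^ n := Nat.pow_le_pow_right (by norm_num) hn
        · intro heq
          have hn1 : n = 1 := by
            by_contra hne
            have h4 : 2 ^ 2 ≤ 2 ^ n := Nat.pow_le_pow_right (by norm_num) (by omega)
            omega
          subst hn1
          have h5 : Nat.card E = 2 := by simpa using heq
          haveI : Nontrivial E := by
            rw [← Finite.one_lt_card_iff_nontrivial]
            omega
          obtain ⟨a, ha⟩ := exists_ne (1 : E)
          refine ⟨a, (hall a).resolve_left ?_⟩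
          intro h6
          exact ha (hρ (by rw [h6, map_one]))
    · -- an element with two eigenspaces
      push Not at hall
      obtain ⟨e, he1, he2⟩ := hall
      set A := ρ e with hA
      have hAA : A * A = 1 := by
        rw [hA, ← map_mul, ← pow_two, he e, map_one]
      have hcompl := involution_isCompl h2 hAA
      have hcomm : ∀ a, ρ a * A = A * ρ a := fun a => by
        rw [hA, ← map_mul, ← map_mul, hc]
      have hinvL : ∀ a, ∀ x ∈ fixS A, ρ a x ∈ fixS A := by
        intro a x hx
        rw [mem_fixS] at hx ⊢
        have := congrArg (fun B : Module.End F V => B x) (hcomm a)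
        simp only [Module.End.mul_apply, hx] at this
        exact this.symm
      have hinvK : ∀ a, ∀ x ∈ negS A, ρ a x ∈ negS A := by
        intro a x hx
        rw [mem_negS] at hx ⊢
        have := congrArg (fun B : Module.End F V => B x) (hcomm a)
        simp only [Module.End.mul_apply, hx, map_neg] at this
        exact this.symm
      have hfr := Submodule.finrank_add_eq_of_isCompl hcompl
      have hLpos : 0 < finrank F (fixS A) := by
        rw [Nat.pos_iff_ne_zero, ne_eq, Submodule.finrank_eq_zero]
        intro h
        apply he2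
        apply eq_of_agree hcompl
        · intro x hx
          rw [h, Submodule.mem_bot] at hx
          simp [hx]
        · intro x hx
          simpa using mem_negS.1 hx
      have hKpos : 0 < finrank F (negS A) := by
        rw [Nat.pos_iff_ne_zero, ne_eq, Submodule.finrank_eq_zero]
        intro h
        apply he1
        apply eq_of_agree hcompl
        · intro x hx
          simpa using mem_fixS.1 hx
        · intro x hx
          rw [h, Submodule.mem_bot] at hx
          simp [hx]
      set ρL := resEndHom ρ (fixS A) hinvL with hρL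
      set ρK := resEndHom ρ (negS A) hinvK with hρK
      let EL := E ⧸ ρL.ker
      let EK := E ⧸ ρK.ker
      let ρL' : EL →* Module.End F (fixS A) := QuotientGroup.lift ρL.ker ρL le_rfl
      let ρK' : EK →* Module.End F (negS A) := QuotientGroup.lift ρK.ker ρK le_rfl
      have hL'inj : Function.Injective ρL' := by
        intro a b
        obtain ⟨a, rfl⟩ := QuotientGroup.mk_surjective a
        obtain ⟨b, rfl⟩ := QuotientGroup.mk_surjective b
        intro hab
        have hab' : ρL a = ρL b := hab
        rw [QuotientGroup.eq, MonoidHom.mem_ker, map_mul, ← hab', ← map_mul, inv_mul_cancel, map_one]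
      have hK'inj : Function.Injective ρK' := by
        intro a b
        obtain ⟨a, rfl⟩ := QuotientGroup.mk_surjective a
        obtain ⟨b, rfl⟩ := QuotientGroup.mk_surjective b
        intro hab
        have hab' : ρK a = ρK b := hab
        rw [QuotientGroup.eq, MonoidHom.mem_ker, map_mul, ← hab', ← map_mul, inv_mul_cancel, map_one]
      have hcL : ∀ a b : EL, a * b = b * a := by
        intro a b
        obtain ⟨a, rfl⟩ := QuotientGroup.mk_surjective a
        obtain ⟨b, rfl⟩ := QuotientGroup.mk_surjective b
        rw [← QuotientGroup.mk_mul, ← QuotientGroup.mk_mul, hc]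
      have hcK : ∀ a b : EK, a * b = b * a := by
        intro a b
        obtain ⟨a, rfl⟩ := QuotientGroup.mk_surjective a
        obtain ⟨b, rfl⟩ := QuotientGroup.mk_surjective b
        rw [← QuotientGroup.mk_mul, ← QuotientGroup.mk_mul, hc]
      have heL : ∀ a : EL, a ^ 2 = 1 := by
        intro a
        obtain ⟨a, rfl⟩ := QuotientGroup.mk_surjective a
        rw [← QuotientGroup.mk_pow, he, QuotientGroup.mk_one]
      have heK : ∀ a : EK, a ^ 2 = 1 := by
        intro a
        obtain ⟨a, rfl⟩ := QuotientGroup.mk_surjective a
        rw [← QuotientGroup.mk_pow, he, QuotientGroup.mk_one]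
      obtain ⟨hL1, hL2⟩ := IH (finrank F (fixS A)) (by omega) (fixS A) rfl EL hcL heL ρL' hL'inj
      obtain ⟨hK1, hK2⟩ := IH (finrank F (negS A)) (by omega) (negS A) rfl EK hcK heK ρK' hK'inj
      let i : E → EL × EK := fun a => ((a : EL), (a : EK))
      have hρeq : ∀ a b : E, ρL a = ρL b → ρK a = ρK b → ρ a = ρ b := by
        intro a b h1 h4
        apply eq_of_agree hcompl
        · intro x hx
          have := congrArg (fun B : Module.End F (fixS A) => ((B ⟨x, hx⟩ : fixS A) : V)) h1
          simpa [hρL] using this
        · intro x hx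
          have := congrArg (fun B : Module.End F (negS A) => ((B ⟨x, hx⟩ : negS A) : V)) h4
          simpa [hρK] using this
      have hi : Function.Injective i := by
        intro a b hab
        have h1 : (a : EL) = (b : EL) := congrArg Prod.fst hab
        have h4 : (a : EK) = (b : EK) := congrArg Prod.snd hab
        apply hρ
        apply hρeq
        · have h5 := QuotientGroup.eq.1 h1
          rw [MonoidHom.mem_ker, map_mul] at h5
          calc ρL a = ρL a * 1 := (mul_one _).symm
            _ = ρL a * (ρL a⁻¹ * ρL b) := by rw [h5]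
            _ = ρL (a * a⁻¹) * ρL b := by rw [map_mul, mul_assoc]
            _ = ρL b := by rw [mul_inv_cancel, map_one, one_mul]
        · have h5 := QuotientGroup.eq.1 h4
          rw [MonoidHom.mem_ker, map_mul] at h5
          calc ρK a = ρK a * 1 := (mul_one _).symm
            _ = ρK a * (ρK a⁻¹ * ρK b) := by rw [h5]
            _ = ρK (a * a⁻¹) * ρK b := by rw [map_mul, mul_assoc]
            _ = ρK b := by rw [mul_inv_cancel, map_one, one_mul]
      have hcard : Nat.card E ≤ Nat.card EL * Nat.card EK := by
        rw [← Nat.card_prod]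
        exact Nat.card_le_card_of_injective i hi
      have hpow : 2 ^ finrank F (fixS A) * 2 ^ finrank F (negS A) = 2 ^ n := by
        rw [← pow_add, hfr, hV]
      refine ⟨hcard.trans ((Nat.mul_le_mul hL1 hK1).trans_eq hpow), fun heq => ?_⟩
      have hELpos : 0 < Nat.card EL := Nat.card_pos
      have hEKpos : 0 < Nat.card EK := Nat.card_pos
      have hLe : Nat.card EL = 2 ^ finrank F (fixS A) := by
        apply le_antisymm hL1
        by_contra hlt
        push Not at hlt
        have h5 : Nat.card EL * Nat.card EK < 2 ^ finrank F (fixS A) * 2 ^ finrank F (negS A) :=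
          Nat.mul_lt_mul_of_lt_of_le hlt hK1 (by positivity)
        omega
      have hKe : Nat.card EK = 2 ^ finrank F (negS A) := by
        apply le_antisymm hK1
        by_contra hlt
        push Not at hlt
        have h5 : Nat.card EL * Nat.card EK < 2 ^ finrank F (fixS A) * 2 ^ finrank F (negS A) :=
          Nat.mul_lt_mul_of_le_of_lt hL1 hlt (by positivity)
        omega
      obtain ⟨a, ha⟩ := hL2 hLe
      obtain ⟨b, hb⟩ := hK2 hKe
      have hbij : Function.Bijective i := by
        apply (Function.Injective.bijective_of_nat_card_le hi)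
        rw [Nat.card_prod, hLe, hKe, hpow, heq]
      obtain ⟨c, hc'⟩ := hbij.2 (a, b)
      refine ⟨c, ?_⟩
      have h1 : (c : EL) = a := congrArg Prod.fst hc'
      have h4 : (c : EK) = b := congrArg Prod.snd hc'
      have h5 : ρL c = -1 := by
        rw [← ha, ← h1]
        rfl
      have h6 : ρK c = -1 := by
        rw [← hb, ← h4]
        rfl
      apply eq_of_agree hcompl
      · intro x hx
        have := congrArg (fun B : Module.End F (fixS A) => ((B ⟨x, hx⟩ : fixS A) : V)) h5
        simpa [hρL] using this
      · intro x hx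
        have := congrArg (fun B : Module.End F (negS A) => ((B ⟨x, hx⟩ : negS A) : V)) h6
        simpa [hρK] using this

/-- An involution of determinant `1` on a three-dimensional space, other than `1`. -/
theorem finrank_negS_of_det_one [FiniteDimensional F V] (h2 : (2 : F) ≠ 0) (hV : finrank F V = 3) {A : Module.End F V}
    (hA : A * A = 1) (hd : LinearMap.det A = 1) (h1 : A ≠ 1) : finrank F (negS A) = 2 := by
  have hfr := Submodule.finrank_add_eq_of_isCompl (involution_isCompl h2 hA)
  rw [det_involution h2 hA] at hd
  have hne : (-1 : F) ≠ 1 := by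
    intro h
    apply h2
    have : (2 : F) = 1 - (-1) := by ring
    rw [this, h, sub_self]
  have heven : Even (finrank F (negS A)) := by
    by_contra hodd
    rw [Nat.not_even_iff_odd] at hodd
    rw [hodd.neg_one_pow] at hd
    exact hne hd
  have hpos : finrank F (negS A) ≠ 0 := by
    intro h0
    rw [Submodule.finrank_eq_zero] at h0
    apply h1
    apply eq_of_agree (involution_isCompl h2 hA)
    · intro x hx
      simpa using mem_fixS.1 hx
    · intro x hx
      rw [h0, Submodule.mem_bot] at hx
      simp [hx]
  obtain ⟨k, hk⟩ := heven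
  omega

/-- Endomorphisms of a line commute. -/
theorem end_comm_of_finrank_one {W : Type*} [AddCommGroup W] [Module F W] (h : finrank F W = 1) (a b : Module.End F W) :
    a * b = b * a := by
  obtain ⟨v, hv, hvv⟩ := finrank_eq_one_iff'.1 h
  ext x
  obtain ⟨c, rfl⟩ := hvv x
  obtain ⟨α, hα⟩ := hvv (a v)
  obtain ⟨β, hβ⟩ := hvv (b v)
  simp only [Module.End.mul_apply, map_smul, ← hα, ← hβ, smul_smul, mul_comm]

end Lin

section Group

variable {F : Type*} [Field F] {V : Type*} [AddCommGroup V] [Module F V] [FiniteDimensional F V]

/-- Commutators die in a commutative target. -/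
theorem commutator_le_ker_of_comm {X M : Type*} [Group X] [Monoid M] (φ : X →* M) (h : ∀ a b : X, φ a * φ b = φ b * φ a) :
    commutator X ≤ φ.ker := by
  rw [commutator_def, Subgroup.commutator_le]
  intro a _ b _
  rw [MonoidHom.mem_ker, commutatorElement_def, map_mul, map_mul, map_mul]
  calc φ a * φ b * φ a⁻¹ * φ b⁻¹ = φ b * φ a * φ a⁻¹ * φ b⁻¹ := by rw [h a b]
    _ = φ b * (φ a * φ a⁻¹) * φ b⁻¹ := by simp only [mul_assoc]
    _ = 1 := by rw [← map_mul, mul_inv_cancel, map_one, mul_one, ← map_mul, mul_inv_cancel, map_one]

/-- A central involution of determinant `1` in a non-abelian `2`-subgroup of `GL₃` lies in the derived subgroup. -/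
theorem central_involution_mem_commutator {X : Type*} [Group X] [Finite X] (hX : IsPGroup 2 X) (hna : ¬ IsMulCommutative X)
    (h2 : (2 : F) ≠ 0) (hV : finrank F V = 3) (ρ : X →* Module.End F V) (hρ : Function.Injective ρ) {y : X}
    (hyc : y ∈ center X) (hy2 : y ^ 2 = 1) (hy1 : y ≠ 1) (hyd : LinearMap.det (ρ y) = 1) : y ∈ commutator X := by
  classical
  haveI : Fact (Nat.Prime 2) := ⟨Nat.prime_two⟩
  set w := ρ y with hw
  have hww : w * w = 1 := by
    rw [hw, ← map_mul, ← pow_two, hy2, map_one]
  have hw1 : w ≠ 1 := fun h => hy1 (hρ (by rw [map_one]; exact h))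
  have hK2 := finrank_negS_of_det_one h2 hV hww hyd hw1
  have hcompl := involution_isCompl h2 hww
  have hfr := Submodule.finrank_add_eq_of_isCompl hcompl
  have hL1 : finrank F (fixS w) = 1 := by omega
  have hcomm : ∀ a, ρ a * w = w * ρ a := fun a => by
    rw [hw, ← map_mul, ← map_mul, (Subgroup.mem_center_iff.1 hyc a)]
  have hinvL : ∀ a, ∀ x ∈ fixS w, ρ a x ∈ fixS w := by
    intro a x hx
    rw [mem_fixS] at hx ⊢
    have := congrArg (fun B : Module.End F V => B x) (hcomm a)
    simp only [Module.End.mul_apply, hx] at this
    exact this.symm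
  have hinvK : ∀ a, ∀ x ∈ negS w, ρ a x ∈ negS w := by
    intro a x hx
    rw [mem_negS] at hx ⊢
    have := congrArg (fun B : Module.End F V => B x) (hcomm a)
    simp only [Module.End.mul_apply, hx, map_neg] at this
    exact this.symm
  set ρL := resEndHom ρ (fixS w) hinvL with hρL
  have hcL : commutator X ≤ ρL.ker :=
    commutator_le_ker_of_comm ρL (fun a b => end_comm_of_finrank_one hL1 _ _)
  have hcd : commutator X ≤ (LinearMap.det.comp ρ).ker :=
    commutator_le_ker_of_comm _ (fun a b => mul_comm _ _)
  -- a central involution in the derived subgroup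
  have hne : commutator X ≠ ⊥ := by
    intro h
    apply hna
    refine ⟨⟨fun a b => ?_⟩⟩
    have h1 : ⁅a, b⁆ ∈ commutator X := Subgroup.commutator_mem_commutator (Subgroup.mem_top a) (Subgroup.mem_top b)
    rw [h, Subgroup.mem_bot, commutatorElement_eq_one_iff_mul_comm] at h1
    exact h1
  haveI hnorm : (commutator X).Normal := inferInstance
  haveI hXnil : Group.IsNilpotent X := hX.isNilpotent
  have hne2 := Cfsg.Agent.Lib.Basic.normal_inf_center_ne_bot (commutator X) hne
  have h2g : IsPGroup 2 ↥(commutator X ⊓ center X) := IsPGroup.to_subgroup hX _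
  haveI : Nontrivial ↥(commutator X ⊓ center X) := (Subgroup.nontrivial_iff_ne_bot _).2 hne2
  obtain ⟨j, hj, hj2⟩ := h2g.nontrivial_iff_card.1 inferInstance
  have h2d : 2 ∣ Nat.card ↥(commutator X ⊓ center X) := by
    rw [hj2]
    exact dvd_pow_self 2 hj.ne'
  obtain ⟨c, hc⟩ := exists_prime_orderOf_dvd_card' 2 h2d
  have hc' : orderOf (c : X) = 2 := by
    rw [← hc]
    exact Subgroup.orderOf_coe c
  obtain ⟨hcC, hcZ⟩ := Subgroup.mem_inf.1 c.2
  have hcc : (c : X) ^ 2 = 1 := by
    rw [← hc', pow_orderOf_eq_one]
  have hc1 : (c : X) ≠ 1 := by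
    intro h
    rw [h, orderOf_one] at hc'
    omega
  -- its action
  set C := ρ (c : X) with hC
  have hCC : C * C = 1 := by
    rw [hC, ← map_mul, ← pow_two, hcc, map_one]
  have hCd : LinearMap.det C = 1 := hcd hcC
  have hCL : ∀ x ∈ fixS w, C x = x := by
    intro x hx
    have h1 : ρL (c : X) = 1 := hcL hcC
    have := congrArg (fun B : Module.End F (fixS w) => ((B ⟨x, hx⟩ : fixS w) : V)) h1
    simpa [hρL] using this
  set r : Module.End F (negS w) := C.restrict (hinvK _) with hr
  have hrr : r * r = 1 := by
    ext x
    have h1 := congrArg (fun B : Module.End F V => B (x : V)) hCC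
    simpa [hr] using h1
  have hrd : LinearMap.det r = 1 := by
    have h1 := det_of_isCompl hcompl C (hinvL _) (hinvK _)
    have h4 : C.restrict (hinvL (c : X)) = 1 := by
      ext x
      simp [hCL x x.2]
    rw [h4, map_one, one_mul, hCd] at h1
    exact h1.symm
  have hrc := involution_isCompl h2 hrr
  have hrfr := Submodule.finrank_add_eq_of_isCompl hrc
  rw [hK2] at hrfr
  have hneg : (-1 : F) ≠ 1 := by
    intro h
    apply h2
    have : (2 : F) = 1 - (-1) := by ring
    rw [this, h, sub_self]
  have hrk : finrank F (negS r) = 0 ∨ finrank F (negS r) = 2 := by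
    rw [det_involution h2 hrr] at hrd
    have h1 : finrank F (negS r) ≠ 1 := by
      intro h
      rw [h, pow_one] at hrd
      exact hneg hrd
    omega
  rcases hrk with h0 | h0
  · -- `r = 1`
    exfalso
    apply hc1
    apply hρ
    rw [map_one]
    rw [Submodule.finrank_eq_zero] at h0
    apply eq_of_agree hcompl
    · intro x hx
      simpa using hCL x hx
    · intro x hx
      have h4 : r = 1 := by
        apply eq_of_agree hrc
        · intro u hu
          simpa using mem_fixS.1 hu
        · intro u hu
          rw [h0, Submodule.mem_bot] at hu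
          simp [hu]
      have := congrArg (fun B : Module.End F (negS w) => ((B ⟨x, hx⟩ : negS w) : V)) h4
      simpa [hr] using this
  · -- `r = -1`
    have hrm : r = -1 := by
      have h4 : negS r = ⊤ := Submodule.eq_top_of_finrank_eq (by rw [h0, hK2])
      ext x
      have h5 : x ∈ negS r := by
        rw [h4]
        trivial
      have := mem_negS.1 h5
      simp [this]
    have hCw : (c : X) = y := by
      apply hρ
      apply eq_of_agree hcompl
      · intro x hx
        rw [hCL x hx]
        exact (mem_fixS.1 hx).symm
      · intro x hx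
        have := congrArg (fun B : Module.End F (negS w) => ((B ⟨x, hx⟩ : negS w) : V)) hrm
        have h6 : C x = -x := by simpa [hr] using this
        rw [h6]
        exact (mem_negS.1 hx).symm
    rw [← hCw]
    exact hcC

/-- **A Sylow `2`-subgroup acting faithfully in dimension three, containing `E₈`, in a group without subgroups of
index `2`, is abelian.** -/
theorem sylow_abelian_of_gl3 {G : Type*} [Group G] [Finite G] (hG : ∀ H : Subgroup G, H.index ≠ 2) (H : Subgroup G)
    (hHp : IsPGroup 2 H) (hHi : ¬ 2 ∣ H.index)
    (h2 : (2 : F) ≠ 0) (hV : finrank F V = 3)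
    (ρ : ↥H →* Module.End F V) (hρ : Function.Injective ρ)
    (E : Subgroup G) (hE : E ≤ H) (hEa : Cfsg.IsElementaryAbelian 2 E) (hE8 : Nat.card E = 8) :
    IsMulCommutative H := by
  classical
  haveI : Fact (Nat.Prime 2) := ⟨Nat.prime_two⟩
  by_contra hna
  -- the element `-1`
  set E' : Subgroup H := E.subgroupOf H with hE'
  have hE'c : Nat.card E' = 2 ^ 3 := by
    rw [hE', Nat.card_congr (Subgroup.subgroupOfEquivOfLe hE).toEquiv, hE8]
    rfl
  obtain ⟨hcomm, hpow⟩ := hEa
  have hb := elab_rank_bound h2 3 V hV E' (by
    rintro ⟨a, ha⟩ ⟨b, hb⟩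
    apply Subtype.ext
    apply Subtype.ext
    have := (isMulCommutative_iff.1 hcomm) ⟨a.1, ha⟩ ⟨b.1, hb⟩
    show (a : G) * (b : G) = (b : G) * (a : G)
    exact congrArg Subtype.val this) (by
    rintro ⟨a, ha⟩
    apply Subtype.ext
    apply Subtype.ext
    exact hpow a.1 ha) (ρ.comp E'.subtype) (hρ.comp E'.subtype_injective)
  obtain ⟨e, he⟩ := hb.2 hE'c
  set y₀ : H := (e : H) with hy₀
  have hyρ : ρ y₀ = -1 := he
  set y : G := (y₀ : G) with hy
  have hyH : y ∈ H := y₀.2
  have hneg : (-1 : F) ≠ 1 := by
    intro h
    apply h2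
    have : (2 : F) = 1 - (-1) := by ring
    rw [this, h, sub_self]
  have hdetneg : LinearMap.det (-1 : Module.End F V) = -1 := by
    have e1 : (-1 : Module.End F V) = (-1 : F) • (1 : Module.End F V) := by
      ext x
      simp
    rw [e1, LinearMap.det_smul, map_one, mul_one, hV]
    norm_num
  -- the homomorphism to the units
  let δ : H →* F := LinearMap.det.comp ρ
  let φ : H →* Fˣ := δ.toHomUnits
  have hφ : ∀ x, (φ x : F) = LinearMap.det (ρ x) := fun x => rfl
  set T : Subgroup G := φ.ker.map H.subtype with hT
  have hTH : T ≤ H := Subgroup.map_subtype_le _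
  have hTm : ∀ x : H, (x : G) ∈ T ↔ φ x = 1 := by
    intro x
    constructor
    · rintro ⟨z, hz, hzx⟩
      have : z = x := Subtype.ext hzx
      rw [← this]
      exact hz
    · intro h
      exact ⟨x, h, rfl⟩
  have hφy : (φ y₀ : F) = -1 := by
    rw [hφ, hyρ, hdetneg]
  have hyT : y ∉ T := by
    intro h
    have h1 := (hTm y₀).1 h
    rw [h1, Units.val_one] at hφy
    exact hneg hφy.symm
  have hy2 : y ^ 2 = 1 := by
    have : y₀ ^ 2 = 1 := by
      have h1 := hpow y e.2
      exact Subtype.ext (by simpa using h1)
    simpa using congrArg Subtype.val this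
  have hy1 : y ≠ 1 := by
    intro h
    apply hyT
    rw [h]
    exact T.one_mem
  have hyo : orderOf y = 2 := orderOf_eq_prime hy2 hy1
  have hz : ∀ a : Fˣ, a * a = 1 → a = 1 ∨ a = φ ⟨y, hyH⟩ := by
    intro a ha
    have h1 : (a : F) * (a : F) = 1 := by
      rw [← Units.val_mul, ha, Units.val_one]
    rcases mul_self_eq_one_iff.1 h1 with h4 | h4
    · left
      exact Units.ext h4
    · right
      apply Units.ext
      rw [h4]
      exact hφy.symm
  -- the transfer is trivial
  have htr : φ.transfer y = 1 := by
    set W := φ.transfer with hW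
    have hWy : W y * W y = 1 := by
      rw [← map_mul, ← pow_two, hy2, map_one]
    by_contra hne
    have hWy' : (W y : F) = -1 := by
      have h1 : (W y : F) * (W y : F) = 1 := by
        rw [← Units.val_mul, hWy, Units.val_one]
      rcases mul_self_eq_one_iff.1 h1 with h4 | h4
      · exact absurd (Units.ext h4) hne
      · exact h4
    let R : Subgroup Fˣ := W.range
    haveI hRf : Finite ↥R := Finite.of_surjective W.rangeRestrict W.rangeRestrict_surjective
    let sq : ↥R →* ↥R := powMonoidHom 2
    have hker : Nat.card sq.ker = 2 := by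
      have hel : ∀ r : sq.ker, (r : R) = 1 ∨ (r : R) = ⟨W y, ⟨y, rfl⟩⟩ := by
        rintro ⟨r, hr⟩
        have h1 : r ^ 2 = 1 := hr
        have h4 : (((r : R) : Fˣ) : F) * (((r : R) : Fˣ) : F) = 1 := by
          rw [← pow_two]
          have := congrArg (fun t : R => ((t : Fˣ) : F)) h1
          simpa using this
        rcases mul_self_eq_one_iff.1 h4 with h5 | h5
        · left
          exact Subtype.ext (Units.ext h5)
        · right
          apply Subtype.ext
          apply Units.ext
          rw [hWy']
          exact h5
      have hmemy : (⟨W y, ⟨y, rfl⟩⟩ : R) ∈ sq.ker := by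
        show (⟨W y, ⟨y, rfl⟩⟩ : R) ^ 2 = 1
        apply Subtype.ext
        show W y ^ 2 = 1
        rw [pow_two]
        exact hWy
      have hne1 : (⟨W y, ⟨y, rfl⟩⟩ : R) ≠ 1 := by
        intro h
        apply hne
        exact congrArg Subtype.val h
      rw [Nat.card_eq_two_iff]
      refine ⟨⟨1, Subgroup.one_mem _⟩, ⟨_, hmemy⟩, ?_, ?_⟩
      · intro h
        exact hne1 (congrArg Subtype.val h).symm
      · ext r
        simp only [Set.mem_univ, Set.mem_insert_iff, Set.mem_singleton_iff, iff_true]
        rcases hel r with h1 | h1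
        · left
          exact Subtype.ext h1
        · right
          exact Subtype.ext h1
    have hindex : sq.range.index = 2 := by
      have h1 := Subgroup.index_ker sq
      have h4 := Subgroup.card_mul_index sq.ker
      have h5 := Subgroup.card_mul_index sq.range
      have hpos : 0 < Nat.card R := Nat.card_pos
      rw [h1] at h4
      rw [hker] at h4
      have h6 : Nat.card sq.range * sq.range.index = Nat.card sq.range * 2 := by
        rw [h5, mul_comm, ← h4]
      have hrpos : 0 < Nat.card sq.range := Nat.card_pos
      exact Nat.eq_of_mul_eq_mul_left hrpos h6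
    apply hG (sq.range.comap W.rangeRestrict)
    rw [Subgroup.index_comap_of_surjective _ W.rangeRestrict_surjective]
    exact hindex
  -- Thompson transfer
  obtain ⟨g, hgT, hgH⟩ := exists_conj_fixed_of_transfer (H := H) hHi φ T hTH hTm hyo hyH hyT hz htr H hHp (by
    intro s hs
    rw [Subgroup.mem_centralizer_iff]
    rintro _ rfl
    have h1 : ρ (⟨s, hs⟩ * y₀) = ρ (y₀ * ⟨s, hs⟩) := by
      rw [map_mul, map_mul, hyρ]
      simp
    exact (congrArg Subtype.val (hρ h1)).symm)
  -- the conjugation automorphism
  let α₀ : H →* H :=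
    { toFun := fun s => ⟨g⁻¹ * s * g, hgH s s.2⟩
      map_one' := Subtype.ext (by simp)
      map_mul' := fun a b => Subtype.ext (by
        show g⁻¹ * (a * b) * g = g⁻¹ * a * g * (g⁻¹ * b * g)
        group) }
  have hα₀i : Function.Injective α₀ := by
    intro a b hab
    have h1 : g⁻¹ * (a : G) * g = g⁻¹ * b * g := congrArg Subtype.val hab
    exact Subtype.ext (mul_left_cancel (mul_right_cancel h1))
  have hα₀b : Function.Bijective α₀ := Finite.injective_iff_bijective.1 hα₀i
  let α : H ≃* H := MulEquiv.ofBijective α₀ hα₀b
  -- the image of `y` is central, of determinant `1`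
  have hyc : y₀ ∈ center H := by
    rw [Subgroup.mem_center_iff]
    intro s
    apply hρ
    rw [map_mul, map_mul, hyρ]
    simp
  have hy'c : α y₀ ∈ center H := by
    rw [Subgroup.mem_center_iff]
    intro s
    obtain ⟨t, rfl⟩ := α.surjective s
    rw [← map_mul, ← map_mul, Subgroup.mem_center_iff.1 hyc t]
  have hy'2 : (α y₀) ^ 2 = 1 := by
    have : y₀ ^ 2 = 1 := Subtype.ext (by simpa using hy2)
    rw [← map_pow, this, map_one]
  have hy'1 : α y₀ ≠ 1 := by
    intro h
    have h1 : y₀ = 1 := by
      apply α.injective
      rw [h, map_one]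
    apply hy1
    rw [hy, h1]
    rfl
  have hy'd : LinearMap.det (ρ (α y₀)) = 1 := by
    have h1 : ((α y₀ : H) : G) ∈ T := hgT
    have h4 := (hTm (α y₀)).1 h1
    rw [← hφ, h4, Units.val_one]
  have hmem := central_involution_mem_commutator hHp hna h2 hV ρ hρ hy'c hy'2 hy'1 hy'd
  have hchar : (commutator H).Characteristic := inferInstance
  have hymem : y₀ ∈ commutator H := by
    have h1 := hchar.fixed α
    rw [← h1]
    exact hmem
  have hcd : commutator H ≤ φ.ker := commutator_le_ker_of_comm φ (fun a b => mul_comm _ _)
  have h1 := hcd hymem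
  rw [MonoidHom.mem_ker] at h1
  rw [h1, Units.val_one] at hφy
  exact hneg hφy.symm

end Group

end Cfsg.Agent.Lib.Tech
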