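import Mathlib
import Cfsg.Agent.Lib.PLocal.QuadDickson
import Cfsg.Agent.Lib.Classical.PSL2Simple
import Cfsg.Agent.Lib.OddLocal.Rank2F
import Cfsg.Agent.Lib.OddLocal.Trans1
import Cfsg.Agent.Lib.Basic.Solv1
import Cfsg.Agent.Lib.PGroups.Parts
import Cfsg.Prelude.Def_OddOrderLocal

/-!
# The centralizer of a self-centralizing normal subgroup of the Fitting subgroup of a Hall subgroup.
-/

set_option autoImplicit false
set_option linter.unusedSectionVars false
set_option linter.style.haveILetI false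

namespace Cfsg.Agent.Lib.Tech

open Subgroup Cfsg Cfsg.Agent.Lib.PLocal Cfsg.Agent.Lib.OddLocal Cfsg.Agent.Lib.Basic
open scoped commutatorElement

universe u

/-- A solvable group has no `SL₂(q)` section for `q ≥ 5`. -/
theorem noSL2p_of_solvable {q : ℕ} [hq' : Fact q.Prime] (hq : 5 ≤ q) (X : Type u) [Group X] [hX : Group.IsSolvable X] :
    NoSL2p q X := by
  rintro ⟨K, f, hf⟩
  haveI : Group.IsSolvable (Cfsg.Agent.Lib.Known.SL2 (ZMod q)) := solvable_of_surjective hf
  have h2 : (2 : ZMod q) ≠ 0 := by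
    intro h
    have h3 : ((2 : ℕ) : ZMod q) = 0 := by exact_mod_cast h
    rw [ZMod.natCast_eq_zero_iff] at h3
    have := Nat.le_of_dvd (by norm_num) h3
    omega
  have h4 : (2 : ZMod q) ^ 2 ≠ 1 := by
    intro h
    have h3 : ((3 : ℕ) : ZMod q) = 0 := by
      have e : ((3 : ℕ) : ZMod q) = (2 : ZMod q) ^ 2 - 1 := by
        push_cast
        ring
      rw [e, h, sub_self]
    rw [ZMod.natCast_eq_zero_iff] at h3
    have := Nat.le_of_dvd (by norm_num) h3
    omega
  have h5 := Cfsg.Agent.Lib.Classical.commutator_sl_eq_top_of_sq_ne_one (ι := Fin 2) (2 : ZMod q) h2 h4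
  haveI : Nontrivial (Cfsg.Agent.Lib.Known.SL2 (ZMod q)) := by
    refine ⟨⟨⟨!![1, 1; 0, 1], by simp [Matrix.det_fin_two]⟩, 1, fun h => ?_⟩⟩
    have h7 := congrArg (fun M : Cfsg.Agent.Lib.Known.SL2 (ZMod q) => M.1 0 1) h
    simp at h7
  have h6 := Group.IsSolvable.commutator_lt_top_of_nontrivial (Cfsg.Agent.Lib.Known.SL2 (ZMod q))
  exact absurd h5 h6.ne

section Core

variable {G : Type u} [Group G] [Finite G]

/-- The power formula for an element acting quadratically. -/
theorem conj_pow_of_commute {y x : G} (hc : Commute y (x⁻¹ * (y * x * y⁻¹))) (n : ℕ) :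
    y ^ n * x * (y ^ n)⁻¹ = x * (x⁻¹ * (y * x * y⁻¹)) ^ n := by
  set d : G := x⁻¹ * (y * x * y⁻¹) with hd
  induction n with
  | zero => simp
  | succ n ih =>
    have h1 : y * x * y⁻¹ = x * d := by rw [hd]; group
    have h2 : y * d * y⁻¹ = d := by
      rw [hc.eq]
      group
    calc y ^ (n + 1) * x * (y ^ (n + 1))⁻¹ = y * (y ^ n * x * (y ^ n)⁻¹) * y⁻¹ := by
          rw [pow_succ']
          group
      _ = y * (x * d ^ n) * y⁻¹ := by rw [ih]
      _ = (y * x * y⁻¹) * (y * d ^ n * y⁻¹) := by group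
      _ = (x * d) * d ^ n := by
          rw [h1, ← conj_pow, h2]
      _ = x * d ^ (n + 1) := by
          rw [pow_succ']
          group

/-- **An element of prime-power order `≥ 5` acting quadratically on the Fitting subgroup lies in it.** -/
theorem mem_fitting_of_quadratic [Group.IsSolvable G] {q : ℕ} [hq' : Fact q.Prime] (hq : 5 ≤ q) {y : G} {k : ℕ}
    (hy : y ^ q ^ k = 1) (hc : ∀ x ∈ fittingSubgroup G, Commute y (x⁻¹ * (y * x * y⁻¹))) :
    y ∈ fittingSubgroup G := by
  classical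
  have hqp : q.Prime := hq'.out
  -- the other primes
  have hoff : ∀ r : ℕ, r.Prime → r ≠ q → ∀ x ∈ pCore r G, y * x = x * y := by
    intro r hr hrq x hx
    haveI : Fact r.Prime := ⟨hr⟩
    haveI hn : (pCore r G).Normal := pCore_normal r G
    have hxF : x ∈ fittingSubgroup G := pCore_le_fittingSubgroup r hx
    have h1 := conj_pow_of_commute (hc x hxF) (q ^ k)
    rw [hy, one_mul, inv_one, mul_one] at h1
    set d : G := x⁻¹ * (y * x * y⁻¹) with hd
    have h2 : d ^ q ^ k = 1 := by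
      have := mul_left_cancel (a := x) (b := 1) (c := d ^ q ^ k) (by rw [mul_one]; exact h1)
      exact this.symm
    have hdR : d ∈ pCore r G := Subgroup.mul_mem _ (Subgroup.inv_mem _ hx) (hn.conj_mem x hx y)
    obtain ⟨m, hm⟩ := (pCore_isPGroup (G := G) r) ⟨d, hdR⟩
    have hm' : d ^ r ^ m = 1 := by simpa using congrArg Subtype.val hm
    have hco : (r ^ m).Coprime (q ^ k) := Nat.Coprime.pow _ _ ((Nat.coprime_primes hr hqp).2 hrq)
    have hd1 : d = 1 := orderOf_eq_one_iff.1
      (Nat.eq_one_of_dvd_coprimes hco (orderOf_dvd_of_pow_eq_one hm') (orderOf_dvd_of_pow_eq_one h2))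
    have h3 : y * x * y⁻¹ = x := by
      rw [hd] at hd1
      exact (inv_mul_eq_one.1 hd1).symm
    calc y * x = (y * x * y⁻¹) * y := by group
      _ = x * y := by rw [h3]
  -- the quadratic action on `O_q`
  set R : Subgroup G := pCore q G with hR
  haveI hRn : R.Normal := pCore_normal q G
  have hRp : IsPGroup q R := pCore_isPGroup q
  have hquad : ⁅⁅R, zpowers y⁆, zpowers y⁆ = ⊥ := by
    rw [eq_bot_iff, Subgroup.commutator_le]
    have h1 : ⁅R, zpowers y⁆ ≤ centralizer ((zpowers y : Subgroup G) : Set G) := by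
      rw [Subgroup.commutator_le]
      intro x hx z hz
      rw [Subgroup.mem_centralizer_iff]
      intro w hw
      obtain ⟨n, rfl⟩ := (mem_powers_iff_mem_zpowers (x := y)).2 hz
      obtain ⟨m, rfl⟩ := (mem_powers_iff_mem_zpowers (x := y)).2 hw
      have hxF : x⁻¹ ∈ fittingSubgroup G := Subgroup.inv_mem _ (pCore_le_fittingSubgroup q hx)
      have h2 := conj_pow_of_commute (hc x⁻¹ hxF) n
      set d : G := (x⁻¹)⁻¹ * (y * x⁻¹ * y⁻¹) with hd
      have h3 : ⁅x, y ^ n⁆ = d ^ n := by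
        rw [commutatorElement_def]
        calc x * y ^ n * x⁻¹ * (y ^ n)⁻¹ = x * (y ^ n * x⁻¹ * (y ^ n)⁻¹) := by group
          _ = x * (x⁻¹ * d ^ n) := by rw [h2]
          _ = d ^ n := by group
      show y ^ m * ⁅x, y ^ n⁆ = ⁅x, y ^ n⁆ * y ^ m
      rw [h3]
      exact ((hc x⁻¹ hxF).pow_right n).pow_left m
    intro a ha b hb
    rw [Subgroup.mem_bot, commutatorElement_eq_one_iff_mul_comm]
    exact (Subgroup.mem_centralizer_iff.1 (h1 ha) b hb).symm
  have hst := isPStableOn_of_class (noSL2pClass (p := q) (by omega)) (noSL2p_of_solvable hq G) R hRp y hquad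
  -- the normal subgroup `W`
  set C : Subgroup G := centralizer (R : Set G) with hC
  haveI hCn : C.Normal := Subgroup.normal_centralizer
  set W₀ : Subgroup G := (pCore q (G ⧸ C)).comap (QuotientGroup.mk' C) with hW₀
  haveI hW₀n : W₀.Normal := Subgroup.Normal.comap (pCore_normal q _) _
  set Co : Subgroup G := centralizer ((fitOff q G : Subgroup G) : Set G) with hCo
  haveI hCon : Co.Normal := Subgroup.normal_centralizer
  set W : Subgroup G := W₀ ⊓ Co with hW
  haveI hWn : W.Normal := inferInstance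
  have hyW₀ : y ∈ W₀ := hst
  have hyCo : y ∈ Co := by
    have h1 : fitOff q G ≤ centralizer ({y} : Set G) := by
      apply fitOff_le_of
      intro s hs hsq x hx
      rw [Subgroup.mem_centralizer_iff]
      rintro _ rfl
      exact hoff s hs hsq x hx
    rw [hCo, Subgroup.mem_centralizer_iff]
    intro x hx
    exact (Subgroup.mem_centralizer_iff.1 (h1 hx) y rfl).symm
  have hyW : y ∈ W := Subgroup.mem_inf.2 ⟨hyW₀, hyCo⟩
  -- `q'`-elements of `W` are central
  have hcen : ∀ c ∈ W, ¬ q ∣ orderOf c → c ∈ fitOff q G := by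
    intro c hcW hco
    obtain ⟨hc0, hc1⟩ := Subgroup.mem_inf.1 hcW
    have hcC : c ∈ C := by
      have h1 : QuotientGroup.mk' C c ∈ pCore q (G ⧸ C) := hc0
      obtain ⟨m, hm⟩ := (pCore_isPGroup (G := G ⧸ C) q) ⟨_, h1⟩
      have hm' : (QuotientGroup.mk' C c) ^ q ^ m = 1 := by simpa using congrArg Subtype.val hm
      have h2 : orderOf (QuotientGroup.mk' C c) ∣ q ^ m := orderOf_dvd_of_pow_eq_one hm'
      have h3 : orderOf (QuotientGroup.mk' C c) ∣ orderOf c := orderOf_map_dvd _ _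
      have h4 : (q ^ m).Coprime (orderOf c) := Nat.Coprime.pow_left _ ((Nat.Prime.coprime_iff_not_dvd hqp).2 hco)
      have h5 := Nat.eq_one_of_dvd_coprimes h4 h2 h3
      have h6 : QuotientGroup.mk' C c = 1 := orderOf_eq_one_iff.1 h5
      rwa [QuotientGroup.mk'_apply, QuotientGroup.eq_one_iff] at h6
    have hcF : c ∈ fittingSubgroup G := by
      apply centralizer_fittingSubgroup_le
      rw [Subgroup.mem_centralizer_iff]
      intro x hx
      have h1 : fittingSubgroup G ≤ centralizer ({c} : Set G) := by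
        refine (fitting_le_sup_fitOff q).trans (sup_le ?_ ?_)
        · intro t ht
          rw [Subgroup.mem_centralizer_iff]
          rintro _ rfl
          exact (Subgroup.mem_centralizer_iff.1 hcC t ht).symm
        · intro t ht
          rw [Subgroup.mem_centralizer_iff]
          rintro _ rfl
          exact (Subgroup.mem_centralizer_iff.1 hc1 t ht).symm
      exact (Subgroup.mem_centralizer_iff.1 (h1 hx) c rfl).symm
    have hz' := fitting_le_sup_fitOff q hcF
    rw [Subgroup.mem_sup_of_normal_right] at hz'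
    obtain ⟨α, hα, β, hβ, hαβ⟩ := hz'
    have hβc : Nat.Coprime (orderOf β) q := by
      have h1 : orderOf β ∣ Nat.card (pPrimeCore q G) :=
        Subgroup.orderOf_dvd_natCard _ (fitOff_le_pPrimeCore q hβ)
      exact Nat.Coprime.coprime_dvd_left h1 (pPrimeCore_coprime q)
    obtain ⟨m, hm⟩ := hRp ⟨α, hα⟩
    have hm' : α ^ q ^ m = 1 := by simpa using congrArg Subtype.val hm
    have hcop : (Nat.card R).Coprime (Nat.card (pPrimeCore q G)) := by
      obtain ⟨j, hj⟩ := hRp.exists_card_eq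
      rw [hj]
      exact Nat.Coprime.pow_left _ (pPrimeCore_coprime q).symm
    have hαβc : α * β = β * α := comm_of_normal_coprime hcop hα (fitOff_le_pPrimeCore q hβ)
    set n := orderOf c with hn
    have hcn : (α * β) ^ n = 1 := by
      rw [hαβ, hn, pow_orderOf_eq_one]
    rw [(show Commute α β from hαβc).mul_pow] at hcn
    set γ : G := α ^ n with hγ
    have hγe : γ = (β ^ n)⁻¹ := eq_inv_of_mul_eq_one_left hcn
    have hγ1 : γ = 1 := by
      have h1 : γ ^ q ^ m = 1 := by
        rw [hγ, ← pow_mul, mul_comm, pow_mul, hm', one_pow]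
      have h2 : γ ^ orderOf β = 1 := by
        rw [hγe, inv_pow, ← pow_mul, mul_comm, pow_mul, pow_orderOf_eq_one, one_pow, inv_one]
      have h3 : (q ^ m).Coprime (orderOf β) := Nat.Coprime.pow_left _ hβc.symm
      exact orderOf_eq_one_iff.1 (Nat.eq_one_of_dvd_coprimes h3 (orderOf_dvd_of_pow_eq_one h1) (orderOf_dvd_of_pow_eq_one h2))
    have hα1 : α = 1 := by
      have h3 : (q ^ m).Coprime n := Nat.Coprime.pow_left _ ((Nat.Prime.coprime_iff_not_dvd hqp).2 hco)
      exact orderOf_eq_one_iff.1 (Nat.eq_one_of_dvd_coprimes h3 (orderOf_dvd_of_pow_eq_one hm') (orderOf_dvd_of_pow_eq_one hγ1))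
    rw [← hαβ, hα1, one_mul]
    exact hβ
  have hWc : ∀ w : ↥W, ¬ q ∣ orderOf w → w ∈ center ↥W := by
    intro w hw
    have h1 := hcen w w.2 (by rwa [Subgroup.orderOf_coe])
    rw [Subgroup.mem_center_iff]
    intro v
    apply Subtype.ext
    have h2 := (Subgroup.mem_inf.1 v.2).2
    exact (Subgroup.mem_centralizer_iff.1 h2 w h1).symm
  have hpq : IsPGroup q (↥W ⧸ center ↥W) := by
    intro x
    obtain ⟨w, rfl⟩ := QuotientGroup.mk_surjective x
    obtain ⟨b, c, e, hcomm, ⟨j, hj⟩, hco, -, -⟩ := Cfsg.Agent.Lib.PGroups.exists_pPart q w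
    refine ⟨j, ?_⟩
    have hc1 := hWc c hco
    have h1 : (w : ↥W ⧸ center ↥W) = (b : ↥W ⧸ center ↥W) := by
      rw [QuotientGroup.eq, e]
      have h2 : (b * c)⁻¹ * b = c⁻¹ := by group
      rw [h2]
      exact Subgroup.inv_mem _ hc1
    rw [h1, ← QuotientGroup.mk_pow, ← hj, pow_orderOf_eq_one, QuotientGroup.mk_one]
  have hnil : Group.IsNilpotent ↥W := of_quotient_center_nilpotent hpq.isNilpotent
  exact le_fittingSubgroup_of_nilpotent hWn hnil hyW

/-- The fixed part. -/
theorem mem_of_mem_centralizer_of_scn [Group.IsSolvable G] {q : ℕ} [hq' : Fact q.Prime] (hq : 5 ≤ q) {A Ft : Subgroup G}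
    (hF : fittingSubgroup G ≤ Ft) (hFtN : Ft ≤ normalizer (A : Set G)) (hFtA : Ft ⊓ centralizer (A : Set G) = A)
    {y : G} (hyC : y ∈ centralizer (A : Set G)) {k : ℕ} (hy : y ^ q ^ k = 1) : y ∈ A := by
  have hFn : (fittingSubgroup G).Normal := fittingSubgroup_normal
  have hc : ∀ x ∈ fittingSubgroup G, Commute y (x⁻¹ * (y * x * y⁻¹)) := by
    intro x hx
    have h1 : x⁻¹ * (y * x * y⁻¹) ∈ fittingSubgroup G :=
      Subgroup.mul_mem _ (Subgroup.inv_mem _ hx) (hFn.conj_mem x hx y)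
    have h2 : x⁻¹ * (y * x * y⁻¹) ∈ centralizer (A : Set G) := by
      rw [Subgroup.mem_centralizer_iff]
      intro a ha
      have h3 : x * a * x⁻¹ ∈ A := (mem_normalizer_iff.1 (hFtN (hF hx)) a).1 ha
      have h4 : a * y = y * a := Subgroup.mem_centralizer_iff.1 hyC a ha
      have h5 : (x * a * x⁻¹) * y = y * (x * a * x⁻¹) := Subgroup.mem_centralizer_iff.1 hyC _ h3
      have h6 : (y * x * y⁻¹) * a * (y * x * y⁻¹)⁻¹ = x * a * x⁻¹ := by
        calc (y * x * y⁻¹) * a * (y * x * y⁻¹)⁻¹ = y * x * (y⁻¹ * a * y) * x⁻¹ * y⁻¹ := by group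
          _ = y * x * a * x⁻¹ * y⁻¹ := by
              have : y⁻¹ * a * y = a := by
                rw [mul_assoc, h4]
                group
              rw [this]
          _ = y * (x * a * x⁻¹) * y⁻¹ := by group
          _ = (x * a * x⁻¹) * y * y⁻¹ := by rw [h5]
          _ = _ := by group
      calc a * (x⁻¹ * (y * x * y⁻¹)) = x⁻¹ * (x * a * x⁻¹) * (y * x * y⁻¹) := by group
        _ = x⁻¹ * ((y * x * y⁻¹) * a * (y * x * y⁻¹)⁻¹) * (y * x * y⁻¹) := by rw [h6]
        _ = _ := by group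
    have h3 : x⁻¹ * (y * x * y⁻¹) ∈ A := by
      rw [← hFtA]
      exact Subgroup.mem_inf.2 ⟨hF h1, h2⟩
    exact (Subgroup.mem_centralizer_iff.1 hyC _ h3).symm
  have h1 := mem_fitting_of_quadratic hq hy hc
  rw [← hFtA]
  exact Subgroup.mem_inf.2 ⟨hF h1, hyC⟩

theorem piCore_quotient_bot (π : Set ℕ) : piCore π (G ⧸ piCore π G) = ⊥ := by
  set O := piCore π G with hO
  have hO1 := piCore_isPi π G
  have hQ1 := piCore_isPi π (G ⧸ O)
  set N : Subgroup G := (piCore π (G ⧸ O)).comap (QuotientGroup.mk' O) with hN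
  have hNn : N.Normal := Subgroup.Normal.comap inferInstance _
  have hNpi : ∀ p : ℕ, p.Prime → p ∣ Nat.card N → p ∈ π := by
    intro r hr hd
    haveI : Fact r.Prime := ⟨hr⟩
    obtain ⟨g, hg⟩ := exists_prime_orderOf_dvd_card' r hd
    by_cases h1 : QuotientGroup.mk' O (g : G) = 1
    · have hgO : (g : G) ∈ O := by
        rwa [QuotientGroup.mk'_apply, QuotientGroup.eq_one_iff] at h1
      apply hO1 r hr
      have : orderOf (g : G) = r := by
        rw [← hg]
        exact Subgroup.orderOf_coe g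
      rw [← this]
      exact Subgroup.orderOf_dvd_natCard O hgO
    · apply hQ1 r hr
      have h2 : (QuotientGroup.mk' O (g : G)) ∈ piCore π (G ⧸ O) := g.2
      have h3 : orderOf (QuotientGroup.mk' O (g : G)) ∣ r := by
        have h4 : (g : G) ^ r = 1 := by
          have h5 : orderOf (g : G) = r := by
            rw [← hg]
            exact Subgroup.orderOf_coe g
          rw [← h5]
          exact pow_orderOf_eq_one _
        apply orderOf_dvd_of_pow_eq_one
        rw [← map_pow, h4, map_one]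
      have h6 : orderOf (QuotientGroup.mk' O (g : G)) = r := by
        rcases (Nat.dvd_prime hr).1 h3 with h | h
        · exact absurd (orderOf_eq_one_iff.mp h) h1
        · exact h
      rw [← h6]
      exact Subgroup.orderOf_dvd_natCard _ h2
  have hle : N ≤ O := le_sSup ⟨hNn, hNpi⟩
  rw [eq_bot_iff]
  intro y hy
  obtain ⟨x, rfl⟩ := QuotientGroup.mk'_surjective O y
  have : x ∈ O := hle hy
  rw [Subgroup.mem_bot, QuotientGroup.mk'_apply, QuotientGroup.eq_one_iff]
  exact this

/-- **The centralizer of a self-centralizing normal subgroup of `F(H)`, `H` a Hall subgroup.** -/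
theorem scn_centralizer [Group.IsSolvable G] (π : Set ℕ) (h2 : 2 ∉ π) (h3 : 3 ∉ π) (H : Subgroup G) (hH : IsPiHall π H)
    (A : Subgroup G) (hA : IsSCN ((fittingSubgroup H).map H.subtype) A) :
    ∃ D : Subgroup G, D ≤ Subgroup.centralizer (A : Set G) ∧
      (∀ c ∈ Subgroup.centralizer (A : Set G), ∀ d ∈ D, c * d * c⁻¹ ∈ D) ∧
      A ⊓ D = ⊥ ∧ A ⊔ D = Subgroup.centralizer (A : Set G) ∧
      ∀ q : ℕ, q.Prime → q ∣ Nat.card D → q ∉ π := by
  classical
  obtain ⟨hH1, hH2⟩ := hH
  obtain ⟨hAF, hFN, hFA⟩ := hA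
  set Ft : Subgroup G := (fittingSubgroup H).map H.subtype with hFt
  have hFtH : Ft ≤ H := Subgroup.map_subtype_le _
  have hAH : A ≤ H := hAF.trans hFtH
  set O : Subgroup G := piCore πᶜ G with hO
  haveI hOn : O.Normal := inferInstance
  have hOc : ∀ p : ℕ, p.Prime → p ∣ Nat.card O → p ∉ π := fun p hp hd => piCore_isPi πᶜ G p hp hd
  have hco : (Nat.card H).Coprime (Nat.card O) :=
    Nat.Coprime.symm (Nat.coprime_of_dvd fun k hk h1 h4 => hOc k hk h1 (hH1 k hk h4))
  have hHO : ∀ x ∈ H, x ∈ O → x = 1 := by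
    intro x h1 h4
    exact orderOf_eq_one_iff.1 (Nat.eq_one_of_dvd_coprimes hco (Subgroup.orderOf_dvd_natCard H h1)
      (Subgroup.orderOf_dvd_natCard O h4))
  set f : G →* G ⧸ O := QuotientGroup.mk' O with hf
  have hfs : Function.Surjective f := QuotientGroup.mk'_surjective O
  have hker : ∀ x, f x = 1 ↔ x ∈ O := fun x => by
    rw [hf, QuotientGroup.mk'_apply, QuotientGroup.eq_one_iff]
  set F' : Subgroup (G ⧸ O) := fittingSubgroup (G ⧸ O) with hF'
  haveI hF'n : F'.Normal := fittingSubgroup_normal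
  have hbot : piCore πᶜ (G ⧸ O) = ⊥ := piCore_quotient_bot πᶜ
  have hF'pi : ∀ r : ℕ, r.Prime → r ∣ Nat.card F' → r ∈ π := by
    intro r hr hd
    by_contra hrπ
    haveI : Fact r.Prime := ⟨hr⟩
    obtain ⟨g, hg⟩ := exists_prime_orderOf_dvd_card' r hd
    have h1 : (g : G ⧸ O) ^ r ^ 1 = 1 := by
      have h5 : orderOf (g : G ⧸ O) = r := by
        rw [← hg]
        exact Subgroup.orderOf_coe g
      rw [pow_one, ← h5]
      exact pow_orderOf_eq_one _
    have h4 : (g : G ⧸ O) ∈ pCore r (G ⧸ O) := mem_pCore_of_fitting r g.2 1 h1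
    have h5 : pCore r (G ⧸ O) ≤ piCore πᶜ (G ⧸ O) := by
      apply le_sSup
      refine ⟨pCore_normal r _, fun s hs hsd => ?_⟩
      obtain ⟨n, hn⟩ := (pCore_isPGroup (G := G ⧸ O) r).exists_card_eq
      rw [hn] at hsd
      have : s = r := (Nat.prime_dvd_prime_iff_eq hs hr).1 (hs.dvd_of_dvd_pow hsd)
      rw [this]
      exact hrπ
    rw [hbot] at h5
    have h6 := h5 h4
    have h7 : (g : G ⧸ O) = 1 := Subgroup.mem_bot.1 h6
    have h8 : g = 1 := Subtype.ext h7
    rw [h8, orderOf_one] at hg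
    exact hr.one_lt.ne hg
  have hF'H : F' ≤ H.map f := by
    set Hb : Subgroup (G ⧸ O) := H.map f with hHb
    have h1 : Hb.relIndex (Hb ⊔ F') = 1 := by
      by_contra hne
      obtain ⟨r, hr, hrd⟩ := Nat.exists_prime_and_dvd hne
      have h4 : r ∣ Nat.card ↥(Hb ⊔ F') := hrd.trans (Subgroup.relIndex_dvd_card _ _)
      have h5 := h4.trans (card_sup_dvd_of_normal Hb F' hF'n)
      have h6 : r ∈ π := by
        rcases (Nat.Prime.dvd_mul hr).1 h5 with h | h
        · exact hH1 r hr (h.trans (Subgroup.card_map_dvd H f))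
        · exact hF'pi r hr h
      have h7 : Hb.relIndex (Hb ⊔ F') ∣ Hb.index := by
        rw [← Subgroup.relIndex_mul_index (le_sup_left : Hb ≤ Hb ⊔ F')]
        exact dvd_mul_right _ _
      have h8 : Hb.index ∣ H.index := Subgroup.index_map_dvd H hfs
      exact hH2 r hr h6 (hrd.trans (h7.trans h8))
    have h4 : Hb ⊔ F' ≤ Hb := Subgroup.relIndex_eq_one.1 h1
    exact le_sup_right.trans h4
  have hF'Ft : F' ≤ Ft.map f := by
    intro z hz
    obtain ⟨h, hh, rfl⟩ := hF'H hz
    set g : ↥H →* G ⧸ O := f.comp H.subtype with hg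
    have hginj : Function.Injective g := by
      rw [injective_iff_map_eq_one]
      rintro ⟨x, hx⟩ h1
      apply Subtype.ext
      exact hHO x hx ((hker x).1 h1)
    set X₀ : Subgroup ↥H := F'.comap g with hX₀
    haveI hX₀n : X₀.Normal := Subgroup.Normal.comap hF'n g
    have hX₀nil : Group.IsNilpotent X₀ := by
      haveI : Group.IsNilpotent F' := fittingSubgroup_isNilpotent
      let j : ↥X₀ →* ↥F' := (g.comp X₀.subtype).codRestrict F' (fun x => x.2)
      have hj : Function.Injective j := by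
        intro a b hab
        apply Subtype.ext
        apply hginj
        exact congrArg Subtype.val hab
      exact Subgroup.isNilpotent_of_ker_le_center j (by rw [(MonoidHom.ker_eq_bot_iff j).2 hj]; exact bot_le)
    have h5 : X₀ ≤ fittingSubgroup ↥H := le_fittingSubgroup_of_nilpotent hX₀n hX₀nil
    have h6 : (⟨h, hh⟩ : ↥H) ∈ X₀ := hz
    exact ⟨h, ⟨⟨h, hh⟩, h5 h6, rfl⟩, rfl⟩
  have hAcomm : A ≤ centralizer (A : Set G) := by
    intro a ha
    have h : a ∈ Ft ⊓ centralizer (A : Set G) := by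
      rw [hFA]
      exact ha
    exact (Subgroup.mem_inf.1 h).2
  have hFtbN : Ft.map f ≤ normalizer ((A.map f : Subgroup (G ⧸ O)) : Set (G ⧸ O)) := by
    rintro _ ⟨x, hx, rfl⟩
    apply Cfsg.Agent.Lib.Coprime.mem_normalizer_of_conj_le
    rintro _ ⟨a, ha, rfl⟩
    refine ⟨x * a * x⁻¹, (mem_normalizer_iff.1 (hFN hx) a).1 ha, ?_⟩
    simp only [map_mul, map_inv]
  have hFtbA : Ft.map f ⊓ centralizer ((A.map f : Subgroup (G ⧸ O)) : Set (G ⧸ O)) = A.map f := by
    apply le_antisymm
    · rintro z hz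
      obtain ⟨⟨x, hx, rfl⟩, hzc⟩ := Subgroup.mem_inf.1 hz
      have hxC : x ∈ centralizer (A : Set G) := by
        rw [Subgroup.mem_centralizer_iff]
        intro a ha
        have h1 := Subgroup.mem_centralizer_iff.1 hzc (f a) ⟨a, ha, rfl⟩
        have h4 : f (a * x * a⁻¹ * x⁻¹) = 1 := by
          simp only [map_mul, map_inv]
          rw [h1]
          group
        have h5 : a * x * a⁻¹ * x⁻¹ ∈ H := by
          have hxH := hFtH hx
          have haH := hAH ha
          exact H.mul_mem (H.mul_mem (H.mul_mem haH hxH) (H.inv_mem haH)) (H.inv_mem hxH)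
        have h6 := hHO _ h5 ((hker _).1 h4)
        calc a * x = (a * x * a⁻¹ * x⁻¹) * (x * a) := by group
          _ = x * a := by rw [h6, one_mul]
      have hxA : x ∈ A := by
        rw [← hFA]
        exact Subgroup.mem_inf.2 ⟨hx, hxC⟩
      exact ⟨x, hxA, rfl⟩
    · rintro _ ⟨a, ha, rfl⟩
      refine Subgroup.mem_inf.2 ⟨⟨a, hAF ha, rfl⟩, ?_⟩
      rw [Subgroup.mem_centralizer_iff]
      rintro _ ⟨b, hb, rfl⟩
      rw [← map_mul, ← map_mul, Subgroup.mem_centralizer_iff.1 (hAcomm ha) b hb]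
  -- the `π`-elements of the centralizer
  have hmem : ∀ q : ℕ, q.Prime → q ∈ π → ∀ y ∈ centralizer (A : Set G), ∀ k : ℕ, y ^ q ^ k = 1 → y ∈ A := by
    intro q hq hqπ y hy k hyk
    haveI : Fact q.Prime := ⟨hq⟩
    have hq5 : 5 ≤ q := hq.five_le_of_ne_two_of_ne_three (fun h => h2 (h ▸ hqπ)) (fun h => h3 (h ▸ hqπ))
    have hfy : f y ∈ centralizer ((A.map f : Subgroup (G ⧸ O)) : Set (G ⧸ O)) := by
      rw [Subgroup.mem_centralizer_iff]
      rintro _ ⟨b, hb, rfl⟩
      rw [← map_mul, ← map_mul, Subgroup.mem_centralizer_iff.1 hy b hb]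
    have h1 : f y ∈ A.map f := mem_of_mem_centralizer_of_scn hq5 hF'Ft hFtbN hFtbA hfy (k := k) (by
      rw [← map_pow, hyk, map_one])
    obtain ⟨a, ha, hae⟩ := h1
    set o : G := a⁻¹ * y with ho
    have hoO : o ∈ O := by
      rw [← hker, ho, map_mul, map_inv, hae, inv_mul_cancel]
    have hc : Commute a⁻¹ y := (show Commute a y from Subgroup.mem_centralizer_iff.1 hy a ha).inv_left
    have h4 : o ^ q ^ k = (a ^ q ^ k)⁻¹ := by
      rw [ho, hc.mul_pow, hyk, mul_one, inv_pow]
    have h5 : o ^ q ^ k = 1 := by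
      apply hHO _ _ (O.pow_mem hoO _)
      rw [h4]
      exact H.inv_mem (H.pow_mem (hAH ha) _)
    have h6 : ¬ q ∣ Nat.card O := fun h => hOc q hq h hqπ
    have h7 : (q ^ k).Coprime (Nat.card O) := Nat.Coprime.pow_left _ ((Nat.Prime.coprime_iff_not_dvd hq).2 h6)
    have h8 : o = 1 := orderOf_eq_one_iff.1 (Nat.eq_one_of_dvd_coprimes h7 (orderOf_dvd_of_pow_eq_one h5)
      (Subgroup.orderOf_dvd_natCard O hoO))
    have h9 : y = a := by
      rw [ho] at h8
      exact (inv_mul_eq_one.1 h8).symm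
    rw [h9]
    exact ha
  -- the complement
  set C : Subgroup G := centralizer (A : Set G) with hC
  set N : Subgroup C := A.subgroupOf C with hN
  have hNcen : ∀ n ∈ N, ∀ c : C, c * n = n * c := by
    intro n hn c
    apply Subtype.ext
    exact (Subgroup.mem_centralizer_iff.1 c.2 n hn).symm
  haveI hNn : N.Normal := by
    constructor
    intro n hn c
    have e : c * n * c⁻¹ = n := by
      rw [hNcen n hn c]
      group
    rwa [e]
  have hNcard : Nat.card N = Nat.card A := Nat.card_congr (Subgroup.subgroupOfEquivOfLe hAcomm).toEquiv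
  have hcop : (Nat.card N).Coprime N.index := by
    refine Nat.coprime_of_dvd fun r hr h1 h4 => ?_
    rw [hNcard] at h1
    have hrπ : r ∈ π := hH1 r hr (h1.trans (Subgroup.card_dvd_of_le hAH))
    haveI : Fact r.Prime := ⟨hr⟩
    haveI : Finite (C ⧸ N) := inferInstance
    have h5 : r ∣ Nat.card (C ⧸ N) := h4
    obtain ⟨x, hx⟩ := exists_prime_orderOf_dvd_card' r h5
    obtain ⟨c, rfl⟩ := QuotientGroup.mk_surjective x
    obtain ⟨b, e, hce, hcomm, ⟨j, hj⟩, hen, -, -⟩ := Cfsg.Agent.Lib.PGroups.exists_pPart r c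
    have hbN : b ∈ N := by
      have h6 : (b : G) ^ r ^ j = 1 := by
        have := pow_orderOf_eq_one b
        rw [hj] at this
        simpa using congrArg Subtype.val this
      exact hmem r hr hrπ b b.2 j h6
    have h7 : (c : C ⧸ N) = (e : C ⧸ N) := by
      rw [QuotientGroup.eq, hce]
      have h8 : (b * e)⁻¹ * e = (e⁻¹ * b * e)⁻¹ := by group
      rw [h8]
      exact N.inv_mem (by
        have : e⁻¹ * b * e = b := by
          rw [mul_assoc, ← hNcen b hbN e]
          group
        rwa [this])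
    rw [h7] at hx
    have h9 : orderOf (e : C ⧸ N) ∣ orderOf e := by
      exact orderOf_map_dvd (QuotientGroup.mk' N) e
    rw [hx] at h9
    exact hen h9
  obtain ⟨D₀, hD₀⟩ := Subgroup.exists_right_complement'_of_coprime hcop
  have hdisj := hD₀.disjoint
  have hsurj := hD₀.2
  have hADbot : A ⊓ D₀.map C.subtype = ⊥ := by
    rw [eq_bot_iff]
    rintro x hx
    obtain ⟨hxA, d, hd, rfl⟩ := Subgroup.mem_inf.1 hx
    have h1 : d = 1 := Subgroup.disjoint_def.1 hdisj (show d ∈ N from hxA) hd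
    rw [h1]
    exact Subgroup.one_mem _
  refine ⟨D₀.map C.subtype, Subgroup.map_subtype_le _, ?_, hADbot, ?_, ?_⟩
  · rintro c hc _ ⟨d, hd, rfl⟩
    obtain ⟨⟨n, d'⟩, hnd⟩ := hsurj ⟨c, hc⟩
    have h1 : (⟨c, hc⟩ : C) = (n : C) * (d' : C) := hnd.symm
    have h2 : (⟨c, hc⟩ : C) * d * (⟨c, hc⟩ : C)⁻¹ = (d' : C) * d * (d' : C)⁻¹ := by
      rw [h1]
      have h4 := hNcen n n.2 ((d' : C) * d * (d' : C)⁻¹)
      calc (n : C) * (d' : C) * d * ((n : C) * (d' : C))⁻¹ = (n : C) * ((d' : C) * d * (d' : C)⁻¹) * (n : C)⁻¹ := by group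
        _ = ((d' : C) * d * (d' : C)⁻¹) * (n : C) * (n : C)⁻¹ := by rw [h4]
        _ = _ := by group
    refine ⟨(d' : C) * d * (d' : C)⁻¹, D₀.mul_mem (D₀.mul_mem d'.2 hd) (D₀.inv_mem d'.2), ?_⟩
    rw [← h2]
    rfl
  · apply le_antisymm
    · exact sup_le hAcomm (Subgroup.map_subtype_le _)
    · intro c hc
      obtain ⟨⟨n, d'⟩, hnd⟩ := hsurj ⟨c, hc⟩
      have h1 : c = (n : C) * ((d' : C) : G) := (congrArg Subtype.val hnd).symm
      rw [h1]
      exact Subgroup.mul_mem _ (Subgroup.mem_sup_left n.2) (Subgroup.mem_sup_right ⟨d', d'.2, rfl⟩)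
  · intro q hq hd hqπ
    haveI : Fact q.Prime := ⟨hq⟩
    obtain ⟨g, hg⟩ := exists_prime_orderOf_dvd_card' q hd
    have h5 : orderOf (g : G) = q := by
      rw [← hg]
      exact Subgroup.orderOf_coe g
    have h1 : (g : G) ^ q ^ 1 = 1 := by
      rw [pow_one, ← h5]
      exact pow_orderOf_eq_one _
    have h4 := hmem q hq hqπ g ((Subgroup.map_subtype_le _ : D₀.map C.subtype ≤ C) g.2) 1 h1
    have h6 : (g : G) ∈ A ⊓ D₀.map C.subtype := Subgroup.mem_inf.2 ⟨h4, g.2⟩
    rw [hADbot, Subgroup.mem_bot] at h6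
    rw [h6, orderOf_one] at h5
    exact hq.one_lt.ne h5

end Core

end Cfsg.Agent.Lib.Tech
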