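import Cfsg.Agent.Lib.Fusion.EssAb
import Cfsg.Agent.Lib.Fusion2.Meta2
import Cfsg.Agent.Lib.TwoGroups.Present
import Cfsg.Agent.Lib.Basic.Frattini
import Cfsg.Agent.Lib.OddLocal.Rank2B
import Cfsg.Agent.Lib.OddLocal.PGroup
import Cfsg.Agent.Lib.Coprime.MetaGroup
import Cfsg.Agent.Lib.Transfer.Critical
import Cfsg.Prelude.Def_OddOrderLocal

/-!
# Metacyclic `2`-groups with an automorphism of odd order
-/

set_option autoImplicit false

namespace Cfsg.Agent.Lib.Tech

open Subgroup Cfsg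
open scoped commutatorElement

variable {X : Type*} [Group X] [Finite X]

/-- The displacement of an odd-order automorphism of a metacyclic `2`-group generates. -/
theorem meta2_disp (hX : IsPGroup 2 X) (hm : IsMetacyclic X) (α : MulAut X) {q : ℕ} (hq : Odd q)
    (hα : α ^ q = 1) (hα1 : α ≠ 1) (H : Subgroup X) (hH : ∀ x, α x * x⁻¹ ∈ H) : H = ⊤ := by
  classical
  haveI : Fact (Nat.Prime 2) := ⟨Nat.prime_two⟩
  by_contra hne
  apply hα1
  have hcop : (orderOf α).Coprime 2 := by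
    have h1 : orderOf α ∣ q := orderOf_dvd_of_pow_eq_one hα
    exact Nat.Coprime.coprime_dvd_left h1 ((Nat.coprime_two_right).2 hq)
  refine Cfsg.Agent.Lib.Fusion2.aut_eq_one_of_frattini hX hcop ?_
  let Φ : Subgroup X := frattini X
  haveI hΦn : Φ.Normal := inferInstance
  have hΦc : ∀ x ∈ Φ, α x ∈ Φ := fun x hx =>
    Cfsg.Agent.Lib.Transfer.map_mem_of_char (inferInstance : (frattini X).Characteristic) α hx
  have hpw : ∀ x : X, x ^ 2 ∈ Φ := fun x => Cfsg.Agent.Lib.Transfer.pow_mem_frattini hX x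
  let W : Subgroup X := H ⊔ Φ
  have hWne : W ≠ ⊤ := fun h =>
    hne (Cfsg.Agent.Lib.Basic.eq_top_of_sup_eq_top_of_le_frattini le_rfl h)
  have hΦW : Φ ≤ W := le_sup_right
  -- size
  have hcard : Nat.card X ≤ 4 * Nat.card Φ := by
    have h := Cfsg.Agent.Lib.Fusion2.card_le_of_metacyclic (p := 2) hm (R := ⊤) (K := Φ) le_top
      (fun r _ k hk => hΦn.conj_mem k hk r) (fun r _ => hpw r)
    rw [Nat.card_congr (Subgroup.topEquiv : (⊤ : Subgroup X) ≃* X).toEquiv] at h
    simpa using h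
  have hidx : 2 ≤ W.index := by
    have h0 : W.index ≠ 0 := Subgroup.index_ne_zero_of_finite
    have h1 : W.index ≠ 1 := fun h => hWne (Subgroup.index_eq_one.1 h)
    omega
  have hrel : Φ.relIndex W * Nat.card Φ = Nat.card W := by
    have h1 := Subgroup.card_mul_index (Φ.subgroupOf W)
    rw [Nat.card_congr (Subgroup.subgroupOfEquivOfLe hΦW).toEquiv] at h1
    rw [mul_comm]
    exact h1
  have hW2 : Φ.relIndex W ≤ 2 := by
    have h1 : Nat.card W * W.index = Nat.card X := Subgroup.card_mul_index W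
    have h2 : 0 < Nat.card Φ := Nat.card_pos
    have h3 : Φ.relIndex W * Nat.card Φ * 2 ≤ 4 * Nat.card Φ := by
      rw [hrel]
      calc Nat.card W * 2 ≤ Nat.card W * W.index := Nat.mul_le_mul_left _ hidx
        _ = _ := h1
        _ ≤ _ := hcard
    have h4 : Φ.relIndex W * 2 ≤ 4 := by
      by_contra hcon
      push Not at hcon
      have : 4 * Nat.card Φ < Φ.relIndex W * 2 * Nat.card Φ := Nat.mul_lt_mul_of_pos_right hcon h2
      nlinarith
    omega
  -- `α` moves elements of `W` by `Φ`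
  have hWmove : ∀ w ∈ W, α w ∈ W → α w * w⁻¹ ∈ Φ := by
    intro w hw haw
    have h0 : Φ.relIndex W ≠ 0 := Subgroup.index_ne_zero_of_finite (H := Φ.subgroupOf W)
    rcases (show Φ.relIndex W = 1 ∨ Φ.relIndex W = 2 by omega) with h1 | h2
    · have hle : W ≤ Φ := Subgroup.relIndex_eq_one.1 h1
      exact mul_mem (hle haw) (inv_mem (hle hw))
    · have h3 : (Φ.subgroupOf W).index = 2 := h2
      have h4 := mul_mem_iff_of_index_two h3 (a := (⟨α w, haw⟩ : W)) (b := (⟨w, hw⟩ : W)⁻¹)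
      have h5 : ((⟨α w, haw⟩ : W) * (⟨w, hw⟩ : W)⁻¹ ∈ Φ.subgroupOf W) ↔ α w * w⁻¹ ∈ Φ := Iff.rfl
      rw [h5] at h4
      rw [h4, Subgroup.inv_mem_iff]
      show α w ∈ Φ ↔ w ∈ Φ
      constructor
      · intro h6
        by_contra h7
        -- `w ∉ Φ`, `α w ∈ Φ`: impossible because `α` has odd order and preserves `Φ`
        have h9 : (α ^ (q - 1)) (α w) = w := by
          have : (α ^ (q - 1)) (α w) = (α ^ q) w := by
            rw [← MulAut.mul_apply, ← pow_succ]
            congr 2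
            have := hq.pos
            omega
          rw [this, hα]; rfl
        have h10 : ∀ k : ℕ, ∀ y ∈ Φ, (α ^ k) y ∈ Φ := by
          intro k
          induction k with
          | zero => intro y hy; simpa using hy
          | succ k ih =>
            intro y hy
            rw [pow_succ', MulAut.mul_apply]
            exact hΦc _ (ih y hy)
        exact h7 (h9 ▸ h10 _ _ h6)
      · exact hΦc w
  -- now compute in the Frattini quotient
  intro x
  obtain ⟨w, hw⟩ : ∃ w, w = α x * x⁻¹ := ⟨_, rfl⟩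
  have hwH : w ∈ H := hw ▸ hH x
  have hwW : w ∈ W := (le_sup_left : H ≤ W) hwH
  have hawW : α w ∈ W := by
    have : α w = (α w * w⁻¹) * w := by group
    rw [this]
    exact mul_mem ((le_sup_left : H ≤ W) (hH w)) hwW
  have hw1 := hWmove w hwW hawW
  let π : X →* X ⧸ Φ := QuotientGroup.mk' Φ
  have hπ : ∀ y, π y = 1 ↔ y ∈ Φ := fun y => QuotientGroup.eq_one_iff y
  have hπw : π (α w) = π w := by
    have := (hπ _).2 hw1
    rw [map_mul, map_inv, mul_inv_eq_one] at this
    exact this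
  have hπx : π (α x) = π w * π x := by
    rw [← map_mul, hw]; group
  have hiter : ∀ k : ℕ, π ((α ^ k) x) = π w ^ k * π x ∧ π ((α ^ k) w) = π w := by
    intro k
    induction k with
    | zero => simp
    | succ k ih =>
      rw [pow_succ', MulAut.mul_apply, MulAut.mul_apply]
      -- use a small helper: `π ∘ α` on the relevant elements
      have hcom : ∀ y z : X, π y = π z → π (α y) = π (α z) := by
        intro y z hyz
        have h1 : y * z⁻¹ ∈ Φ := by
          rw [← hπ, map_mul, map_inv, hyz, mul_inv_cancel]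
        have h2 := hΦc _ h1
        rw [← hπ, map_mul, map_inv, map_mul, map_inv, mul_inv_eq_one] at h2
        exact h2
      have e1 : π ((α ^ k) x) = π (w ^ k * x) := by rw [ih.1, map_mul, map_pow]
      have e2 : π (α (w ^ k * x)) = π w ^ (k + 1) * π x := by
        rw [map_mul, map_pow, map_mul, map_pow, hπw, hπx, pow_succ, mul_assoc]
      have e3 : π ((α ^ k) w) = π w := ih.2
      refine ⟨(hcom _ _ e1).trans e2, ?_⟩
      exact (hcom _ _ e3).trans hπw
  have h1 := (hiter q).1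
  rw [hα] at h1
  have h2 : π w ^ q = 1 := by
    have : π x = π w ^ q * π x := h1
    exact mul_eq_right.1 this.symm
  have h3 : π w ^ 2 = 1 := by
    rw [← map_pow]
    exact (hπ _).2 (hpw w)
  obtain ⟨t, ht⟩ := hq
  have h4 : π w = 1 := by
    have : π w ^ q = π w := by
      rw [ht, pow_succ, pow_mul, h3, one_pow, one_mul]
    rw [← this]; exact h2
  rw [← hw]
  exact (hπ _).1 h4

/-- An odd-order automorphism fixes any invariant cyclic subgroup of a `2`-group pointwise. -/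
theorem fix_of_cyclic (hX : IsPGroup 2 X) (C : Subgroup X) (hC : IsCyclic C) (α : MulAut X) {q : ℕ} (hq : Odd q)
    (hα : α ^ q = 1) (hinv : ∀ u ∈ C, α u ∈ C) : ∀ u ∈ C, α u = u := by
  classical
  haveI : Fact (Nat.Prime 2) := ⟨Nat.prime_two⟩
  let f : C →* C := (α.toMonoidHom.comp C.subtype).codRestrict C (fun u => hinv u u.2)
  have hf : Function.Injective f := by
    intro a b hab
    apply Subtype.ext
    have := congrArg (fun z : C => (z : X)) hab
    exact α.injective this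
  let α' : MulAut C := MulEquiv.ofBijective f (Finite.injective_iff_bijective.1 hf)
  have hα' : ∀ u : C, ((α' u : C) : X) = α u := fun u => rfl
  have hiter : ∀ k : ℕ, ∀ u : C, (((α' ^ k) u : C) : X) = (α ^ k) u := by
    intro k
    induction k with
    | zero => intro u; rfl
    | succ k ih =>
      intro u
      rw [pow_succ', pow_succ', MulAut.mul_apply, MulAut.mul_apply, hα', ih]
  have hq1 : α' ^ q = 1 := by
    ext u
    rw [hiter, hα]
    rfl
  have h1 : orderOf α' ∣ q := orderOf_dvd_of_pow_eq_one hq1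
  obtain ⟨k, hk⟩ := (IsPGroup.iff_card.1 (hX.to_subgroup C))
  have h2 : orderOf α' ∣ Nat.totient (2 ^ k) := by
    rw [← hk, ← IsCyclic.card_mulAut]
    exact orderOf_dvd_natCard α'
  have h3 : orderOf α' = 1 := by
    rcases Nat.eq_zero_or_pos k with rfl | hkpos
    · simpa using h2
    · rw [Nat.totient_prime_pow Nat.prime_two hkpos] at h2
      simp only [Nat.add_one_sub_one, Nat.sub_self, pow_one, mul_one] at h2
      have hc : Nat.Coprime q (2 ^ (k - 1)) := Nat.Coprime.pow_right _ ((Nat.coprime_two_right).2 hq)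
      exact Nat.eq_one_of_dvd_coprimes hc h1 (by simpa using h2)
  have h4 : α' = 1 := orderOf_eq_one_iff.1 h3
  intro u hu
  have h5 := hα' ⟨u, hu⟩
  rw [h4] at h5
  exact h5.symm


open Cfsg.Agent.Lib.Fusion (abPow abPow_apply iso_of_homocyclic)

/-- The power image is of rank two. -/
theorem hom_core {Y : Type*} [Group Y] [Finite Y] (hY : IsPGroup 2 Y) (hcomm : ∀ x y : Y, x * y = y * x)
    (hb : ∀ E : Subgroup Y, (∀ z ∈ E, z ^ 2 = 1) → Nat.card E ≤ 2 ^ 2) (β : MulAut Y)
    (hL : ∀ H : Subgroup Y, (∀ y, β y * y⁻¹ ∈ H) → H = ⊤) (a : ℕ) (hexp : ∀ y : Y, y ^ (2 ^ (a + 1)) = 1)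
    (hne : ∃ y : Y, y ^ (2 ^ a) ≠ 1) : Nat.card (abPow hcomm (2 ^ a)).range = 2 ^ 2 := by
  haveI : Fact (Nat.Prime 2) := ⟨Nat.prime_two⟩
  obtain ⟨I, hI⟩ : ∃ I, I = (abPow hcomm (2 ^ a)).range := ⟨_, rfl⟩
  rw [← hI]
  have hImem : ∀ y : Y, y ^ 2 ^ a ∈ I := fun y => by rw [hI]; exact ⟨y, rfl⟩
  have hIp : ∀ z ∈ I, z ^ 2 = 1 := by
    intro z hz
    rw [hI] at hz
    obtain ⟨y, rfl⟩ := hz
    show (y ^ (2 ^ a)) ^ 2 = 1
    rw [← pow_mul, ← pow_succ]
    exact hexp y
  have hle := hb I hIp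
  obtain ⟨k, hk⟩ := IsPGroup.iff_card.1 (hY.to_subgroup I)
  have hk2 : k ≤ 2 := by
    rw [hk] at hle
    exact (Nat.pow_le_pow_iff_right (by norm_num)).1 hle
  obtain ⟨y₀, hy₀⟩ := hne
  have hz₀ : y₀ ^ (2 ^ a) ∈ I := hImem y₀
  interval_cases k
  · exfalso
    have h0 : Nat.card I = 1 := by simpa using hk
    have h1 := Subgroup.eq_bot_of_card_eq I h0
    rw [h1] at hz₀
    exact hy₀ (mem_bot.1 hz₀)
  · exfalso
    have hc2 : Nat.card I = 2 := by simpa using hk
    obtain ⟨t, -, ht⟩ := (Nat.card_eq_two_iff' (1 : I)).1 hc2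
    have hfix : ∀ y : Y, β (y ^ (2 ^ a)) = y ^ (2 ^ a) := by
      intro y
      by_cases h1 : y ^ (2 ^ a) = 1
      · rw [h1, map_one]
      · have hm1 : β (y ^ 2 ^ a) ∈ I := by rw [map_pow]; exact hImem _
        have e1 := ht ⟨_, hm1⟩ (by
          intro h
          have := congrArg (fun z : I => (z : Y)) h
          exact h1 (β.injective (by simpa using this)))
        have e2 := ht ⟨_, hImem y⟩ (by
          intro h
          have := congrArg (fun z : I => (z : Y)) h
          exact h1 (by simpa using this))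
        exact congrArg Subtype.val (e1.trans e2.symm)
    have htop := hL (abPow hcomm (2 ^ a)).ker (fun y => by
      rw [MonoidHom.mem_ker, map_mul, map_inv, abPow_apply, abPow_apply, ← map_pow, hfix, mul_inv_cancel])
    apply hy₀
    have : y₀ ∈ (abPow hcomm (2 ^ a)).ker := by rw [htop]; exact mem_top _
    simpa using this
  · exact hk

theorem exists_exp_two {Y : Type*} [Group Y] [Finite Y] (hY : IsPGroup 2 Y) (hne : ∃ y : Y, y ≠ 1) :
    ∃ a : ℕ, (∀ y : Y, y ^ (2 ^ (a + 1)) = 1) ∧ ∃ y : Y, y ^ (2 ^ a) ≠ 1 := by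
  classical
  haveI : Fact (Nat.Prime 2) := ⟨Nat.prime_two⟩
  have hex : ∃ a : ℕ, ∀ y : Y, y ^ (2 ^ a) = 1 := by
    obtain ⟨k, hk⟩ := IsPGroup.iff_card.1 hY
    exact ⟨k, fun y => by rw [← hk]; exact pow_card_eq_one'⟩
  have h0 : Nat.find hex ≠ 0 := by
    intro h
    have := Nat.find_spec hex
    rw [h] at this
    obtain ⟨y, hy⟩ := hne
    exact hy (by simpa using this y)
  obtain ⟨a, ha⟩ := Nat.exists_eq_succ_of_ne_zero h0
  refine ⟨a, ?_, ?_⟩
  · have := Nat.find_spec hex
    rw [ha] at this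
    exact this
  · have := Nat.find_min hex (m := a) (by omega)
    push Not at this
    exact this

/-- Metacyclic `2`-group, abelian, with an odd automorphism. -/
theorem meta2_abelian (hX : IsPGroup 2 X) (hm : IsMetacyclic X) (hcomm : ∀ x y : X, x * y = y * x)
    (α : MulAut X) (hL : ∀ H : Subgroup X, (∀ y, α y * y⁻¹ ∈ H) → H = ⊤) (hne : ∃ y : X, y ≠ 1) :
    ∃ n : ℕ, Nonempty (X ≃* Multiplicative (ZMod (2 ^ n)) × Multiplicative (ZMod (2 ^ n))) := by
  classical
  haveI : Fact (Nat.Prime 2) := ⟨Nat.prime_two⟩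
  obtain ⟨a, hexp, hne'⟩ := exists_exp_two hX hne
  have hb : ∀ E : Subgroup X, (∀ z ∈ E, z ^ 2 = 1) → Nat.card E ≤ 2 ^ 2 :=
    fun E hE => Cfsg.Agent.Lib.OddLocal.card_le_of_exp_p 2 hm E hE
  have hI := hom_core hX hcomm hb α hL a hexp hne'
  have hidx : (abPow hcomm 2).range.index ∣ 2 ^ 2 := by
    have hle := Cfsg.Agent.Lib.Fusion2.card_le_of_metacyclic (p := 2) hm (R := ⊤)
      (K := (abPow hcomm 2).range) le_top
      (fun r _ k hk => by rw [hcomm r k, mul_inv_cancel_right]; exact hk)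
      (fun r _ => ⟨r, rfl⟩)
    rw [Nat.card_congr (Subgroup.topEquiv : (⊤ : Subgroup X) ≃* X).toEquiv] at hle
    have h1 := Subgroup.card_mul_index (abPow hcomm 2).range
    have h2 : 0 < Nat.card (abPow hcomm 2).range := Nat.card_pos
    have h3 : (abPow hcomm 2).range.index ≤ 2 ^ 2 := by
      by_contra hcon
      push Not at hcon
      rw [← h1, mul_comm] at hle
      exact absurd (Nat.le_of_mul_le_mul_right hle h2) (by omega)
    obtain ⟨k, hk⟩ := IsPGroup.iff_card.1 hX
    have h4 : (abPow hcomm 2).range.index ∣ 2 ^ k := by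
      rw [← hk]; exact Dvd.intro_left _ h1
    obtain ⟨j, -, hj⟩ := (Nat.dvd_prime_pow Nat.prime_two).1 h4
    rw [hj] at h3 ⊢
    exact pow_dvd_pow 2 ((Nat.pow_le_pow_iff_right (by norm_num)).1 h3)
  obtain ⟨e⟩ := iso_of_homocyclic (p := 2) hcomm a hexp hidx hI
  exact ⟨a + 1, ⟨e.trans (MulEquiv.prodMultiplicative _ _)⟩⟩


/-- A metacyclic `2`-group with a nontrivial odd-order automorphism, main theorem. -/
theorem meta2_aut_main (hX : IsPGroup 2 X) (hm : IsMetacyclic X) (hA : ¬ IsPGroup 2 (MulAut X)) :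
    Nonempty (X ≃* QuaternionGroup 2) ∨
      ∃ n : ℕ, Nonempty (X ≃* Multiplicative (ZMod (2 ^ n)) × Multiplicative (ZMod (2 ^ n))) := by
  classical
  haveI : Fact (Nat.Prime 2) := ⟨Nat.prime_two⟩
  -- an odd automorphism
  obtain ⟨α, q, hq, hα, hα1⟩ : ∃ (α : MulAut X) (q : ℕ), Odd q ∧ α ^ q = 1 ∧ α ≠ 1 := by
    unfold IsPGroup at hA
    push Not at hA
    obtain ⟨g, hg⟩ := hA
    obtain ⟨s, m, hm', hsm⟩ := Nat.exists_eq_two_pow_mul_odd (orderOf_pos g).ne'
    refine ⟨g ^ 2 ^ s, m, hm', ?_, hg s⟩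
    rw [← pow_mul, ← hsm, pow_orderOf_eq_one]
  have L := meta2_disp hX hm α hq hα hα1
  have hne : ∃ y : X, y ≠ 1 := by
    by_contra hcon
    push Not at hcon
    apply hα1
    ext x
    rw [hcon (α x), hcon ((1 : MulAut X) x)]
  by_cases hcomm : ∀ x y : X, x * y = y * x
  · exact Or.inr (meta2_abelian hX hm hcomm α L hne)
  left
  obtain ⟨Xc, hXcdef⟩ : ∃ Xc, Xc = commutator X := ⟨_, rfl⟩
  haveI hXcn : Xc.Normal := by rw [hXcdef]; infer_instance
  have hXcchar : Xc.Characteristic := by rw [hXcdef]; infer_instance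
  have hXcmem : ∀ x y : X, ⁅x, y⁆ ∈ Xc := by
    intro x y
    rw [hXcdef, _root_.commutator_def]
    exact Subgroup.commutator_mem_commutator (mem_top x) (mem_top y)
  have hXccyc : IsCyclic Xc := by
    rw [hXcdef]
    exact Cfsg.Agent.Lib.Coprime.Meta.IsMetacyclic_commutator_cyclic hm
  have hinv : ∀ u ∈ Xc, α u ∈ Xc := fun u hu =>
    Cfsg.Agent.Lib.Transfer.map_mem_of_char hXcchar α hu
  have hfix : ∀ u ∈ Xc, α u = u := fix_of_cyclic hX Xc hXccyc α hq hα hinv
  -- the commutator subgroup is central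
  have hcen : ∀ u ∈ Xc, ∀ x : X, x * u = u * x := by
    have htop := L (centralizer (Xc : Set X)) (by
      intro x
      rw [mem_centralizer_iff]
      intro u hu
      have h1 : x⁻¹ * u * x ∈ Xc := by simpa using hXcn.conj_mem u hu x⁻¹
      have h2 := hfix _ h1
      rw [map_mul, map_mul, map_inv, hfix u hu] at h2
      calc u * (α x * x⁻¹) = α x * ((α x)⁻¹ * u * α x) * x⁻¹ := by group
        _ = α x * (x⁻¹ * u * x) * x⁻¹ := by rw [h2]
        _ = _ := by group)
    intro u hu x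
    have hx : x ∈ centralizer (Xc : Set X) := by rw [htop]; exact mem_top x
    exact (mem_centralizer_iff.1 hx u hu).symm
  have hcXc : ∀ u ∈ Xc, ∀ v : X, Commute u v := fun u hu v => (hcen u hu v).symm
  have hXcne : ∃ u ∈ Xc, u ≠ 1 := by
    by_contra hcon
    push Not at hcon
    apply hcomm
    intro x y
    exact commutatorElement_eq_one_iff_commute.1 (hcon _ (hXcmem x y))
  -- the quotient
  let π : X →* X ⧸ Xc := QuotientGroup.mk' Xc
  have hπs : Function.Surjective π := QuotientGroup.mk'_surjective Xc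
  have hπ : ∀ y, π y = 1 ↔ y ∈ Xc := fun y => QuotientGroup.eq_one_iff y
  have hcommY : ∀ u v : X ⧸ Xc, u * v = v * u := by
    intro u v
    obtain ⟨x, rfl⟩ := hπs u
    obtain ⟨y, rfl⟩ := hπs v
    have h1 := (hπ _).2 (hXcmem x y)
    rw [commutatorElement_def, map_mul, map_mul, map_mul, map_inv, map_inv] at h1
    rw [mul_inv_eq_one, mul_inv_eq_iff_eq_mul] at h1
    exact h1
  have hY : IsPGroup 2 (X ⧸ Xc) := hX.of_surjective π hπs
  have hYne : ∃ y : X ⧸ Xc, y ≠ 1 := by
    by_contra hcon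
    push Not at hcon
    apply hcomm
    intro x y
    have h1 : x ∈ Xc := (hπ x).1 (hcon _)
    exact hcen x h1 y |>.symm
  obtain ⟨a, hexp, hne'⟩ := exists_exp_two hY hYne
  have hbY : ∀ E : Subgroup (X ⧸ Xc), (∀ z ∈ E, z ^ 2 = 1) → Nat.card E ≤ 2 ^ 2 :=
    fun E hE => Cfsg.Agent.Lib.OddLocal.card_le_of_exp_p 2
      (Cfsg.Agent.Lib.Coprime.Meta.IsMetacyclic_quotient hm Xc) E hE
  have hmapα : Xc.map α.toMonoidHom = Xc := by
    haveI := hXcchar
    exact Subgroup.characteristic_iff_map_eq.1 hXcchar α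
  let β : MulAut (X ⧸ Xc) := QuotientGroup.congr Xc Xc α hmapα
  have hβ : ∀ x : X, β (π x) = π (α x) := fun x => rfl
  have hLY : ∀ H : Subgroup (X ⧸ Xc), (∀ y, β y * y⁻¹ ∈ H) → H = ⊤ := by
    intro H hH
    have h1 := L (H.comap π) (fun x => by
      rw [mem_comap, map_mul, map_inv, ← hβ]
      exact hH _)
    rw [eq_top_iff]
    intro y _
    obtain ⟨x, rfl⟩ := hπs y
    have : x ∈ H.comap π := by rw [h1]; exact mem_top x
    exact this
  have hI := hom_core hY hcommY hbY β hLY a hexp hne'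
  -- the metacyclic data
  obtain ⟨N, hNn, hNc, hQc⟩ := hm
  have hXcN : Xc ≤ N := by
    rw [hXcdef, _root_.commutator_def, Subgroup.commutator_le]
    intro x _ y _
    rw [← QuotientGroup.eq_one_iff, commutatorElement_def]
    letI : CommGroup (X ⧸ N) := IsCyclic.commGroup
    simp only [QuotientGroup.mk_mul, QuotientGroup.mk_inv]
    rw [mul_comm (x : X ⧸ N) (y : X ⧸ N)]
    group
  obtain ⟨⟨d, hdN⟩, hdgen⟩ := hNc.exists_generator
  have hN : N = zpowers d := by
    refine le_antisymm ?_ (zpowers_le.2 hdN)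
    intro n hn
    obtain ⟨l, hl⟩ := Subgroup.mem_zpowers_iff.1 (hdgen ⟨n, hn⟩)
    have := congrArg (fun z : N => (z : X)) hl
    simp only [Subgroup.coe_zpow] at this
    exact Subgroup.mem_zpowers_iff.2 ⟨l, this⟩
  obtain ⟨cq, hcq⟩ := hQc.exists_generator
  obtain ⟨c, rfl⟩ := QuotientGroup.mk'_surjective N cq
  have hdecomp : ∀ x : X, ∃ (s t : ℤ), x = c ^ s * d ^ t := by
    intro x
    obtain ⟨s, hs⟩ := Subgroup.mem_zpowers_iff.1 (hcq (QuotientGroup.mk' N x))
    have h1 : (c ^ s)⁻¹ * x ∈ N := by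
      rw [← QuotientGroup.eq]
      rw [QuotientGroup.mk_zpow]
      exact hs
    rw [hN] at h1
    obtain ⟨t, ht⟩ := Subgroup.mem_zpowers_iff.1 h1
    exact ⟨s, t, by rw [ht]; group⟩
  have hXpow : ∀ x : X, x ^ (2 ^ (a + 1)) ∈ Xc := by
    intro x
    rw [← hπ, map_pow]
    exact hexp _
  -- `d^(2^a) ∉ Xc`
  have hd1 : d ^ (2 ^ a) ∉ Xc := by
    intro hd
    have hdq : π d ^ 2 ^ a = 1 := by
      rw [← map_pow]
      exact (hπ _).2 hd
    let g : X ⧸ Xc := π c ^ 2 ^ a
    have hle : (abPow hcommY (2 ^ a)).range ≤ zpowers g := by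
      rintro _ ⟨y, rfl⟩
      obtain ⟨x, rfl⟩ := hπs y
      obtain ⟨s, t, rfl⟩ := hdecomp x
      rw [abPow_apply, map_mul, map_zpow, map_zpow, (show Commute _ _ from hcommY _ _).mul_pow]
      have e1 : (π d ^ t) ^ 2 ^ a = 1 := by
        rw [← zpow_natCast, ← zpow_mul, mul_comm, zpow_mul, zpow_natCast, hdq, one_zpow]
      have e2 : (π c ^ s) ^ 2 ^ a = g ^ s := by
        show _ = (π c ^ 2 ^ a) ^ s
        rw [← zpow_natCast, ← zpow_mul, mul_comm, zpow_mul, zpow_natCast]
      rw [e1, e2, mul_one]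
      exact Subgroup.zpow_mem_zpowers g s
    have h1 := Subgroup.card_le_of_le hle
    rw [hI, Nat.card_zpowers] at h1
    have h2 : g ^ 2 = 1 := by
      show (π c ^ 2 ^ a) ^ 2 = 1
      rw [← pow_mul, ← pow_succ]
      exact hexp _
    have h3 : orderOf g ∣ 2 := orderOf_dvd_of_pow_eq_one h2
    have h4 := Nat.le_of_dvd (by norm_num) h3
    omega
  -- `Xc = ⟨d^(2^(a+1))⟩`
  obtain ⟨w, hw⟩ : ∃ w, w = d ^ (2 ^ (a + 1)) := ⟨_, rfl⟩
  have hwXc : w ∈ Xc := hw ▸ hXpow d
  have hXcw : ∀ u ∈ Xc, u ∈ zpowers w := by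
    intro u hu
    have hu' : u ∈ zpowers d := hN ▸ hXcN hu
    rw [← mem_powers_iff_mem_zpowers, Submonoid.mem_powers_iff] at hu'
    obtain ⟨j, rfl⟩ := hu'
    by_cases hj : 2 ^ (a + 1) ∣ j
    · obtain ⟨r, rfl⟩ := hj
      rw [pow_mul, ← hw]
      exact Subgroup.npow_mem_zpowers w r
    · exfalso
      have hj0 : j ≠ 0 := by
        rintro rfl
        exact hj (dvd_zero _)
      obtain ⟨s, m, hm', rfl⟩ := Nat.exists_eq_two_pow_mul_odd hj0
      have hsa : s ≤ a := by
        by_contra hcon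
        apply hj
        exact Dvd.dvd.mul_right (pow_dvd_pow 2 (by omega)) _
      obtain ⟨K, hK⟩ := hX (d ^ 2 ^ s)
      obtain ⟨j', hj'⟩ := Cfsg.Agent.Lib.Fusion2.zpow_odd_gen hK (j := (m : ℤ)) (by exact_mod_cast hm')
      have hz : d ^ 2 ^ s ∈ Xc := by
        rw [← hj']
        apply Subgroup.zpow_mem
        rw [zpow_natCast, ← pow_mul]
        exact hu
      apply hd1
      have e : d ^ 2 ^ a = (d ^ 2 ^ s) ^ 2 ^ (a - s) := by
        rw [← pow_mul, ← pow_add]
        congr 2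
        omega
      rw [e]
      exact Subgroup.pow_mem _ hz _
  have hwne : w ≠ 1 := by
    rintro rfl
    obtain ⟨u, hu, hu1⟩ := hXcne
    have := hXcw u hu
    rw [Subgroup.zpowers_one_eq_bot] at this
    exact hu1 (mem_bot.1 this)
  -- `a = 0`
  have ha0 : a = 0 := by
    by_contra ha
    obtain ⟨e, he⟩ : ∃ e, e = 2 ^ (a + 1) := ⟨_, rfl⟩
    obtain ⟨t, ht⟩ : 2 ∣ e.choose 2 := by
      have h1 : 2 ^ a ∣ (2 * 2 ^ a).choose 2 := Cfsg.Agent.Lib.Transfer.dvd_choose_two_of_even (2 ^ a)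
      have h2 : (2 : ℕ) ∣ 2 ^ a := dvd_pow_self 2 ha
      rw [he, pow_succ']
      exact h2.trans h1
    have hmulform : ∀ x y : X, (x * y) ^ e = x ^ e * y ^ e * (⁅y, x⁆ ^ t) ^ 2 := by
      intro x y
      have h1 := Cfsg.Agent.Lib.OddLocal.mul_pow_of_central_commutator y x ⁅y, x⁆
        (by rw [commutatorElement_def]; group) (hcen _ (hXcmem y x) y).symm (hcen _ (hXcmem y x) x).symm e
      rw [h1, ht, ← pow_mul, mul_comm t 2]
    let H : Subgroup X :=
      { carrier := {x | ∃ v ∈ Xc, x ^ e = v ^ 2}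
        mul_mem' := by
          rintro x y ⟨v₁, hv₁, h₁⟩ ⟨v₂, hv₂, h₂⟩
          refine ⟨v₁ * v₂ * ⁅y, x⁆ ^ t, mul_mem (mul_mem hv₁ hv₂) (pow_mem (hXcmem y x) t), ?_⟩
          show (x * y) ^ e = _
          rw [hmulform, h₁, h₂, (hcXc _ (mul_mem hv₁ hv₂) _).mul_pow, (hcXc _ hv₁ _).mul_pow]
        one_mem' := ⟨1, one_mem _, by simp⟩
        inv_mem' := by
          rintro x ⟨v, hv, h⟩
          exact ⟨v⁻¹, inv_mem hv, by rw [inv_pow, inv_pow, h]⟩ }
    have hHtop := L H (by
      intro x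
      refine ⟨⁅x⁻¹, α x⁆ ^ t, pow_mem (hXcmem _ _) t, ?_⟩
      rw [hmulform, inv_pow, ← map_pow]
      have hxe : x ^ e ∈ Xc := he ▸ hXpow x
      rw [hfix _ hxe, mul_inv_cancel, one_mul])
    have hdH : d ∈ H := by rw [hHtop]; exact mem_top d
    obtain ⟨v, hv, hvd⟩ := hdH
    have hwv : w = v ^ 2 := by rw [hw, ← he]; exact hvd
    obtain ⟨i, hi⟩ := Subgroup.mem_zpowers_iff.1 (hXcw v hv)
    have h1 : w ^ (2 * i - 1) = 1 := by
      have h2 : w ^ (2 * i) = w := by
        rw [mul_comm, zpow_mul, hi, zpow_ofNat, ← hwv]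
      rw [zpow_sub, h2, zpow_one, mul_inv_cancel]
    have h2 : (orderOf w : ℤ) ∣ 2 * i - 1 := orderOf_dvd_iff_zpow_eq_one.2 h1
    obtain ⟨K, hK⟩ := (IsPGroup.iff_orderOf.1 hX) w
    rw [hK] at h2
    rcases Nat.eq_zero_or_pos K with rfl | hKpos
    · exact hwne (orderOf_eq_one_iff.1 (by simpa using hK))
    · have h3 : (2 : ℤ) ∣ 2 * i - 1 := by
        refine dvd_trans ?_ h2
        push_cast
        exact dvd_pow_self 2 hKpos.ne'
      omega
  subst ha0
  simp only [pow_zero, zero_add, pow_one] at hexp hXpow hd1 hw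
  -- the final group of order `8`
  have hcsq : ∀ x y : X, ⁅x, y⁆ ^ 2 = 1 := by
    intro x y
    have h1 : x * y * x⁻¹ = ⁅x, y⁆ * y := by
      rw [commutatorElement_def]; group
    have h2 : (x * y * x⁻¹) ^ 2 = y ^ 2 := by
      rw [conj_pow, hcen _ (hXpow y) x]; group
    rw [h1, (hcXc _ (hXcmem x y) y).mul_pow] at h2
    exact mul_eq_right.1 h2
  have hXcsq : ∀ u ∈ Xc, u ^ 2 = 1 := by
    let E : Subgroup X :=
      { carrier := {u | u ∈ Xc ∧ u ^ 2 = 1}
        mul_mem' := by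
          rintro u v ⟨h1, h2⟩ ⟨h3, h4⟩
          refine ⟨mul_mem h1 h3, ?_⟩
          rw [(hcXc _ h1 _).mul_pow, h2, h4, one_mul]
        one_mem' := ⟨one_mem _, one_pow _⟩
        inv_mem' := by
          rintro u ⟨h1, h2⟩
          exact ⟨inv_mem h1, by rw [inv_pow, h2, inv_one]⟩ }
    have hle : Xc ≤ E := by
      rw [hXcdef, _root_.commutator_def, Subgroup.commutator_le]
      intro x _ y _
      exact ⟨hXcmem x y, hcsq x y⟩
    exact fun u hu => (hle hu).2
  have hw2 : w ^ 2 = 1 := hXcsq w hwXc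
  have hdo : orderOf d = 2 * 2 := by
    have h1 : ¬ d ^ 2 ^ 1 = 1 := by
      rw [pow_one, ← hw]; exact hwne
    have h2 : d ^ 2 ^ (1 + 1) = 1 := by
      rw [pow_succ, pow_mul, pow_one, ← hw, hw2]
    exact orderOf_eq_prime_pow h1 h2
  have hwo : orderOf w = 2 := orderOf_eq_prime hw2 hwne
  have hXceq : Xc = zpowers w := le_antisymm hXcw (zpowers_le.2 hwXc)
  have hXccard : Nat.card Xc = 2 := by
    rw [hXceq, Nat.card_zpowers, hwo]
  have hYcard : Nat.card (X ⧸ Xc) = 4 := by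
    have h1 : (abPow hcommY (2 ^ 0)).range = ⊤ := by
      rw [eq_top_iff]
      intro y _
      exact ⟨y, by simp⟩
    rw [h1, Nat.card_congr (Subgroup.topEquiv : (⊤ : Subgroup (X ⧸ Xc)) ≃* (X ⧸ Xc)).toEquiv] at hI
    simpa using hI
  have hXcard : Nat.card X = 4 * 2 := by
    have h1 := Subgroup.card_mul_index Xc
    rw [Subgroup.index_eq_card, hXccard, hYcard] at h1
    omega
  have hNcard : Nat.card N = 4 := by
    rw [hN, Nat.card_zpowers, hdo]
  have hNidx : N.index = 2 := by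
    have h1 := Subgroup.card_mul_index N
    rw [hNcard, hXcard] at h1
    omega
  have hb : α d ∉ zpowers d := by
    intro hmem
    have hle : N.map α.toMonoidHom ≤ N := by
      rintro _ ⟨n, hn, rfl⟩
      rw [hN] at hn ⊢
      obtain ⟨l, rfl⟩ := Subgroup.mem_zpowers_iff.1 hn
      show α (d ^ l) ∈ _
      rw [map_zpow]
      exact Subgroup.zpow_mem _ hmem l
    have heq : N.map α.toMonoidHom = N := by
      refine Subgroup.eq_of_le_of_card_ge hle ?_
      exact le_of_eq (Nat.card_congr (α.subgroupMap N).toEquiv)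
    have htop := L N (by
      intro x
      rw [mul_mem_iff_of_index_two hNidx, Subgroup.inv_mem_iff]
      constructor
      · intro h
        rw [← heq] at h
        obtain ⟨n, hn, hnx⟩ := h
        have : n = x := α.injective hnx
        exact this ▸ hn
      · intro h
        exact hle ⟨x, h, rfl⟩)
    rw [htop] at hNidx
    simp at hNidx
  have hbN : α d ∉ N := hN ▸ hb
  have hd4 : d ^ 4 = 1 := by
    rw [show (4 : ℕ) = 2 * 2 from rfl, ← hdo]
    exact pow_orderOf_eq_one d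
  have hconj : α d * d * (α d)⁻¹ = d⁻¹ := by
    have hc : ⁅α d, d⁆ ∈ zpowers w := hXcw _ (hXcmem _ _)
    obtain ⟨i, hi⟩ := Subgroup.mem_zpowers_iff.1 hc
    have hcases : ⁅α d, d⁆ = 1 ∨ ⁅α d, d⁆ = w := by
      rw [← hi]
      rcases Int.even_or_odd' i with ⟨t, rfl | rfl⟩
      · left
        rw [zpow_mul, zpow_ofNat, hw2, one_zpow]
      · right
        rw [zpow_add, zpow_mul, zpow_ofNat, hw2, one_zpow, one_mul, zpow_one]
    rcases hcases with h1 | h1
    · exfalso
      apply hcomm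
      have hcd : α d * d = d * α d := commutatorElement_eq_one_iff_commute.1 h1
      let K : Subgroup X := closure ({d, α d} : Set X)
      have hKc := Subgroup.isMulCommutative_closure (k := ({d, α d} : Set X)) (by
        rintro x (rfl | rfl) y (rfl | rfl)
        · rfl
        · exact hcd.symm
        · exact hcd
        · rfl)
      have hdK : d ∈ K := subset_closure (Or.inl rfl)
      have hadK : α d ∈ K := subset_closure (Or.inr rfl)
      have hKtop : ∀ x : X, x ∈ K := by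
        intro x
        by_cases hx : x ∈ N
        · rw [hN] at hx
          obtain ⟨l, rfl⟩ := Subgroup.mem_zpowers_iff.1 hx
          exact Subgroup.zpow_mem _ hdK l
        · have h3 : (α d)⁻¹ * x ∈ N := by
            rw [mul_mem_iff_of_index_two hNidx, Subgroup.inv_mem_iff]
            exact iff_of_false hbN hx
          rw [hN] at h3
          obtain ⟨l, hl⟩ := Subgroup.mem_zpowers_iff.1 h3
          have : x = α d * d ^ l := by rw [hl]; group
          rw [this]
          exact mul_mem hadK (Subgroup.zpow_mem _ hdK l)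
      intro x y
      have := isMulCommutative_iff.mp hKc (⟨x, hKtop x⟩ : K) ⟨y, hKtop y⟩
      exact congrArg Subtype.val this
    · have h2 : α d * d * (α d)⁻¹ * d⁻¹ = d ^ 2 := by
        rw [← commutatorElement_def, h1, hw]
      have h3 : α d * d * (α d)⁻¹ = d ^ 3 := by
        rw [mul_inv_eq_iff_eq_mul.1 h2, pow_succ d 2]
      rw [h3]
      apply eq_inv_of_mul_eq_one_left
      rw [← pow_succ]
      exact hd4
  have hsq : α d * α d = d ^ 2 := by
    rw [← map_mul, ← sq, ← hw, hfix w hwXc, hw]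
  exact Cfsg.Agent.Lib.TwoGroups.nonempty_mulEquiv_quaternion_of d (α d) hdo hsq hconj hb hXcard

end Cfsg.Agent.Lib.Tech
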