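import Cfsg.Agent.Lib.Blocks.AbelianSylow
import Cfsg.Agent.Lib.Char.PBlock
import Cfsg.Agent.Lib.Char.RelIto
import Cfsg.Agent.Lib.Coprime.PSolvable
import Cfsg.Agent.Lib.Basic.Solv1

/-!
# An elementary abelian Sylow subgroup with one class of elements: the group theory and the numerics
-/

set_option autoImplicit false
set_option linter.unusedSectionVars false
set_option linter.style.haveILetI false
set_option linter.unusedVariables false

namespace Cfsg.Agent.Lib.Tech.OC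

open Cfsg

universe u

section numeric

theorem numeric {ι : Type*} [DecidableEq ι] (B : Finset ι) (o : ι) (ho : o ∈ B) (a : ι → ℤ) (d : ι → ℕ)
    (hd : ∀ i ∈ B, 0 < d i) (q p : ℕ) (h1 : ∑ i ∈ B, (a i) ^ 2 = q) (ho1 : a o = 1) (hod : d o = 1)
    (h2 : ∑ i ∈ B, a i * d i = 0) (h3 : ∀ i ∈ B, i ≠ o → a i + q ≤ d i)
    (h4 : (q : ℝ) * (p - 2) ≤ (∑ i ∈ B, ((a i : ℝ) ^ 3 / d i)) * (p - 1))
    (hcase : (p = 3 ∧ (q = 3 ∨ 9 ≤ q)) ∨ (5 ≤ p ∧ 5 ≤ q)) : False := by
  set T := B.erase o with hT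
  have hsplit : ∀ f : ι → ℝ, ∑ i ∈ B, f i = f o + ∑ i ∈ T, f i :=
    fun f => (Finset.add_sum_erase B f ho).symm
  have hsplitZ : ∀ f : ι → ℤ, ∑ i ∈ B, f i = f o + ∑ i ∈ T, f i :=
    fun f => (Finset.add_sum_erase B f ho).symm
  have hT2 : ∑ i ∈ T, (a i) ^ 2 = (q : ℤ) - 1 := by
    have := hsplitZ (fun i => (a i) ^ 2)
    simp only [h1, ho1] at this
    linarith
  have hT2R : ∑ i ∈ T, ((a i : ℝ)) ^ 2 = (q : ℝ) - 1 := by
    have := congrArg (fun z : ℤ => (z : ℝ)) hT2
    simpa using this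
  have hle : ∀ i ∈ T, (a i) ^ 2 ≤ (q : ℤ) - 1 := fun i hi => by
    rw [← hT2]
    exact Finset.single_le_sum (f := fun i => (a i) ^ 2) (fun j _ => sq_nonneg _) hi
  have hTmem : ∀ i ∈ T, i ∈ B ∧ i ≠ o := fun i hi => ⟨Finset.mem_of_mem_erase hi, Finset.ne_of_mem_erase hi⟩
  have hdpos : ∀ i ∈ T, (0 : ℝ) < d i := fun i hi => by
    exact_mod_cast hd i (hTmem i hi).1
  have hbound : ∀ c : ℝ, 0 ≤ c → (∀ i ∈ T, 0 < a i → (a i : ℝ) ≤ c * d i) →
      ∑ i ∈ B, ((a i : ℝ) ^ 3 / d i) ≤ 1 + c * ((q : ℝ) - 1) := by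
    intro c hc hac
    rw [hsplit]
    simp only [ho1, hod]
    norm_num
    rw [← hT2R, Finset.mul_sum]
    apply Finset.sum_le_sum
    intro i hi
    have hdi := hdpos i hi
    rw [div_le_iff₀ hdi]
    by_cases hai : 0 < a i
    · have h5 := hac i hi hai
      have h6 : (0 : ℝ) ≤ (a i : ℝ) ^ 2 := sq_nonneg _
      nlinarith [mul_le_mul_of_nonneg_left h5 h6]
    · push Not at hai
      have h5 : (a i : ℝ) ≤ 0 := by exact_mod_cast hai
      have h6 : (0 : ℝ) ≤ (a i : ℝ) ^ 2 := sq_nonneg _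
      have h7 : (a i : ℝ) ^ 3 ≤ 0 := by nlinarith
      have h8 : 0 ≤ c * (a i : ℝ) ^ 2 * d i := by positivity
      linarith
  rcases hcase with ⟨rfl, hq | hq⟩ | hq
  · -- `p = 3`, `q = 3`
    subst hq
    have h4' : (3 : ℝ) ≤ (∑ i ∈ B, ((a i : ℝ) ^ 3 / d i)) * 2 := by
      norm_num at h4
      linarith
    set Tp := T.filter (fun i => 0 < a i) with hTp
    set Tn := T.filter (fun i => ¬ 0 < a i) with hTn
    have hTsplit : ∀ f : ι → ℝ, ∑ i ∈ T, f i = ∑ i ∈ Tp, f i + ∑ i ∈ Tn, f i :=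
      fun f => (Finset.sum_filter_add_sum_filter_not T _ f).symm
    have hTsplitZ : ∀ f : ι → ℤ, ∑ i ∈ T, f i = ∑ i ∈ Tp, f i + ∑ i ∈ Tn, f i :=
      fun f => (Finset.sum_filter_add_sum_filter_not T _ f).symm
    have hTpa : ∀ i ∈ Tp, a i = 1 := by
      intro i hi
      obtain ⟨hi1, hi2⟩ := Finset.mem_filter.mp hi
      have h5 := hle i hi1
      norm_num at h5
      nlinarith
    have hTpd : ∀ i ∈ Tp, (4 : ℝ) ≤ d i := by
      intro i hi
      obtain ⟨hi1, hi2⟩ := Finset.mem_filter.mp hi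
      have h5 := h3 i (hTmem i hi1).1 (hTmem i hi1).2
      rw [hTpa i hi] at h5
      have h6 : (4 : ℤ) ≤ d i := by
        norm_num at h5
        linarith
      exact_mod_cast h6
    have hS : ∑ i ∈ B, ((a i : ℝ) ^ 3 / d i) ≤ 1 + (Tp.card : ℝ) / 4 := by
      rw [hsplit, hTsplit]
      simp only [ho1, hod]
      norm_num
      have e1 : ∑ i ∈ Tp, ((a i : ℝ) ^ 3 / d i) ≤ (Tp.card : ℝ) / 4 := by
        have : ∑ i ∈ Tp, ((a i : ℝ) ^ 3 / d i) ≤ ∑ i ∈ Tp, ((1 : ℝ) / 4) := by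
          apply Finset.sum_le_sum
          intro i hi
          have h7 := hTpd i hi
          rw [hTpa i hi]
          push_cast
          rw [div_le_div_iff₀ (by linarith) (by norm_num)]
          linarith
        simpa [div_eq_mul_inv] using this
      have e2 : ∑ i ∈ Tn, ((a i : ℝ) ^ 3 / d i) ≤ 0 := by
        apply Finset.sum_nonpos
        intro i hi
        obtain ⟨hi1, hi2⟩ := Finset.mem_filter.mp hi
        have h5 : (a i : ℝ) ≤ 0 := by
          push Not at hi2
          exact_mod_cast hi2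
        have h6 : (a i : ℝ) ^ 3 ≤ 0 := by nlinarith [sq_nonneg (a i : ℝ)]
        exact div_nonpos_of_nonpos_of_nonneg h6 (hdpos i hi1).le
      linarith
    have hcard : 2 ≤ Tp.card := by
      have h5 : (3 : ℝ) ≤ (1 + (Tp.card : ℝ) / 4) * 2 := h4'.trans (by linarith)
      have h6 : (2 : ℝ) ≤ Tp.card := by linarith
      exact_mod_cast h6
    have h5 : ∑ i ∈ Tp, (a i) ^ 2 = (Tp.card : ℤ) := by
      rw [Finset.sum_congr rfl (fun i hi => by rw [hTpa i hi])]
      simp
    have h6 := hsplitZ (fun i => (a i) ^ 2)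
    beta_reduce at h6
    rw [hTsplitZ, h5, h1, ho1] at h6
    have h7 : 0 ≤ ∑ i ∈ Tn, (a i) ^ 2 := Finset.sum_nonneg (fun i _ => sq_nonneg _)
    have hTn0 : ∑ i ∈ Tn, (a i) ^ 2 = 0 := by
      have : (2 : ℤ) ≤ Tp.card := by exact_mod_cast hcard
      norm_num at h6
      linarith
    have hzero : ∀ i ∈ Tn, a i = 0 := by
      intro i hi
      have := (Finset.sum_eq_zero_iff_of_nonneg (fun j _ => sq_nonneg (a j))).mp hTn0 i hi
      exact pow_eq_zero_iff (by norm_num) |>.mp this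
    have h8 := hsplitZ (fun i => a i * d i)
    beta_reduce at h8
    rw [hTsplitZ, h2, ho1, hod] at h8
    have h9 : ∑ i ∈ Tn, a i * (d i : ℤ) = 0 :=
      Finset.sum_eq_zero (fun i hi => by rw [hzero i hi, zero_mul])
    have h10 : 0 ≤ ∑ i ∈ Tp, a i * (d i : ℤ) :=
      Finset.sum_nonneg (fun i hi => by
        rw [hTpa i hi]
        positivity)
    rw [h9] at h8
    norm_num at h8
    linarith
  · -- `p = 3`, `q ≥ 9`
    have hq' : (9 : ℝ) ≤ q := by exact_mod_cast hq
    have hc := hbound (1 / 4) (by norm_num) (by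
      intro i hi hai
      have h5 := hle i hi
      have h6 := h3 i (hTmem i hi).1 (hTmem i hi).2
      have h7 : 3 * a i ≤ q := by
        by_contra hlt
        push Not at hlt
        have hq2 : (9 : ℤ) ≤ q := by exact_mod_cast hq
        nlinarith
      have h8 : 4 * a i ≤ d i := by linarith
      have h9 : (4 : ℝ) * a i ≤ d i := by exact_mod_cast h8
      linarith)
    norm_num at h4
    nlinarith
  · -- `p ≥ 5`
    obtain ⟨hp5, hq5⟩ := hq
    have hp' : (5 : ℝ) ≤ p := by exact_mod_cast hp5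
    have hq' : (5 : ℝ) ≤ q := by exact_mod_cast hq5
    have hc := hbound (1 / 2) (by norm_num) (by
      intro i hi hai
      have h5 := hle i hi
      have h6 := h3 i (hTmem i hi).1 (hTmem i hi).2
      have h7 : a i ≤ q := by nlinarith
      have h8 : 2 * a i ≤ d i := by linarith
      have h9 : (2 : ℝ) * a i ≤ d i := by exact_mod_cast h8
      linarith)
    have h5 : ((∑ i ∈ B, ((a i : ℝ) ^ 3 / d i))) * (p - 1) ≤ (1 + 1 / 2 * ((q : ℝ) - 1)) * (p - 1) :=
      mul_le_mul_of_nonneg_right hc (by linarith)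
    nlinarith

end numeric

section group

variable {p : ℕ} [hp : Fact p.Prime]

theorem isPGroup_quot {H : Type*} [Group H] [Finite H] (hS : IsPSolvable p H)
    (hab : ∀ S : Sylow p H, ∀ a ∈ (S : Subgroup H), ∀ b ∈ (S : Subgroup H), a * b = b * a)
    (hgen : Subgroup.closure {h : H | ∃ k : ℕ, orderOf h = p ^ k} = ⊤) :
    IsPGroup p (H ⧸ pPrimeCore p H) := by
  classical
  set K := pPrimeCore p H with hKdef
  haveI hK : K.Normal := Cfsg.Agent.Lib.Basic.pPrimeCore_normal p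
  let π := QuotientGroup.mk' K
  have hπs : Function.Surjective π := QuotientGroup.mk'_surjective K
  have hbot : pPrimeCore p (H ⧸ K) = ⊥ := Cfsg.Agent.Lib.Basic.pPrimeCore_quotient_eq_bot p
  have hSq : IsPSolvable p (H ⧸ K) := Cfsg.Agent.Lib.Coprime.isPSolvable_map π hπs hS
  have hC := Cfsg.Agent.Lib.Char.centralizer_pCore_le_of_isPSolvable hSq hbot
  set F := pCore p (H ⧸ K) with hF
  haveI hFn : F.Normal := Cfsg.Agent.Lib.Basic.pCore_normal p
  obtain ⟨S⟩ : Nonempty (Sylow p H) := inferInstance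
  let T₀ : Sylow p (H ⧸ K) := S.mapSurjective hπs
  have hT₀ : (T₀ : Subgroup (H ⧸ K)) = (S : Subgroup H).map π := rfl
  have hFT : F ≤ (T₀ : Subgroup (H ⧸ K)) := Cfsg.Agent.Lib.Basic.pCore_le_sylow T₀
  have hTF : (T₀ : Subgroup (H ⧸ K)) ≤ F := by
    intro t ht
    apply hC
    rw [Subgroup.mem_centralizer_iff]
    intro f hf
    have hf' := hFT hf
    rw [hT₀] at ht hf'
    obtain ⟨a, ha, rfl⟩ := ht
    obtain ⟨b, hb, rfl⟩ := hf'
    rw [← map_mul, ← map_mul, hab S b hb a ha]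
  have heq : (T₀ : Subgroup (H ⧸ K)) = F := le_antisymm hTF hFT
  have hT₀n : (T₀ : Subgroup (H ⧸ K)).Normal := by
    rw [heq]
    exact hFn
  haveI := Sylow.unique_of_normal T₀ hT₀n
  have hmem : ∀ y : H ⧸ K, (∃ k : ℕ, orderOf y = p ^ k) → y ∈ F := by
    intro y ⟨k, hk⟩
    have hy : IsPGroup p (Subgroup.zpowers y) := by
      rw [IsPGroup.iff_orderOf]
      rintro ⟨z, hz⟩
      obtain ⟨j, rfl⟩ := Subgroup.mem_zpowers_iff.mp hz
      have h1 : orderOf (y ^ j) ∣ p ^ k := by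
        rw [← hk]
        exact orderOf_dvd_of_pow_eq_one (by rw [← zpow_natCast, ← zpow_mul, mul_comm, zpow_mul, zpow_natCast, pow_orderOf_eq_one, one_zpow])
      obtain ⟨m, -, hm⟩ := (Nat.dvd_prime_pow hp.out).mp h1
      exact ⟨m, by rw [Subgroup.orderOf_mk]; exact hm⟩
    obtain ⟨T, hT⟩ := hy.exists_le_sylow
    have hTT : T = T₀ := Subsingleton.elim _ _
    rw [← heq, ← hTT]
    exact hT (Subgroup.mem_zpowers y)
  have htop : F = ⊤ := by
    rw [eq_top_iff]
    rintro y -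
    obtain ⟨h, rfl⟩ := hπs y
    have h1 : h ∈ F.comap π := by
      have h2 : (⊤ : Subgroup H) ≤ F.comap π := by
        rw [← hgen, Subgroup.closure_le]
        rintro a ⟨k, hk⟩
        apply hmem
        have h3 : orderOf (π a) ∣ p ^ k := by
          rw [← hk]
          exact orderOf_map_dvd π a
        obtain ⟨m, -, hm⟩ := (Nat.dvd_prime_pow hp.out).mp h3
        exact ⟨m, hm⟩
      exact h2 (Subgroup.mem_top h)
    exact h1
  rw [IsPGroup.iff_orderOf]
  intro y
  have h1 : IsPGroup p F := Cfsg.Agent.Lib.Basic.pCore_isPGroup p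
  have hy : y ∈ F := by
    rw [htop]
    exact Subgroup.mem_top y
  obtain ⟨k, hk⟩ := (IsPGroup.iff_orderOf.mp h1) ⟨y, hy⟩
  exact ⟨k, by rwa [Subgroup.orderOf_mk] at hk⟩

/-- Elements of order prime to `p` map trivially to a `p`-group. -/
theorem map_eq_one_of_regular {H Q : Type*} [Group H] [Group Q] [Finite H] (f : H →* Q) (hQ : IsPGroup p Q) {w : H}
    (hw : ¬ p ∣ orderOf w) : f w = 1 := by
  obtain ⟨k, hk⟩ := (IsPGroup.iff_orderOf.mp hQ) (f w)
  have h1 : orderOf (f w) ∣ orderOf w := orderOf_map_dvd f w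
  rw [hk] at h1
  have h2 : k = 0 := by
    by_contra hne
    apply hw
    exact (dvd_pow_self p hne).trans h1
  rw [h2, pow_zero] at hk
  exact orderOf_eq_one_iff.mp hk

/-- Two regular products. -/
theorem not_both_regular {G : Type*} [Group G] [Finite G] (P : Sylow p G)
    (hcomm : ∀ a ∈ (P : Subgroup G), ∀ b ∈ (P : Subgroup G), a * b = b * a) {u x : G} (hu : orderOf u = p)
    (hx : orderOf x = p) (hc : IsPSolvable p ↥(Subgroup.closure ({u, x} : Set G))) {i j : ℕ} (hij : i < j) (hj : j < p)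
    (h1 : ¬ p ∣ orderOf (u * x ^ i)) (h2 : ¬ p ∣ orderOf (u * x ^ j)) : False := by
  classical
  set H := Subgroup.closure ({u, x} : Set G) with hH
  let u' : H := ⟨u, Subgroup.subset_closure (by simp)⟩
  let x' : H := ⟨x, Subgroup.subset_closure (by simp)⟩
  have hab : ∀ S : Sylow p H, ∀ a ∈ (S : Subgroup H), ∀ b ∈ (S : Subgroup H), a * b = b * a := by
    intro S a ha b hb
    have hSp : IsPGroup p ((S : Subgroup H).map H.subtype) := S.isPGroup'.map _
    obtain ⟨R, hR⟩ := hSp.exists_le_sylow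
    obtain ⟨g, hg⟩ := MulAction.exists_smul_eq G R P
    have hmem : ∀ z ∈ (S : Subgroup H), g * (z : G) * g⁻¹ ∈ (P : Subgroup G) := by
      intro z hz
      rw [← hg, Sylow.coe_subgroup_smul, Subgroup.mem_smul_pointwise_iff_exists]
      exact ⟨z, hR ⟨z, hz, rfl⟩, rfl⟩
    have h3 := hcomm _ (hmem a ha) _ (hmem b hb)
    apply Subtype.ext
    have h4 : g * ((a : G) * (b : G)) * g⁻¹ = g * ((b : G) * (a : G)) * g⁻¹ := by
      calc g * ((a : G) * (b : G)) * g⁻¹ = (g * (a : G) * g⁻¹) * (g * (b : G) * g⁻¹) := by group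
        _ = (g * (b : G) * g⁻¹) * (g * (a : G) * g⁻¹) := h3
        _ = _ := by group
    have h5 := mul_left_cancel (mul_right_cancel h4)
    exact h5
  have hgen : Subgroup.closure {h : H | ∃ k : ℕ, orderOf h = p ^ k} = ⊤ := by
    rw [eq_top_iff, ← Subgroup.closure_closure_coe_preimage (k := ({u, x} : Set G))]
    apply Subgroup.closure_mono
    rintro ⟨w, hw⟩ hw'
    have hw'' : w = u ∨ w = x := hw'
    refine ⟨1, ?_⟩
    rw [pow_one, Subgroup.orderOf_mk]
    rcases hw'' with rfl | rfl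
    · exact hu
    · exact hx
  have hpg := isPGroup_quot hc hab hgen
  set K := pPrimeCore p H with hK
  haveI hKn : K.Normal := Cfsg.Agent.Lib.Basic.pPrimeCore_normal p
  have hreg : ∀ m : ℕ, ¬ p ∣ orderOf (u * x ^ m) → u' * x' ^ m ∈ K := by
    intro m hm
    have h3 : orderOf (u' * x' ^ m) = orderOf (u * x ^ m) := by
      rw [← Subgroup.orderOf_coe]
      rfl
    have h4 := map_eq_one_of_regular (QuotientGroup.mk' K) hpg (w := u' * x' ^ m) (by rw [h3]; exact hm)
    exact (QuotientGroup.eq_one_iff _).mp h4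
  have h3 := K.mul_mem (K.inv_mem (hreg i h1)) (hreg j h2)
  have e : (u' * x' ^ i)⁻¹ * (u' * x' ^ j) = x' ^ (j - i) := by
    have h5 : x' ^ j = x' ^ i * x' ^ (j - i) := by
      rw [← pow_add]
      congr 1
      omega
    rw [h5]
    group
  rw [e] at h3
  have h4 : orderOf (x' ^ (j - i)) ∣ Nat.card K := by
    rw [← Subgroup.orderOf_mk (x' ^ (j - i)) h3]
    exact orderOf_dvd_natCard _
  have h5 : orderOf (x' ^ (j - i)) = p := by
    have h6 : orderOf x' = p := by
      rw [← Subgroup.orderOf_coe]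
      exact hx
    rw [orderOf_pow, h6]
    have h7 : Nat.gcd p (j - i) = 1 := by
      rw [Nat.Prime.coprime_iff_not_dvd hp.out |>.mpr]
      intro h8
      have := Nat.le_of_dvd (by omega) h8
      omega
    rw [h7]
    simp
  rw [h5] at h4
  have h6 : (Nat.card K).Coprime p := Cfsg.Agent.Lib.Basic.pPrimeCore_coprime p
  have h7 := Nat.Coprime.eq_one_of_dvd h6.symm h4
  exact hp.out.one_lt.ne' h7

/-- The number of `b` with `b x b⁻¹ t` regular. -/
noncomputable def Nreg {G : Type*} [Group G] [Fintype G] (p : ℕ) (x t : G) : ℕ := by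
  classical
  exact (Finset.univ.filter fun b : G => ¬ p ∣ orderOf (b * x * b⁻¹ * t)).card

theorem Nreg_conj {G : Type*} [Group G] [Fintype G] (p : ℕ) (x c : G) : Nreg p x (c * x * c⁻¹) = Nreg p x x := by
  classical
  unfold Nreg
  apply Finset.card_equiv (Equiv.mulLeft c⁻¹)
  intro b
  simp only [Finset.mem_filter, Finset.mem_univ, true_and, Equiv.coe_mulLeft]
  have e : (c⁻¹ * b) * x * (c⁻¹ * b)⁻¹ * x = c⁻¹ * (b * x * b⁻¹ * (c * x * c⁻¹)) * c := by group
  rw [e]
  have h : orderOf (c⁻¹ * (b * x * b⁻¹ * (c * x * c⁻¹)) * c) = orderOf (b * x * b⁻¹ * (c * x * c⁻¹)) := by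
    have := MulEquiv.orderOf_eq (MulAut.conj c⁻¹) (b * x * b⁻¹ * (c * x * c⁻¹))
    simpa using this
  rw [h]

theorem Nreg_bound {G : Type*} [Group G] [Fintype G] (P : Sylow p G)
    (hcomm : ∀ a ∈ (P : Subgroup G), ∀ b ∈ (P : Subgroup G), a * b = b * a) {x : G}
    (hx : orderOf x = p) (hxP : x ∈ (P : Subgroup G))
    (hconj : ∀ y ∈ (P : Subgroup G), y ≠ 1 → ∃ g : G, g * x * g⁻¹ = y)
    (hc : ∀ u : G, orderOf u = p → IsPSolvable p ↥(Subgroup.closure ({u, x} : Set G))) :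
    (p - 1) * Nreg p x x ≤ Fintype.card G := by
  classical
  let A : ℕ → Finset G := fun j => Finset.univ.filter fun b : G => ¬ p ∣ orderOf (b * x * b⁻¹ * x ^ j)
  have hA : ∀ j ∈ Finset.Icc 1 (p - 1), (A j).card = Nreg p x x := by
    intro j hj
    obtain ⟨hj1, hj2⟩ := Finset.mem_Icc.mp hj
    have hne : x ^ j ≠ 1 := by
      apply pow_ne_one_of_lt_orderOf (by omega)
      rw [hx]
      have := hp.out.two_le
      omega
    obtain ⟨c, hc'⟩ := hconj (x ^ j) (Subgroup.pow_mem _ hxP j) hne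
    have h1 := Nreg_conj p x c
    rw [hc'] at h1
    rw [← h1]
    rfl
  have hdisj : ((Finset.Icc 1 (p - 1) : Finset ℕ) : Set ℕ).PairwiseDisjoint A := by
    have key : ∀ i j : ℕ, i < j → j ≤ p - 1 → Disjoint (A i) (A j) := by
      intro i j hij hj
      rw [Finset.disjoint_left]
      intro b hb1 hb2
      have h1 := (Finset.mem_filter.mp hb1).2
      have h2 := (Finset.mem_filter.mp hb2).2
      have hu : orderOf (b * x * b⁻¹) = p := by
        rw [← hx]
        exact MulEquiv.orderOf_eq (MulAut.conj b) x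
      exact not_both_regular P hcomm hu hx (hc _ hu) hij (by
        have := hp.out.two_le
        omega) h1 h2
    intro i hi j hj hne
    obtain ⟨hi1, hi2⟩ := Finset.mem_Icc.mp hi
    obtain ⟨hj1, hj2⟩ := Finset.mem_Icc.mp hj
    rcases lt_or_gt_of_ne hne with h | h
    · exact key i j h hj2
    · exact (key j i h hi2).symm
  have h1 : ((Finset.Icc 1 (p - 1)).biUnion A).card = ∑ j ∈ Finset.Icc 1 (p - 1), (A j).card :=
    Finset.card_biUnion hdisj
  rw [Finset.sum_congr rfl hA, Finset.sum_const, Nat.card_Icc, smul_eq_mul] at h1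
  have h2 : ((Finset.Icc 1 (p - 1)).biUnion A).card ≤ Fintype.card G := Finset.card_le_univ _
  rw [h1] at h2
  simpa using h2

end group

end Cfsg.Agent.Lib.Tech.OC
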