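import Cfsg.Agent.Lib.Tech.OneClass1
import Cfsg.Agent.Lib.Char.DefectZero

/-!
# An elementary abelian Sylow subgroup with one class of elements: the characters
-/

set_option autoImplicit false
set_option linter.unusedSectionVars false
set_option linter.style.haveILetI false
set_option linter.unusedVariables false

namespace Cfsg.Agent.Lib.Tech.OC

open Cfsg Cfsg.Agent.Lib.Char Cfsg.Agent.Lib.Blocks
open scoped ComplexConjugate

universe u

section frob

variable {G : Type u} [Group G] [Fintype G] {p : ℕ} [hp : Fact p.Prime]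

/-- Two elements of the centralizer commute modulo the normal `p`-complement. -/
theorem frob_of_complement (P : Sylow p G)
    (hcomm : ∀ a ∈ (P : Subgroup G), ∀ b ∈ (P : Subgroup G), a * b = b * a) {y : G} (hy : y ∈ (P : Subgroup G))
    (hb : HasNormalPComplement p (Subgroup.centralizer ({y} : Set G))) :
    Subgroup.centralizer ({y} : Set G) ⊓ Subgroup.normalizer ((P : Subgroup G) : Set G) =
      Subgroup.centralizer ((P : Subgroup G) : Set G) := by
  classical
  apply le_antisymm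
  · rintro n ⟨hn1, hn2⟩
    rw [Subgroup.mem_centralizer_iff]
    intro t ht
    obtain ⟨P', N, hN, hc⟩ := hb
    have htC : t ∈ Subgroup.centralizer ({y} : Set G) :=
      mem_centralizer_singleton_of_commute (hcomm t ht y hy)
    let C := Subgroup.centralizer ({y} : Set G)
    -- `P'` is commutative
    have hP' : ∀ a ∈ (P' : Subgroup C), ∀ b ∈ (P' : Subgroup C), a * b = b * a := by
      intro a ha b hb
      have hSp : IsPGroup p ((P' : Subgroup C).map C.subtype) := P'.isPGroup'.map _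
      obtain ⟨R, hR⟩ := hSp.exists_le_sylow
      obtain ⟨g, hg⟩ := MulAction.exists_smul_eq G R P
      have hmem : ∀ z ∈ (P' : Subgroup C), g * (z : G) * g⁻¹ ∈ (P : Subgroup G) := by
        intro z hz
        rw [← hg, Sylow.coe_subgroup_smul, Subgroup.mem_smul_pointwise_iff_exists]
        exact ⟨z, hR ⟨z, hz, rfl⟩, rfl⟩
      have h3 := hcomm _ (hmem a ha) _ (hmem b hb)
      apply Subtype.ext
      have h4 : g * ((a : G) * (b : G)) * g⁻¹ = g * ((b : G) * (a : G)) * g⁻¹ := by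
        calc g * ((a : G) * (b : G)) * g⁻¹ = (g * (a : G) * g⁻¹) * (g * (b : G) * g⁻¹) := by group
          _ = (g * (b : G) * g⁻¹) * (g * (a : G) * g⁻¹) := h3
          _ = _ := by group
      exact mul_left_cancel (mul_right_cancel h4)
    -- the quotient is commutative
    have hdec : ∀ a : C, ∃ b ∈ N, ∃ s ∈ (P' : Subgroup C), a = b * s := by
      intro a
      obtain ⟨⟨b, s⟩, hbs⟩ := hc.2 a
      exact ⟨b.1, b.2, s.1, s.2, hbs.symm⟩
    let n' : C := ⟨n, hn1⟩
    let t' : C := ⟨t, htC⟩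
    have hcommN : n' * t' * n'⁻¹ * t'⁻¹ ∈ N := by
      obtain ⟨b₁, hb₁, s₁, hs₁, e₁⟩ := hdec n'
      obtain ⟨b₂, hb₂, s₂, hs₂, e₂⟩ := hdec t'
      rw [← QuotientGroup.eq_one_iff]
      have h1 : ((n' : C) : C ⧸ N) = ((s₁ : C) : C ⧸ N) := by
        rw [e₁, QuotientGroup.mk_mul, (QuotientGroup.eq_one_iff b₁).mpr hb₁, one_mul]
      have h2 : ((t' : C) : C ⧸ N) = ((s₂ : C) : C ⧸ N) := by
        rw [e₂, QuotientGroup.mk_mul, (QuotientGroup.eq_one_iff b₂).mpr hb₂, one_mul]
      simp only [QuotientGroup.mk_mul, QuotientGroup.mk_inv, h1, h2]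
      rw [← QuotientGroup.mk_mul, hP' s₁ hs₁ s₂ hs₂, QuotientGroup.mk_mul]
      group
    have hcommP : n * t * n⁻¹ * t⁻¹ ∈ (P : Subgroup G) := by
      have h1 : n * t * n⁻¹ ∈ (P : Subgroup G) := (Subgroup.mem_normalizer_iff.mp hn2 t).mp ht
      exact Subgroup.mul_mem _ h1 (Subgroup.inv_mem _ ht)
    -- the intersection is trivial
    have hNcop : (Nat.card N).Coprime p := by
      have h1 : Nat.card N = (P' : Subgroup C).index := hc.index_eq_card.symm
      rw [h1]
      exact Nat.Coprime.symm ((Nat.Prime.coprime_iff_not_dvd hp.out).mpr P'.not_dvd_index)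
    have hw : n' * t' * n'⁻¹ * t'⁻¹ = 1 := by
      obtain ⟨k, hk⟩ := (IsPGroup.iff_orderOf.mp P.isPGroup') ⟨n * t * n⁻¹ * t⁻¹, hcommP⟩
      rw [Subgroup.orderOf_mk] at hk
      have h1 : orderOf (n' * t' * n'⁻¹ * t'⁻¹) = p ^ k := by
        rw [← hk, ← Subgroup.orderOf_coe]
        rfl
      have h2 : orderOf (n' * t' * n'⁻¹ * t'⁻¹) ∣ Nat.card N := by
        rw [← Subgroup.orderOf_mk _ hcommN]
        exact orderOf_dvd_natCard _
      rw [h1] at h2
      have h3 : k = 0 := by
        by_contra hne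
        have h4 := (dvd_pow_self p hne).trans h2
        have h5 := Nat.Coprime.eq_one_of_dvd hNcop.symm h4
        exact hp.out.one_lt.ne' h5
      rw [h3, pow_zero] at h1
      exact orderOf_eq_one_iff.mp h1
    have h5 : n * t * n⁻¹ * t⁻¹ = 1 := congrArg Subtype.val hw
    have h6 : n * t = t * n := by
      have h7 : n * t * n⁻¹ = t := mul_inv_eq_one.mp h5
      exact mul_inv_eq_iff_eq_mul.mp h7
    exact h6.symm
  · intro c hc
    refine ⟨mem_centralizer_singleton_of_commute ?_, centralizer_le_normalizer_coe _ hc⟩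
    have := Subgroup.mem_centralizer_iff.mp hc y hy
    exact this.symm

end frob

section main

variable {G : Type u} [Group G] [Fintype G] {p : ℕ} [hp : Fact p.Prime]

/-- The values on the Sylow subgroup are integers with the divisibility property. -/
theorem value_facts (P : Sylow p G) {x : G} (hxP : x ∈ (P : Subgroup G)) (hx1 : x ≠ 1)
    (hconj : ∀ y ∈ (P : Subgroup G), y ≠ 1 → ∃ g : G, g * x * g⁻¹ = y) (χ : IrrCharacter G) :
    ∃ (a b : ℤ), (χ : G → ℂ) x = a ∧ (charDegree (χ : G → ℂ) : ℤ) - a = Nat.card (P : Subgroup G) * b := by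
  classical
  set Q := (P : Subgroup G) with hQ
  letI : Fintype Q := Fintype.ofFinite Q
  set q := Nat.card Q with hq
  have hq1 : 1 < q := by
    have : Nontrivial Q := ⟨⟨⟨x, hxP⟩, 1, fun h => hx1 (congrArg Subtype.val h)⟩⟩
    exact Finite.one_lt_card
  obtain ⟨m, hm⟩ := IsCharacter.classInner_irr_eq_nat
    (isCharacter_resFun Q (IsIrrCharacter.isCharacter χ.2)) (isIrrCharacter_one (G := Q))
  have hval : ∀ y : Q, y ≠ 1 → (χ : G → ℂ) y = (χ : G → ℂ) x := by
    intro y hy
    obtain ⟨g, hg⟩ := hconj y y.2 (fun h => hy (Subtype.ext h))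
    rw [← hg, irr_isClassFunction]
  have hsum : ∑ y : Q, (χ : G → ℂ) y = (χ : G → ℂ) 1 + ((q : ℂ) - 1) * (χ : G → ℂ) x := by
    rw [← Finset.add_sum_erase Finset.univ _ (Finset.mem_univ (1 : Q))]
    congr 1
    rw [Finset.sum_congr rfl (fun y hy => hval y (Finset.ne_of_mem_erase hy))]
    rw [Finset.sum_const, Finset.card_erase_of_mem (Finset.mem_univ _), Finset.card_univ, nsmul_eq_mul]
    rw [← Nat.card_eq_fintype_card, ← hq, Nat.cast_sub (by omega)]
    simp
  have hqC : (q : ℂ) ≠ 0 := by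
    exact_mod_cast (by omega : q ≠ 0)
  have h1 : (q : ℂ) * m = (χ : G → ℂ) 1 + ((q : ℂ) - 1) * (χ : G → ℂ) x := by
    rw [← hsum, ← hm, classInner]
    simp only [map_one, mul_one]
    rw [← hq]
    field_simp
  have hdeg : (χ : G → ℂ) 1 = (charDegree (χ : G → ℂ) : ℂ) :=
    apply_one_eq_charDegree (IsIrrCharacter.isCharacter χ.2)
  rw [hdeg] at h1
  set d := charDegree (χ : G → ℂ) with hd
  have hq1C : (q : ℂ) - 1 ≠ 0 := by
    intro h
    have h2 : (q : ℂ) = 1 := by linear_combination h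
    have h3 : q = 1 := by exact_mod_cast h2
    omega
  have hint : IsIntegral ℤ ((χ : G → ℂ) x) := by
    obtain ⟨n, ρ, -, hρ⟩ := χ.2
    rw [← hρ]
    exact isIntegral_character ρ x
  obtain ⟨a, ha⟩ := int_of_isIntegral_of_rat hint ⟨((q : ℚ) * m - d) / ((q : ℚ) - 1), by
    push_cast
    field_simp
    linear_combination - h1⟩
  refine ⟨a, (m : ℤ) - a, ha, ?_⟩
  have h2 : ((d : ℤ) : ℂ) - a = ((q * ((m : ℤ) - a) : ℤ) : ℂ) := by
    push_cast
    rw [ha] at h1
    linear_combination - h1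
  exact_mod_cast h2

/-- The principal block as a finite set. -/
theorem exists_blockFinset (M : Ideal AlgInt) [M.IsPrime] :
    ∃ (B : Finset (IrrCharacter G)) (o : IrrCharacter G), o ∈ B ∧ ((o : G → ℂ) = fun _ => 1) ∧
      ∀ f : IrrCharacter G → ℂ, ∑ χ : IrrCharacter G, indic (principalBlock M G) χ * f χ = ∑ χ ∈ B, f χ := by
  classical
  refine ⟨Finset.univ.filter (fun χ => χ ∈ principalBlock M G), Cfsg.Agent.Lib.Blocks.oneIrr G,
    Finset.mem_filter.mpr ⟨Finset.mem_univ _, self_mem_blockOf (Cfsg.Agent.Lib.Blocks.oneIrr G)⟩, rfl, ?_⟩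
  intro f
  rw [Finset.sum_filter]
  refine Finset.sum_congr rfl fun χ _ => ?_
  by_cases hχ : χ ∈ principalBlock M G
  · rw [if_pos hχ, indic_apply_of_mem hχ, one_mul]
  · rw [if_neg hχ, indic_apply_of_notMem hχ, zero_mul]

set_option maxHeartbeats 2000000 in
theorem main_aux [IsSimpleGroup G] (hG : ¬ IsMulCommutative G) (P : Sylow p G) (hP1 : (P : Subgroup G) ≠ ⊥)
    (hPe : IsElementaryAbelian p (P : Subgroup G))
    (hconj : ∀ x ∈ (P : Subgroup G), ∀ y ∈ (P : Subgroup G), x ≠ 1 → y ≠ 1 → ∃ g : G, g * x * g⁻¹ = y)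
    (hb : ∀ y : G, y ∈ (P : Subgroup G) → y ≠ 1 →
      Subgroup.centralizer ({y} : Set G) ⊓ Subgroup.normalizer ((P : Subgroup G) : Set G) = Subgroup.centralizer ((P : Subgroup G) : Set G))
    (hc : ∀ x y : G, orderOf x = p → orderOf y = p → IsPSolvable p ↥(Subgroup.closure ({x, y} : Set G)))
    (hp2 : p ≠ 2) : False := by
  classical
  set Q := (P : Subgroup G) with hQ
  have hcomm : ∀ a ∈ Q, ∀ b ∈ Q, a * b = b * a := by
    intro a ha b hb
    have := hPe.1.is_comm.comm ⟨a, ha⟩ ⟨b, hb⟩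
    exact congrArg Subtype.val this
  obtain ⟨⟨x, hxP⟩, hx1'⟩ := (Subgroup.ne_bot_iff_exists_ne_one).mp hP1
  have hx1 : x ≠ 1 := fun h => hx1' (Subtype.ext h)
  have hordQ : ∀ y ∈ Q, y ≠ 1 → orderOf y = p := fun y hy hy1 => orderOf_eq_prime (hPe.2 y hy) hy1
  have hxord := hordQ x hxP hx1
  obtain ⟨M, hM⟩ := exists_isPModular hp.out
  have hFS : FrobSetup p M Q :=
    { modular := hM
      sylow := ⟨P, rfl⟩
      comm := hcomm
      frob := hb }
  have hconjx : ∀ y ∈ Q, y ≠ 1 → ∃ g : G, g * x * g⁻¹ = y := fun y hy hy1 => hconj x hxP y hy hx1 hy1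
  choose aZ bZ haZ hbZ using value_facts P hxP hx1 hconjx
  set q := Nat.card Q with hq
  have hreal : ∀ χ : IrrCharacter G, conj ((χ : G → ℂ) x) = (χ : G → ℂ) x := by
    intro χ
    rw [haZ χ]
    simp
  -- constant on singular elements
  have hsing : ∀ χ ∈ principalBlock M G, ∀ g : G, p ∣ orderOf g → (χ : G → ℂ) g = (χ : G → ℂ) x := by
    intro χ hχ z hz
    obtain ⟨α, hα⟩ := exists_isPExp (G := G) (p := p)
    have hpart := hα.isPPart z
    obtain ⟨v, hv, hc', ⟨k, hk⟩, hreg⟩ := hpart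
    set u := z ^ α with hu
    have hu1 : u ≠ 1 := fun e => (hα.pow_eq_one_iff.mp e) hz
    obtain ⟨S, hS⟩ := IsPGroup.exists_le_sylow (isPGroup_zpowers (p := p) ⟨k, hk⟩)
    have huS : u ∈ (S : Subgroup G) := hS (Subgroup.mem_zpowers u)
    obtain ⟨g, hg⟩ := MulAction.exists_smul_eq G S P
    have huP : g * u * g⁻¹ ∈ Q := by
      rw [hQ, ← hg, Sylow.coe_subgroup_smul, Subgroup.mem_smul_pointwise_iff_exists]
      exact ⟨u, huS, rfl⟩
    have hy1 : g * u * g⁻¹ ≠ 1 := by
      intro e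
      apply hu1
      have h2 : u = g⁻¹ * (g * u * g⁻¹) * g := by group
      rw [h2, e]
      group
    have hpart' : IsPPart p (g * z * g⁻¹) (g * u * g⁻¹) := by
      refine ⟨g * v * g⁻¹, ?_, ?_, ⟨k, ?_⟩, ?_⟩
      · show g * u * g⁻¹ * (g * v * g⁻¹) = g * z * g⁻¹
        rw [← hv]
        group
      · show g * u * g⁻¹ * (g * v * g⁻¹) = g * v * g⁻¹ * (g * u * g⁻¹)
        have h3 : u * v = v * u := hc'
        calc g * u * g⁻¹ * (g * v * g⁻¹) = g * (u * v) * g⁻¹ := by group
          _ = g * (v * u) * g⁻¹ := by rw [h3]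
          _ = _ := by group
      · show orderOf (g * u * g⁻¹) = p ^ k
        rw [← hk]
        exact (MulEquiv.orderOf_eq (MulAut.conj g) u)
      · have h4 : orderOf (g * v * g⁻¹) = orderOf v := MulEquiv.orderOf_eq (MulAut.conj g) v
        rw [h4]
        exact hreg
    have h5 := hFS.apply_eq_of_isPPart hpart' huP hy1 hχ
    rw [irr_isClassFunction] at h5
    rw [h5]
    obtain ⟨c, hc''⟩ := hconjx _ huP hy1
    rw [← hc'', irr_isClassFunction]
  have hsumQ : ∑ χ : IrrCharacter G, indic (principalBlock M G) χ * ((χ : G → ℂ) x * (χ : G → ℂ) x) = (q : ℂ) := by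
    have := hFS.sum_norm hxP hx1
    simp only [hreal] at this
    exact this
  have hβ : ∀ g : G, ∑ χ : IrrCharacter G, indic (principalBlock M G) χ * ((χ : G → ℂ) x * (χ : G → ℂ) g) =
      if p ∣ orderOf g then (q : ℂ) else 0 := by
    intro g
    by_cases hg : p ∣ orderOf g
    · rw [if_pos hg, ← hsumQ]
      refine Finset.sum_congr rfl fun χ _ => ?_
      by_cases hχ : χ ∈ principalBlock M G
      · rw [hsing χ hχ g hg]
      · rw [indic_apply_of_notMem hχ, zero_mul, zero_mul]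
    · rw [if_neg hg]
      exact hFS.column_regular hxP hx1 hg
  -- the main identity
  have hone : ∀ χ : IrrCharacter G, (χ : G → ℂ) 1 ≠ 0 := by
    intro χ h
    rw [apply_one_eq_charDegree (IsIrrCharacter.isCharacter χ.2)] at h
    have h9 := charDegree_pos χ.2
    have h10 : charDegree (χ : G → ℂ) = 0 := by exact_mod_cast h
    omega
  have hGC : (Fintype.card G : ℂ) ≠ 0 := by
    exact_mod_cast Fintype.card_pos.ne'
  have hconjsum : ∀ χ : IrrCharacter G, ∑ b : G, (χ : G → ℂ) (b * x * b⁻¹ * x) =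
      (Fintype.card G : ℂ) * ((χ : G → ℂ) x * (χ : G → ℂ) x) / (χ : G → ℂ) 1 := by
    intro χ
    have h1 := IsIrrCharacter.sum_conj_mul χ.2 x x
    rw [Nat.card_eq_fintype_card] at h1
    rw [eq_div_iff (hone χ)]
    linear_combination h1
  have hS : (Fintype.card G : ℂ) * ∑ χ : IrrCharacter G, indic (principalBlock M G) χ *
      (((χ : G → ℂ) x) ^ 3 / (χ : G → ℂ) 1) = (q : ℂ) * ((Fintype.card G : ℂ) - (Nreg p x x : ℂ)) := by
    have h1 : ∑ b : G, ∑ χ : IrrCharacter G, indic (principalBlock M G) χ *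
        ((χ : G → ℂ) x * (χ : G → ℂ) (b * x * b⁻¹ * x)) =
        (Fintype.card G : ℂ) * ∑ χ : IrrCharacter G, indic (principalBlock M G) χ *
          (((χ : G → ℂ) x) ^ 3 / (χ : G → ℂ) 1) := by
      rw [Finset.sum_comm, Finset.mul_sum]
      refine Finset.sum_congr rfl fun χ _ => ?_
      simp only [← Finset.mul_sum]
      rw [hconjsum χ]
      ring
    rw [← h1]
    simp only [hβ]
    rw [Finset.sum_ite, Finset.sum_const, Finset.sum_const_zero, add_zero, nsmul_eq_mul]
    have h2 : (Finset.univ.filter fun b : G => p ∣ orderOf (b * x * b⁻¹ * x)).card + Nreg p x x = Fintype.card G := by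
      unfold Nreg
      have := Finset.card_filter_add_card_filter_not (s := (Finset.univ : Finset G)) (fun b : G => p ∣ orderOf (b * x * b⁻¹ * x))
      simpa using this
    rw [← h2]
    push_cast
    ring
  -- pass to the finite set of the block
  haveI : M.IsPrime := hM.2.1.isPrime
  obtain ⟨B, o, ho, hoone, hindic⟩ := exists_blockFinset (G := G) M
  have hao : aZ o = 1 := by
    have h1 := haZ o
    have h2 : (o : G → ℂ) x = 1 := congrFun hoone x
    rw [h2] at h1
    exact_mod_cast h1.symm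
  have hdo : charDegree (o : G → ℂ) = 1 := charDegree_eq (n := 1) (by
    rw [congrFun hoone 1]
    norm_num)
  have h1 : ∑ χ ∈ B, (aZ χ) ^ 2 = (q : ℤ) := by
    have h2 := hsumQ
    rw [hindic] at h2
    have h3 : ((∑ χ ∈ B, (aZ χ) ^ 2 : ℤ) : ℂ) = ((q : ℤ) : ℂ) := by
      push_cast
      rw [← h2]
      refine Finset.sum_congr rfl fun χ _ => ?_
      rw [haZ χ]
      ring
    exact_mod_cast h3
  have h2 : ∑ χ ∈ B, aZ χ * (charDegree (χ : G → ℂ) : ℤ) = 0 := by
    have h3 := hFS.column_one hxP hx1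
    rw [hindic] at h3
    have h4 : ((∑ χ ∈ B, aZ χ * (charDegree (χ : G → ℂ) : ℤ) : ℤ) : ℂ) = ((0 : ℤ) : ℂ) := by
      push_cast
      refine Eq.trans (Finset.sum_congr rfl fun χ _ => ?_) h3
      rw [haZ χ, apply_one_eq_charDegree (IsIrrCharacter.isCharacter χ.2), Complex.conj_natCast]
    exact_mod_cast h4
  have h3 : ∀ χ ∈ B, χ ≠ o → aZ χ + (q : ℤ) ≤ (charDegree (χ : G → ℂ) : ℤ) := by
    intro χ _ hne
    have hqpos : (0 : ℤ) < q := by
      have : 0 < q := Nat.card_pos
      exact_mod_cast this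
    -- the value differs from the degree
    have hnorm := IsCharacter.norm_le (IsIrrCharacter.isCharacter χ.2) x
    rw [haZ χ, apply_one_eq_charDegree (IsIrrCharacter.isCharacter χ.2)] at hnorm
    have hle : aZ χ ≤ (charDegree (χ : G → ℂ) : ℤ) := by
      have h5 : ‖((aZ χ : ℤ) : ℂ)‖ = |((aZ χ : ℤ) : ℝ)| := by simp
      have h6 : ‖((charDegree (χ : G → ℂ) : ℕ) : ℂ)‖ = ((charDegree (χ : G → ℂ) : ℕ) : ℝ) := by simp
      rw [h5, h6] at hnorm
      have h7 : ((aZ χ : ℤ) : ℝ) ≤ ((charDegree (χ : G → ℂ) : ℕ) : ℝ) := (le_abs_self _).trans hnorm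
      exact_mod_cast h7
    have hne' : aZ χ ≠ (charDegree (χ : G → ℂ) : ℤ) := by
      intro heq
      have h5 : (χ : G → ℂ) x = (χ : G → ℂ) 1 := by
        rw [haZ χ, apply_one_eq_charDegree (IsIrrCharacter.isCharacter χ.2), heq]
        push_cast
        rfl
      have hker : x ∈ charKer (χ : G → ℂ) := by
        rw [mem_charKer (irr_isCharacter χ)]
        exact h5
      have hnormal := charKer_normal (irr_isCharacter χ)
      rcases hnormal.eq_bot_or_eq_top with hbot | htop
      · rw [hbot] at hker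
        exact hx1 hker
      · have hall : ∀ g : G, (χ : G → ℂ) g = (χ : G → ℂ) 1 := by
          intro g
          have : g ∈ charKer (χ : G → ℂ) := by rw [htop]; trivial
          exact (mem_charKer (irr_isCharacter χ)).mp this
        have hne'' : (χ : G → ℂ) ≠ (o : G → ℂ) := fun h => hne (Subtype.ext h)
        have h7 := classInner_irr_of_ne χ.2 o.2 hne''
        rw [classInner] at h7
        have h8 : ∀ g : G, (χ : G → ℂ) g * conj ((o : G → ℂ) g) = (χ : G → ℂ) 1 := by
          intro g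
          have : (o : G → ℂ) g = 1 := congrFun hoone g
          rw [this, map_one, mul_one, hall g]
        simp only [h8, Finset.sum_const, Finset.card_univ, nsmul_eq_mul] at h7
        have hG' : (Nat.card G : ℂ) ≠ 0 := by exact_mod_cast Nat.card_pos.ne'
        rw [Nat.card_eq_fintype_card] at *
        have h9 : (χ : G → ℂ) 1 = 0 := by
          field_simp at h7
          exact h7
        exact hone χ h9
    have hpos : 0 < (charDegree (χ : G → ℂ) : ℤ) - aZ χ := by
      have := lt_of_le_of_ne hle hne'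
      omega
    have hb' := hbZ χ
    rw [hb'] at hpos
    have hbpos : 0 < bZ χ := by
      by_contra hneg
      push Not at hneg
      nlinarith
    have : (q : ℤ) ≤ (q : ℤ) * bZ χ := by nlinarith
    have h10 : (charDegree (χ : G → ℂ) : ℤ) - aZ χ = (q : ℤ) * bZ χ := hb'
    omega
  have hSreal : (Fintype.card G : ℝ) * ∑ χ ∈ B, ((aZ χ : ℝ) ^ 3 / (charDegree (χ : G → ℂ) : ℝ)) =
      (q : ℝ) * ((Fintype.card G : ℝ) - (Nreg p x x : ℝ)) := by
    have h4 := hS
    rw [hindic] at h4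
    have h5 : ((((Fintype.card G : ℝ) * ∑ χ ∈ B, ((aZ χ : ℝ) ^ 3 / (charDegree (χ : G → ℂ) : ℝ)) : ℝ)) : ℂ) =
        (((q : ℝ) * ((Fintype.card G : ℝ) - (Nreg p x x : ℝ)) : ℝ) : ℂ) := by
      push_cast
      rw [← h4]
      congr 1
      refine Finset.sum_congr rfl fun χ _ => ?_
      rw [haZ χ, apply_one_eq_charDegree (IsIrrCharacter.isCharacter χ.2)]
    exact_mod_cast h5
  have hbound : (p - 1) * Nreg p x x ≤ Fintype.card G :=
    Nreg_bound P hcomm hxord hxP hconjx (fun u hu => hc u x hu hxord)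
  have hp3 : 3 ≤ p := by
    have := hp.out.two_le
    omega
  have h4 : (q : ℝ) * (p - 2) ≤ (∑ χ ∈ B, ((aZ χ : ℝ) ^ 3 / (charDegree (χ : G → ℂ) : ℝ))) * (p - 1) := by
    set SS := ∑ χ ∈ B, ((aZ χ : ℝ) ^ 3 / (charDegree (χ : G → ℂ) : ℝ)) with hSS
    have hGpos : (0 : ℝ) < Fintype.card G := by exact_mod_cast Fintype.card_pos
    have hp1 : (1 : ℝ) ≤ (p : ℝ) - 1 := by
      have : (3 : ℝ) ≤ p := by exact_mod_cast hp3
      linarith
    have hboundR : ((p : ℝ) - 1) * (Nreg p x x : ℝ) ≤ (Fintype.card G : ℝ) := by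
      have h5 : (((p - 1 : ℕ) : ℝ)) * (Nreg p x x : ℝ) ≤ (Fintype.card G : ℝ) := by exact_mod_cast hbound
      rwa [Nat.cast_sub (by omega), Nat.cast_one] at h5
    have hqnn : (0 : ℝ) ≤ q := Nat.cast_nonneg _
    apply le_of_mul_le_mul_left _ hGpos
    calc (Fintype.card G : ℝ) * ((q : ℝ) * (p - 2))
        ≤ (q : ℝ) * (((Fintype.card G : ℝ) - (Nreg p x x : ℝ)) * ((p : ℝ) - 1)) := by
          have h6 : (Fintype.card G : ℝ) * ((p : ℝ) - 2) ≤ ((Fintype.card G : ℝ) - (Nreg p x x : ℝ)) * ((p : ℝ) - 1) := by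
            nlinarith
          nlinarith [mul_le_mul_of_nonneg_left h6 hqnn]
      _ = ((q : ℝ) * ((Fintype.card G : ℝ) - (Nreg p x x : ℝ))) * ((p : ℝ) - 1) := by ring
      _ = ((Fintype.card G : ℝ) * SS) * ((p : ℝ) - 1) := by rw [hSreal]
      _ = (Fintype.card G : ℝ) * (SS * ((p : ℝ) - 1)) := by ring
  -- the parameters
  have hcase : (p = 3 ∧ (q = 3 ∨ 9 ≤ q)) ∨ (5 ≤ p ∧ 5 ≤ q) := by
    obtain ⟨r, hr⟩ := (IsPGroup.iff_card.mp P.isPGroup')
    have hr1 : r ≠ 0 := by
      rintro rfl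
      have h5 : Nat.card Q = 1 := by simpa using hr
      have h6 := Subgroup.card_eq_one.mp h5
      exact hP1 h6
    have hqr : q = p ^ r := hr
    by_cases h3p : p = 3
    · left
      refine ⟨h3p, ?_⟩
      by_cases hr2 : r = 1
      · left
        rw [hqr, hr2, h3p]
        rfl
      · right
        have hr3 : 2 ≤ r := by omega
        rw [hqr, h3p]
        calc 9 = 3 ^ 2 := by norm_num
          _ ≤ 3 ^ r := Nat.pow_le_pow_right (by norm_num) hr3
    · right
      have h5 : 5 ≤ p := by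
        by_contra hlt
        push Not at hlt
        have h4p : p ≠ 4 := by
          rintro rfl
          exact absurd hp.out (by norm_num)
        omega
      refine ⟨h5, ?_⟩
      rw [hqr]
      calc 5 ≤ p := h5
        _ = p ^ 1 := (pow_one p).symm
        _ ≤ p ^ r := Nat.pow_le_pow_right hp.out.pos (by omega)
  exact numeric B o ho aZ (fun χ => charDegree (χ : G → ℂ)) (fun χ _ => charDegree_pos χ.2) q p h1 hao hdo h2 h3 h4 hcase

/-- **The theorem.** -/
theorem main {G : Type u} [Group G] [Finite G] [IsSimpleGroup G] (hG : ¬ IsMulCommutative G) {p : ℕ} [hp : Fact p.Prime] (P : Sylow p G)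
    (hP1 : (P : Subgroup G) ≠ ⊥) (hPe : IsElementaryAbelian p (P : Subgroup G))
    (hconj : ∀ x ∈ (P : Subgroup G), ∀ y ∈ (P : Subgroup G), x ≠ 1 → y ≠ 1 → ∃ g : G, g * x * g⁻¹ = y)
    (hb : ∀ x ∈ (P : Subgroup G), orderOf x = p → HasNormalPComplement p ↥(Subgroup.centralizer ({x} : Set G)))
    (hc : ∀ x y : G, orderOf x = p → orderOf y = p → IsPSolvable p ↥(Subgroup.closure ({x, y} : Set G))) :
    p = 2 := by
  letI := Fintype.ofFinite G
  by_contra hp2
  have hcomm : ∀ a ∈ (P : Subgroup G), ∀ b ∈ (P : Subgroup G), a * b = b * a := by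
    intro a ha b hb
    have := hPe.1.is_comm.comm ⟨a, ha⟩ ⟨b, hb⟩
    exact congrArg Subtype.val this
  have hord : ∀ y ∈ (P : Subgroup G), y ≠ 1 → orderOf y = p := fun y hy hy1 => orderOf_eq_prime (hPe.2 y hy) hy1
  exact main_aux hG P hP1 hPe hconj (fun y hy hy1 => frob_of_complement P hcomm hy (hb y hy (hord y hy hy1))) hc hp2

end main

end Cfsg.Agent.Lib.Tech.OC
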