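import Mathlib
import Cfsg.Agent.Lib.Coprime.PSolvable
import Cfsg.Agent.Lib.Tech.Extremal
import Cfsg.Agent.Lib.Transfer.Frobenius

/-!
# `p'`-subgroups normalizing a Sylow `p`-subgroup of a `p`-soluble group

If `Q` is a `p'`-subgroup of a `p`-soluble group normalizing a Sylow `p`-subgroup, all `p`-elements of `N(Q)` centralize `Q`.
-/

set_option autoImplicit false
set_option linter.unusedSectionVars false
set_option linter.style.haveILetI false

namespace Cfsg.Agent.Lib.Tech

open Cfsg Subgroup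

universe u

variable {p : ℕ} [Fact p.Prime]

/-- **`p'`-subgroups normalizing a Sylow subgroup.** -/
theorem centralizes_of_normalizes_sylow : ∀ (n : ℕ) {G : Type u} [Group G] [Finite G], Nat.card G = n →
    IsPSolvable p G → ∀ (Q : Subgroup G), (Nat.card Q).Coprime p → ∀ (P : Sylow p G),
    Q ≤ normalizer ((P : Subgroup G) : Set G) → ∀ (x : G) (k : ℕ), x ^ p ^ k = 1 →
    x ∈ normalizer (Q : Set G) → x ∈ centralizer (Q : Set G) := by
  intro n
  induction n using Nat.strong_induction_on with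
  | _ n ih =>
  intro G _ _ hn hG Q hQ P hQP x k hx hxQ
  classical
  have hpr : p.Prime := Fact.out
  by_cases hnt : Nontrivial G
  swap
  · rw [not_nontrivial_iff_subsingleton] at hnt
    rw [Subgroup.mem_centralizer_iff]
    intro _ _
    exact Subsingleton.elim _ _
  obtain ⟨N, hNn, hN1, hcase⟩ := Cfsg.Agent.Lib.Coprime.IsPSolvable_exists_normal hG
  haveI := hNn
  let π : G →* G ⧸ N := QuotientGroup.mk' N
  have hπ : Function.Surjective π := QuotientGroup.mk'_surjective N
  have hcard : Nat.card (G ⧸ N) < n := by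
    have h1 : Nat.card G = Nat.card (G ⧸ N) * Nat.card N := by
      rw [mul_comm]
      exact (Subgroup.card_mul_index N).symm
    have h2 : 1 < Nat.card N := by
      rw [Finite.one_lt_card_iff_nontrivial]
      exact (Subgroup.nontrivial_iff_ne_bot N).2 hN1
    have h3 : 0 < Nat.card (G ⧸ N) := Nat.card_pos
    rw [← hn, h1]
    nlinarith
  have hQ' : (Nat.card (Q.map π)).Coprime p := by
    have h1 : Nat.card (Q.map π) ∣ Nat.card Q :=
      Subgroup.card_dvd_of_surjective (π.subgroupMap Q) (π.subgroupMap_surjective Q)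
    exact Nat.Coprime.coprime_dvd_left h1 hQ
  have hP' : Q.map π ≤ normalizer ((P.mapSurjective hπ : Subgroup (G ⧸ N)) : Set (G ⧸ N)) := by
    have h1 : Q.map π ≤ (normalizer ((P : Subgroup G) : Set G)).map π := Subgroup.map_mono hQP
    exact h1.trans (Subgroup.le_normalizer_map π)
  have hx' : π x ∈ normalizer ((Q.map π : Subgroup (G ⧸ N)) : Set (G ⧸ N)) :=
    Subgroup.le_normalizer_map π ⟨x, hxQ, rfl⟩
  have hpow : π x ^ p ^ k = 1 := by rw [← map_pow, hx, map_one]
  have h1 := ih _ hcard rfl (Cfsg.Agent.Lib.Coprime.isPSolvable_map π hπ hG) (Q.map π) hQ' (P.mapSurjective hπ) hP' (π x) k hpow hx'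
  rw [Subgroup.mem_normalizer_iff] at hxQ
  -- commutators lie in `N`
  have hcN : ∀ q ∈ Q, x * q * x⁻¹ * q⁻¹ ∈ N := by
    intro q hq
    have h2 := Subgroup.mem_centralizer_iff.1 h1 (π q) ⟨q, hq, rfl⟩
    rw [← QuotientGroup.ker_mk' N, MonoidHom.mem_ker]
    change π (x * q * x⁻¹ * q⁻¹) = 1
    simp only [map_mul, map_inv]
    rw [← h2]
    group
  have hcQ : ∀ q ∈ Q, x * q * x⁻¹ * q⁻¹ ∈ Q := fun q hq =>
    Q.mul_mem ((hxQ q).1 hq) (Q.inv_mem hq)
  rw [Subgroup.mem_centralizer_iff]
  intro q hq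
  have hQord : ∀ c ∈ Q, (orderOf c).Coprime p := by
    intro c hc
    have h2 : orderOf (⟨c, hc⟩ : Q) ∣ Nat.card Q := orderOf_dvd_natCard _
    rw [Subgroup.orderOf_mk] at h2
    exact Nat.Coprime.coprime_dvd_left h2 hQ
  -- it suffices that the commutator vanishes
  suffices hc1 : x * q * x⁻¹ * q⁻¹ = 1 by
    rw [mul_inv_eq_one, mul_inv_eq_iff_eq_mul] at hc1
    exact hc1.symm
  rcases hcase with hNp | hNc
  · exact Cfsg.Agent.Lib.Transfer.eq_one_of_coprime_of_isPGroup hNp (hcN q hq) (hQord _ (hcQ q hq))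
  · -- `Q ∩ N` is centralized by `P`, hence by all `p`-elements of its normalizer
    let Q₁ : Subgroup G := Q ⊓ N
    have hPC : ∀ s ∈ (P : Subgroup G), ∀ c ∈ Q₁, s * c = c * s := by
      intro s hs c hc
      have hcQ' := (Subgroup.mem_inf.1 hc).1
      have hcN' := (Subgroup.mem_inf.1 hc).2
      have h2 : c * s * c⁻¹ * s⁻¹ ∈ (P : Subgroup G) :=
        (P : Subgroup G).mul_mem ((Subgroup.mem_normalizer_iff.1 (hQP hcQ') s).1 hs) ((P : Subgroup G).inv_mem hs)
      have h3 : c * s * c⁻¹ * s⁻¹ ∈ N := by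
        have h4 : c * s * c⁻¹ * s⁻¹ = c * (s * c⁻¹ * s⁻¹) := by group
        rw [h4]
        exact N.mul_mem hcN' (hNn.conj_mem _ (N.inv_mem hcN') s)
      have h5 : (orderOf (c * s * c⁻¹ * s⁻¹)).Coprime p := by
        have h6 : orderOf (⟨_, h3⟩ : N) ∣ Nat.card N := orderOf_dvd_natCard _
        rw [Subgroup.orderOf_mk] at h6
        exact Nat.Coprime.coprime_dvd_left h6 hNc
      have h7 := Cfsg.Agent.Lib.Transfer.eq_one_of_coprime_of_isPGroup P.2 h2 h5
      rw [mul_inv_eq_one, mul_inv_eq_iff_eq_mul] at h7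
      exact h7.symm
    have hPN : (P : Subgroup G) ≤ normalizer (Q₁ : Set G) := by
      intro s hs
      rw [Subgroup.mem_normalizer_iff]
      intro c
      constructor
      · intro hc
        have h2 := hPC s hs c hc
        have h3 : s * c * s⁻¹ = c := by
          rw [h2]
          group
        rw [h3]
        exact hc
      · intro hc
        have h2 := hPC s hs _ hc
        have h3 : s * c = (s * c * s⁻¹) * s := by group
        have h4 : s * (s * c * s⁻¹) = (s * c * s⁻¹) * s := h2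
        rw [← h3] at h4
        have h5 : s * c * s⁻¹ = c := mul_left_cancel h4
        rw [h5] at hc
        exact hc
    have hxQ₁ : x ∈ normalizer (Q₁ : Set G) := by
      rw [Subgroup.mem_normalizer_iff]
      intro c
      constructor
      · intro hc
        exact Subgroup.mem_inf.2 ⟨(hxQ c).1 (Subgroup.mem_inf.1 hc).1, hNn.conj_mem _ (Subgroup.mem_inf.1 hc).2 x⟩
      · intro hc
        refine Subgroup.mem_inf.2 ⟨(hxQ c).2 (Subgroup.mem_inf.1 hc).1, ?_⟩
        have h2 := hNn.conj_mem _ (Subgroup.mem_inf.1 hc).2 x⁻¹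
        simpa [mul_assoc] using h2
    -- conjugate `x` into `P`
    have hzp : IsPGroup p (zpowers x) := by
      rw [IsPGroup.iff_card, Nat.card_zpowers]
      obtain ⟨j, -, hj⟩ := (Nat.dvd_prime_pow hpr).1 (orderOf_dvd_of_pow_eq_one hx)
      exact ⟨j, hj⟩
    have hrel : ¬ p ∣ (P : Subgroup G).relIndex (normalizer (Q₁ : Set G)) := by
      intro hd
      apply P.not_dvd_index
      rw [← Subgroup.relIndex_mul_index hPN]
      exact Dvd.dvd.mul_right hd _
    obtain ⟨m, hm, hle⟩ := exists_conj_le_of_relIndex hrel (Subgroup.zpowers_le.2 hxQ₁) hzp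
    have hmx : m * x * m⁻¹ ∈ (P : Subgroup G) := hle ⟨x, mem_zpowers x, rfl⟩
    -- `x` centralizes `Q₁`
    have hxc : ∀ c ∈ Q₁, x * c = c * x := by
      intro c hc
      have h2 : m * c * m⁻¹ ∈ Q₁ := (Subgroup.mem_normalizer_iff.1 hm c).1 hc
      have h3 := hPC _ hmx _ h2
      have h4 : m * (x * c) * m⁻¹ = m * (c * x) * m⁻¹ := by
        calc m * (x * c) * m⁻¹ = m * x * m⁻¹ * (m * c * m⁻¹) := by group
          _ = m * c * m⁻¹ * (m * x * m⁻¹) := h3
          _ = _ := by group
      exact mul_left_cancel (mul_right_cancel h4)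
    -- the commutator vanishes
    set c := x * q * x⁻¹ * q⁻¹ with hc
    have hcQ₁ : c ∈ Q₁ := Subgroup.mem_inf.2 ⟨hcQ q hq, hcN q hq⟩
    have hxq : x * q * x⁻¹ = c * q := by rw [hc]; group
    have hpowc : ∀ j : ℕ, x ^ j * q * (x ^ j)⁻¹ = c ^ j * q := by
      intro j
      induction j with
      | zero => simp
      | succ j ih2 =>
        have hcomm : x ^ j * c = c * x ^ j := ((show Commute x c from hxc c hcQ₁).pow_left j).eq
        calc x ^ (j + 1) * q * (x ^ (j + 1))⁻¹ = x ^ j * (x * q * x⁻¹) * (x ^ j)⁻¹ := by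
              rw [pow_succ]; group
          _ = x ^ j * (c * q) * (x ^ j)⁻¹ := by rw [hxq]
          _ = (x ^ j * c) * q * (x ^ j)⁻¹ := by group
          _ = (c * x ^ j) * q * (x ^ j)⁻¹ := by rw [hcomm]
          _ = c * (x ^ j * q * (x ^ j)⁻¹) := by group
          _ = c * (c ^ j * q) := by rw [ih2]
          _ = c ^ (j + 1) * q := by rw [pow_succ']; group
    have h2 := hpowc (p ^ k)
    rw [hx] at h2
    have h3 : c ^ p ^ k = 1 := by
      have h4 : 1 * q * 1⁻¹ = c ^ p ^ k * q := h2
      simpa using h4.symm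
    have h4 : orderOf c ∣ p ^ k := orderOf_dvd_of_pow_eq_one h3
    have h5 : (orderOf c).Coprime p := hQord c (Subgroup.mem_inf.1 hcQ₁).1
    have h6 : orderOf c = 1 := by
      have h7 : (orderOf c).Coprime (p ^ k) := Nat.Coprime.pow_right k h5
      exact Nat.Coprime.eq_one_of_dvd h7 h4
    exact orderOf_eq_one_iff.1 h6

end Cfsg.Agent.Lib.Tech
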