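import Mathlib
import Cfsg.Prelude.Def_ConjugacyFunctors
import Cfsg.Prelude.Def_LocalEven
import Cfsg.Agent.Lib.LocalEven.QdStable
import Cfsg.Prelude.Def_EvenType
import Cfsg.Agent.Lib.Tech.Basic

/-!
# Failure of control of fusion in `Qd(p)`: its Sylow subgroup, the upper unitriangular group, has few
characteristic subgroups, and their normalizers leave the centre of the Sylow subgroup invariant.
-/

set_option autoImplicit false
set_option linter.unusedSectionVars false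
set_option linter.style.haveILetI false

namespace Cfsg.Agent.Lib.Tech

open Cfsg Subgroup Cfsg.Agent.Lib.Known Cfsg.Agent.Lib.LocalEven

universe u

variable {p : ℕ} [Fact p.Prime]

/-- The upper unitriangular group of degree three over the prime field. -/
@[ext] structure Heis (p : ℕ) where
  b : ZMod p
  r : ZMod p
  c : ZMod p

namespace Heis

instance : Mul (Heis p) := ⟨fun x y => ⟨x.b + y.b, x.r + y.r, x.c + y.c + x.b * y.r⟩⟩
instance : One (Heis p) := ⟨⟨0, 0, 0⟩⟩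
instance : Inv (Heis p) := ⟨fun x => ⟨-x.b, -x.r, x.b * x.r - x.c⟩⟩

@[simp] theorem mul_b (x y : Heis p) : (x * y).b = x.b + y.b := rfl
@[simp] theorem mul_r (x y : Heis p) : (x * y).r = x.r + y.r := rfl
@[simp] theorem mul_c (x y : Heis p) : (x * y).c = x.c + y.c + x.b * y.r := rfl
@[simp] theorem one_b : (1 : Heis p).b = 0 := rfl
@[simp] theorem one_r : (1 : Heis p).r = 0 := rfl
@[simp] theorem one_c : (1 : Heis p).c = 0 := rfl
@[simp] theorem inv_b (x : Heis p) : (x⁻¹).b = -x.b := rfl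
@[simp] theorem inv_r (x : Heis p) : (x⁻¹).r = -x.r := rfl
@[simp] theorem inv_c (x : Heis p) : (x⁻¹).c = x.b * x.r - x.c := rfl

instance : Group (Heis p) := Group.ofLeftAxioms
  (by intro x y z; ext <;> simp <;> ring)
  (by intro x; ext <;> simp)
  (by intro x; ext <;> simp <;> ring)

/-- The equivalence with triples. -/
def toProd : Heis p ≃ ZMod p × ZMod p × ZMod p where
  toFun x := (x.b, x.r, x.c)
  invFun x := ⟨x.1, x.2.1, x.2.2⟩
  left_inv _ := rfl
  right_inv _ := rfl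

theorem card_eq : Nat.card (Heis p) = p ^ 3 := by
  rw [Nat.card_congr toProd, Nat.card_prod, Nat.card_prod, Nat.card_zmod]
  ring

instance : Finite (Heis p) := Finite.of_equiv _ toProd.symm

theorem isPGroup : IsPGroup p (Heis p) := IsPGroup.of_card (n := 3) card_eq

/-- The embedding in `Qd(p)`. -/
noncomputable def ι : Heis p →* Cfsg.qd p where
  toFun x := qdEl (sl2U x.b) ![x.c, x.r]
  map_one' := by
    have : ![(0 : ZMod p), 0] = 0 := by
      funext i
      fin_cases i <;> rfl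
    show qdEl (sl2U (0 : ZMod p)) ![(0 : ZMod p), 0] = 1
    rw [sl2U_zero, this, qdEl_one]
  map_mul' x y := by
    rw [qdEl_mul, sl2U_add]
    congr 1
    funext i
    fin_cases i <;> simp [Matrix.mulVec, dotProduct, Fin.sum_univ_two] <;> ring

theorem ι_apply (x : Heis p) : ι x = qdEl (sl2U x.b) ![x.c, x.r] := rfl

theorem ι_injective : Function.Injective (ι : Heis p →* Cfsg.qd p) := by
  intro x y h
  obtain ⟨h1, h2⟩ := qdEl_inj h
  have h3 := sl2U_injective h1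
  have h4 := congrFun h2 0
  have h5 := congrFun h2 1
  simp only [Matrix.cons_val_zero, Matrix.cons_val_one] at h4 h5
  exact Heis.ext h3 h5 h4

/-- The graph automorphism. -/
def graph : Heis p ≃* Heis p where
  toFun x := ⟨x.r, x.b, x.b * x.r - x.c⟩
  invFun x := ⟨x.r, x.b, x.b * x.r - x.c⟩
  left_inv x := by ext <;> simp; ring
  right_inv x := by ext <;> simp; ring
  map_mul' x y := by ext <;> simp <;> ring

/-- The transvection automorphism, for `p` odd. -/
noncomputable def tv (hp : p ≠ 2) : Heis p ≃* Heis p :=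
  have h2 : (2 : ZMod p) ≠ 0 := by
    intro h
    have h3 : ((2 : ℕ) : ZMod p) = 0 := by exact_mod_cast h
    rw [ZMod.natCast_eq_zero_iff] at h3
    exact hp ((Nat.prime_dvd_prime_iff_eq Fact.out Nat.prime_two).mp h3)
  { toFun := fun x => ⟨x.b + x.r, x.r, x.c + x.r ^ 2 / 2⟩
    invFun := fun x => ⟨x.b - x.r, x.r, x.c - x.r ^ 2 / 2⟩
    left_inv := fun x => by ext <;> simp
    right_inv := fun x => by ext <;> simp
    map_mul' := fun x y => by
      ext
      · simp; ring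
      · simp
      · simp; field_simp; ring }

@[simp] theorem graph_b (x : Heis p) : (graph x).b = x.r := rfl
@[simp] theorem graph_r (x : Heis p) : (graph x).r = x.b := rfl
@[simp] theorem graph_c (x : Heis p) : (graph x).c = x.b * x.r - x.c := rfl
theorem tv_b (hp : p ≠ 2) (x : Heis p) : (tv hp x).b = x.b + x.r := rfl
theorem tv_r (hp : p ≠ 2) (x : Heis p) : (tv hp x).r = x.r := rfl

/-- The centre. -/
def Zh (p : ℕ) [Fact p.Prime] : Subgroup (Heis p) where
  carrier := {x | x.b = 0 ∧ x.r = 0}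
  mul_mem' := by
    rintro x y ⟨h1, h2⟩ ⟨h3, h4⟩
    exact ⟨by simp [h1, h3], by simp [h2, h4]⟩
  one_mem' := ⟨rfl, rfl⟩
  inv_mem' := by
    rintro x ⟨h1, h2⟩
    exact ⟨by simp [h1], by simp [h2]⟩

theorem mem_Zh {x : Heis p} : x ∈ Zh p ↔ x.b = 0 ∧ x.r = 0 := Iff.rfl

theorem mem_Zh_iff_commute (x : Heis p) : x ∈ Zh p ↔ ∀ t : Heis p, x * t = t * x := by
  constructor
  · rintro ⟨h1, h2⟩ t
    ext <;> simp [h1, h2, add_comm]
  · intro h
    constructor
    · have h3 := congrArg Heis.c (h ⟨0, 1, 0⟩)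
      simpa using h3
    · have h3 := congrArg Heis.c (h ⟨1, 0, 0⟩)
      simpa using h3.symm

theorem pow_Z (c : ZMod p) (n : ℕ) : (⟨0, 0, c⟩ : Heis p) ^ n = ⟨0, 0, n * c⟩ := by
  induction n with
  | zero => ext <;> simp
  | succ n ih =>
    rw [pow_succ, ih]
    ext <;> simp
    ring

theorem pow_B (b : ZMod p) (n : ℕ) : (⟨b, 0, 0⟩ : Heis p) ^ n = ⟨n * b, 0, 0⟩ := by
  induction n with
  | zero => ext <;> simp
  | succ n ih =>
    rw [pow_succ, ih]
    ext <;> simp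
    ring

theorem pow_R (r : ZMod p) (n : ℕ) : (⟨0, r, 0⟩ : Heis p) ^ n = ⟨0, n * r, 0⟩ := by
  induction n with
  | zero => ext <;> simp
  | succ n ih =>
    rw [pow_succ, ih]
    ext <;> simp
    ring

section char

variable {R : Subgroup (Heis p)} (hR : ∀ φ : Heis p ≃* Heis p, ∀ y ∈ R, φ y ∈ R)

include hR

theorem conj_mem (g y : Heis p) (hy : y ∈ R) : g * y * g⁻¹ ∈ R := hR (MulAut.conj g) y hy

theorem commutator_mem (g y : Heis p) (hy : y ∈ R) : g * y * g⁻¹ * y⁻¹ ∈ R :=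
  R.mul_mem (conj_mem hR g y hy) (R.inv_mem hy)

omit hR in
theorem Z_mem_of {c : ZMod p} (hc : c ≠ 0) (h : (⟨0, 0, c⟩ : Heis p) ∈ R) (d : ZMod p) : (⟨0, 0, d⟩ : Heis p) ∈ R := by
  have h1 := R.pow_mem h (d / c).val
  rw [pow_Z, ZMod.natCast_zmod_val] at h1
  have : d / c * c = d := by field_simp
  rwa [this] at h1

theorem Z_mem (hne : R ≠ ⊥) (d : ZMod p) : (⟨0, 0, d⟩ : Heis p) ∈ R := by
  obtain ⟨y, hy, hy1⟩ : ∃ y ∈ R, y ≠ 1 := (Subgroup.bot_or_exists_ne_one R).resolve_left hne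
  by_cases hb : y.b = 0
  · by_cases hr : y.r = 0
    · have hc : y.c ≠ 0 := by
        intro hc
        exact hy1 (Heis.ext hb hr hc)
      have : y = ⟨0, 0, y.c⟩ := Heis.ext hb hr rfl
      rw [this] at hy
      exact Z_mem_of hc hy d
    · have h1 := commutator_mem hR ⟨1, 0, 0⟩ y hy
      have h2 : (⟨1, 0, 0⟩ : Heis p) * y * (⟨1, 0, 0⟩ : Heis p)⁻¹ * y⁻¹ = ⟨0, 0, y.r⟩ := by
        ext <;> simp [hb]
      rw [h2] at h1
      exact Z_mem_of hr h1 d
  · have h1 := commutator_mem hR ⟨0, 1, 0⟩ y hy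
    have h2 : (⟨0, 1, 0⟩ : Heis p) * y * (⟨0, 1, 0⟩ : Heis p)⁻¹ * y⁻¹ = ⟨0, 0, -y.b⟩ := by
      ext <;> simp
      ring
    rw [h2] at h1
    exact Z_mem_of (neg_ne_zero.mpr hb) h1 d

theorem Zh_le (hne : R ≠ ⊥) : Zh p ≤ R := by
  rintro x ⟨h1, h2⟩
  have : x = ⟨0, 0, x.c⟩ := Heis.ext h1 h2 rfl
  rw [this]
  exact Z_mem hR hne _

/-- An element `(1,0,*)` forces everything. -/
theorem eq_top_of_mem (hne : R ≠ ⊥) {b c : ZMod p} (hb : b ≠ 0) (h : (⟨b, 0, c⟩ : Heis p) ∈ R) : R = ⊤ := by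
  have h1 : (⟨b, 0, 0⟩ : Heis p) ∈ R := by
    have h2 := R.mul_mem h (Z_mem hR hne (-c))
    have h3 : (⟨b, 0, c⟩ : Heis p) * ⟨0, 0, -c⟩ = ⟨b, 0, 0⟩ := by
      ext <;> simp
    rwa [h3] at h2
  have hB : ∀ d, (⟨d, 0, 0⟩ : Heis p) ∈ R := by
    intro d
    have h2 := R.pow_mem h1 (d / b).val
    rw [pow_B, ZMod.natCast_zmod_val] at h2
    have : d / b * b = d := by field_simp
    rwa [this] at h2
  have hR' : ∀ d, (⟨0, d, 0⟩ : Heis p) ∈ R := by
    intro d
    have h2 := hR graph _ (hB d)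
    have h3 : graph (⟨d, 0, 0⟩ : Heis p) = ⟨0, d, 0⟩ := by
      ext <;> simp
    rwa [h3] at h2
  rw [eq_top_iff]
  intro x _
  have h2 : x = ⟨x.b, 0, 0⟩ * ⟨0, x.r, 0⟩ * ⟨0, 0, x.c - x.b * x.r⟩ := by
    ext <;> simp
  rw [h2]
  exact R.mul_mem (R.mul_mem (hB _) (hR' _)) (Z_mem hR hne _)

/-- The trichotomy for characteristic subgroups. -/
theorem trichotomy (hne : R ≠ ⊥) :
    R = Zh p ∨ R = ⊤ ∨ (p = 2 ∧ ∀ y ∈ R, y ∉ Zh p → y.b ≠ 0 ∧ y.r ≠ 0) := by
  by_cases h1 : R ≤ Zh p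
  · exact Or.inl (le_antisymm h1 (Zh_le hR hne))
  right
  by_cases h2 : R = ⊤
  · exact Or.inl h2
  right
  have hNo : ∀ y ∈ R, y ∉ Zh p → y.b ≠ 0 ∧ y.r ≠ 0 := by
    intro y hy hyZ
    have hno : ∀ z ∈ R, z.b ≠ 0 → z.r ≠ 0 := by
      intro z hz hb hr
      have : z = ⟨z.b, 0, z.c⟩ := Heis.ext rfl hr rfl
      rw [this] at hz
      exact h2 (eq_top_of_mem hR hne hb hz)
    by_cases hb : y.b = 0
    · have hr : y.r ≠ 0 := fun hr => hyZ ⟨hb, hr⟩
      have h3 := hR graph y hy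
      exact absurd hb (by
        intro _
        exact hno _ h3 (by simpa using hr) (by simpa using hb))
    · exact ⟨hb, hno y hy hb⟩
  refine ⟨?_, hNo⟩
  by_contra hp
  obtain ⟨y, hy, hyZ⟩ := SetLike.not_le_iff_exists.mp h1
  obtain ⟨hb, hr⟩ := hNo y hy hyZ
  have h3 := R.mul_mem (hR (tv hp) y hy) (R.inv_mem hy)
  have h4 := hNo _ h3 (by
    intro h5
    apply hr
    have h6 := h5.1
    simpa [tv_b] using h6)
  exact h4.2 (by simp [tv_r])

end char

/-- The normalizer statement. -/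
theorem normalizer_le_of_char {R : Subgroup (Heis p)} (hR : ∀ φ : Heis p ≃* Heis p, ∀ y ∈ R, φ y ∈ R)
    (hne : R ≠ ⊥) {x : Cfsg.qd p} (hx : x ∈ normalizer ((R.map ι : Subgroup (Cfsg.qd p)) : Set (Cfsg.qd p))) :
    x ∈ normalizer (((Zh p).map ι : Subgroup (Cfsg.qd p)) : Set (Cfsg.qd p)) := by
  classical
  rcases trichotomy hR hne with rfl | rfl | ⟨hp2, hNo⟩
  · exact hx
  · apply Cfsg.Agent.Lib.Coprime.mem_normalizer_of_conj_le
    rintro _ ⟨y, hy, rfl⟩
    have hT : ∀ t : Heis p, x * ι t * x⁻¹ ∈ (⊤ : Subgroup (Heis p)).map ι :=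
      fun t => (mem_normalizer_iff.mp hx _).mp ⟨t, trivial, rfl⟩
    have hT' : ∀ t : Heis p, x⁻¹ * ι t * x ∈ (⊤ : Subgroup (Heis p)).map ι := by
      intro t
      have := (mem_normalizer_iff.mp (inv_mem hx) _).mp (⟨t, trivial, rfl⟩ : ι t ∈ (⊤ : Subgroup (Heis p)).map ι)
      simpa using this
    obtain ⟨y', -, hy'⟩ := hT y
    refine ⟨y', (mem_Zh_iff_commute y').mpr fun t => ?_, hy'⟩
    apply ι_injective
    obtain ⟨t', -, ht'⟩ := hT' t
    have h1 : ι t = x * ι t' * x⁻¹ := by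
      rw [ht']
      group
    have h2 : ι y * ι t' = ι t' * ι y := by
      rw [← map_mul, ← map_mul, (mem_Zh_iff_commute y).mp hy]
    rw [map_mul, map_mul, hy', h1]
    calc x * ι y * x⁻¹ * (x * ι t' * x⁻¹) = x * (ι y * ι t') * x⁻¹ := by group
      _ = x * (ι t' * ι y) * x⁻¹ := by rw [h2]
      _ = _ := by group
  · by_cases h0 : R ≤ Zh p
    · have : R = Zh p := le_antisymm h0 (Zh_le hR hne)
      rw [this] at hx
      exact hx
    obtain ⟨y, hy, hyZ⟩ := SetLike.not_le_iff_exists.mp h0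
    have htwo : (2 : ZMod p) = 0 := by
      have : ((2 : ℕ) : ZMod p) = 0 := by rw [ZMod.natCast_eq_zero_iff, hp2]
      exact_mod_cast this
    have hsq : ∀ u : Heis p, u.b ≠ 0 → u.r ≠ 0 → u ^ 2 = ⟨0, 0, u.b * u.r⟩ := by
      intro u _ _
      rw [pow_two]
      ext
      · simp
        linear_combination u.b * htwo
      · simp
        linear_combination u.r * htwo
      · simp
        linear_combination u.c * htwo
    have hunit : ∀ c : ZMod p, c ≠ 0 → c = 1 := by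
      intro c hc
      have h1 := ZMod.val_lt c
      have h2 : c.val ≠ 0 := by rwa [Ne, ZMod.val_eq_zero]
      have h3 : c.val = 1 := by omega
      rw [← ZMod.natCast_zmod_val c, h3]
      simp
    have hc1 : (⟨0, 0, 1⟩ : Heis p) ∈ Zh p := ⟨rfl, rfl⟩
    -- `x` centralizes the image of the generator
    obtain ⟨hb, hr⟩ := hNo y hy hyZ
    have hy2 : y ^ 2 = ⟨0, 0, 1⟩ := by
      rw [hsq y hb hr, hunit _ hb, hunit _ hr, one_mul]
    obtain ⟨y', hy', hyy'⟩ := (mem_normalizer_iff.mp hx _).mp (⟨y, hy, rfl⟩ : ι y ∈ R.map ι)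
    have hz1 : (⟨0, 0, 1⟩ : Heis p) ≠ 1 := by
      intro e
      have := congrArg Heis.c e
      exact one_ne_zero this
    have hy'2 : ι (y' ^ 2) = x * ι (⟨0, 0, 1⟩ : Heis p) * x⁻¹ := by
      rw [← hy2, map_pow, map_pow, hyy']
      exact conj_pow
    have hy'Z : y' ∉ Zh p := by
      rintro ⟨h3, h4⟩
      have h5 : y' ^ 2 = 1 := by
        rw [pow_two]
        ext
        · simp [h3]
        · simp [h4]
        · simp [h3]
          linear_combination y'.c * htwo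
      rw [h5, map_one] at hy'2
      have h6 : ι (⟨0, 0, 1⟩ : Heis p) = 1 := by
        have h7 : x⁻¹ * (x * ι (⟨0, 0, 1⟩ : Heis p) * x⁻¹) * x = ι (⟨0, 0, 1⟩ : Heis p) := by group
        rw [← h7, ← hy'2]
        group
      exact hz1 (ι_injective (h6.trans (map_one _).symm))
    obtain ⟨hb', hr'⟩ := hNo y' hy' hy'Z
    have hy'2' : y' ^ 2 = ⟨0, 0, 1⟩ := by
      rw [hsq y' hb' hr', hunit _ hb', hunit _ hr', one_mul]
    rw [hy'2'] at hy'2
    apply Cfsg.Agent.Lib.Coprime.mem_normalizer_of_conj_le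
    rintro _ ⟨u, ⟨h3, h4⟩, rfl⟩
    have h5 : u = (⟨0, 0, 1⟩ : Heis p) ^ (u.c).val := by
      rw [pow_Z, ZMod.natCast_zmod_val, mul_one]
      exact Heis.ext h3 h4 rfl
    refine ⟨u, ⟨h3, h4⟩, ?_⟩
    have h6 : ι u = ι (⟨0, 0, 1⟩ : Heis p) ^ (u.c).val := by
      conv_lhs => rw [h5, map_pow]
    rw [h6]
    conv_rhs => rw [← conj_pow, ← hy'2]

/-- The central generator and a non-central conjugate. -/
noncomputable def z₀ : Heis p := ⟨0, 0, 1⟩

end Heis

open Heis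

/-- The cardinality of `Qd(p)`. -/
theorem card_qd : Nat.card (Cfsg.qd p) = Nat.card (SL2 (ZMod p)) * p ^ 2 := by
  classical
  let φ : SL2 (ZMod p) × (Fin 2 → ZMod p) → Cfsg.qd p := fun x => qdEl x.1 x.2
  have hφ : Function.Bijective φ := by
    constructor
    · rintro ⟨A, u⟩ ⟨B, v⟩ h
      obtain ⟨h1, h2⟩ := qdEl_inj h
      exact Prod.ext h1 h2
    · intro M
      obtain ⟨A, u, rfl⟩ := qdEl_surj M
      exact ⟨(A, u), rfl⟩
  rw [← Nat.card_congr (Equiv.ofBijective φ hφ), Nat.card_prod, Nat.card_fun, Nat.card_zmod]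
  simp

/-- The unitriangular group is a Sylow subgroup. -/
theorem index_range_ι : ¬ p ∣ (Heis.ι (p := p)).range.index := by
  classical
  have hpp : p.Prime := Fact.out
  have h1 := Subgroup.card_mul_index (Heis.ι (p := p)).range
  have h2 : Nat.card (Heis.ι (p := p)).range = p ^ 3 := by
    rw [← Nat.card_congr (MonoidHom.ofInjective Heis.ι_injective).toEquiv, Heis.card_eq]
  rw [h2, card_qd, card_sl2, ZMod.card] at h1
  have hp2 : 1 ≤ p ^ 2 := Nat.one_le_pow _ _ hpp.pos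
  have h3 : (Heis.ι (p := p)).range.index = p ^ 2 - 1 := by
    have hp3 : 0 < p ^ 3 := pow_pos hpp.pos 3
    apply Nat.eq_of_mul_eq_mul_left hp3
    rw [h1]
    ring
  rw [h3]
  intro h4
  have h5 : p ∣ p ^ 2 := dvd_pow_self p (by norm_num)
  have h6 : p ∣ 1 := by
    have := (Nat.dvd_sub h5 h4)
    rwa [Nat.sub_sub_self hp2] at this
  exact hpp.one_lt.ne' (Nat.dvd_one.mp h6)

/-- Data for the failure of control of fusion in groups isomorphic to `Qd(p)`. -/
theorem qd_fusion_data {X : Type u} [Group X] [Finite X] (e : X ≃* Cfsg.qd p) (T : Subgroup X)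
    (hTp : IsPGroup p T) (hTi : ¬ p ∣ T.index) :
    ∃ (Zc : Subgroup X) (z h : X), z ∈ Zc ∧ h * z * h⁻¹ ∉ Zc ∧
      (∀ T' : Subgroup X, IsPGroup p T' → ¬ p ∣ T'.index → z ∈ T' ∧ h * z * h⁻¹ ∈ T') ∧
      ∀ W : ∀ (Q : Type u) [Group Q], Subgroup Q, IsCharPFunctor.{u} p W →
        z ∈ inducedFunctor (G := X) W T ∧
          normalizer ((inducedFunctor (G := X) W T : Subgroup X) : Set X) ≤ normalizer (Zc : Set X) := by
  classical
  -- normalize `T`
  obtain ⟨ψ, hψ⟩ : ∃ ψ : X ≃* Cfsg.qd p, T.map ψ.toMonoidHom = (Heis.ι (p := p)).range := by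
    let T₁ : Subgroup (Cfsg.qd p) := T.map e.toMonoidHom
    have hT₁p : IsPGroup p T₁ := hTp.map _
    have hT₁i : ¬ p ∣ T₁.index := by
      have : T₁.index = T.index := Subgroup.index_map_equiv T e
      rwa [this]
    have hT₀p : IsPGroup p (Heis.ι (p := p)).range :=
      IsPGroup.of_surjective (Heis.isPGroup (p := p)) (Heis.ι (p := p)).rangeRestrict
        (Heis.ι (p := p)).rangeRestrict_surjective
    let S₁ : Sylow p (Cfsg.qd p) := hT₁p.toSylow hT₁i
    let S₀ : Sylow p (Cfsg.qd p) := hT₀p.toSylow index_range_ι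
    obtain ⟨g, hg⟩ := MulAction.exists_smul_eq (Cfsg.qd p) S₁ S₀
    refine ⟨e.trans (MulAut.conj g), ?_⟩
    have h1 : ((g • S₁ : Sylow p (Cfsg.qd p)) : Subgroup (Cfsg.qd p)) = (Heis.ι (p := p)).range := by
      rw [hg]
      rfl
    rw [Sylow.coe_subgroup_smul] at h1
    rw [← h1]
    show T.map _ = (T.map e.toMonoidHom).map (MulAut.conj g).toMonoidHom
    rw [Subgroup.map_map]
    rfl
  -- the identification of `T`
  let θ₁ : T ≃* (Heis.ι (p := p)).range := (ψ.subgroupMap T).trans (MulEquiv.subgroupCongr hψ)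
  let θ : T ≃* Heis p := θ₁.trans (MonoidHom.ofInjective Heis.ι_injective).symm
  have hθ : ∀ y : T, Heis.ι (θ y) = ψ (y : X) := by
    intro y
    show Heis.ι ((MonoidHom.ofInjective Heis.ι_injective).symm (θ₁ y)) = ψ (y : X)
    rw [MonoidHom.apply_ofInjective_symm]
    rfl
  let zH : Heis p := ⟨0, 0, 1⟩
  have hzH1 : zH ≠ 1 := by
    intro e
    have := congrArg Heis.c e
    exact one_ne_zero this
  haveI : Nontrivial (Heis p) := ⟨⟨zH, 1, hzH1⟩⟩
  haveI hTnt : Nontrivial T := θ.toEquiv.nontrivial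
  let Z₀ : Subgroup (Cfsg.qd p) := (Zh p).map Heis.ι
  let Zc : Subgroup X := Z₀.map ψ.symm.toMonoidHom
  have hZc : ∀ y : X, y ∈ Zc ↔ ψ y ∈ Z₀ := by
    intro y
    constructor
    · rintro ⟨a, ha, rfl⟩
      have : ψ (ψ.symm a) = a := ψ.apply_symm_apply a
      show ψ (ψ.symm a) ∈ Z₀
      rwa [this]
    · intro hy
      exact ⟨ψ y, hy, ψ.symm_apply_apply y⟩
  let e₁ : QVec p := Multiplicative.ofAdd ![1, 0]
  have hz₀ : Heis.ι zH = qdT e₁ := by
    show qdEl (sl2U (0 : ZMod p)) ![(1 : ZMod p), 0] = qdEl 1 ![(1 : ZMod p), 0]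
    rw [sl2U_zero]
  let z : X := ψ.symm (Heis.ι zH)
  let h₀ : Cfsg.qd p := qdB (sl2W (F := ZMod p))
  let h : X := ψ.symm h₀
  let e₂ : QVec p := Multiplicative.ofAdd ![0, -1]
  have hnat : natAct (sl2W (F := ZMod p)) e₁ = e₂ := by
    rw [natAct_apply]
    congr 1
    funext i
    fin_cases i <;> simp [e₁, sl2W, Matrix.mulVec, dotProduct, Fin.sum_univ_two, sl2Mk]
  have hcon₀ : h₀ * Heis.ι zH * h₀⁻¹ = Heis.ι (⟨0, -1, 0⟩ : Heis p) := by
    rw [hz₀, qdB_conj, hnat, mul_inv_cancel_right]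
    show qdEl 1 ![(0 : ZMod p), -1] = qdEl (sl2U (0 : ZMod p)) ![(0 : ZMod p), -1]
    rw [sl2U_zero]
  have hcon : ψ (h * z * h⁻¹) = Heis.ι (⟨0, -1, 0⟩ : Heis p) := by
    rw [← hcon₀, map_mul, map_mul, map_inv]
    simp only [h, z, MulEquiv.apply_symm_apply]
  have hzc : z ∈ Zc := (hZc z).2 (by
    show ψ (ψ.symm (Heis.ι zH)) ∈ Z₀
    rw [MulEquiv.apply_symm_apply]
    exact ⟨zH, ⟨rfl, rfl⟩, rfl⟩)
  have hnot : h * z * h⁻¹ ∉ Zc := by
    rw [hZc, hcon]
    rintro ⟨y, hy, hye⟩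
    have h1 := Heis.ι_injective hye
    have h2 : y.r = 0 := hy.2
    rw [h1] at h2
    exact (neg_ne_zero.mpr one_ne_zero) h2
  refine ⟨Zc, z, h, hzc, hnot, ?_, ?_⟩
  · intro T' hT'p hT'i
    haveI hV₀ : (qdT (p := p)).range.Normal := qdT_range_normal
    let V : Subgroup X := (qdT (p := p)).range.map ψ.symm.toMonoidHom
    haveI hVn : V.Normal := hV₀.map _ ψ.symm.surjective
    have hVp : IsPGroup p V := qdT_range_isPGroup.map _
    have hVT : V ≤ T' := by
      obtain ⟨S, hS⟩ : ∃ S : Sylow p X, (S : Subgroup X) = T' := ⟨hT'p.toSylow hT'i, rfl⟩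
      rw [← hS]
      exact (Cfsg.Agent.Lib.Basic.le_pCore hVn hVp).trans (Cfsg.Agent.Lib.Basic.pCore_le_sylow S)
    have hzV : z ∈ V := ⟨qdT e₁, ⟨e₁, rfl⟩, by
      show ψ.symm (qdT e₁) = ψ.symm (Heis.ι zH)
      rw [hz₀]⟩
    exact ⟨hVT hzV, hVT (hVn.conj_mem z hzV h)⟩
  · intro W hW
    let R₀ : Subgroup (Heis p) := (W ↥T).map θ.toMonoidHom
    have hWne : W ↥T ≠ ⊥ := hW.1 ↥T hTp hTnt
    have hR₀ne : R₀ ≠ ⊥ := by
      intro h1
      apply hWne
      exact (Subgroup.map_eq_bot_iff_of_injective _ θ.injective).mp h1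
    have hinv : ∀ φ : Heis p ≃* Heis p, ∀ y ∈ R₀, φ y ∈ R₀ := by
      rintro φ _ ⟨y₀, hy₀, rfl⟩
      let φ' : T ≃* T := θ.trans (φ.trans θ.symm)
      have h1 : (W ↥T).map φ'.toMonoidHom = W ↥T := hW.2 ↥T ↥T hTp φ'
      have h2 : φ' y₀ ∈ W ↥T := by
        rw [← h1]
        exact ⟨y₀, hy₀, rfl⟩
      refine ⟨φ' y₀, h2, ?_⟩
      show θ (θ.symm (φ (θ y₀))) = φ (θ y₀)
      rw [MulEquiv.apply_symm_apply]
    have hU : ∀ y : X, y ∈ inducedFunctor (G := X) W T ↔ ψ y ∈ R₀.map Heis.ι := by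
      intro y
      constructor
      · rintro ⟨t, ht, rfl⟩
        exact ⟨θ t, ⟨t, ht, rfl⟩, hθ t⟩
      · rintro ⟨_, ⟨t, ht, rfl⟩, hy⟩
        have h1 : ψ (t : X) = ψ y := by
          rw [← hθ]
          exact hy
        have h2 : (t : X) = y := ψ.injective h1
        exact ⟨t, ht, h2⟩
    refine ⟨?_, ?_⟩
    · rw [hU]
      show ψ (ψ.symm (Heis.ι zH)) ∈ _
      rw [MulEquiv.apply_symm_apply]
      exact ⟨zH, Heis.Z_mem hinv hR₀ne 1, rfl⟩
    · intro x hx
      have h1 : ψ x ∈ normalizer ((R₀.map Heis.ι : Subgroup (Cfsg.qd p)) : Set (Cfsg.qd p)) := by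
        rw [mem_normalizer_iff]
        intro a
        have h2 := mem_normalizer_iff.mp hx (ψ.symm a)
        rw [hU, hU, MulEquiv.apply_symm_apply, map_mul, map_mul, map_inv, MulEquiv.apply_symm_apply] at h2
        exact h2
      have h3 := Heis.normalizer_le_of_char hinv hR₀ne h1
      rw [mem_normalizer_iff]
      intro a
      rw [hZc, hZc, map_mul, map_mul, map_inv]
      exact mem_normalizer_iff.mp h3 (ψ a)

/-- `Qd(p)` does not have control of fusion by any family of characteristic functors. -/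
theorem qd_not_familyControls {X : Type u} [Group X] [Finite X] (e : X ≃* Cfsg.qd p)
    {𝓦 : Set (∀ (Q : Type u) [Group Q], Subgroup Q)} (h𝓦 : ∀ W ∈ 𝓦, IsCharPFunctor.{u} p W)
    (h : FamilyControlsStrongFusionIn p ((fun W => inducedFunctor (G := X) W) '' 𝓦) (⊤ : Subgroup X)) : False := by
  classical
  obtain ⟨T, -, hTp, hTi, hc⟩ := h
  rw [Subgroup.relIndex_top_right] at hTi
  obtain ⟨Zc, z, g, hz, hg, hT', hW⟩ := qd_fusion_data e T hTp hTi
  obtain ⟨h1, h2⟩ := hT' T hTp hTi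
  obtain ⟨n, c, hc0, hstep, -, hlast⟩ := hc {z} g trivial (by
    rintro _ rfl
    exact h1) (by
    rintro _ ⟨_, rfl, rfl⟩
    exact h2)
  have hall : ∀ i : Fin (n + 1), c i ∈ normalizer (Zc : Set X) := by
    intro i
    induction i using Fin.induction with
    | zero => rw [hc0]; exact one_mem _
    | succ i ih =>
      obtain ⟨_, ⟨W, hW₀, rfl⟩, hd⟩ := hstep i
      have h3 := (hW W (h𝓦 W hW₀)).2 hd.2
      have h4 : c i.succ = (c i.succ * (c i.castSucc)⁻¹) * c i.castSucc := by group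
      rw [h4]
      exact mul_mem h3 ih
  have h5 := hlast z rfl
  apply hg
  rw [← h5]
  exact (mem_normalizer_iff.mp (hall _) z).mp hz

/-- `Qd(p)` does not have control of fusion by a single functor. -/
theorem qd_not_controls {X : Type u} [Group X] [Finite X] (e : X ≃* Cfsg.qd p)
    {W : ∀ (Q : Type u) [Group Q], Subgroup Q} (hW : IsCharPFunctor.{u} p W) (T : Sylow p X)
    (h : ControlsStrongFusion p (inducedFunctor (G := X) W (T : Subgroup X))) : False := by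
  classical
  obtain ⟨T', hle, hc⟩ := h
  obtain ⟨Zc, z, g, hz, hg, hT', hW'⟩ := qd_fusion_data e (T : Subgroup X) T.isPGroup' T.not_dvd_index
  obtain ⟨h1, h2⟩ := hW' W hW
  obtain ⟨-, h3⟩ := hc {z} (by
    rintro _ rfl
    exact hle h1)
  obtain ⟨x, hx, hxe⟩ := h3 g (by
    rintro _ ⟨_, rfl, rfl⟩
    exact (hT' T' T'.isPGroup' T'.not_dvd_index).2)
  apply hg
  rw [hxe z rfl]
  exact (mem_normalizer_iff.mp (h2 hx) z).mp hz

end Cfsg.Agent.Lib.Tech
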