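import Mathlib
import Cfsg.Prelude.Def_LocalEven
import Cfsg.Agent.Lib.PLocal.QuadThm
import Cfsg.Agent.Lib.PLocal.QuadDickson
import Cfsg.Agent.Lib.Fusion.QdBasic

/-!
# Normalizer `p`-stability from the absence of `SL₂(p)` sections in local subgroups.
-/

set_option autoImplicit false
set_option linter.unusedSectionVars false
set_option linter.style.haveILetI false

namespace Cfsg.Agent.Lib.Tech

open Cfsg Subgroup Cfsg.Agent.Lib.PLocal
open scoped commutatorElement

universe u v

variable {p : ℕ} [Fact p.Prime]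

/-- A `p`-subgroup of a quotient has a `p`-subgroup above it whose normalizer covers the normalizer. -/
theorem exists_lift_normalizer {K : Type u} {Y : Type v} [Group K] [Finite K] [Group Y] (φ : K →* Y)
    (hφ : Function.Surjective φ) (Q : Subgroup Y) (hQ : IsPGroup p Q) :
    ∃ Q₀ : Subgroup K, IsPGroup p Q₀ ∧ Q₀.map φ = Q ∧
      ∀ y ∈ normalizer (Q : Set Y), ∃ m ∈ normalizer (Q₀ : Set K), φ m = y := by
  classical
  let M : Subgroup K := (normalizer (Q : Set Y)).comap φ
  let L : Subgroup M := (Q.comap φ).subgroupOf M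
  haveI hLn : L.Normal := by
    constructor
    intro n hn g
    have hg : φ (g : K) ∈ normalizer (Q : Set Y) := g.2
    rw [Subgroup.mem_subgroupOf, Subgroup.mem_comap] at hn ⊢
    simp only [Subgroup.coe_mul, InvMemClass.coe_inv, map_mul, map_inv]
    exact (mem_normalizer_iff.mp hg _).mp hn
  obtain ⟨S₀⟩ : Nonempty (Sylow p L) := inferInstance
  let Sm : Subgroup M := (S₀ : Subgroup L).map L.subtype
  let Q₀ : Subgroup K := Sm.map M.subtype
  let ψ : L →* Q := (φ.comp (M.subtype.comp L.subtype)).codRestrict Q (fun x => by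
    have := x.2
    rw [Subgroup.mem_subgroupOf, Subgroup.mem_comap] at this
    exact this)
  have hψ : Function.Surjective ψ := by
    rintro ⟨y, hy⟩
    obtain ⟨x, rfl⟩ := hφ y
    have hxM : x ∈ M := by
      show φ x ∈ normalizer (Q : Set Y)
      exact Subgroup.le_normalizer hy
    refine ⟨⟨⟨x, hxM⟩, ?_⟩, rfl⟩
    rw [Subgroup.mem_subgroupOf, Subgroup.mem_comap]
    exact hy
  haveI : Finite L := inferInstance
  haveI : Finite Q := by
    have : Function.Surjective ψ := hψ
    exact Finite.of_surjective ψ this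
  have htop : ((S₀ : Subgroup L).map ψ) = ⊤ := by
    have h1 := (Sylow.mapSurjective hψ S₀ : Sylow p Q)
    have h2 : ((Sylow.mapSurjective hψ S₀ : Sylow p Q) : Subgroup Q) = ⊤ := by
      have h3 : IsPGroup p (⊤ : Subgroup Q) := fun x => by
        obtain ⟨k, hk⟩ := hQ (x : Q)
        exact ⟨k, Subtype.ext hk⟩
      exact ((Sylow.mapSurjective hψ S₀).is_maximal' h3 le_top).symm
    simpa using h2
  have hmem : ∀ l : L, φ ((l : M) : K) ∈ Q ↔ True := by
    intro l
    have := l.2
    rw [Subgroup.mem_subgroupOf, Subgroup.mem_comap] at this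
    simp [this]
  have hmap : Q₀.map φ = Q := by
    ext y
    constructor
    · rintro ⟨_, ⟨_, ⟨l, _, rfl⟩, rfl⟩, rfl⟩
      exact (hmem l).mpr trivial
    · intro hy
      have h4 : (⟨y, hy⟩ : Q) ∈ (S₀ : Subgroup L).map ψ := by rw [htop]; trivial
      obtain ⟨l, hl, hle⟩ := h4
      refine ⟨((l : M) : K), ⟨_, ⟨l, hl, rfl⟩, rfl⟩, ?_⟩
      exact congrArg Subtype.val hle
  refine ⟨Q₀, ?_, hmap, ?_⟩
  · exact (S₀.isPGroup'.map L.subtype).map M.subtype
  · intro y hy
    obtain ⟨m₀, rfl⟩ := hφ y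
    have hm₀ : m₀ ∈ M := hy
    have htopM : normalizer (Sm : Set M) ⊔ L = ⊤ := Sylow.normalizer_sup_eq_top S₀
    have hm₁ : (⟨m₀, hm₀⟩ : M) ∈ normalizer (Sm : Set M) ⊔ L := by rw [htopM]; trivial
    obtain ⟨n, hn, l, hl, hnl⟩ := Subgroup.mem_sup_of_normal_right.mp hm₁
    have hnK : (n : K) ∈ normalizer (Q₀ : Set K) := by
      rw [mem_normalizer_iff]
      intro a
      have hn' := mem_normalizer_iff.mp hn
      constructor
      · rintro ⟨b, hb, rfl⟩
        refine ⟨n * b * n⁻¹, (hn' b).mp hb, ?_⟩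
        simp
      · rintro ⟨b, hb, hb'⟩
        have hbM : (n⁻¹ * b * n) ∈ Sm := by
          have := (hn' (n⁻¹ * b * n)).mpr
          simpa [mul_assoc] using (hn' (n⁻¹ * b * n)).mpr (by simpa [mul_assoc] using hb)
        refine ⟨_, hbM, ?_⟩
        simp only [Subgroup.subtype_apply, Subgroup.coe_mul, InvMemClass.coe_inv]
        have : (b : K) = (n : K) * a * (n : K)⁻¹ := hb'
        rw [this]
        group
    have hφl : φ (l : K) ∈ Q := by
      have := hl
      rw [Subgroup.mem_subgroupOf, Subgroup.mem_comap] at this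
      exact this
    rw [← hmap] at hφl
    obtain ⟨q, hq, hqe⟩ := hφl
    refine ⟨(n : K) * q, mul_mem hnK (Subgroup.le_normalizer hq), ?_⟩
    have h5 : m₀ = (n : K) * (l : K) := by
      have := congrArg Subtype.val hnl
      simpa using this.symm
    rw [h5, map_mul, map_mul, hqe]

/-- `SL₂(p)`-sections in the language of involvement. -/
theorem involves_of_hasSL2p {X : Type u} [Group X] (h : HasSL2p p X) :
    Involves (Matrix.SpecialLinearGroup (Fin 2) (ZMod p)) X := by
  obtain ⟨K, f, hf⟩ := h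
  let L : Subgroup X := f.ker.map K.subtype
  have hLe : L.subgroupOf K = f.ker := by
    rw [Subgroup.subgroupOf]
    exact Subgroup.comap_map_eq_self_of_injective K.subtype_injective _
  have hLn : (L.subgroupOf K).Normal := by
    rw [hLe]
    infer_instance
  exact ⟨K, L, hLn, ⟨(QuotientGroup.quotientMulEquivOfEq hLe).trans
    (QuotientGroup.quotientKerEquivOfSurjective f hf)⟩⟩

theorem hasSL2p_of_injective {X Y : Type*} [Group X] [Group Y] (φ : X →* Y) (hφ : Function.Injective φ)
    (h : HasSL2p p X) : HasSL2p p Y := by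
  obtain ⟨K, f, hf⟩ := h
  exact ⟨K.map φ, f.comp (K.equivMapOfInjective φ hφ).symm.toMonoidHom, hf.comp (MulEquiv.surjective _)⟩

theorem mem_pCore_quotient_of_eq {N : Type*} [Group N] {C D : Subgroup N} [C.Normal] [D.Normal] (h : C = D)
    (a : N) (ha : (QuotientGroup.mk a : N ⧸ D) ∈ pCore p (N ⧸ D)) :
    (QuotientGroup.mk a : N ⧸ C) ∈ pCore p (N ⧸ C) := by
  subst h
  exact ha

/-- The `p`-stability of a group at a `p`-subgroup whose normalizer has no `SL₂(p)` section. -/
theorem normalizerPStable_of_noSL2p (hp : p ≠ 2) {Y : Type u} [Group Y] [Finite Y] (P : Subgroup Y)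
    (hP : IsPGroup p P) (hNo : NoSL2p p ↥(normalizer (P : Set Y))) (g : Y)
    (hg : g ∈ normalizer (P : Set Y)) (hq : ⁅⁅P, zpowers g⁆, zpowers g⁆ = ⊥) :
    (QuotientGroup.mk (s := (centralizer (P : Set Y)).subgroupOf (normalizer (P : Set Y)))
      (⟨g, hg⟩ : ↥(normalizer (P : Set Y)))) ∈
      pCore p (↥(normalizer (P : Set Y)) ⧸ (centralizer (P : Set Y)).subgroupOf (normalizer (P : Set Y))) := by
  classical
  set N : Subgroup Y := normalizer (P : Set Y) with hN
  haveI hVn : (P.subgroupOf N).Normal := Subgroup.normal_subgroupOf_of_le_normalizer le_rfl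
  have hVp : IsPGroup p (P.subgroupOf N) := hP.comap_subtype (K := N)
  have hC : (centralizer (P : Set Y)).subgroupOf N = centralizer ((P.subgroupOf N : Subgroup N) : Set N) := by
    ext x
    rw [Subgroup.mem_subgroupOf, Subgroup.mem_centralizer_iff, Subgroup.mem_centralizer_iff]
    constructor
    · intro h w hw
      exact Subtype.ext (h w hw)
    · intro h w hw
      have hwN : w ∈ N := Subgroup.le_normalizer hw
      exact congrArg Subtype.val (h ⟨w, hwN⟩ hw)
  have hq' : ⁅⁅P.subgroupOf N, zpowers (⟨g, hg⟩ : N)⁆, zpowers (⟨g, hg⟩ : N)⁆ = ⊥ := by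
    apply Subgroup.map_injective N.subtype_injective
    rw [Subgroup.map_commutator, Subgroup.map_commutator, Subgroup.map_bot, MonoidHom.map_zpowers,
      Subgroup.subgroupOf_map_subtype, inf_eq_left.mpr (Subgroup.le_normalizer : P ≤ N)]
    exact hq
  have h1 := isPStableOn_of_class (noSL2pClass hp) hNo (P.subgroupOf N) hVp ⟨g, hg⟩ hq'
  exact mem_pCore_quotient_of_eq hC _ h1

/-- The normalizers in a section have no `SL₂(p)` section when the `p`-locals have none. -/
theorem noSL2p_normalizer_of_local {G : Type u} [Group G] [Finite G]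
    (h : ∀ P : Subgroup G, IsPGroup p ↥P → P ≠ ⊥ →
      ¬ Involves (Matrix.SpecialLinearGroup (Fin 2) (ZMod p)) ↥(normalizer ((P : Subgroup G) : Set G)))
    (K R : Subgroup G) [hR : (R.subgroupOf K).Normal] (Q : Subgroup (↥K ⧸ R.subgroupOf K))
    (hQ : IsPGroup p Q) (hQ1 : Q ≠ ⊥) : NoSL2p p ↥(normalizer (Q : Set (↥K ⧸ R.subgroupOf K))) := by
  classical
  intro hS
  let φ : K →* (↥K ⧸ R.subgroupOf K) := QuotientGroup.mk' _
  have hφ : Function.Surjective φ := QuotientGroup.mk'_surjective _
  obtain ⟨Q₀, hQ₀, hmap, hlift⟩ := exists_lift_normalizer φ hφ Q hQ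
  let K₁ : Subgroup K := normalizer (Q₀ : Set K) ⊓ (normalizer (Q : Set (↥K ⧸ R.subgroupOf K))).comap φ
  let f : K₁ →* normalizer (Q : Set (↥K ⧸ R.subgroupOf K)) :=
    (φ.comp K₁.subtype).codRestrict _ (fun x => x.2.2)
  have hf : Function.Surjective f := by
    rintro ⟨y, hy⟩
    obtain ⟨m, hm, rfl⟩ := hlift y hy
    exact ⟨⟨m, hm, hy⟩, rfl⟩
  have h1 : HasSL2p p K₁ := hS.of_surj f hf
  let P : Subgroup G := Q₀.map K.subtype
  have hPp : IsPGroup p P := hQ₀.map _
  have hP1 : P ≠ ⊥ := by
    intro e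
    apply hQ1
    have h2 : Q₀ = ⊥ := by
      rwa [Subgroup.map_eq_bot_iff_of_injective _ K.subtype_injective] at e
    rw [← hmap, h2, Subgroup.map_bot]
  let ι : K₁ →* normalizer (P : Set G) :=
    (K.subtype.comp K₁.subtype).codRestrict _ (fun x => by
      have h3 : (x : K) ∈ normalizer (Q₀ : Set K) := x.2.1
      exact Subgroup.le_normalizer_map K.subtype ⟨_, h3, rfl⟩)
  have hι : Function.Injective ι := by
    intro a b hab
    have := congrArg Subtype.val hab
    exact Subtype.ext (Subtype.ext this)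
  exact h P hPp hP1 (involves_of_hasSL2p (hasSL2p_of_injective ι hι h1))

end Cfsg.Agent.Lib.Tech
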