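import Mathlib
import Cfsg.Agent.Lib.Tech.SmallExp

/-!
# `p'`-automorphisms of a `p`-group fixing all elements of order `p` (dividing `4` for `p = 2`) are trivial
-/

set_option autoImplicit false

namespace Cfsg.Agent.Lib.Tech

open Cfsg Subgroup
open scoped commutatorElement

variable {p : ℕ} [Fact p.Prime]

/-- A `p'`-automorphism of a `p`-group `X` which acts nontrivially acts nontrivially on some element of small order,
in a strong form: there is a nontrivial subgroup `D` of small exponent with `D` generated by elements `d⁻¹ ψ^n d`. -/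
theorem aut_eq_one_of_fixes_small {X : Type*} [Group X] [Finite X] (hX : IsPGroup p X) (ψ : MulAut X)
    (hψ : (orderOf ψ).Coprime p) (hfix : ∀ a : X, (a ^ p = 1 ∨ (p = 2 ∧ a ^ 4 = 1)) → ψ a = a) : ψ = 1 := by
  classical
  by_contra hne
  let φ : MulAut X →* MulAut X := MonoidHom.id _
  let G := X ⋊[φ] MulAut X
  haveI : Finite G := Finite.of_equiv _ (SemidirectProduct.equivProd (N := X) (G := MulAut X) (φ := φ)).symm
  let R : Subgroup G := (SemidirectProduct.inl : X →* G).range
  have hRker : R = (SemidirectProduct.rightHom : G →* MulAut X).ker := SemidirectProduct.range_inl_eq_ker_rightHom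
  haveI hRn : R.Normal := by
    rw [hRker]
    infer_instance
  have hRp : IsPGroup p R := by
    rintro ⟨_, v, rfl⟩
    obtain ⟨k, hk⟩ := hX v
    refine ⟨k, ?_⟩
    apply Subtype.ext
    change (SemidirectProduct.inl v : G) ^ p ^ k = 1
    rw [← map_pow, hk, map_one]
  let y : G := SemidirectProduct.inr ψ
  have hyord : (orderOf y).Coprime p := by
    have h1 : orderOf y = orderOf ψ := orderOf_injective _ SemidirectProduct.inr_injective ψ
    rw [h1]
    exact hψ
  have hconj : ∀ v : X, y * SemidirectProduct.inl v * y⁻¹ = (SemidirectProduct.inl (ψ v) : G) := by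
    intro v
    have h1 := SemidirectProduct.inl_aut (φ := φ) ψ v
    have h2 : y⁻¹ = SemidirectProduct.inr ψ⁻¹ := (map_inv (SemidirectProduct.inr : MulAut X →* G) ψ).symm
    rw [h2]
    exact h1.symm
  have hyR : y ∈ normalizer (R : Set G) := by
    rw [Subgroup.normalizer_eq_top R]
    exact Subgroup.mem_top y
  have hne' : ¬ ∀ r ∈ R, y * r = r * y := by
    intro hall
    apply hne
    ext v
    have h1 := hall _ (⟨v, rfl⟩ : (SemidirectProduct.inl v : G) ∈ R)
    have h2 := hconj v
    rw [h1, mul_inv_cancel_right] at h2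
    have h3 := SemidirectProduct.inl_injective h2
    exact h3.symm
  obtain ⟨D, hDR, hDb, hyD, hDD, hsmall⟩ := exists_small_invariant hRp hyord hyR hne'
  have hcen : ∀ a ∈ D, y * a = a * y := by
    intro a ha
    obtain ⟨v, rfl⟩ := hDR ha
    have h1 : (SemidirectProduct.inl v : G) ^ p = 1 ∨ (p = 2 ∧ (SemidirectProduct.inl v : G) ^ 4 = 1) := hsmall _ ha
    have h2 : v ^ p = 1 ∨ (p = 2 ∧ v ^ 4 = 1) := by
      rcases h1 with h1 | ⟨h0, h1⟩
      · left
        exact SemidirectProduct.inl_injective (φ := φ) (by rw [map_pow, h1, map_one])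
      · right
        refine ⟨h0, ?_⟩
        exact SemidirectProduct.inl_injective (φ := φ) (by rw [map_pow, h1, map_one])
    have h3 := hfix v h2
    have h4 := hconj v
    rw [h3, mul_inv_eq_iff_eq_mul] at h4
    exact h4
  apply hDb
  rw [← hDD, eq_bot_iff, Subgroup.commutator_le]
  intro a ha z hz
  obtain ⟨n, rfl⟩ := Subgroup.mem_zpowers_iff.1 hz
  rw [Subgroup.mem_bot, commutatorElement_eq_one_iff_mul_comm]
  exact (((show Commute y a from hcen a ha).zpow_left n).eq).symm

end Cfsg.Agent.Lib.Tech
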