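import Cfsg.Prelude.Def_Transfer
import Mathlib

/-!
# A chain form of the Thompson transfer lemma, via signs of coset actions
-/

set_option autoImplicit false
set_option linter.unusedSectionVars false
set_option linter.style.haveILetI false

namespace Cfsg.Agent.Lib.Tech

open Cfsg Subgroup

/-- A permutation all of whose orbits have the same size `2^(n+1)`, with an odd number of orbits, is odd. -/
theorem sign_semiregular {X : Type*} [Fintype X] [DecidableEq X] (σ : Equiv.Perm X) (n m : ℕ)
    (h1 : σ ^ 2 ^ (n + 1) = 1) (hfp : ∀ x, (σ ^ 2 ^ n) x ≠ x) (hcard : Fintype.card X = 2 ^ (n + 1) * m)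
    (hm : Odd m) : Equiv.Perm.sign σ = -1 := by
  classical
  have hcyc : ∀ a ∈ σ.cycleType, a = 2 ^ (n + 1) := by
    intro a ha
    obtain ⟨c, τ, hστ, hdisj, hc, hca⟩ := Equiv.Perm.mem_cycleType_iff.mp ha
    obtain ⟨x, hx, -⟩ := id hc
    have hτx : τ x = x := (hdisj x).resolve_left hx
    have hτp : ∀ k : ℕ, (τ ^ k) x = x := by
      intro k
      induction k with
      | zero => simp
      | succ k ih => rw [pow_succ, Equiv.Perm.mul_apply, hτx, ih]
    have hσc : ∀ k : ℕ, (σ ^ k) x = (c ^ k) x := by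
      intro k
      rw [hστ, hdisj.commute.mul_pow, Equiv.Perm.mul_apply, hτp]
    have hordc : orderOf c = a := by rw [hc.orderOf, hca]
    have hd1 : a ∣ orderOf σ := Equiv.Perm.dvd_of_mem_cycleType ha
    have hd2 : orderOf σ ∣ 2 ^ (n + 1) := orderOf_dvd_of_pow_eq_one h1
    obtain ⟨j, hj, hja⟩ := (Nat.dvd_prime_pow Nat.prime_two).1 (hd1.trans hd2)
    by_cases hjn : j = n + 1
    · rw [hja, hjn]
    · exfalso
      have hjle : j ≤ n := by omega
      have hdv : a ∣ 2 ^ n := by
        rw [hja]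
        exact pow_dvd_pow 2 hjle
      have hc1 : c ^ 2 ^ n = 1 := by
        rw [← hordc] at hdv
        exact orderOf_dvd_iff_pow_eq_one.1 hdv
      apply hfp x
      rw [hσc, hc1]
      rfl
  have hrep : σ.cycleType = Multiset.replicate (Multiset.card σ.cycleType) (2 ^ (n + 1)) :=
    Multiset.eq_replicate_card.mpr hcyc
  have hsupp : σ.support = Finset.univ := by
    ext x
    simp only [Equiv.Perm.mem_support, Finset.mem_univ, iff_true]
    intro hx
    apply hfp x
    have hfix : ∀ k : ℕ, (σ ^ k) x = x := by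
      intro k
      induction k with
      | zero => simp
      | succ k ih => rw [pow_succ, Equiv.Perm.mul_apply, hx, ih]
    exact hfix _
  have hsum : σ.cycleType.sum = Multiset.card σ.cycleType * 2 ^ (n + 1) := by
    conv_lhs => rw [hrep]
    simp
  have hsum2 : σ.cycleType.sum = Fintype.card X := by
    rw [Equiv.Perm.sum_cycleType, hsupp, Finset.card_univ]
  have hk : Multiset.card σ.cycleType = m := by
    have h3 : Multiset.card σ.cycleType * 2 ^ (n + 1) = m * 2 ^ (n + 1) := by
      rw [← hsum, hsum2, hcard, mul_comm]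
    exact Nat.eq_of_mul_eq_mul_right (by positivity) h3
  rw [Equiv.Perm.sign_of_cycleType, hsum2, hk, hcard, pow_add, pow_mul]
  simp [pow_succ, hm.neg_one_pow]

variable {G : Type*} [Group G] [Finite G]

/-- The sign of the coset action of a subgroup `W` of `G` on the cosets of `T`. -/
noncomputable def cosetSign (W T : Subgroup G) : ↥W →* ℤˣ := by
  classical
  letI : Fintype (↥W ⧸ T.subgroupOf W) := Fintype.ofFinite _
  exact (Equiv.Perm.sign).comp (MulAction.toPermHom ↥W (↥W ⧸ T.subgroupOf W))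

theorem cosetSign_eq (W T : Subgroup G) {c : G} (hc : c ∈ W) (n m : ℕ) (h1 : c ^ 2 ^ (n + 1) = 1)
    (hfp : ∀ g ∈ W, g⁻¹ * c ^ 2 ^ n * g ∉ T) (hcard : (T.subgroupOf W).index = 2 ^ (n + 1) * m) (hm : Odd m) :
    cosetSign W T ⟨c, hc⟩ = -1 := by
  classical
  letI : Fintype (↥W ⧸ T.subgroupOf W) := Fintype.ofFinite _
  have h0 : cosetSign W T ⟨c, hc⟩ =
      Equiv.Perm.sign (MulAction.toPermHom ↥W (↥W ⧸ T.subgroupOf W) ⟨c, hc⟩) := by
    unfold cosetSign
    simp only [MonoidHom.comp_apply]
  rw [h0]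
  apply sign_semiregular _ n m
  · rw [← map_pow]
    have : (⟨c, hc⟩ : ↥W) ^ 2 ^ (n + 1) = 1 := Subtype.ext (by simpa using h1)
    rw [this, map_one]
  · intro x
    obtain ⟨g, rfl⟩ := QuotientGroup.mk_surjective x
    rw [← map_pow]
    intro h
    have h2 : (((⟨c, hc⟩ : ↥W) ^ 2 ^ n) • (g : ↥W ⧸ T.subgroupOf W)) = (g : ↥W ⧸ T.subgroupOf W) := h
    rw [MulAction.Quotient.smul_mk, QuotientGroup.eq] at h2
    apply hfp (g : G) g.2
    have h3 := Subgroup.mem_subgroupOf.1 h2
    have e : (((((⟨c, hc⟩ : ↥W) ^ 2 ^ n • g)⁻¹ * g : ↥W) : ↥W) : G) = ((g : G)⁻¹ * c ^ 2 ^ n * g)⁻¹ := by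
      simp [smul_eq_mul, mul_assoc]
    rw [e] at h3
    exact (Subgroup.inv_mem_iff T).1 h3
  · rw [← Nat.card_eq_fintype_card, ← hcard]
    rfl
  · exact hm

theorem cosetSign_odd (W T : Subgroup G) {x : ↥W} (hx : (orderOf x).Coprime 2) : cosetSign W T x = 1 := by
  have h1 : (cosetSign W T x) ^ orderOf x = 1 := by
    rw [← map_pow, pow_orderOf_eq_one, map_one]
  rcases Int.units_eq_one_or (cosetSign W T x) with h | h
  · exact h
  · exfalso
    rw [h] at h1
    have hodd : Odd (orderOf x) := Nat.Coprime.odd_of_right hx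
    rw [hodd.neg_one_pow] at h1
    exact absurd h1 (by decide)

/-- The kernel of a `ℤˣ`-valued hom on `W` as a subgroup of `G`. -/
theorem pResidual_le_ker {W : Subgroup G} (hKW : pResidual 2 G ≤ W) (φ : ↥W →* ℤˣ)
    (hφ : ∀ x : ↥W, (orderOf x).Coprime 2 → φ x = 1) :
    pResidual 2 G ≤ φ.ker.map W.subtype := by
  rw [pResidual, Subgroup.closure_le]
  intro g hg
  have hgW : g ∈ W := hKW (Subgroup.subset_closure hg)
  refine ⟨⟨g, hgW⟩, ?_, rfl⟩
  rw [SetLike.mem_coe, MonoidHom.mem_ker]
  apply hφ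
  rw [Subgroup.orderOf_mk]
  exact hg

theorem card_ker_of_neg {W : Subgroup G} (φ : ↥W →* ℤˣ) {y : ↥W} (hy : φ y = -1) :
    Nat.card ↥W = 2 * Nat.card (φ.ker.map W.subtype) := by
  have hr : φ.range = ⊤ := by
    rw [eq_top_iff]
    intro u _
    rcases Int.units_eq_one_or u with h | h
    · rw [h]
      exact one_mem _
    · rw [h]
      exact ⟨y, hy⟩
  have h1 : φ.ker.index = 2 := by
    rw [Subgroup.index_ker, hr, Subgroup.card_top]
    simp [Nat.card_eq_fintype_card]
  have h2 := Subgroup.index_mul_card φ.ker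
  rw [Subgroup.card_map_of_injective W.subtype_injective, ← h2, h1]

/-- The descending chain. -/
theorem descend_chain {T S : Subgroup G} (hTK : T ≤ pResidual 2 G) :
    ∀ (n : ℕ) (W : Subgroup G) (c : G) (r : ℕ), pResidual 2 G ≤ W → c ∈ W → orderOf c = 2 ^ n →
      (∀ g : G, ∀ k : ℕ, n = k + 1 → g * c ^ 2 ^ k * g⁻¹ ∉ T) → Odd r →
      Nat.card W = 2 ^ n * Nat.card T * r → (∀ x ∈ W ⊓ S, ∃ t ∈ T, ∃ a : ℕ, x = t * c ^ a) →
      pResidual 2 G ⊓ S ≤ T := by
  intro n
  induction n with
  | zero =>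
    intro W c r hKW hc hord _ _ _ hx x hxK
    obtain ⟨t, ht, a, rfl⟩ := hx x (Subgroup.mem_inf.2 ⟨hKW (Subgroup.mem_inf.1 hxK).1, (Subgroup.mem_inf.1 hxK).2⟩)
    have hc1 : c = 1 := orderOf_eq_one_iff.1 (by simpa using hord)
    rw [hc1]
    simpa using ht
  | succ n ih =>
    intro W c r hKW hc hord hconj hr hcard hx
    have hTW : T ≤ W := hTK.trans hKW
    have hTcard : Nat.card T ≠ 0 := Nat.card_pos.ne'
    set φ : ↥W →* ℤˣ := cosetSign W T with hφ
    have hidx : (T.subgroupOf W).index = 2 ^ (n + 1) * r := by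
      have h1 := Subgroup.card_mul_index (T.subgroupOf W)
      have h2 : Nat.card (T.subgroupOf W) = Nat.card T := by
        rw [Subgroup.subgroupOf]
        exact (Nat.card_congr (Subgroup.subgroupOfEquivOfLe hTW).toEquiv).symm ▸ rfl
      rw [h2, hcard] at h1
      have h3 : Nat.card T * (T.subgroupOf W).index = Nat.card T * (2 ^ (n + 1) * r) := by
        rw [h1]
        ring
      exact Nat.eq_of_mul_eq_mul_left (Nat.pos_of_ne_zero hTcard) h3
    have hneg : φ ⟨c, hc⟩ = -1 := by
      apply cosetSign_eq W T hc n r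
      · rw [← hord]
        exact pow_orderOf_eq_one c
      · intro g _
        have := hconj g⁻¹ n rfl
        simpa using this
      · exact hidx
      · exact hr
    have hKW' : pResidual 2 G ≤ φ.ker.map W.subtype :=
      pResidual_le_ker hKW φ (fun x hx => cosetSign_odd W T hx)
    have hc2 : ((⟨c, hc⟩ : ↥W) ^ 2) ∈ φ.ker := by
      rw [MonoidHom.mem_ker, map_pow, hneg]
      decide
    have hc2' : c ^ 2 ∈ φ.ker.map W.subtype := ⟨_, hc2, by simp⟩
    have hord2 : orderOf (c ^ 2) = 2 ^ n := by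
      have h1 : orderOf (c ^ 2) = orderOf c / Nat.gcd (orderOf c) 2 := orderOf_pow c
      rw [h1, hord]
      have : Nat.gcd (2 ^ (n + 1)) 2 = 2 := Nat.gcd_eq_right (dvd_pow_self 2 (by omega))
      rw [this, pow_succ]
      simp
    apply ih (φ.ker.map W.subtype) (c ^ 2) r hKW' hc2' hord2 _ hr _ _
    · intro g k hk
      have e : (c ^ 2) ^ 2 ^ k = c ^ 2 ^ (k + 1) := by
        rw [← pow_mul, pow_succ]
        ring_nf
      rw [e]
      exact hconj g (k + 1) (by omega)
    · have h1 := card_ker_of_neg φ hneg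
      rw [hcard] at h1
      have h2 : 2 * (2 ^ n * Nat.card T * r) = 2 * Nat.card (φ.ker.map W.subtype) := by
        rw [← h1]
        ring
      exact (Nat.eq_of_mul_eq_mul_left (by norm_num) h2).symm
    · intro x hx'
      obtain ⟨⟨w, hw, rfl⟩, hxS⟩ := Subgroup.mem_inf.1 hx'
      obtain ⟨t, ht, a, hxe⟩ := hx (w : G) (Subgroup.mem_inf.2 ⟨w.2, hxS⟩)
      have hφw : φ w = 1 := hw
      have hw_eq : w = ⟨t, hTW ht⟩ * ⟨c, hc⟩ ^ a := Subtype.ext (by simpa using hxe)
      have htk : φ ⟨t, hTW ht⟩ = 1 := by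
        have htK : t ∈ φ.ker.map W.subtype := hKW' (hTK ht)
        obtain ⟨w', hw', e⟩ := htK
        have : w' = ⟨t, hTW ht⟩ := Subtype.ext e
        rw [← this]
        exact hw'
      rw [hw_eq, map_mul, map_pow, htk, one_mul, hneg] at hφw
      have hev : Even a := by
        by_contra hno
        rw [Nat.not_even_iff_odd] at hno
        rw [hno.neg_one_pow] at hφw
        exact absurd hφw (by decide)
      obtain ⟨b, hb⟩ := hev
      refine ⟨t, ht, b, ?_⟩
      simp only [Subgroup.coe_subtype]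
      rw [hxe, hb, ← pow_mul, two_mul]

/-- In a dihedral group, the elements outside a cyclic subgroup of index two are involutions. -/
theorem dihedral_outside {n : ℕ} (hn : 2 ≤ n) (C : Subgroup (DihedralGroup n)) (hC : IsCyclic ↥C) (hi : C.index = 2)
    {z : DihedralGroup n} (hz : z ∉ C) : orderOf z = 2 := by
  classical
  haveI : NeZero n := ⟨by omega⟩
  rcases z with i | i
  · have hzsq : DihedralGroup.r i * DihedralGroup.r i ∈ C := Subgroup.mul_self_mem_of_index_two hi _
    rw [DihedralGroup.r_mul_r] at hzsq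
    -- a reflection in `C`
    obtain ⟨j, hj⟩ : ∃ j, DihedralGroup.sr j ∈ C := by
      by_cases h0 : DihedralGroup.sr (0 : ZMod n) ∈ C
      · exact ⟨0, h0⟩
      · refine ⟨0 - i, ?_⟩
        have h1 : DihedralGroup.r i * DihedralGroup.sr (0 : ZMod n) ∈ C :=
          (Subgroup.mul_mem_iff_of_index_two hi).2 (by simp [hz, h0])
        rwa [DihedralGroup.r_mul_sr] at h1
    have hcomm : ∀ a b : ↥C, a * b = b * a := fun a b => by
      haveI := hC
      letI := IsCyclic.commGroup (α := ↥C)
      exact mul_comm a b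
    have h2 := congrArg Subtype.val (hcomm ⟨_, hj⟩ ⟨_, hzsq⟩)
    simp only [Subgroup.coe_mul, DihedralGroup.sr_mul_r, DihedralGroup.r_mul_sr] at h2
    have hk : (i + i) + (i + i) = 0 := by
      have h3 : j + (i + i) = j - (i + i) := DihedralGroup.sr.inj h2
      have h4 : j + (i + i) + (i + i) = j := by
        rw [h3]
        ring
      have h5 : j + ((i + i) + (i + i)) = j + 0 := by
        rw [add_zero, ← add_assoc]
        exact h4
      exact add_left_cancel h5
    by_cases hk0 : i + i = 0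
    · have h6 : (DihedralGroup.r i) ^ 2 = 1 := by
        rw [pow_two, DihedralGroup.r_mul_r, hk0]
        rfl
      refine orderOf_eq_prime h6 ?_
      intro e
      apply hz
      rw [e]
      exact C.one_mem
    · exfalso
      haveI := hC
      haveI : Fintype ↥C := Fintype.ofFinite _
      have h7 := IsCyclic.card_pow_eq_one_le (α := ↥C) (n := 2) (by norm_num)
      set s : Finset ↥C := {1, ⟨DihedralGroup.sr j, hj⟩, ⟨DihedralGroup.r (i + i), hzsq⟩} with hs
      have hsub : s ⊆ Finset.univ.filter (fun a : ↥C => a ^ 2 = 1) := by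
        intro a ha
        simp only [hs, Finset.mem_insert, Finset.mem_singleton] at ha
        simp only [Finset.mem_filter, Finset.mem_univ, true_and]
        rcases ha with rfl | rfl | rfl
        · simp
        · apply Subtype.ext
          simp [pow_two, DihedralGroup.sr_mul_sr]
        · apply Subtype.ext
          simp [pow_two, DihedralGroup.r_mul_r, hk]
      have hcard : s.card = 3 := by
        rw [hs, Finset.card_eq_three]
        refine ⟨_, _, _, ?_, ?_, ?_, rfl⟩
        · intro e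
          have h8 : (1 : DihedralGroup n) = DihedralGroup.sr j := congrArg Subtype.val e
          have h9 : DihedralGroup.r (0 : ZMod n) = DihedralGroup.sr j := h8
          cases h9
        · intro e
          have h8 : (1 : DihedralGroup n) = DihedralGroup.r (i + i) := congrArg Subtype.val e
          exact hk0 (DihedralGroup.r.inj h8).symm
        · intro e
          have := congrArg Subtype.val e
          simp at this
      have := Finset.card_le_card hsub
      omega
  · exact DihedralGroup.orderOf_sr i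

/-- `S = A B` as a set, from an order count. -/
theorem exists_mul_of_card {A B S : Subgroup G} (hA : A ≤ S) (hB : B ≤ S) (hI : B ⊓ A = ⊥)
    (hc : Nat.card A * Nat.card B = Nat.card S) : ∀ s ∈ S, ∃ a ∈ A, ∃ b ∈ B, s = a * b := by
  classical
  let f : ↥A × ↥B → ↥S := fun x => ⟨x.1 * x.2, S.mul_mem (hA x.1.2) (hB x.2.2)⟩
  have hf : Function.Injective f := by
    rintro ⟨a, b⟩ ⟨a', b'⟩ h
    have h1 : (a : G) * b = a' * b' := congrArg Subtype.val h
    have h2 : (a' : G)⁻¹ * a = b' * (b : G)⁻¹ := by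
      calc (a' : G)⁻¹ * a = (a' : G)⁻¹ * (a * b) * (b : G)⁻¹ := by group
        _ = (a' : G)⁻¹ * (a' * b') * (b : G)⁻¹ := by rw [h1]
        _ = _ := by group
    have h3 : (a' : G)⁻¹ * a ∈ B ⊓ A := by
      refine Subgroup.mem_inf.2 ⟨?_, A.mul_mem (A.inv_mem a'.2) a.2⟩
      rw [h2]
      exact B.mul_mem b'.2 (B.inv_mem b.2)
    rw [hI, Subgroup.mem_bot] at h3
    have h4 : (a : G) = a' := by
      have := mul_eq_one_iff_eq_inv'.1 h3
      simpa using this
    have h5 : (b : G) = b' := by
      rw [h4] at h1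
      exact mul_left_cancel h1
    exact Prod.ext (Subtype.ext h4) (Subtype.ext h5)
  have hb : Function.Bijective f := by
    refine (Nat.bijective_iff_injective_and_card f).2 ⟨hf, ?_⟩
    rw [Nat.card_prod, hc]
  intro s hs
  obtain ⟨⟨a, b⟩, h⟩ := hb.2 ⟨s, hs⟩
  exact ⟨a, a.2, b, b.2, (congrArg Subtype.val h).symm⟩

theorem card_le_sup_of_inf {A B Y : Subgroup G} (hA : A ≤ Y) (hB : B ≤ Y) (hI : B ⊓ A = ⊥) :
    Nat.card A * Nat.card B ≤ Nat.card Y := by
  classical
  let f : ↥A × ↥B → ↥Y := fun x => ⟨x.1 * x.2, Y.mul_mem (hA x.1.2) (hB x.2.2)⟩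
  have hf : Function.Injective f := by
    rintro ⟨a, b⟩ ⟨a', b'⟩ h
    have h1 : (a : G) * b = a' * b' := congrArg Subtype.val h
    have h2 : (a' : G)⁻¹ * a = b' * (b : G)⁻¹ := by
      calc (a' : G)⁻¹ * a = (a' : G)⁻¹ * (a * b) * (b : G)⁻¹ := by group
        _ = (a' : G)⁻¹ * (a' * b') * (b : G)⁻¹ := by rw [h1]
        _ = _ := by group
    have h3 : (a' : G)⁻¹ * a ∈ B ⊓ A := by
      refine Subgroup.mem_inf.2 ⟨?_, A.mul_mem (A.inv_mem a'.2) a.2⟩
      rw [h2]
      exact B.mul_mem b'.2 (B.inv_mem b.2)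
    rw [hI, Subgroup.mem_bot] at h3
    have h4 : (a : G) = a' := by
      have := mul_eq_one_iff_eq_inv'.1 h3
      simpa using this
    have h5 : (b : G) = b' := by
      rw [h4] at h1
      exact mul_left_cancel h1
    exact Prod.ext (Subtype.ext h4) (Subtype.ext h5)
  have := Nat.card_le_card_of_injective f hf
  rwa [Nat.card_prod] at this

end Cfsg.Agent.Lib.Tech
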