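import Mathlib

/-!
# Groups of order 320 with a presentation: uniqueness
-/

set_option autoImplicit false

namespace Cfsg.Agent.Lib.Tech.U34C

open scoped commutatorElement

section basic

variable {X : Type*} [Group X]

/-- Conjugates of `a` by powers of `b`. -/
def cj (b a : X) (k : ℕ) : X := b ^ k * a * (b ^ k)⁻¹

/-- The relations. -/
structure Rel (a b : X) : Prop where
  b5 : b ^ 5 = 1
  n1 : cj b a 0 * cj b a 1 * cj b a 2 * cj b a 3 * cj b a 4 = 1
  c1a : Commute ⁅a, cj b a 1⁆ a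
  c1b : Commute ⁅a, cj b a 1⁆ b
  c2a : Commute ⁅a, cj b a 2⁆ a
  c2b : Commute ⁅a, cj b a 2⁆ b
  c1s : ⁅a, cj b a 1⁆ ^ 2 = 1
  c2s : ⁅a, cj b a 2⁆ ^ 2 = 1
  sq : a ^ 2 = ⁅a, cj b a 1⁆ * ⁅a, cj b a 2⁆

theorem cj_zero (b a : X) : cj b a 0 = a := by simp [cj]

theorem cj_succ (b a : X) (k : ℕ) : cj b a (k + 1) = b * cj b a k * b⁻¹ := by
  simp only [cj, pow_succ']
  group

theorem cj_add (b a : X) (k l : ℕ) : cj b a (k + l) = b ^ k * cj b a l * (b ^ k)⁻¹ := by
  simp only [cj, pow_add]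
  group

theorem cj_mem_commute {a b c : X} (ha : Commute c a) (hb : Commute c b) (k : ℕ) : Commute c (cj b a k) := by
  unfold cj
  exact ((hb.pow_right k).mul_right ha).mul_right (hb.pow_right k).inv_right

theorem conj_comm (g u v : X) : g * ⁅u, v⁆ * g⁻¹ = ⁅g * u * g⁻¹, g * v * g⁻¹⁆ := by
  simp only [commutatorElement_def]
  group

theorem conj_fix {b c : X} (hb : Commute c b) (k : ℕ) : b ^ k * c * (b ^ k)⁻¹ = c := by
  have := (hb.pow_right k).eq
  rw [← this]
  group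

theorem cj_comm_add {a b : X} {m : ℕ} (hb : Commute ⁅a, cj b a m⁆ b) (k : ℕ) :
    ⁅cj b a k, cj b a (k + m)⁆ = ⁅a, cj b a m⁆ := by
  have e := conj_fix hb k
  rw [conj_comm] at e
  rw [cj_add]
  exact e

theorem step_card [Finite X] (H : Subgroup X) (y : X) (n : ℕ) (hn : 0 < n)
    (hy : ∀ h ∈ H, y * h * y⁻¹ ∈ H) (hyn : y ^ n ∈ H) :
    Nat.card (H ⊔ Subgroup.zpowers y : Subgroup X) ≤ n * Nat.card H := by
  have hyk : ∀ (k : ℕ), ∀ h ∈ H, y ^ k * h * (y ^ k)⁻¹ ∈ H := by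
    intro k
    induction k with
    | zero =>
      intro h hh
      simpa using hh
    | succ k ih =>
      intro h hh
      have := hy _ (ih h hh)
      rw [pow_succ']
      convert this using 1
      group
  have hP : ∀ g ∈ (H ⊔ Subgroup.zpowers y : Subgroup X), ∃ h ∈ H, ∃ k : Fin n, g = h * y ^ (k : ℕ) := by
    intro g hg
    have e : H ⊔ Subgroup.zpowers y = Subgroup.closure ((H : Set X) ∪ {y}) := by
      rw [Subgroup.closure_union, Subgroup.closure_eq, Subgroup.zpowers_eq_closure]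
    rw [e] at hg
    have hg' : g ∈ Submonoid.closure ((H : Set X) ∪ {y}) := by
      rw [← Subgroup.closure_toSubmonoid_of_finite]
      exact hg
    clear hg
    induction hg' using Submonoid.closure_induction_right with
    | one => exact ⟨1, H.one_mem, ⟨0, hn⟩, by simp⟩
    | mul_right x hx s hs ih =>
      obtain ⟨h, hh, k, rfl⟩ := ih
      rcases hs with hs | hs
      · exact ⟨h * (y ^ (k : ℕ) * s * (y ^ (k : ℕ))⁻¹), H.mul_mem hh (hyk k s hs), k, by group⟩
      · rw [Set.mem_singleton_iff] at hs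
        subst hs
        by_cases hk : (k : ℕ) + 1 < n
        · exact ⟨h, hh, ⟨k + 1, hk⟩, by simp [pow_succ, mul_assoc]⟩
        · have hk' : (k : ℕ) + 1 = n := by
            have := k.2
            omega
          refine ⟨h * s ^ n, H.mul_mem hh hyn, ⟨0, hn⟩, ?_⟩
          have e2 : s ^ n = s ^ (k : ℕ) * s := by rw [← pow_succ, hk']
          simp [e2, mul_assoc]
  let f : ↥H × Fin n → ↥(H ⊔ Subgroup.zpowers y : Subgroup X) := fun p =>
    ⟨p.1.1 * y ^ (p.2 : ℕ), Subgroup.mul_mem _ (Subgroup.mem_sup_left p.1.2)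
      (Subgroup.mem_sup_right (Subgroup.pow_mem _ (Subgroup.mem_zpowers y) _))⟩
  have hf : Function.Surjective f := by
    rintro ⟨g, hg⟩
    obtain ⟨h, hh, k, rfl⟩ := hP g hg
    exact ⟨(⟨h, hh⟩, k), rfl⟩
  have := Nat.card_le_card_of_surjective f hf
  rw [Nat.card_prod, Nat.card_eq_fintype_card (α := Fin n), Fintype.card_fin] at this
  linarith [mul_comm n (Nat.card H)]

theorem step_closure [Finite X] (S : Set X) (y : X) (n : ℕ) (hn : 0 < n)
    (hy : ∀ s ∈ S, y * s * y⁻¹ ∈ Subgroup.closure S) (hyn : y ^ n ∈ Subgroup.closure S) :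
    Nat.card (Subgroup.closure (insert y S)) ≤ n * Nat.card (Subgroup.closure S) := by
  have e : Subgroup.closure (insert y S) = Subgroup.closure S ⊔ Subgroup.zpowers y := by
    rw [Set.insert_eq, Subgroup.closure_union, Subgroup.zpowers_eq_closure, sup_comm]
  rw [e]
  apply step_card _ _ _ hn _ hyn
  have hle : Subgroup.closure S ≤ (Subgroup.closure S).comap (MulAut.conj y).toMonoidHom := by
    rw [Subgroup.closure_le]
    intro s hs
    exact hy s hs
  intro h hh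
  exact hle hh

theorem conj_of_comm {H : Subgroup X} {y s : X} (h1 : ⁅y, s⁆ ∈ H) (h2 : s ∈ H) : y * s * y⁻¹ ∈ H := by
  have e : y * s * y⁻¹ = ⁅y, s⁆ * s := by
    simp only [commutatorElement_def]
    group
  rw [e]
  exact H.mul_mem h1 h2

/-- The bound. -/
theorem card_closure_le [Finite X] {a b : X} (h : Rel a b) : Nat.card (Subgroup.closure {a, b}) ≤ 320 := by
  set c₁ := ⁅a, cj b a 1⁆ with hc₁
  set c₂ := ⁅a, cj b a 2⁆ with hc₂
  set x₀ := cj b a 0 with hx₀
  set x₁ := cj b a 1 with hx₁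
  set x₂ := cj b a 2 with hx₂
  set x₃ := cj b a 3 with hx₃
  set x₄ := cj b a 4 with hx₄
  have ex₀ : x₀ = a := cj_zero b a
  have hc1x : ∀ k, Commute c₁ (cj b a k) := fun k => cj_mem_commute h.c1a h.c1b k
  have hc2x : ∀ k, Commute c₂ (cj b a k) := fun k => cj_mem_commute h.c2a h.c2b k
  have h12 : Commute c₁ c₂ := by
    have e1 : Commute c₁ a := h.c1a
    have e2 : Commute c₁ x₂ := hc1x 2
    rw [hc₂, commutatorElement_def]
    exact ((e1.mul_right e2).mul_right e1.inv_right).mul_right e2.inv_right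
  have hc01 : ⁅x₀, x₁⁆ = c₁ := by rw [ex₀]
  have hc02 : ⁅x₀, x₂⁆ = c₂ := by rw [ex₀]
  have hc12 : ⁅x₁, x₂⁆ = c₁ := cj_comm_add h.c1b 1
  have hc23 : ⁅x₂, x₃⁆ = c₁ := cj_comm_add h.c1b 2
  have hc13 : ⁅x₁, x₃⁆ = c₂ := cj_comm_add h.c2b 1
  have hb5 : cj b a 5 = x₀ := by
    rw [ex₀]
    simp [cj, h.b5]
  have hc03 : ⁅x₀, x₃⁆ = c₂⁻¹ := by
    have e : ⁅x₃, x₀⁆ = c₂ := by
      have e2 := cj_comm_add h.c2b (a := a) 3
      rwa [show 3 + 2 = 5 from rfl, hb5] at e2
    rw [← e, commutatorElement_inv]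
  have hsq : ∀ k, (cj b a k) ^ 2 = c₁ * c₂ := by
    intro k
    have e : (cj b a k) ^ 2 = b ^ k * (a ^ 2) * (b ^ k)⁻¹ := by
      simp only [cj, pow_two]
      group
    rw [e, h.sq, conj_fix (h.c1b.mul_left h.c2b)]
  have hb1 : b * x₀ * b⁻¹ = x₁ := (cj_succ b a 0).symm
  have hb2 : b * x₁ * b⁻¹ = x₂ := (cj_succ b a 1).symm
  have hb3 : b * x₂ * b⁻¹ = x₃ := (cj_succ b a 2).symm
  have hb4 : b * x₃ * b⁻¹ = x₄ := (cj_succ b a 3).symm
  have hx4 : x₄ = (x₀ * x₁ * x₂ * x₃)⁻¹ := by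
    have := h.n1
    exact eq_inv_of_mul_eq_one_right this
  -- the chain
  let S₁ : Set X := {c₁}
  let S₂ : Set X := {c₂, c₁}
  let S₃ : Set X := {x₀, c₂, c₁}
  let S₄ : Set X := {x₁, x₀, c₂, c₁}
  let S₅ : Set X := {x₂, x₁, x₀, c₂, c₁}
  let S₆ : Set X := {x₃, x₂, x₁, x₀, c₂, c₁}
  let S₇ : Set X := {b, x₃, x₂, x₁, x₀, c₂, c₁}
  let K : Subgroup X := Subgroup.closure S₂
  have m1 : c₁ ∈ K := Subgroup.subset_closure (by simp [S₂])
  have m2 : c₂ ∈ K := Subgroup.subset_closure (by simp [S₂])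
  have hK3 : K ≤ Subgroup.closure S₃ := Subgroup.closure_mono (by
    intro z hz
    simp only [S₂, S₃, Set.mem_insert_iff, Set.mem_singleton_iff] at hz ⊢
    tauto)
  have hK4 : K ≤ Subgroup.closure S₄ := Subgroup.closure_mono (by
    intro z hz
    simp only [S₂, S₄, Set.mem_insert_iff, Set.mem_singleton_iff] at hz ⊢
    tauto)
  have hK5 : K ≤ Subgroup.closure S₅ := Subgroup.closure_mono (by
    intro z hz
    simp only [S₂, S₅, Set.mem_insert_iff, Set.mem_singleton_iff] at hz ⊢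
    tauto)
  have hK6 : K ≤ Subgroup.closure S₆ := Subgroup.closure_mono (by
    intro z hz
    simp only [S₂, S₆, Set.mem_insert_iff, Set.mem_singleton_iff] at hz ⊢
    tauto)
  have k1 : ∀ k, ⁅cj b a k, c₁⁆ ∈ K := by
    intro k
    rw [commutatorElement_eq_one_iff_commute.mpr (hc1x k).symm]
    exact K.one_mem
  have k2 : ∀ k, ⁅cj b a k, c₂⁆ ∈ K := by
    intro k
    rw [commutatorElement_eq_one_iff_commute.mpr (hc2x k).symm]
    exact K.one_mem
  have k10 : ⁅x₁, x₀⁆ ∈ K := by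
    rw [← commutatorElement_inv, hc01]
    exact K.inv_mem m1
  have k20 : ⁅x₂, x₀⁆ ∈ K := by
    rw [← commutatorElement_inv, hc02]
    exact K.inv_mem m2
  have k21 : ⁅x₂, x₁⁆ ∈ K := by
    rw [← commutatorElement_inv, hc12]
    exact K.inv_mem m1
  have k30 : ⁅x₃, x₀⁆ ∈ K := by
    rw [← commutatorElement_inv, hc03]
    exact K.inv_mem (K.inv_mem m2)
  have k31 : ⁅x₃, x₁⁆ ∈ K := by
    rw [← commutatorElement_inv, hc13]
    exact K.inv_mem m2
  have k32 : ⁅x₃, x₂⁆ ∈ K := by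
    rw [← commutatorElement_inv, hc23]
    exact K.inv_mem m1
  have c1 : Nat.card (Subgroup.closure S₁) ≤ 2 := by
    have e : S₁ = insert c₁ (∅ : Set X) := by simp [S₁]
    rw [e]
    have := step_closure (∅ : Set X) c₁ 2 (by norm_num) (by simp) (by rw [h.c1s]; exact Subgroup.one_mem _)
    simpa using this
  have c2 : Nat.card (Subgroup.closure S₂) ≤ 2 * 2 := by
    refine (step_closure S₁ c₂ 2 (by norm_num) ?_ ?_).trans (Nat.mul_le_mul_left _ c1)
    · rintro s rfl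
      rw [← h12.eq, mul_inv_cancel_right]
      exact Subgroup.subset_closure rfl
    · rw [h.c2s]
      exact Subgroup.one_mem _
  have c3 : Nat.card (Subgroup.closure S₃) ≤ 2 * (2 * 2) := by
    refine (step_closure S₂ x₀ 2 (by norm_num) ?_ ?_).trans (Nat.mul_le_mul_left _ c2)
    · rintro s (rfl | rfl)
      · exact conj_of_comm (k2 0) m2
      · exact conj_of_comm (k1 0) m1
    · rw [hsq]
      exact K.mul_mem m1 m2
  have c4 : Nat.card (Subgroup.closure S₄) ≤ 2 * (2 * (2 * 2)) := by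
    refine (step_closure S₃ x₁ 2 (by norm_num) ?_ ?_).trans (Nat.mul_le_mul_left _ c3)
    · rintro s (rfl | rfl | rfl)
      · exact conj_of_comm (hK3 k10) (Subgroup.subset_closure (by simp [S₃]))
      · exact conj_of_comm (hK3 (k2 1)) (hK3 m2)
      · exact conj_of_comm (hK3 (k1 1)) (hK3 m1)
    · rw [hsq]
      exact hK3 (K.mul_mem m1 m2)
  have c5 : Nat.card (Subgroup.closure S₅) ≤ 2 * (2 * (2 * (2 * 2))) := by
    refine (step_closure S₄ x₂ 2 (by norm_num) ?_ ?_).trans (Nat.mul_le_mul_left _ c4)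
    · rintro s (rfl | rfl | rfl | rfl)
      · exact conj_of_comm (hK4 k21) (Subgroup.subset_closure (by simp [S₄]))
      · exact conj_of_comm (hK4 k20) (Subgroup.subset_closure (by simp [S₄]))
      · exact conj_of_comm (hK4 (k2 2)) (hK4 m2)
      · exact conj_of_comm (hK4 (k1 2)) (hK4 m1)
    · rw [hsq]
      exact hK4 (K.mul_mem m1 m2)
  have c6 : Nat.card (Subgroup.closure S₆) ≤ 2 * (2 * (2 * (2 * (2 * 2)))) := by
    refine (step_closure S₅ x₃ 2 (by norm_num) ?_ ?_).trans (Nat.mul_le_mul_left _ c5)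
    · rintro s (rfl | rfl | rfl | rfl | rfl)
      · exact conj_of_comm (hK5 k32) (Subgroup.subset_closure (by simp [S₅]))
      · exact conj_of_comm (hK5 k31) (Subgroup.subset_closure (by simp [S₅]))
      · exact conj_of_comm (hK5 k30) (Subgroup.subset_closure (by simp [S₅]))
      · exact conj_of_comm (hK5 (k2 3)) (hK5 m2)
      · exact conj_of_comm (hK5 (k1 3)) (hK5 m1)
    · rw [hsq]
      exact hK5 (K.mul_mem m1 m2)
  have c7 : Nat.card (Subgroup.closure S₇) ≤ 5 * (2 * (2 * (2 * (2 * (2 * 2))))) := by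
    refine (step_closure S₆ b 5 (by norm_num) ?_ ?_).trans (Nat.mul_le_mul_left _ c6)
    · have m0 : x₀ ∈ Subgroup.closure S₆ := Subgroup.subset_closure (by simp [S₆])
      have m1' : x₁ ∈ Subgroup.closure S₆ := Subgroup.subset_closure (by simp [S₆])
      have m2' : x₂ ∈ Subgroup.closure S₆ := Subgroup.subset_closure (by simp [S₆])
      have m3' : x₃ ∈ Subgroup.closure S₆ := Subgroup.subset_closure (by simp [S₆])
      rintro s (rfl | rfl | rfl | rfl | rfl | rfl)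
      · rw [hb4, hx4]
        exact Subgroup.inv_mem _ (Subgroup.mul_mem _ (Subgroup.mul_mem _ (Subgroup.mul_mem _ m0 m1') m2') m3')
      · rw [hb3]
        exact m3'
      · rw [hb2]
        exact m2'
      · rw [hb1]
        exact m1'
      · have e : b * c₂ * b⁻¹ = c₂ := by
          rw [← h.c2b.eq, mul_inv_cancel_right]
        rw [e]
        exact hK6 m2
      · have e : b * c₁ * b⁻¹ = c₁ := by
          rw [← h.c1b.eq, mul_inv_cancel_right]
        rw [e]
        exact hK6 m1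
    · rw [h.b5]
      exact Subgroup.one_mem _
  have hle : Subgroup.closure {a, b} ≤ Subgroup.closure S₇ := by
    apply Subgroup.closure_mono
    intro z hz
    rcases hz with rfl | rfl
    · rw [← ex₀]
      simp [S₇]
    · simp [S₇]
  calc Nat.card (Subgroup.closure {a, b}) ≤ Nat.card (Subgroup.closure S₇) :=
        Subgroup.card_le_of_le hle
    _ ≤ 320 := c7

end basic

section prod

variable {G₁ G₂ : Type*} [Group G₁] [Group G₂]

theorem cj_prod (b₁ a₁ : G₁) (b₂ a₂ : G₂) (k : ℕ) :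
    cj ((b₁, b₂) : G₁ × G₂) (a₁, a₂) k = (cj b₁ a₁ k, cj b₂ a₂ k) := by
  simp [cj]

theorem comm_prod (b₁ a₁ : G₁) (b₂ a₂ : G₂) :
    ⁅((a₁, a₂) : G₁ × G₂), (b₁, b₂)⁆ = (⁅a₁, b₁⁆, ⁅a₂, b₂⁆) := by
  simp [commutatorElement_def]

theorem Rel.prod {a₁ b₁ : G₁} {a₂ b₂ : G₂} (h₁ : Rel a₁ b₁) (h₂ : Rel a₂ b₂) :
    Rel ((a₁, a₂) : G₁ × G₂) (b₁, b₂) where
  b5 := by
    rw [Prod.pow_mk, h₁.b5, h₂.b5]
    rfl
  n1 := by
    simp only [cj_prod, Prod.mk_mul_mk, h₁.n1, h₂.n1]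
    rfl
  c1a := by
    simp only [cj_prod, comm_prod]
    show _ * _ = _ * _
    simp only [Prod.mk_mul_mk, h₁.c1a.eq, h₂.c1a.eq]
  c1b := by
    simp only [cj_prod, comm_prod]
    show _ * _ = _ * _
    simp only [Prod.mk_mul_mk, h₁.c1b.eq, h₂.c1b.eq]
  c2a := by
    simp only [cj_prod, comm_prod]
    show _ * _ = _ * _
    simp only [Prod.mk_mul_mk, h₁.c2a.eq, h₂.c2a.eq]
  c2b := by
    simp only [cj_prod, comm_prod]
    show _ * _ = _ * _
    simp only [Prod.mk_mul_mk, h₁.c2b.eq, h₂.c2b.eq]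
  c1s := by
    simp only [cj_prod, comm_prod, Prod.pow_mk, h₁.c1s, h₂.c1s]
    rfl
  c2s := by
    simp only [cj_prod, comm_prod, Prod.pow_mk, h₁.c2s, h₂.c2s]
    rfl
  sq := by
    simp only [cj_prod, comm_prod, Prod.pow_mk, Prod.mk_mul_mk, h₁.sq, h₂.sq]

/-- **Uniqueness.** -/
theorem iso_of_rel [Finite G₁] [Finite G₂] {a₁ b₁ : G₁} {a₂ b₂ : G₂} (h₁ : Rel a₁ b₁) (h₂ : Rel a₂ b₂)
    (g₁ : Subgroup.closure {a₁, b₁} = ⊤) (g₂ : Subgroup.closure {a₂, b₂} = ⊤)
    (c₁ : Nat.card G₁ = 320) (c₂ : Nat.card G₂ = 320) : Nonempty (G₁ ≃* G₂) := by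
  let A : G₁ × G₂ := (a₁, a₂)
  let B : G₁ × G₂ := (b₁, b₂)
  have hAB : Rel A B := Rel.prod h₁ h₂
  let U : Subgroup (G₁ × G₂) := Subgroup.closure {A, B}
  have hU : Nat.card U ≤ 320 := card_closure_le hAB
  let p₁ : U →* G₁ := (MonoidHom.fst G₁ G₂).comp U.subtype
  let p₂ : U →* G₂ := (MonoidHom.snd G₁ G₂).comp U.subtype
  have s₁ : Function.Surjective p₁ := by
    rw [← MonoidHom.range_eq_top, MonoidHom.range_comp, Subgroup.range_subtype, MonoidHom.map_closure]
    rw [← g₁]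
    congr 1
    simp [Set.image_pair, A, B]
  have s₂ : Function.Surjective p₂ := by
    rw [← MonoidHom.range_eq_top, MonoidHom.range_comp, Subgroup.range_subtype, MonoidHom.map_closure]
    rw [← g₂]
    congr 1
    simp [Set.image_pair, A, B]
  have b₁' := s₁.bijective_of_nat_card_le (by omega)
  have b₂' := s₂.bijective_of_nat_card_le (by omega)
  exact ⟨(MulEquiv.ofBijective p₁ b₁').symm.trans (MulEquiv.ofBijective p₂ b₂')⟩

end prod

end Cfsg.Agent.Lib.Tech.U34C
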