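import Cfsg.Agent.Lib.Tech.U34C1

/-!
# Groups of order 320 with a presentation: extraction of the presentation
-/

set_option autoImplicit false

namespace Cfsg.Agent.Lib.Tech.U34C

open scoped commutatorElement

section count

variable {G : Type*} [Group G] [Finite G]

theorem count_mod5 (H : Subgroup G) (q : G) (h5 : q ^ 5 = 1) (hq : ∀ h ∈ H, q * h * q⁻¹ ∈ H) :
    Nat.card H ≡ Nat.card {h : H // q * h.1 * q⁻¹ = h.1} [MOD 5] := by
  classical
  haveI : Fintype H := Fintype.ofFinite _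
  haveI : Fact (Nat.Prime 5) := ⟨by norm_num⟩
  let f : Function.End H := fun h => ⟨q * h.1 * q⁻¹, hq h.1 h.2⟩
  have hfk : ∀ (k : ℕ) (h : H), ((f ^ k) h).1 = q ^ k * h.1 * (q ^ k)⁻¹ := by
    intro k
    induction k with
    | zero =>
      intro h
      simp
      rfl
    | succ k ih =>
      intro h
      rw [pow_succ']
      show q * ((f ^ k) h).1 * q⁻¹ = _
      rw [ih, pow_succ']
      group
  have hf : f ^ 5 ^ 1 = 1 := by
    funext h
    apply Subtype.ext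
    rw [pow_one, hfk, h5]
    simp
    rfl
  have h1 := Equiv.Perm.card_fixedPoints_modEq (f := f) hf
  have h2 : Nat.card {h : H // q * h.1 * q⁻¹ = h.1} = Fintype.card (Function.fixedPoints f) := by
    rw [← Nat.card_eq_fintype_card]
    apply Nat.card_congr
    apply Equiv.subtypeEquivRight
    intro h
    show _ ↔ f h = h
    rw [Subtype.ext_iff]
  rw [h2, Nat.card_eq_fintype_card]
  exact h1

theorem fix_small (H : Subgroup G) (q : G) (h5 : q ^ 5 = 1) (hq : ∀ h ∈ H, q * h * q⁻¹ ∈ H)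
    (hc : Nat.card H < 5) : ∀ h ∈ H, q * h * q⁻¹ = h := by
  intro h hh
  have h1 := count_mod5 H q h5 hq
  have h2 : Nat.card {h : H // q * h.1 * q⁻¹ = h.1} ≤ Nat.card H :=
    Nat.card_le_card_of_injective Subtype.val Subtype.val_injective
  have h3 : Nat.card H = Nat.card {h : H // q * h.1 * q⁻¹ = h.1} :=
    Nat.ModEq.eq_of_lt_of_lt h1 hc (by omega)
  have h4 : Function.Bijective (Subtype.val : {h : H // q * h.1 * q⁻¹ = h.1} → H) :=
    (Subtype.val_injective).bijective_of_nat_card_le h3.le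
  obtain ⟨x, hx⟩ := h4.2 ⟨h, hh⟩
  have := x.2
  rw [hx] at this
  exact this

theorem dvd64_mod5 {n : ℕ} (hn : n ∣ 64) (h : n ≡ 4 [MOD 5]) : n = 4 ∨ n = 64 := by
  have h1 : n ∈ Nat.divisors 64 := Nat.mem_divisors.mpr ⟨hn, by norm_num⟩
  have h2 : Nat.divisors 64 = {1, 2, 4, 8, 16, 32, 64} := by decide
  rw [h2] at h1
  simp only [Finset.mem_insert, Finset.mem_singleton] at h1
  rcases h1 with rfl | rfl | rfl | rfl | rfl | rfl | rfl <;> simp_all [Nat.ModEq]

omit [Finite G] in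
theorem comm_mul_comm {t s u v : G} (h1 : Commute u s) (h3 : Commute v t) (h4 : Commute u v) :
    ⁅t * u, s * v⁆ = ⁅t, s⁆ := by
  simp only [commutatorElement_def, mul_inv_rev]
  have e1 : t * u * (s * v) * (u⁻¹ * t⁻¹) * (v⁻¹ * s⁻¹) = t * (u * s) * (v * u⁻¹) * t⁻¹ * v⁻¹ * s⁻¹ := by group
  rw [e1, h1.eq, (h4.inv_left).eq.symm]
  have e2 : t * (s * u) * (u⁻¹ * v) * t⁻¹ * v⁻¹ * s⁻¹ = t * s * (v * t⁻¹) * v⁻¹ * s⁻¹ := by group
  rw [e2, (h3.inv_right).eq]
  group

end count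

section setup

variable {G : Type*} [Group G] [Finite G]

/-- The setup of the extraction. -/
structure Setup (T Z : Subgroup G) (q : G) : Prop where
  hT : T = commutator G
  cG : Nat.card G = 320
  cT : Nat.card T = 64
  memZ : ∀ z, z ∈ Z ↔ z ∈ T ∧ ∀ t ∈ T, z * t = t * z
  cZ : Nat.card Z = 4
  sqZ : ∀ z ∈ Z, z ^ 2 = 1
  q5 : q ^ 5 = 1
  qne : q ≠ 1

variable {T Z : Subgroup G} {q : G} (S : Setup T Z q)

include S

theorem Setup.normal : T.Normal := by
  rw [S.hT]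
  infer_instance

theorem Setup.orderOf_q : orderOf q = 5 := by
  haveI : Fact (Nat.Prime 5) := ⟨by norm_num⟩
  exact orderOf_eq_prime S.q5 S.qne

theorem Setup.decomp (g : G) : ∃ t ∈ T, ∃ i : ℕ, g = t * q ^ i := by
  haveI := S.normal
  have h1 : T ⊔ Subgroup.zpowers q = ⊤ := by
    apply Subgroup.eq_top_of_card_eq
    rw [S.cG]
    have h2 : 64 ∣ Nat.card (T ⊔ Subgroup.zpowers q : Subgroup G) := by
      rw [← S.cT]
      exact Subgroup.card_dvd_of_le le_sup_left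
    have h3 : 5 ∣ Nat.card (T ⊔ Subgroup.zpowers q : Subgroup G) := by
      have : Nat.card (Subgroup.zpowers q) = 5 := by
        rw [Nat.card_zpowers, S.orderOf_q]
      rw [← this]
      exact Subgroup.card_dvd_of_le le_sup_right
    have h4 : 320 ∣ Nat.card (T ⊔ Subgroup.zpowers q : Subgroup G) :=
      Nat.Coprime.mul_dvd_of_dvd_of_dvd (by norm_num : Nat.Coprime 64 5) h2 h3
    have h5 : Nat.card (T ⊔ Subgroup.zpowers q : Subgroup G) ∣ 320 := by
      rw [← S.cG]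
      exact Subgroup.card_subgroup_dvd_card _
    exact Nat.dvd_antisymm h5 h4
  have h2 : g ∈ (T ⊔ Subgroup.zpowers q : Subgroup G) := by
    rw [h1]
    exact Subgroup.mem_top g
  rw [← SetLike.mem_coe, Subgroup.normal_mul] at h2
  obtain ⟨t, ht, y, hy, rfl⟩ := Set.mem_mul.mp h2
  have hy' : y ∈ Subgroup.zpowers q := hy
  rw [← mem_powers_iff_mem_zpowers] at hy'
  obtain ⟨i, rfl⟩ := hy'
  exact ⟨t, ht, i, rfl⟩

theorem Setup.Z_le : Z ≤ T := fun z hz => ((S.memZ z).mp hz).1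

theorem Setup.Z_conj {z : G} (hz : z ∈ Z) : q * z * q⁻¹ ∈ Z := by
  haveI := S.normal
  rw [S.memZ] at hz ⊢
  refine ⟨Subgroup.Normal.conj_mem inferInstance z hz.1 q, ?_⟩
  intro t ht
  have h1 := hz.2 (q⁻¹ * t * q) (by simpa using Subgroup.Normal.conj_mem inferInstance t ht q⁻¹)
  calc q * z * q⁻¹ * t = q * (z * (q⁻¹ * t * q)) * q⁻¹ := by group
    _ = q * ((q⁻¹ * t * q) * z) * q⁻¹ := by rw [h1]
    _ = t * (q * z * q⁻¹) := by group

theorem Setup.Z_fix {z : G} (hz : z ∈ Z) : q * z * q⁻¹ = z :=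
  fix_small Z q S.q5 (fun _ h => S.Z_conj h) (by rw [S.cZ]; norm_num) z hz

theorem Setup.Z_comm_q {z : G} (hz : z ∈ Z) : Commute z q := by
  exact (mul_inv_eq_iff_eq_mul.mp (S.Z_fix hz)).symm

theorem Setup.Z_central {z : G} (hz : z ∈ Z) (g : G) : Commute z g := by
  obtain ⟨t, ht, i, rfl⟩ := S.decomp g
  exact Commute.mul_right (((S.memZ z).mp hz).2 t ht) ((S.Z_comm_q hz).pow_right i)

/-- A subgroup of index two. -/
theorem Setup.exists_M : ∃ M : Subgroup G, Z ≤ M ∧ M ≤ T ∧ Nat.card M = 32 ∧ (∀ t ∈ T, t ^ 2 ∈ M) ∧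
    ∀ a ∈ T, ∀ b ∈ T, ⁅a, b⁆ ∈ M := by
  haveI : Fact (Nat.Prime 2) := ⟨Nat.prime_two⟩
  have hZ' : Nat.card (Z.subgroupOf T) = 2 ^ 2 := by
    rw [Nat.card_congr (Subgroup.subgroupOfEquivOfLe S.Z_le).toEquiv, S.cZ]
    norm_num
  obtain ⟨K, hK, hZK⟩ := Sylow.exists_subgroup_card_pow_prime_le (G := T) 2 (m := 5)
    (by rw [S.cT]; norm_num) (Z.subgroupOf T) hZ' (by norm_num)
  have hidx : K.index = 2 := by
    have h1 := K.card_mul_index
    rw [hK, S.cT] at h1
    omega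
  haveI hKn : K.Normal := Subgroup.normal_of_index_eq_two hidx
  refine ⟨K.map T.subtype, ?_, ?_, ?_, ?_, ?_⟩
  · intro z hz
    exact ⟨⟨z, S.Z_le hz⟩, hZK (by simpa [Subgroup.mem_subgroupOf] using hz), rfl⟩
  · rintro _ ⟨k, -, rfl⟩
    exact k.2
  · rw [Subgroup.card_map_of_injective T.subtype_injective, hK]
    norm_num
  · intro t ht
    exact ⟨⟨t, ht⟩ ^ 2, Subgroup.sq_mem_of_index_two hidx _, by simp⟩
  · intro a ha b hb
    have hsq := Subgroup.sq_mem_of_index_two hidx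
    let a' : T := ⟨a, ha⟩
    let b' : T := ⟨b, hb⟩
    have e : ⁅a', b'⁆ = (a' * b') ^ 2 * (b'⁻¹ * (a'⁻¹) ^ 2 * b') * (b'⁻¹) ^ 2 := by
      simp only [commutatorElement_def, pow_two]
      group
    have h1 : ⁅a', b'⁆ ∈ K := by
      rw [e]
      refine K.mul_mem (K.mul_mem (hsq _) ?_) (hsq _)
      have := hKn.conj_mem _ (hsq a'⁻¹) b'⁻¹
      simpa using this
    exact ⟨_, h1, rfl⟩

theorem Setup.not_central : ¬ ∀ t ∈ T, q * t * q⁻¹ = t := by
  intro h
  obtain ⟨M, -, hMT, hM, -, hMc⟩ := S.exists_M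
  have hcomm : ∀ t ∈ T, Commute (q) t := by
    intro t ht
    have := h t ht
    show q * t = t * q
    rw [← mul_inv_eq_iff_eq_mul]
    exact this
  have h1 : commutator G ≤ M := by
    rw [commutator_def, Subgroup.commutator_le]
    intro g _ g' _
    obtain ⟨t, ht, i, rfl⟩ := S.decomp g
    obtain ⟨s, hs, j, rfl⟩ := S.decomp g'
    rw [comm_mul_comm ((hcomm s hs).pow_left i) ((hcomm t ht).pow_left j) ((Commute.refl q).pow_pow i j)]
    exact hMc t ht s hs
  rw [← S.hT] at h1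
  have h2 := Subgroup.card_le_of_le h1
  rw [S.cT, hM] at h2
  omega

theorem Setup.fix_mem {t : G} (ht : t ∈ T) (h : q * t * q⁻¹ = t) : t ∈ Z := by
  by_contra hnZ
  let C : Subgroup G := T ⊓ Subgroup.centralizer {q}
  have hC : ∀ x, x ∈ C ↔ x ∈ T ∧ q * x * q⁻¹ = x := by
    intro x
    show x ∈ T ∧ x ∈ Subgroup.centralizer {q} ↔ _
    rw [Subgroup.mem_centralizer_singleton_iff, mul_inv_eq_iff_eq_mul]
    constructor
    · rintro ⟨h1, h2⟩
      exact ⟨h1, h2.symm⟩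
    · rintro ⟨h1, h2⟩
      exact ⟨h1, h2.symm⟩
  have h1 := count_mod5 T q S.q5 (fun x hx => by
    haveI := S.normal
    exact Subgroup.Normal.conj_mem inferInstance x hx q)
  have h2 : Nat.card {x : T // q * x.1 * q⁻¹ = x.1} = Nat.card C := by
    apply Nat.card_congr
    exact
      { toFun := fun x => ⟨x.1.1, (hC _).mpr ⟨x.1.2, x.2⟩⟩
        invFun := fun x => ⟨⟨x.1, ((hC _).mp x.2).1⟩, ((hC _).mp x.2).2⟩
        left_inv := fun x => rfl
        right_inv := fun x => rfl }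
  rw [h2, S.cT] at h1
  have h3 : Nat.card C ∣ 64 := by
    rw [← S.cT]
    exact Subgroup.card_dvd_of_le (fun x hx => ((hC x).mp hx).1)
  have h4 : Nat.card C ≡ 4 [MOD 5] := (h1.symm).trans (by decide)
  have hZC : Z ≤ C := fun z hz => (hC z).mpr ⟨S.Z_le hz, S.Z_fix hz⟩
  rcases dvd64_mod5 h3 h4 with h5 | h5
  · have : Z = C := Subgroup.eq_of_le_of_card_ge hZC (by rw [h5, S.cZ])
    apply hnZ
    rw [this]
    exact (hC t).mpr ⟨ht, h⟩
  · have : C = T := Subgroup.eq_of_le_of_card_ge (fun x hx => ((hC x).mp hx).1) (by rw [h5, S.cT])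
    apply S.not_central
    intro x hx
    rw [← this] at hx
    exact ((hC x).mp hx).2

theorem Setup.dichotomy {H : Subgroup G} (hZH : Z ≤ H) (hHT : H ≤ T) (hq : ∀ h ∈ H, q * h * q⁻¹ ∈ H) :
    H = Z ∨ H = T := by
  have h1 := count_mod5 H q S.q5 hq
  have h2 : Nat.card {x : H // q * x.1 * q⁻¹ = x.1} = Nat.card Z := by
    apply Nat.card_congr
    exact
      { toFun := fun x => ⟨x.1.1, S.fix_mem (hHT x.1.2) x.2⟩
        invFun := fun x => ⟨⟨x.1, hZH x.2⟩, S.Z_fix x.2⟩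
        left_inv := fun x => rfl
        right_inv := fun x => rfl }
  rw [h2, S.cZ] at h1
  have h3 : Nat.card H ∣ 64 := by
    rw [← S.cT]
    exact Subgroup.card_dvd_of_le hHT
  rcases dvd64_mod5 h3 h1 with h5 | h5
  · left
    exact (Subgroup.eq_of_le_of_card_ge hZH (by rw [h5, S.cZ])).symm
  · right
    exact Subgroup.eq_of_le_of_card_ge hHT (by rw [h5, S.cT])

theorem Setup.sq_mem {t : G} (ht : t ∈ T) : t ^ 2 ∈ Z := by
  haveI := S.normal
  obtain ⟨M, hZM, hMT, hM, hMs, -⟩ := S.exists_M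
  let A : Set G := {x | ∃ t ∈ T, x = t ^ 2} ∪ (Z : Set G)
  let H : Subgroup G := Subgroup.closure A
  have hHM : H ≤ M := by
    rw [Subgroup.closure_le]
    rintro x (⟨t, ht, rfl⟩ | hx)
    · exact hMs t ht
    · exact hZM hx
  have hZH : Z ≤ H := fun z hz => Subgroup.subset_closure (Or.inr hz)
  have hq : ∀ h ∈ H, q * h * q⁻¹ ∈ H := by
    have hle : H ≤ H.comap (MulAut.conj q).toMonoidHom := by
      rw [Subgroup.closure_le]
      rintro x (⟨t, ht, rfl⟩ | hx)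
      · apply Subgroup.subset_closure
        left
        refine ⟨q * t * q⁻¹, Subgroup.Normal.conj_mem inferInstance t ht q, ?_⟩
        show q * t ^ 2 * q⁻¹ = _
        simp only [pow_two]
        group
      · exact Subgroup.subset_closure (Or.inr (S.Z_conj hx))
    intro h hh
    exact hle hh
  rcases S.dichotomy hZH (hHM.trans hMT) hq with h1 | h1
  · rw [← h1]
    exact Subgroup.subset_closure (Or.inl ⟨t, ht, rfl⟩)
  · exfalso
    have h2 := Subgroup.card_le_of_le (hHM)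
    rw [h1, S.cT, hM] at h2
    omega

theorem Setup.comm_mem {a b : G} (ha : a ∈ T) (hb : b ∈ T) : ⁅a, b⁆ ∈ Z := by
  have h1 := S.sq_mem (T.mul_mem ha hb)
  have h2 := S.sq_mem (T.inv_mem ha)
  have h3 := S.sq_mem (T.inv_mem hb)
  have e : ⁅a, b⁆ = (a * b) ^ 2 * (a⁻¹) ^ 2 * (b⁻¹) ^ 2 := by
    have hc : b * (a⁻¹) ^ 2 = (a⁻¹) ^ 2 * b := ((S.Z_central h2 b).eq).symm
    calc ⁅a, b⁆ = a * b * a * (a⁻¹ ^ 2 * b) * b⁻¹ ^ 2 := by
          rw [commutatorElement_def]
          simp only [pow_two]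
          group
      _ = a * b * a * (b * a⁻¹ ^ 2) * b⁻¹ ^ 2 := by rw [hc]
      _ = _ := by
          simp only [pow_two]
          group
  rw [e]
  exact Z.mul_mem (Z.mul_mem h1 h2) h3

theorem Setup.cj_mem {t : G} (ht : t ∈ T) (k : ℕ) : cj q t k ∈ T := by
  haveI := S.normal
  exact Subgroup.Normal.conj_mem inferInstance t ht _

/-- The norm. -/
def Nf (q t : G) : G := cj q t 0 * cj q t 1 * cj q t 2 * cj q t 3 * cj q t 4

theorem Setup.Nf_mem {t : G} (ht : t ∈ T) : Nf q t ∈ Z := by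
  haveI := S.normal
  have hw : Nf q t ∈ T := by
    unfold Nf
    exact T.mul_mem (T.mul_mem (T.mul_mem (T.mul_mem (S.cj_mem ht 0) (S.cj_mem ht 1)) (S.cj_mem ht 2))
      (S.cj_mem ht 3)) (S.cj_mem ht 4)
  set w := Nf q t with hwdef
  have e1 : q * w * q⁻¹ = t⁻¹ * w * t := by
    have h5 : cj q t 5 = t := by simp [cj, S.q5]
    have h0 : cj q t 0 = t := cj_zero q t
    have e0 : w = t * cj q t 1 * cj q t 2 * cj q t 3 * cj q t 4 := by rw [hwdef, Nf, h0]
    have e2 : q * w * q⁻¹ = cj q t 1 * cj q t 2 * cj q t 3 * cj q t 4 * cj q t 5 := by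
      have a1 : cj q t 1 = q * cj q t 0 * q⁻¹ := cj_succ q t 0
      have a2 : cj q t 2 = q * cj q t 1 * q⁻¹ := cj_succ q t 1
      have a3 : cj q t 3 = q * cj q t 2 * q⁻¹ := cj_succ q t 2
      have a4 : cj q t 4 = q * cj q t 3 * q⁻¹ := cj_succ q t 3
      have a5 : cj q t 5 = q * cj q t 4 * q⁻¹ := cj_succ q t 4
      calc q * w * q⁻¹ = (q * cj q t 0 * q⁻¹) * (q * cj q t 1 * q⁻¹) * (q * cj q t 2 * q⁻¹) *
            (q * cj q t 3 * q⁻¹) * (q * cj q t 4 * q⁻¹) := by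
            rw [hwdef, Nf]
            group
        _ = _ := by rw [← a1, ← a2, ← a3, ← a4, ← a5]
    rw [e2, h5, e0]
    group
  set z := ⁅w⁻¹, t⁻¹⁆ with hz
  have hzZ : z ∈ Z := S.comm_mem (T.inv_mem hw) (T.inv_mem ht)
  have e2 : q * w * q⁻¹ = w * z := by
    rw [e1, hz, commutatorElement_def]
    group
  have e3 : ∀ k : ℕ, q ^ k * w * (q ^ k)⁻¹ = w * z ^ k := by
    intro k
    induction k with
    | zero => simp
    | succ k ih =>
      have : q ^ (k + 1) * w * (q ^ (k + 1))⁻¹ = q * (q ^ k * w * (q ^ k)⁻¹) * q⁻¹ := by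
        rw [pow_succ']
        group
      rw [this, ih]
      have e4 : q * (w * z ^ k) * q⁻¹ = (q * w * q⁻¹) * (q * z ^ k * q⁻¹) := by group
      rw [e4, e2, mul_inv_eq_iff_eq_mul.mpr ((S.Z_comm_q hzZ).pow_left k).eq.symm, pow_succ', mul_assoc]
  have e5 := e3 5
  rw [S.q5] at e5
  have hz2 : z ^ 2 = 1 := S.sqZ z hzZ
  have e6 : z ^ 5 = z := by
    have : z ^ 5 = (z ^ 2) ^ 2 * z := by group
    rw [this, hz2]
    simp
  rw [e6] at e5
  have hz1 : z = 1 := by
    have : w = w * z := by simpa using e5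
    exact (mul_eq_left.mp this.symm)
  apply S.fix_mem hw
  rw [e2, hz1, mul_one]

theorem Setup.exists_x : ∃ x ∈ T, x ∉ Z ∧ Nf q x = 1 := by
  obtain ⟨x₀, hx₀, hnx₀⟩ : ∃ x ∈ T, x ∉ Z := by
    by_contra hcon
    push Not at hcon
    have h1 := Subgroup.card_le_of_le (show T ≤ Z from hcon)
    rw [S.cT, S.cZ] at h1
    omega
  have hy := S.Nf_mem hx₀
  set y := Nf q x₀ with hydef
  have hyc : ∀ g, y * g = g * y := fun g => (S.Z_central hy g).eq
  refine ⟨x₀ * y, T.mul_mem hx₀ (S.Z_le hy), ?_, ?_⟩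
  · intro h1
    apply hnx₀
    have := Z.mul_mem h1 (Z.inv_mem hy)
    simpa using this
  · have hcj : ∀ k, cj q (x₀ * y) k = cj q x₀ k * y := by
      intro k
      have : cj q (x₀ * y) k = cj q x₀ k * (q ^ k * y * (q ^ k)⁻¹) := by
        simp only [cj]
        group
      rw [this, conj_fix (S.Z_comm_q hy)]
    have key : ∀ (u v w : G), (∀ g, w * g = g * w) → (u * w) * (v * y) = (u * v) * (w * y) := by
      intro u v w hw
      rw [mul_assoc u w, ← mul_assoc w v, hw v, mul_assoc v w, ← mul_assoc u v]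
    have hcentral : ∀ (w : G), (∀ g, w * g = g * w) → ∀ g, (w * y) * g = g * (w * y) := by
      intro w hw g
      rw [mul_assoc, hyc g, ← mul_assoc, hw g, mul_assoc]
    have h2 : y ^ 2 = 1 := S.sqZ y hy
    simp only [Nf, hcj]
    rw [key _ _ y hyc, key _ _ (y * y) (hcentral y hyc),
      key _ _ (y * y * y) (hcentral _ (hcentral y hyc)),
      key _ _ (y * y * y * y) (hcentral _ (hcentral _ (hcentral y hyc)))]
    have e1 : cj q x₀ 0 * cj q x₀ 1 * cj q x₀ 2 * cj q x₀ 3 * cj q x₀ 4 = y := rfl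
    rw [e1]
    have e2 : y * (y * y * y * y * y) = (y ^ 2) ^ 3 := by
      simp only [pow_succ, pow_zero, one_mul, mul_assoc]
    rw [e2, h2]
    simp

theorem Setup.gen {x : G} (hx : x ∈ T) (hnx : x ∉ Z) : Subgroup.closure {x, q} = ⊤ := by
  haveI hTn := S.normal
  haveI hZn : Z.Normal := ⟨fun n hn g => by
    rw [← (S.Z_central hn g).eq, mul_inv_cancel_right]
    exact hn⟩
  set L := Subgroup.closure {x, q} with hL
  have hxL : x ∈ L := Subgroup.subset_closure (by simp)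
  have hqL : q ∈ L := Subgroup.subset_closure (by simp)
  let H : Subgroup G := (L ⊓ T) ⊔ Z
  have hZH : Z ≤ H := le_sup_right
  have hHT : H ≤ T := sup_le inf_le_right S.Z_le
  have hq : ∀ h ∈ H, q * h * q⁻¹ ∈ H := by
    have hle : H ≤ H.comap (MulAut.conj q).toMonoidHom := by
      apply sup_le
      · rintro h ⟨h1, h2⟩
        apply Subgroup.mem_sup_left
        exact ⟨L.mul_mem (L.mul_mem hqL h1) (L.inv_mem hqL), Subgroup.Normal.conj_mem inferInstance h h2 q⟩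
      · intro z hz
        exact Subgroup.mem_sup_right (S.Z_conj hz)
    intro h hh
    exact hle hh
  have hxH : x ∈ H := Subgroup.mem_sup_left ⟨hxL, hx⟩
  have hHT' : H = T := by
    rcases S.dichotomy hZH hHT hq with h1 | h1
    · exfalso
      rw [h1] at hxH
      exact hnx hxH
    · exact h1
  have hdec : ∀ g : G, ∃ l ∈ L, ∃ z ∈ Z, g = l * z := by
    intro g
    obtain ⟨t, ht, i, rfl⟩ := S.decomp g
    rw [← hHT'] at ht
    rw [← SetLike.mem_coe, Subgroup.mul_normal] at ht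
    obtain ⟨l, hl, z, hz, rfl⟩ := Set.mem_mul.mp ht
    refine ⟨l * q ^ i, L.mul_mem hl.1 (L.pow_mem hqL i), z, hz, ?_⟩
    rw [mul_assoc, mul_assoc, ((S.Z_central hz _).pow_right i).eq]
  have hcomm : commutator G ≤ L := by
    rw [commutator_def, Subgroup.commutator_le]
    intro g _ g' _
    obtain ⟨l, hl, z, hz, rfl⟩ := hdec g
    obtain ⟨l', hl', z', hz', rfl⟩ := hdec g'
    rw [comm_mul_comm (S.Z_central hz _) (S.Z_central hz' _) (S.Z_central hz _)]
    rw [commutatorElement_def]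
    exact L.mul_mem (L.mul_mem (L.mul_mem hl hl') (L.inv_mem hl)) (L.inv_mem hl')
  rw [← S.hT] at hcomm
  rw [eq_top_iff]
  intro g _
  obtain ⟨t, ht, i, rfl⟩ := S.decomp g
  exact L.mul_mem (hcomm ht) (L.pow_mem hqL i)

theorem Setup.inv_eq {z : G} (hz : z ∈ Z) : z⁻¹ = z := by
  have := S.sqZ z hz
  rw [pow_two] at this
  exact inv_eq_of_mul_eq_one_left this

theorem Setup.sq_mul {a b : G} (ha : a ∈ T) (hb : b ∈ T) : (a * b) ^ 2 = a ^ 2 * b ^ 2 * ⁅a, b⁆ := by
  have hz := S.comm_mem ha hb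
  set z := ⁅a, b⁆ with hzdef
  have hc : ∀ g, z * g = g * z := fun g => (S.Z_central hz g).eq
  have e : b * a = z * (a * b) := by
    have h1 : z⁻¹ = z := S.inv_eq hz
    rw [← h1, hzdef, commutatorElement_def]
    group
  calc (a * b) ^ 2 = a * (b * a) * b := by
        rw [pow_two]
        group
    _ = a * (z * (a * b)) * b := by rw [e]
    _ = z * (a * (a * b)) * b := by
        rw [← mul_assoc a z, ← hc a, mul_assoc z]
    _ = a ^ 2 * b ^ 2 * z := by
        rw [hc (a * (a * b)), mul_assoc, hc b]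
        simp only [pow_two]
        group

theorem Setup.comm_mul {a b c : G} (ha : a ∈ T) (hb : b ∈ T) (hc : c ∈ T) :
    ⁅a, b * c⁆ = ⁅a, b⁆ * ⁅a, c⁆ := by
  have hz := S.comm_mem ha hc
  have e : ⁅a, b * c⁆ = a * b * a⁻¹ * ⁅a, c⁆ * b⁻¹ := by
    simp only [commutatorElement_def]
    group
  rw [e, mul_assoc _ ⁅a, c⁆, (S.Z_central hz b⁻¹).eq, ← mul_assoc, commutatorElement_def a b]

theorem Setup.rel {x : G} (hx : x ∈ T) (hN : Nf q x = 1) : Rel x q := by
  have hf : ∀ k, cj q x k ∈ T := S.cj_mem hx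
  have hc1 : ⁅x, cj q x 1⁆ ∈ Z := S.comm_mem hx (hf 1)
  have hc2 : ⁅x, cj q x 2⁆ ∈ Z := S.comm_mem hx (hf 2)
  refine ⟨S.q5, hN, S.Z_central hc1 _, S.Z_central hc1 _, S.Z_central hc2 _, S.Z_central hc2 _,
    S.sqZ _ hc1, S.sqZ _ hc2, ?_⟩
  set c₁ := ⁅x, cj q x 1⁆ with hc₁
  set c₂ := ⁅x, cj q x 2⁆ with hc₂
  have hs : x ^ 2 ∈ Z := S.sq_mem hx
  set s := x ^ 2 with hsdef
  have hc1' : ∀ g, c₁ * g = g * c₁ := fun g => (S.Z_central hc1 g).eq
  have hc2' : ∀ g, c₂ * g = g * c₂ := fun g => (S.Z_central hc2 g).eq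
  have hs' : ∀ g, s * g = g * s := fun g => (S.Z_central hs g).eq
  have h1c : c₁ * c₁ = 1 := by rw [← pow_two]; exact S.sqZ _ hc1
  have h2c : c₂ * c₂ = 1 := by rw [← pow_two]; exact S.sqZ _ hc2
  have hss : s * s = 1 := by rw [← pow_two]; exact S.sqZ _ hs
  have hsq : ∀ k, (cj q x k) ^ 2 = s := by
    intro k
    have e : (cj q x k) ^ 2 = q ^ k * (x ^ 2) * (q ^ k)⁻¹ := by
      simp only [cj, pow_two]
      group
    rw [e, conj_fix (S.Z_comm_q hs)]
  have hb5 : cj q x 5 = x := by simp [cj, S.q5]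
  have hb6 : cj q x 6 = cj q x 1 := by
    have : (6 : ℕ) = 5 + 1 := rfl
    rw [this, add_comm, cj_add, hb5]
    rfl
  have h12 : ⁅cj q x 1, cj q x 2⁆ = c₁ := cj_comm_add (S.Z_comm_q hc1) 1
  have h23 : ⁅cj q x 2, cj q x 3⁆ = c₁ := cj_comm_add (S.Z_comm_q hc1) 2
  have h34 : ⁅cj q x 3, cj q x 4⁆ = c₁ := cj_comm_add (S.Z_comm_q hc1) 3
  have h13 : ⁅cj q x 1, cj q x 3⁆ = c₂ := cj_comm_add (S.Z_comm_q hc2) 1
  have h24 : ⁅cj q x 2, cj q x 4⁆ = c₂ := cj_comm_add (S.Z_comm_q hc2) 2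
  have h03 : ⁅x, cj q x 3⁆ = c₂ := by
    have e : ⁅cj q x 3, cj q x 5⁆ = c₂ := cj_comm_add (S.Z_comm_q hc2) 3
    rw [hb5] at e
    rw [← commutatorElement_inv, e]
    exact S.inv_eq hc2
  have h04 : ⁅x, cj q x 4⁆ = c₁ := by
    have e : ⁅cj q x 4, cj q x 5⁆ = c₁ := cj_comm_add (S.Z_comm_q hc1) 4
    rw [hb5] at e
    rw [← commutatorElement_inv, e]
    exact S.inv_eq hc1
  have h14 : ⁅cj q x 1, cj q x 4⁆ = c₂ := by
    have e : ⁅cj q x 4, cj q x 6⁆ = c₂ := cj_comm_add (S.Z_comm_q hc2) 4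
    rw [hb6] at e
    rw [← commutatorElement_inv, e]
    exact S.inv_eq hc2
  have h0 : cj q x 0 = x := cj_zero q x
  have hw : x * (cj q x 1 * (cj q x 2 * (cj q x 3 * cj q x 4))) = 1 := by
    rw [← hN, Nf, h0]
    group
  have m3 : cj q x 3 * cj q x 4 ∈ T := T.mul_mem (hf 3) (hf 4)
  have m2 : cj q x 2 * (cj q x 3 * cj q x 4) ∈ T := T.mul_mem (hf 2) m3
  have m1 : cj q x 1 * (cj q x 2 * (cj q x 3 * cj q x 4)) ∈ T := T.mul_mem (hf 1) m2
  have w3 : (cj q x 3 * cj q x 4) ^ 2 = c₁ := by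
    rw [S.sq_mul (hf 3) (hf 4), hsq, hsq, h34, hss, one_mul]
  have w2 : (cj q x 2 * (cj q x 3 * cj q x 4)) ^ 2 = s * c₂ := by
    rw [S.sq_mul (hf 2) m3, hsq, w3, S.comm_mul (hf 2) (hf 3) (hf 4), h23, h24]
    rw [mul_assoc s, ← mul_assoc c₁, h1c, one_mul]
  have w1 : (cj q x 1 * (cj q x 2 * (cj q x 3 * cj q x 4))) ^ 2 = c₂ * c₁ := by
    rw [S.sq_mul (hf 1) m2, hsq, w2, S.comm_mul (hf 1) (hf 2) m3, S.comm_mul (hf 1) (hf 3) (hf 4), h12, h13, h14]
    rw [h2c, mul_one, ← mul_assoc s, hss, one_mul]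
  have w0 : (x * (cj q x 1 * (cj q x 2 * (cj q x 3 * cj q x 4)))) ^ 2 = s * (c₂ * c₁) := by
    have e : ⁅x, cj q x 1 * (cj q x 2 * (cj q x 3 * cj q x 4))⁆ = 1 := by
      rw [S.comm_mul hx (hf 1) m2, S.comm_mul hx (hf 2) m3, S.comm_mul hx (hf 3) (hf 4), h03, h04]
      show c₁ * (c₂ * (c₂ * c₁)) = 1
      rw [← mul_assoc c₂, h2c, one_mul, h1c]
    rw [S.sq_mul hx m1, w1, e, mul_one]
  rw [hw] at w0
  have e1 : s * (c₂ * c₁) = 1 := by
    rw [← w0]
    simp
  have e2 : s = (c₂ * c₁)⁻¹ := eq_inv_of_mul_eq_one_left e1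
  rw [e2, mul_inv_rev, S.inv_eq hc1, S.inv_eq hc2]

end setup

section final

/-- **The extraction.** -/
theorem exists_rel {G : Type*} [Group G] [Finite G] (hG : Nat.card G = 320) (hD : Nat.card (commutator G) = 64)
    (hZ : IsKleinFour (Subgroup.center (commutator G))) :
    ∃ a b : G, Rel a b ∧ Subgroup.closure {a, b} = ⊤ := by
  haveI : Fact (Nat.Prime 5) := ⟨by norm_num⟩
  obtain ⟨q, hq⟩ := exists_prime_orderOf_dvd_card' (G := G) 5 (by rw [hG]; norm_num)
  let T := commutator G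
  let Z : Subgroup G := (Subgroup.center T).map T.subtype
  have hq5 : q ^ 5 = 1 := by rw [← hq]; exact pow_orderOf_eq_one q
  have hqne : q ≠ 1 := by
    rintro rfl
    rw [orderOf_one] at hq
    omega
  have S : Setup T Z q :=
    { hT := rfl
      cG := hG
      cT := hD
      memZ := by
        intro z
        constructor
        · rintro ⟨w, hw, rfl⟩
          refine ⟨w.2, ?_⟩
          intro t ht
          have := (Subgroup.mem_center_iff.mp hw) ⟨t, ht⟩
          exact (congrArg Subtype.val this).symm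
        · rintro ⟨h1, h2⟩
          refine ⟨⟨z, h1⟩, Subgroup.mem_center_iff.mpr ?_, rfl⟩
          intro t
          apply Subtype.ext
          exact (h2 t.1 t.2).symm
      cZ := by
        rw [Subgroup.card_map_of_injective T.subtype_injective]
        exact IsKleinFour.card_four
      sqZ := by
        rintro _ ⟨w, hw, rfl⟩
        have h1 : (⟨w, hw⟩ : Subgroup.center T) ^ 2 = 1 := by
          have := Monoid.pow_exponent_eq_one (⟨w, hw⟩ : Subgroup.center T)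
          rwa [IsKleinFour.exponent_two] at this
        have h2 : w ^ 2 = 1 := congrArg Subtype.val h1
        show (w.1) ^ 2 = 1
        exact congrArg Subtype.val h2
      q5 := hq5
      qne := hqne }
  obtain ⟨x, hx, hnx, hN⟩ := S.exists_x
  exact ⟨x, q, S.rel hx hN, S.gen hx hnx⟩

/-- **Uniqueness of the groups.** -/
theorem iso_of_hyp {G₁ G₂ : Type*} [Group G₁] [Finite G₁] [Group G₂] [Finite G₂]
    (h₁ : Nat.card G₁ = 320) (d₁ : Nat.card (commutator G₁) = 64) (z₁ : IsKleinFour (Subgroup.center (commutator G₁)))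
    (h₂ : Nat.card G₂ = 320) (d₂ : Nat.card (commutator G₂) = 64) (z₂ : IsKleinFour (Subgroup.center (commutator G₂))) :
    Nonempty (G₁ ≃* G₂) := by
  obtain ⟨a, b, r, g⟩ := exists_rel h₁ d₁ z₁
  obtain ⟨a', b', r', g'⟩ := exists_rel h₂ d₂ z₂
  exact iso_of_rel r r' g g' h₁ h₂

end final

end Cfsg.Agent.Lib.Tech.U34C
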