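import Cfsg.Agent.Lib.Tech.U34C2
import Cfsg.Agent.Lib.TwoFusion.U34Sylow

/-!
# The centraliser of an involution of `U₃(4)`
-/

set_option autoImplicit false

namespace Cfsg.Agent.Lib.Tech.U34C

open Matrix Cfsg Cfsg.Agent.Lib.TwoFusion
open scoped commutatorElement

variable {F : Type*} [Field F]

/-- The orthogonality relations of the columns. -/
theorem orth (g : ↥(SU 3 F 4)) (i j : Fin 3) :
    (g.1.1 : Matrix (Fin 3) (Fin 3) F) 0 i * ((g.1.1 : Matrix (Fin 3) (Fin 3) F) 0 j) ^ 4 +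
      (g.1.1 : Matrix (Fin 3) (Fin 3) F) 1 i * ((g.1.1 : Matrix (Fin 3) (Fin 3) F) 1 j) ^ 4 +
      (g.1.1 : Matrix (Fin 3) (Fin 3) F) 2 i * ((g.1.1 : Matrix (Fin 3) (Fin 3) F) 2 j) ^ 4 =
      if i = j then 1 else 0 := by
  have h := g.2 (Pi.single i 1) (Pi.single j 1)
  change hermForm 3 F 4 ((g.1.1 : Matrix (Fin 3) (Fin 3) F) *ᵥ (Pi.single i 1))
    ((g.1.1 : Matrix (Fin 3) (Fin 3) F) *ᵥ (Pi.single j 1)) = hermForm 3 F 4 (Pi.single i 1) (Pi.single j 1) at h
  simp only [Matrix.mulVec_single_one, hermForm, Fin.sum_univ_three] at h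
  simp only [Matrix.col_apply] at h
  rw [h]
  fin_cases i <;> fin_cases j <;> simp [Pi.single_apply]

/-- The matrix of the central involution commutes. -/
theorem form_of_comm (h2 : (2 : F) = 0) (M : Matrix (Fin 3) (Fin 3) F) (hM : M * uMat 0 1 = uMat 0 1 * M) :
    M 1 0 = M 0 1 ∧ M 1 1 = M 0 0 ∧ M 1 2 = M 0 2 ∧ M 2 1 = M 2 0 := by
  have h0 : (1 : F) + 1 = 0 := by linear_combination h2
  have e00 := congrFun (congrFun hM 0) 0
  have e01 := congrFun (congrFun hM 0) 1
  have e02 := congrFun (congrFun hM 0) 2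
  have e20 := congrFun (congrFun hM 2) 0
  simp [uMat, Matrix.mul_apply, Fin.sum_univ_three, h0] at e00 e01 e02 e20
  exact ⟨e00.symm, e01.symm, e02.symm, e20⟩

section concrete

variable [Fintype F]

/-- The central involution. -/
def tE (hF : Fintype.card F = 16) : ↥(SU 3 F 4) :=
  ⟨⟨uMat 0 1, uMat_det (char2_of_card16 hF) _ _⟩, fun u v => uMat_herm hF (by
    have h2 := char2_of_card16 hF
    norm_num
    linear_combination h2) u v⟩

theorem tE_mem (hF : Fintype.card F = 16) : tE hF ∈ uP hF :=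
  ⟨0, 1, by
    have h2 := char2_of_card16 hF
    norm_num
    linear_combination h2, rfl⟩

theorem tE_order (hF : Fintype.card F = 16) : orderOf (tE hF) = 2 := by
  have h2 := char2_of_card16 hF
  apply orderOf_eq_prime
  · rw [pow_two]
    apply Subtype.ext
    apply Subtype.ext
    show (uMat (0 : F) 1 * uMat 0 1 : Matrix (Fin 3) (Fin 3) F) = 1
    rw [uMat_mul h2]
    have e1 : (0 : F) + 0 = 0 := by ring
    have e2 : (1 : F) + 1 + 0 * 0 ^ 4 = 0 := by linear_combination h2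
    rw [e1, e2, uMat_zero]
  · intro h
    have h3 := congrArg (fun g : ↥(SU 3 F 4) => (g.1.1 : Matrix (Fin 3) (Fin 3) F) 0 1) h
    have h4 : (uMat (0 : F) 1 : Matrix (Fin 3) (Fin 3) F) 0 1 = (1 : Matrix (Fin 3) (Fin 3) F) 0 1 := h3
    simp [uMat] at h4

/-- The centraliser. -/
abbrev CT (hF : Fintype.card F = 16) : Subgroup (SU 3 F 4) := Subgroup.centralizer {tE hF}

theorem CT_form (hF : Fintype.card F = 16) {g : ↥(SU 3 F 4)} (hg : g ∈ CT hF) :
    (g.1.1 : Matrix (Fin 3) (Fin 3) F) 1 0 = (g.1.1 : Matrix (Fin 3) (Fin 3) F) 0 1 ∧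
    (g.1.1 : Matrix (Fin 3) (Fin 3) F) 1 1 = (g.1.1 : Matrix (Fin 3) (Fin 3) F) 0 0 ∧
    (g.1.1 : Matrix (Fin 3) (Fin 3) F) 1 2 = (g.1.1 : Matrix (Fin 3) (Fin 3) F) 0 2 ∧
    (g.1.1 : Matrix (Fin 3) (Fin 3) F) 2 1 = (g.1.1 : Matrix (Fin 3) (Fin 3) F) 2 0 := by
  have h1 : g * tE hF = tE hF * g := Subgroup.mem_centralizer_singleton_iff.mp hg
  have h3 := congrArg (fun g : ↥(SU 3 F 4) => (g.1.1 : Matrix (Fin 3) (Fin 3) F)) h1
  exact form_of_comm (char2_of_card16 hF) _ h3

theorem uP_le_CT (hF : Fintype.card F = 16) : uP hF ≤ CT hF := by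
  intro g hg
  rw [Subgroup.mem_centralizer_singleton_iff]
  obtain ⟨α, γ, h, hM⟩ := hg
  have h2 := char2_of_card16 hF
  apply Subtype.ext
  apply Subtype.ext
  show (g.1.1 * uMat 0 1 : Matrix (Fin 3) (Fin 3) F) = uMat 0 1 * g.1.1
  rw [hM, uMat_mul h2, uMat_mul h2]
  congr 1 <;> ring

/-- The character of the centraliser. -/
def phi (hF : Fintype.card F = 16) : ↥(CT hF) →* F where
  toFun g := (g.1.1.1 : Matrix (Fin 3) (Fin 3) F) 0 0 + (g.1.1.1 : Matrix (Fin 3) (Fin 3) F) 0 1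
  map_one' := by
    show (1 : Matrix (Fin 3) (Fin 3) F) 0 0 + (1 : Matrix (Fin 3) (Fin 3) F) 0 1 = 1
    simp
  map_mul' := by
    intro g g'
    have h2 := char2_of_card16 hF
    obtain ⟨-, -, -, a⟩ := CT_form hF g.2
    obtain ⟨b, c, -, d⟩ := CT_form hF g'.2
    show (g.1.1.1 * g'.1.1.1 : Matrix (Fin 3) (Fin 3) F) 0 0 + (g.1.1.1 * g'.1.1.1 : Matrix (Fin 3) (Fin 3) F) 0 1 = _
    simp only [Matrix.mul_apply, Fin.sum_univ_three]
    rw [b, c, d]
    linear_combination (g.1.1.1 0 2) * (g'.1.1.1 2 0) * h2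

theorem phi_pow (hF : Fintype.card F = 16) (g : ↥(CT hF)) : (phi hF g) ^ 5 = 1 := by
  have h2 := char2_of_card16 hF
  obtain ⟨a, b, -, d⟩ := CT_form hF g.2
  have o00 := orth g.1 0 0
  have o01 := orth g.1 0 1
  rw [a] at o00
  rw [a, b, d] at o01
  simp only [if_true, Fin.isValue, zero_ne_one, if_false] at o00 o01
  show ((g.1.1.1 : Matrix (Fin 3) (Fin 3) F) 0 0 + (g.1.1.1 : Matrix (Fin 3) (Fin 3) F) 0 1) ^ 5 = 1
  have e : ((g.1.1.1 : Matrix (Fin 3) (Fin 3) F) 0 0 + (g.1.1.1 : Matrix (Fin 3) (Fin 3) F) 0 1) ^ 5 =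
      ((g.1.1.1 : Matrix (Fin 3) (Fin 3) F) 0 0 + (g.1.1.1 : Matrix (Fin 3) (Fin 3) F) 0 1) *
      ((g.1.1.1 : Matrix (Fin 3) (Fin 3) F) 0 0 + (g.1.1.1 : Matrix (Fin 3) (Fin 3) F) 0 1) ^ 4 := by ring
  rw [e, frob4 h2]
  linear_combination o00 + o01 - ((g.1.1.1 : Matrix (Fin 3) (Fin 3) F) 2 0) ^ 5 * h2

theorem phi_ne (hF : Fintype.card F = 16) (g : ↥(CT hF)) : phi hF g ≠ 0 := by
  intro h
  have := phi_pow hF g
  rw [h] at this
  norm_num at this

theorem mem_uP_of_phi (hF : Fintype.card F = 16) (g : ↥(CT hF)) (h : phi hF g = 1) : g.1 ∈ uP hF := by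
  have h2 := char2_of_card16 hF
  obtain ⟨f1, f2, f3, f4⟩ := CT_form hF g.2
  have hab : (g.1.1.1 : Matrix (Fin 3) (Fin 3) F) 0 0 + (g.1.1.1 : Matrix (Fin 3) (Fin 3) F) 0 1 = 1 := h
  have o02 := orth g.1 0 2
  have o01 := orth g.1 0 1
  have hdet : (g.1.1.1 : Matrix (Fin 3) (Fin 3) F).det = 1 := g.1.1.2
  rw [Matrix.det_fin_three] at hdet
  rw [f1, f3] at o02
  rw [f1, f2, f4] at o01
  rw [f1, f2, f3, f4] at hdet
  simp only [zero_ne_one, if_false, Fin.isValue, Fin.reduceEq] at o01 o02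
  set a := (g.1.1.1 : Matrix (Fin 3) (Fin 3) F) 0 0 with ha
  set b := (g.1.1.1 : Matrix (Fin 3) (Fin 3) F) 0 1 with hb
  set c := (g.1.1.1 : Matrix (Fin 3) (Fin 3) F) 0 2 with hc
  set d := (g.1.1.1 : Matrix (Fin 3) (Fin 3) F) 2 0 with hd
  set e := (g.1.1.1 : Matrix (Fin 3) (Fin 3) F) 2 2 with he
  have ha' : a = 1 + b := by linear_combination hab - b * h2
  have he1 : e = 1 := by
    have : (a + b) ^ 2 * e = 1 := by
      linear_combination hdet + (a * b * e + b * b * e + a * c * d - b * c * d) * h2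
    rw [hab] at this
    simpa using this
  have hd' : d = c ^ 4 := by
    rw [he1] at o02
    have : d + c ^ 4 = 0 := by
      have e2 : (a + b) * c ^ 4 + d = 0 := by
        linear_combination o02
      rw [hab] at e2
      linear_combination e2
    linear_combination this - (c ^ 4) * h2
  have f16 := pow16 hF c
  have hrel : b + b ^ 4 = c ^ 5 := by
    rw [hd', ha'] at o01
    have e3 : (1 + b) ^ 4 = 1 + b ^ 4 := by
      rw [frob4 h2]
      ring
    rw [e3] at o01
    have e4 : c ^ 4 * (c ^ 4) ^ 4 = c ^ 16 * c ^ 4 := by ring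
    rw [e4, f16] at o01
    linear_combination o01 - (b ^ 5 + c ^ 5) * h2
  refine ⟨c, b, hrel, ?_⟩
  ext i j
  fin_cases i <;> fin_cases j <;> simp [uMat]
  all_goals first
    | exact ha'
    | exact rfl
    | exact f1
    | exact f2.trans ha'
    | exact f3
    | exact hd'
    | exact f4.trans hd'
    | exact he1

theorem phi_of_mem (hF : Fintype.card F = 16) (g : ↥(CT hF)) (h : g.1 ∈ uP hF) : phi hF g = 1 := by
  obtain ⟨α, γ, -, hM⟩ := h
  have h2 := char2_of_card16 hF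
  show (g.1.1.1 : Matrix (Fin 3) (Fin 3) F) 0 0 + (g.1.1.1 : Matrix (Fin 3) (Fin 3) F) 0 1 = 1
  rw [hM]
  simp [uMat]
  linear_combination γ * h2

/-- The diagonal elements. -/
def dMat (u : F) : Matrix (Fin 3) (Fin 3) F := !![u, 0, 0; 0, u, 0; 0, 0, u ^ 3]

theorem dMat_det {u : F} (hu : u ^ 5 = 1) : (dMat u).det = 1 := by
  rw [Matrix.det_fin_three]
  simp [dMat]
  linear_combination hu

theorem dMat_mulVec (u : F) (x : Fin 3 → F) : dMat u *ᵥ x = ![u * x 0, u * x 1, u ^ 3 * x 2] := by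
  ext i
  fin_cases i <;> simp [dMat, Matrix.mulVec, dotProduct, Fin.sum_univ_three]

theorem dMat_herm {u : F} (hu : u ^ 5 = 1) (x y : Fin 3 → F) :
    hermForm 3 F 4 (dMat u *ᵥ x) (dMat u *ᵥ y) = hermForm 3 F 4 x y := by
  rw [dMat_mulVec, dMat_mulVec]
  unfold hermForm
  simp only [Fin.sum_univ_three, Matrix.cons_val_zero, Matrix.cons_val_one, Matrix.cons_val, mul_pow, ← pow_mul]
  have e1 : u ^ (3 * 4) = u ^ 12 := by norm_num
  rw [e1]
  have e2 : u ^ 3 * u ^ 12 = (u ^ 5) ^ 3 := by ring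
  have e3 : u * u ^ 4 = u ^ 5 := by ring
  linear_combination (x 0 * y 0 ^ 4 + x 1 * y 1 ^ 4) * hu + x 2 * y 2 ^ 4 * ((u ^ 5) ^ 2 + u ^ 5 + 1) * hu

/-- The diagonal elements. -/
def dE {u : F} (hu : u ^ 5 = 1) : ↥(SU 3 F 4) :=
  ⟨⟨dMat u, dMat_det hu⟩, fun x y => dMat_herm hu x y⟩

theorem dE_mem (hF : Fintype.card F = 16) {u : F} (hu : u ^ 5 = 1) : dE hu ∈ CT hF := by
  rw [Subgroup.mem_centralizer_singleton_iff]
  have h2 := char2_of_card16 hF
  apply Subtype.ext
  apply Subtype.ext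
  show (dMat u * uMat 0 1 : Matrix (Fin 3) (Fin 3) F) = uMat 0 1 * dMat u
  ext i j
  fin_cases i <;> fin_cases j <;> simp [uMat, dMat, Matrix.mul_apply, Fin.sum_univ_three] <;> ring

theorem phi_dE (hF : Fintype.card F = 16) {u : F} (hu : u ^ 5 = 1) : phi hF ⟨dE hu, dE_mem hF hu⟩ = u := by
  show (dMat u) 0 0 + (dMat u) 0 1 = u
  simp [dMat]

theorem dMat_uMat {u : F} (hu : u ^ 5 = 1) (α γ : F) :
    dMat u * uMat α γ = uMat (u ^ 3 * α) γ * dMat u := by
  ext i j
  fin_cases i <;> fin_cases j <;> simp [uMat, dMat, Matrix.mul_apply, Fin.sum_univ_three] <;>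
    first
    | ring1
    | linear_combination (- (u * α)) * hu
    | linear_combination (- (u ^ 3 * α ^ 4 * (u ^ 5 + 1))) * hu

/-- The units valued character. -/
noncomputable def phiU (hF : Fintype.card F = 16) : ↥(CT hF) →* Fˣ := (phi hF).toHomUnits

theorem phiU_val (hF : Fintype.card F = 16) (g : ↥(CT hF)) : ((phiU hF g : Fˣ) : F) = phi hF g := rfl

theorem ker_phiU (hF : Fintype.card F = 16) : (phiU hF).ker = (uP hF).subgroupOf (CT hF) := by
  ext g
  rw [MonoidHom.mem_ker, Subgroup.mem_subgroupOf]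
  constructor
  · intro h
    apply mem_uP_of_phi
    have := congrArg Units.val h
    rw [phiU_val] at this
    simpa using this
  · intro h
    apply Units.ext
    rw [phiU_val, phi_of_mem hF g h]
    rfl

theorem exists_eta (hF : Fintype.card F = 16) : ∃ η : Fˣ, orderOf η = 5 := by
  classical
  haveI : Fact (Nat.Prime 5) := ⟨by norm_num⟩
  apply exists_prime_orderOf_dvd_card' 5
  rw [Nat.card_eq_fintype_card, Fintype.card_units, hF]
  norm_num

theorem eta_pow {η : Fˣ} (h : orderOf η = 5) : (η : F) ^ 5 = 1 := by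
  have := pow_orderOf_eq_one η
  rw [h] at this
  have h2 := congrArg Units.val this
  simpa using h2

theorem card_range_phiU (hF : Fintype.card F = 16) : Nat.card (phiU hF).range = 5 := by
  classical
  obtain ⟨η, hη⟩ := exists_eta hF
  apply le_antisymm
  · have hle : (phiU hF).range ≤ rootsOfUnity 5 F := by
      rintro _ ⟨g, rfl⟩
      rw [mem_rootsOfUnity]
      apply Units.ext
      rw [Units.val_pow_eq_pow_val, phiU_val, phi_pow]
      rfl
    calc Nat.card (phiU hF).range ≤ Nat.card (rootsOfUnity 5 F) := Subgroup.card_le_of_le hle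
      _ ≤ 5 := card_rootsOfUnity F 5
  · have hmem : η ∈ (phiU hF).range := by
      refine ⟨⟨dE (eta_pow hη), dE_mem hF (eta_pow hη)⟩, ?_⟩
      apply Units.ext
      rw [phiU_val, phi_dE]
    have hle : Subgroup.zpowers η ≤ (phiU hF).range := (Subgroup.zpowers_le).mpr hmem
    calc 5 = Nat.card (Subgroup.zpowers η) := by rw [Nat.card_zpowers, hη]
      _ ≤ _ := Subgroup.card_le_of_le hle

theorem card_uP (hF : Fintype.card F = 16) : Nat.card (uP hF) = 64 := ((uP_coords hF).model hF).card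

theorem card_CT (hF : Fintype.card F = 16) : Nat.card (CT hF) = 320 := by
  have h1 := Subgroup.card_mul_index (phiU hF).ker
  rw [Subgroup.index_ker, card_range_phiU, ker_phiU,
    Nat.card_congr (Subgroup.subgroupOfEquivOfLe (uP_le_CT hF)).toEquiv, card_uP] at h1
  omega

theorem commutator_le_uP (hF : Fintype.card F = 16) {x : ↥(CT hF)} (hx : x ∈ commutator (CT hF)) :
    x.1 ∈ uP hF := by
  have h1 : commutator (CT hF) ≤ (phiU hF).ker := by
    rw [commutator_def, Subgroup.commutator_le]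
    intro a _ b _
    rw [MonoidHom.mem_ker, map_commutatorElement, commutatorElement_eq_one_iff_commute]
    exact Commute.all _ _
  have h3 := h1 hx
  rw [ker_phiU, Subgroup.mem_subgroupOf] at h3
  exact h3

theorem map_commutator_CT (hF : Fintype.card F = 16) :
    (commutator (CT hF)).map (CT hF).subtype = uP hF := by
  classical
  have h2 := char2_of_card16 hF
  obtain ⟨hc4, htr⟩ := card_fix4 (F := F) hF
  have hc := uP_coords hF
  have hm := hc.model hF
  apply le_antisymm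
  · rintro _ ⟨x, hx, rfl⟩
    exact commutator_le_uP hF hx
  · -- commutators of elements of the centraliser
    have hcomm : ∀ a b : ↥(CT hF), ⁅a.1, b.1⁆ ∈ (commutator (CT hF)).map (CT hF).subtype := by
      intro a b
      exact ⟨⁅a, b⁆, Subgroup.commutator_mem_commutator (Subgroup.mem_top a) (Subgroup.mem_top b), rfl⟩
    obtain ⟨η, hη⟩ := exists_eta hF
    have hη5 := eta_pow hη
    have hη1 : (η : F) ≠ 1 := by
      intro h
      have h3 : η = 1 := Units.ext h
      rw [h3, orderOf_one] at hη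
      omega
    set κ : F := (η : F) ^ 3 with hκ
    have hκ5 : κ ^ 5 = 1 := by
      rw [hκ, ← pow_mul, mul_comm, pow_mul, hη5, one_pow]
    have hκ1 : κ - 1 ≠ 0 := by
      intro h
      have h3 : κ = 1 := by linear_combination h
      apply hη1
      have e : (η : F) ^ 6 = (η : F) := by
        have : (η : F) ^ 6 = (η : F) ^ 5 * (η : F) := by ring
        rw [this, hη5, one_mul]
      have e2 : (η : F) ^ 6 = κ ^ 2 := by rw [hκ]; ring
      rw [← e, e2, h3]
      ring
    intro y hy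
    let y' : ↥(uP hF) := ⟨y, hy⟩
    set α : F := uAA hF y' / (κ - 1) with hα
    obtain ⟨γ, hγ⟩ : ∃ γ : F, γ + γ ^ 4 = α ^ 5 := by
      apply htr
      rw [← pow_mul]
      have : α ^ (5 * 4) = α ^ 16 * α ^ 4 := by ring
      rw [this, pow16 hF]
      ring
    obtain ⟨y₁, hy₁a, hy₁c⟩ := hc.ex α γ hγ
    obtain ⟨y₂, hy₂a, hy₂c⟩ := hc.ex (κ * α) γ (by
      rw [hγ, mul_pow, hκ5, one_mul])
    have hdy : dE hη5 * y₁.1 = y₂.1 * dE hη5 := by
      apply Subtype.ext
      apply Subtype.ext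
      show (dMat (η : F) * y₁.1.1.1 : Matrix (Fin 3) (Fin 3) F) = y₂.1.1.1 * dMat (η : F)
      rw [(uP_mat hF y₁).1, (uP_mat hF y₂).1, hy₁a, hy₁c, hy₂a, hy₂c, dMat_uMat hη5]
    let y₁C : ↥(CT hF) := ⟨y₁.1, uP_le_CT hF y₁.2⟩
    let dC : ↥(CT hF) := ⟨dE hη5, dE_mem hF hη5⟩
    have hw : ⁅dC.1, y₁C.1⁆ = (y₂ * y₁⁻¹).1 := by
      show dE hη5 * y₁.1 * (dE hη5)⁻¹ * y₁.1⁻¹ = y₂.1 * y₁.1⁻¹
      rw [hdy]
      group
    let w : ↥(uP hF) := y₂ * y₁⁻¹
    have hinv : ∀ v : ↥(uP hF), uAA hF v⁻¹ = - uAA hF v := by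
      intro v
      have := hc.aa_mul v v⁻¹
      rw [mul_inv_cancel, hc.aa_one] at this
      linear_combination - this
    have hwa : uAA hF w = uAA hF y' := by
      show uAA hF (y₂ * y₁⁻¹) = _
      have hκα : (κ - 1) * α = uAA hF y' := by
        rw [hα]
        field_simp
      rw [hc.aa_mul, hinv, hy₁a, hy₂a]
      linear_combination hκα
    let z : ↥(uP hF) := w⁻¹ * y'
    have hza : uAA hF z = 0 := by
      show uAA hF (w⁻¹ * y') = 0
      rw [hc.aa_mul, hinv, hwa]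
      ring
    have hz2 : z ^ 2 = 1 := by
      apply hc.ext
      · rw [pow_two, hc.aa_mul, hza, hc.aa_one]
        ring
      · rw [pow_two, hc.cc_mul, hza, hc.cc_one]
        linear_combination (uCC hF z) * h2
    obtain ⟨x₁, x₂, hx⟩ := hm.comm z hz2
    have hy_eq : y = ⁅dC.1, y₁C.1⁆ * ⁅(⟨x₁.1, uP_le_CT hF x₁.2⟩ : ↥(CT hF)).1, (⟨x₂.1, uP_le_CT hF x₂.2⟩ : ↥(CT hF)).1⁆ := by
      rw [hw]
      show y = w.1 * ⁅x₁.1, x₂.1⁆
      have e : ⁅x₁.1, x₂.1⁆ = z.1 := by
        rw [← hx]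
        rfl
      rw [e]
      show y = (w * (w⁻¹ * y')).1
      simp [y']
    rw [hy_eq]
    exact Subgroup.mul_mem _ (hcomm _ _) (hcomm _ _)

/-- The derived subgroup of the centraliser is isomorphic to `uP`. -/
noncomputable def commEquiv (hF : Fintype.card F = 16) : ↥(commutator (CT hF)) ≃* ↥(uP hF) :=
  ((commutator (CT hF)).equivMapOfInjective (CT hF).subtype (CT hF).subtype_injective).trans
    (MulEquiv.subgroupCongr (map_commutator_CT hF))

theorem card_comm_CT (hF : Fintype.card F = 16) : Nat.card (commutator (CT hF)) = 64 := by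
  rw [Nat.card_congr (commEquiv hF).toEquiv, card_uP]

theorem klein_CT (hF : Fintype.card F = 16) : IsKleinFour (Subgroup.center (commutator (CT hF))) := by
  have h1 : IsKleinFour (Subgroup.center (uP hF)) := (((uP_coords hF).model hF).conclusions).2.1
  let e := Subgroup.centerCongr (commEquiv hF)
  exact
    { card_four := by
        rw [Nat.card_congr e.toEquiv]
        exact h1.card_four
      exponent_two := by
        rw [Monoid.exponent_eq_of_mulEquiv e]
        exact h1.exponent_two }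

theorem centralizer_equiv {X Y : Type*} [Group X] [Group Y] (e : X ≃* Y) (x : X) :
    Nonempty (↥(Subgroup.centralizer ({x} : Set X)) ≃* ↥(Subgroup.centralizer ({e x} : Set Y))) := by
  have h : (Subgroup.centralizer ({x} : Set X)).map e.toMonoidHom = Subgroup.centralizer ({e x} : Set Y) := by
    ext y
    obtain ⟨y, rfl⟩ := e.surjective y
    rw [Subgroup.mem_map_equiv, Subgroup.mem_centralizer_singleton_iff, Subgroup.mem_centralizer_singleton_iff]
    simp only [MulEquiv.symm_apply_apply]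
    constructor
    · intro h1
      rw [← map_mul, ← map_mul, h1]
    · intro h1
      apply e.injective
      rw [map_mul, map_mul, h1]
  exact ⟨((Subgroup.centralizer ({x} : Set X)).equivMapOfInjective e.toMonoidHom e.injective).trans
    (MulEquiv.subgroupCongr h)⟩

/-- **The main theorem.** -/
theorem main {G : Type*} [Group G] [Finite G] (hG : Nat.card G = 320) (hD : Nat.card (commutator G) = 64)
    (hZ : IsKleinFour (Subgroup.center (commutator G))) (hF : Fintype.card F = 16) :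
    ∃ t : PSU 3 F 4, orderOf t = 2 ∧ Nonempty (G ≃* Subgroup.centralizer ({t} : Set (PSU 3 F 4))) := by
  have hc := center_su34 hF
  let e : SU 3 F 4 ≃* PSU 3 F 4 :=
    (QuotientGroup.quotientBot.symm).trans (QuotientGroup.quotientMulEquivOfEq hc.symm)
  refine ⟨e (tE hF), ?_, ?_⟩
  · rw [MulEquiv.orderOf_eq]
    exact tE_order hF
  · obtain ⟨e₁⟩ := iso_of_hyp hG hD hZ (card_CT hF) (card_comm_CT hF) (klein_CT hF)
    obtain ⟨e₂⟩ := centralizer_equiv e (tE hF)
    exact ⟨e₁.trans e₂⟩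

end concrete

end Cfsg.Agent.Lib.Tech.U34C
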